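import Cfsg.Agent.Blocks.DefectGroup
import Cfsg.Agent.Blocks.Section
import Cfsg.Agent.Clifford.Basic
import Cfsg.Agent.BrauerInd.Galois
import Cfsg.Agent.S0941

/-!
# Blocks whose defect group `P` satisfies `G = P C(P)`
-/

set_option linter.unusedSectionVars false
set_option linter.style.haveILetI false

namespace CfsgLib.Blocks

open Cfsg CfsgLib.CharBasics
open scoped ComplexConjugate

universe u

variable {G : Type u} [Group G] [Fintype G] {p : ℕ} {M : Ideal AlgInt} {P : Subgroup G}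

section Structure

variable (hG : P ⊔ Subgroup.centralizer (P : Set G) = ⊤)
include hG

theorem normal_of_sup : P.Normal := by
  refine Subgroup.normalizer_eq_top_iff.1 (top_le_iff.1 ?_)
  rw [← hG]
  exact sup_le Subgroup.le_normalizer (Subgroup.centralizer_le_normalizer _)

theorem exists_factor (g : G) : ∃ d ∈ P, ∃ c ∈ Subgroup.centralizer (P : Set G), d * c = g := by
  haveI := normal_of_sup hG
  exact Subgroup.mem_sup_of_normal_left.1 (hG ▸ Subgroup.mem_top g)

theorem regular_mem (hp : p.Prime) (hP : IsPGroup p P) {x : G} (hx : ¬ p ∣ orderOf x) :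
    x ∈ Subgroup.centralizer (P : Set G) := by
  obtain ⟨d, hd, c, hc, rfl⟩ := exists_factor hG x
  have hcm : Commute d c := Subgroup.mem_centralizer_iff.1 hc d hd
  obtain ⟨k, hk⟩ := hP ⟨d, hd⟩
  have hk' : d ^ p ^ k = 1 := congrArg Subtype.val hk
  have h1 : (d * c) ^ p ^ k ∈ Subgroup.centralizer (P : Set G) := by
    rw [hcm.mul_pow, hk', one_mul]; exact Subgroup.pow_mem _ hc _
  have hcop : (orderOf (d * c)).Coprime (p ^ k) := ((hp.coprime_iff_not_dvd.2 hx).pow_left k).symm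
  obtain ⟨j, hj⟩ := exists_pow_eq_self_of_coprime hcop.symm
  rw [← hj]
  exact Subgroup.pow_mem _ h1 _

theorem classFun_conj {φ : P → ℂ} (hφ : IsClassFunction P φ) (g : G) (y y' : P) (h : (y' : G) = g * y * g⁻¹) :
    φ y' = φ y := by
  obtain ⟨d, hd, c, hc, rfl⟩ := exists_factor hG g
  have hyc : c * (y : G) = y * c := (Subgroup.mem_centralizer_iff.1 hc y y.2).symm
  have e : y' = ⟨d, hd⟩ * y * (⟨d, hd⟩ : P)⁻¹ := by
    refine Subtype.ext ?_
    rw [h]
    push_cast
    rw [mul_inv_rev, mul_assoc d c, hyc]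
    group
  rw [e]
  exact hφ y ⟨d, hd⟩

/-- Values split along `G = P C(P)`. -/
theorem apply_mul_of_mem (ρ : IrrCharacter G) {y c : G} (hy : y ∈ P) (hc : c ∈ Subgroup.centralizer (P : Set G)) :
    (ρ : G → ℂ) (y * c) * (ρ : G → ℂ) 1 = (ρ : G → ℂ) y * (ρ : G → ℂ) c := by
  classical
  haveI := normal_of_sup hG
  have hcl := isClassFunction (isCharacter_of_irr ρ.2)
  have h1 := apply_one_ne_zero ρ.2
  let z : MonoidAlgebra ℂ G := ∑ h : G, MonoidAlgebra.single (h * c * h⁻¹) (1 : ℂ)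
  have hz : IsClassElt z := by
    intro g r
    simp only [z, MonoidAlgebra.coeff_sum, Finset.sum_apply', MonoidAlgebra.coeff_single, Finsupp.single_apply]
    refine (Fintype.sum_equiv (Equiv.mulLeft r) _ _ fun h => ?_).symm
    rw [Equiv.coe_mulLeft]
    refine if_congr ?_ rfl rfl
    constructor
    · intro e; rw [← e]; group
    · intro e
      have e' := congrArg (fun t => r⁻¹ * t * r) e
      simpa [mul_assoc] using e'
  have h := omega_mul ρ.2 hz (MonoidAlgebra.single y (1 : ℂ))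
  simp only [z, Finset.sum_mul, MonoidAlgebra.single_mul_single, ZStar.omega_sum, omega_single, one_mul] at h
  have e1 : ∀ x : G, (ρ : G → ℂ) (x * c * x⁻¹ * y) = (ρ : G → ℂ) (y * c) := by
    intro x
    obtain ⟨d, hd, k, hk, rfl⟩ := exists_factor hG x
    have hkc : k * c * k⁻¹ ∈ Subgroup.centralizer (P : Set G) :=
      Subgroup.mul_mem _ (Subgroup.mul_mem _ hk hc) (Subgroup.inv_mem _ hk)
    have hkd : d * (k * c * k⁻¹) * d⁻¹ = k * c * k⁻¹ := by
      rw [Subgroup.mem_centralizer_iff.1 hkc d hd, mul_inv_cancel_right]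
    have hky : k⁻¹ * y = y * k⁻¹ := (Subgroup.mem_centralizer_iff.1 (Subgroup.inv_mem _ hk) y hy).symm
    have e2 : d * k * c * (d * k)⁻¹ * y = k * (y * c) * k⁻¹ := by
      rw [show d * k * c * (d * k)⁻¹ = d * (k * c * k⁻¹) * d⁻¹ by group, hkd, mul_assoc (k * c), hky,
        Subgroup.mem_centralizer_iff.1 hc y hy]
      group
    rw [e2, hcl (y * c) k]
  have e3 : ∀ x : G, (ρ : G → ℂ) (x * c * x⁻¹) = (ρ : G → ℂ) c := hcl c
  simp only [e1, e3, Finset.sum_const, Finset.card_univ, nsmul_eq_mul] at h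
  have hcard : (Fintype.card G : ℂ) ≠ 0 := Nat.cast_ne_zero.2 Fintype.card_ne_zero
  field_simp at h
  linear_combination h

/-- The type of a character on `P`, and the integrality of its values on `C(P)`. -/
theorem exists_type [Fintype P] (ρ : IrrCharacter G) :
    ∃ (ζ : IrrCharacter P) (e : ℕ), (ρ : G → ℂ) 1 = (e : ℂ) * (ζ : P → ℂ) 1 ∧
      (∀ y : P, (ρ : G → ℂ) y = (e : ℂ) * (ζ : P → ℂ) y) ∧
      ∀ x ∈ Subgroup.centralizer (P : Set G), IsIntegral ℤ ((ρ : G → ℂ) x / (ζ : P → ℂ) 1) := by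
  classical
  haveI := normal_of_sup hG
  set C := Subgroup.centralizer (P : Set G) with hCdef
  have hρ := isCharacter_of_irr ρ.2
  have hρ1 := apply_one_ne_zero ρ.2
  obtain ⟨ζ, e, he, heq⟩ := CharBasics.exists_constituent (CharBasics.isCharacter_restrict hρ P)
    (by rw [Subgroup.coe_one]; exact hρ1)
  have hne : classInner (fun n : P => (ρ : G → ℂ) n) (ζ : P → ℂ) ≠ 0 := by
    rw [heq]; exact Nat.cast_ne_zero.2 he.ne'
  have hresP := CfsgLib.Clifford.restrict_eq_smul_of_invariant ρ.2 ζ.2 (fun g => funext fun n =>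
    classFun_conj hG (isClassFunction (isCharacter_of_irr ζ.2)) g n _ rfl) hne
  rw [heq] at hresP
  obtain ⟨η, m, hm, hmeq⟩ := CharBasics.exists_constituent (CharBasics.isCharacter_restrict hρ C)
    (by rw [Subgroup.coe_one]; exact hρ1)
  have hnem : classInner (fun n : C => (ρ : G → ℂ) n) (η : C → ℂ) ≠ 0 := by
    rw [hmeq]; exact Nat.cast_ne_zero.2 hm.ne'
  have hinvC : ∀ g : G, CfsgLib.Clifford.conjFun g (η : C → ℂ) = (η : C → ℂ) := by
    intro g
    funext n
    obtain ⟨d, hd, c, hc, rfl⟩ := exists_factor hG g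
    have e1 : (⟨(d * c) * n * (d * c)⁻¹, Subgroup.Normal.conj_mem inferInstance _ n.2 _⟩ : C)
        = ⟨c, hc⟩ * n * (⟨c, hc⟩ : C)⁻¹ := by
      refine Subtype.ext ?_
      push_cast
      have hcn : c * (n : G) * c⁻¹ ∈ C := Subgroup.mul_mem _ (Subgroup.mul_mem _ hc n.2) (Subgroup.inv_mem _ hc)
      rw [show d * c * (n : G) * (d * c)⁻¹ = d * (c * n * c⁻¹) * d⁻¹ by group,
        Subgroup.mem_centralizer_iff.1 hcn d hd, mul_inv_cancel_right]
    show (η : C → ℂ) _ = _
    rw [e1]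
    exact isClassFunction (isCharacter_of_irr η.2) n ⟨c, hc⟩
  have hresC := CfsgLib.Clifford.restrict_eq_smul_of_invariant ρ.2 η.2 hinvC hnem
  rw [hmeq] at hresC
  have hvP : ∀ y : P, (ρ : G → ℂ) y = (e : ℂ) * (ζ : P → ℂ) y := fun y => by
    simpa using congrFun hresP y
  have hvC : ∀ c : C, (ρ : G → ℂ) c = (m : ℂ) * (η : C → ℂ) c := fun c => by
    simpa using congrFun hresC c
  have h1e : (ρ : G → ℂ) 1 = (e : ℂ) * (ζ : P → ℂ) 1 := by simpa using hvP 1
  -- the multiplicities multiply to the degree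
  have hfib : ∀ g : G, ((Finset.univ : Finset (P × C)).filter (fun q => (q.1 : G) * q.2 = g)).card =
      ((Finset.univ : Finset (P × C)).filter (fun q => (q.1 : G) * q.2 = 1)).card := by
    intro g
    obtain ⟨d, hd, c, hc, rfl⟩ := exists_factor hG g
    refine Finset.card_nbij' (fun q => (⟨d, hd⟩⁻¹ * q.1, q.2 * ⟨c, hc⟩⁻¹)) (fun q => (⟨d, hd⟩ * q.1, q.2 * ⟨c, hc⟩)) ?_ ?_ ?_ ?_
    · intro q hq
      simp only [Finset.coe_filter, Finset.mem_univ, true_and, Set.mem_setOf_eq] at hq ⊢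
      push_cast
      rw [show d⁻¹ * (q.1 : G) * ((q.2 : G) * c⁻¹) = d⁻¹ * ((q.1 : G) * q.2) * c⁻¹ by group, hq]
      group
    · intro q hq
      simp only [Finset.coe_filter, Finset.mem_univ, true_and, Set.mem_setOf_eq] at hq ⊢
      push_cast
      rw [show d * (q.1 : G) * ((q.2 : G) * c) = d * ((q.1 : G) * q.2) * c by group, hq, mul_one]
    · intro q _; simp
    · intro q _; simp
  set k := ((Finset.univ : Finset (P × C)).filter (fun q => (q.1 : G) * q.2 = 1)).card with hk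
  have hpush : ∀ F : G → ℂ, ∑ q : P × C, F ((q.1 : G) * q.2) = (k : ℂ) * ∑ g : G, F g := by
    intro F
    rw [← Finset.sum_fiberwise Finset.univ (fun q : P × C => (q.1 : G) * q.2), Finset.mul_sum]
    refine Finset.sum_congr rfl fun g _ => ?_
    rw [Finset.sum_congr rfl (g := fun _ => F g) (fun q hq => by rw [(Finset.mem_filter.1 hq).2]), Finset.sum_const,
      hfib, nsmul_eq_mul]
  have hsq : ∀ {A : Type u} [Group A] [Fintype A] (φ : IrrCharacter A),
      ∑ a : A, (φ : A → ℂ) a * conj ((φ : A → ℂ) a) = (Nat.card A : ℂ) := by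
    intro A _ _ φ
    have h := classInner_self φ.2
    rw [classInner_eq, inv_mul_eq_iff_eq_mul₀ (Nat.cast_ne_zero.2 Nat.card_pos.ne'), mul_one] at h
    exact h
  have hcount : (Nat.card P : ℂ) * Nat.card C = (k : ℂ) * Nat.card G := by
    have := hpush fun _ => 1
    simpa [Nat.card_eq_fintype_card] using this
  have hem : ((e * m : ℕ) : ℂ) * ((e * m : ℕ) : ℂ) = (ρ : G → ℂ) 1 * (ρ : G → ℂ) 1 := by
    have h := hpush fun g => ((ρ : G → ℂ) 1 * (ρ : G → ℂ) g) * conj ((ρ : G → ℂ) 1 * (ρ : G → ℂ) g)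
    have hL : ∀ q : P × C, ((ρ : G → ℂ) 1 * (ρ : G → ℂ) ((q.1 : G) * q.2)) *
        conj ((ρ : G → ℂ) 1 * (ρ : G → ℂ) ((q.1 : G) * q.2)) =
        ((e * m : ℕ) : ℂ) * ((e * m : ℕ) : ℂ) * (((ζ : P → ℂ) q.1 * conj ((ζ : P → ℂ) q.1)) *
          ((η : C → ℂ) q.2 * conj ((η : C → ℂ) q.2))) := by
      intro q
      rw [mul_comm ((ρ : G → ℂ) 1), apply_mul_of_mem hG ρ q.1.2 q.2.2, hvP, hvC]
      simp only [map_mul, Complex.conj_natCast]
      push_cast
      ring
    rw [Finset.sum_congr rfl (fun q _ => hL q), ← Finset.mul_sum, Fintype.sum_prod_type] at h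
    dsimp only at h
    rw [← Finset.sum_mul_sum, hsq, hsq, hcount,
      Finset.sum_congr rfl (g := fun g => (ρ : G → ℂ) 1 * (ρ : G → ℂ) 1 * ((ρ : G → ℂ) g * conj ((ρ : G → ℂ) g)))
        (fun g _ => by rw [map_mul, apply_one hρ, Complex.conj_natCast]; ring),
      ← Finset.mul_sum, hsq] at h
    have hk0 : (k : ℂ) * (Nat.card G : ℂ) ≠ 0 := by
      rw [← hcount]
      exact mul_ne_zero (Nat.cast_ne_zero.2 Nat.card_pos.ne') (Nat.cast_ne_zero.2 Nat.card_pos.ne')
    exact mul_right_cancel₀ hk0 (by linear_combination h)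
  have hmz : (m : ℂ) = (ζ : P → ℂ) 1 := by
    rw [h1e, apply_one (isCharacter_of_irr ζ.2)] at hem
    have h' : e * m * (e * m) = e * charDegree (ζ : P → ℂ) * (e * charDegree (ζ : P → ℂ)) := by exact_mod_cast hem
    rw [apply_one (isCharacter_of_irr ζ.2), Nat.eq_of_mul_eq_mul_left he (Nat.mul_self_inj.1 h')]
  refine ⟨ζ, e, h1e, hvP, fun x hx => ?_⟩
  rw [show (ρ : G → ℂ) x = (m : ℂ) * (η : C → ℂ) ⟨x, hx⟩ from hvC ⟨x, hx⟩, hmz,
    mul_div_cancel_left₀ _ (apply_one_ne_zero ζ.2)]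
  exact isIntegral_apply (isCharacter_of_irr η.2) _

end Structure

/-- The function `y x ↦ ζ y * θ x` on products of an element of `P` and a `p`-regular element. -/
noncomputable def prodFun (p : ℕ) (P : Subgroup G) [Fintype P] (ζ : P → ℂ) (θ : G → ℂ) : G → ℂ := by
  classical exact fun g => ∑ y : P, ∑ x : G, if ¬ p ∣ orderOf x ∧ (y : G) * x = g then ζ y * θ x else 0

theorem classInner_prodFun [Fintype P] (ζ : P → ℂ) (θ φ : G → ℂ) :
    classInner (prodFun p P ζ θ) φ =
      (Nat.card G : ℂ)⁻¹ * ∑ y : P, ∑ x : G, if p ∣ orderOf x then 0 else ζ y * θ x * conj (φ ((y : G) * x)) := by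
  classical
  rw [classInner_eq]
  congr 1
  simp only [prodFun, Finset.sum_mul]
  rw [Finset.sum_comm]
  refine Finset.sum_congr rfl fun y _ => ?_
  rw [Finset.sum_comm]
  refine Finset.sum_congr rfl fun x _ => ?_
  by_cases hx : p ∣ orderOf x
  · simp [hx]
  · rw [if_neg hx, Finset.sum_eq_single ((y : G) * x) (fun g _ hg => by rw [if_neg fun h => hg h.2.symm, zero_mul])
      (by simp), if_pos ⟨hx, rfl⟩]

section Block

variable (hM : IsPModular p M) (hP : IsPGroup p P) (hG : P ⊔ Subgroup.centralizer (P : Set G) = ⊤)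
include hM hP hG

theorem mul_unique {y y' x x' : G} (hy : y ∈ P) (hy' : y' ∈ P) (hx : ¬ p ∣ orderOf x) (hx' : ¬ p ∣ orderOf x')
    (h : y * x = y' * x') : y = y' ∧ x = x' := by
  haveI := Fact.mk hM.1
  have hpart : ∀ w ∈ P, ∀ v : G, ¬ p ∣ orderOf v → IsPPart p (w * v) w := by
    intro w hw v hv
    obtain ⟨k, hk⟩ := IsPGroup.iff_orderOf.1 hP ⟨w, hw⟩
    exact ⟨v, rfl, Subgroup.mem_centralizer_iff.1 (regular_mem hG hM.1 hP hv) w hw,
      ⟨k, by rwa [← Subgroup.orderOf_coe] at hk⟩, hv⟩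
  have h1 := hpart y hy x hx
  rw [h] at h1
  have hyy := isPPart_unique hM.1 h1 (hpart y' hy' x' hx')
  exact ⟨hyy, mul_left_cancel (hyy ▸ h)⟩

theorem isPPart_mul {y x : G} (hy : y ∈ P) (hx : ¬ p ∣ orderOf x) : IsPPart p (y * x) y := by
  haveI := Fact.mk hM.1
  obtain ⟨k, hk⟩ := IsPGroup.iff_orderOf.1 hP ⟨y, hy⟩
  exact ⟨x, rfl, Subgroup.mem_centralizer_iff.1 (regular_mem hG hM.1 hP hx) y hy,
    ⟨k, by rwa [← Subgroup.orderOf_coe] at hk⟩, hx⟩

theorem prodFun_apply [Fintype P] (ζ : P → ℂ) (θ : G → ℂ) (y : P) {x : G} (hx : ¬ p ∣ orderOf x) :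
    prodFun p P ζ θ ((y : G) * x) = ζ y * θ x := by
  classical
  simp only [prodFun]
  rw [Finset.sum_eq_single y, Finset.sum_eq_single x, if_pos ⟨hx, rfl⟩]
  · intro x' _ hne
    rw [if_neg fun h => hne (mul_left_cancel h.2)]
  · simp
  · intro y' _ hne
    exact Finset.sum_eq_zero fun x' _ => if_neg fun h =>
      hne (Subtype.ext (mul_unique hM hP hG y'.2 y.2 h.1 hx h.2).1)
  · simp

theorem prodFun_eq_zero [Fintype P] (ζ : P → ℂ) (θ : G → ℂ) {g : G} (hg : ∀ z, IsPPart p g z → z ∉ P) :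
    prodFun p P ζ θ g = 0 := by
  classical
  simp only [prodFun]
  refine Finset.sum_eq_zero fun y _ => Finset.sum_eq_zero fun x _ => if_neg fun h => ?_
  exact hg y (h.2 ▸ isPPart_mul hM hP hG y.2 h.1) y.2

omit hG in
theorem exists_decomp_of_isPPart {g z : G} (hz : IsPPart p g z) : ∃ x, ¬ p ∣ orderOf x ∧ z * x = g := by
  obtain ⟨x, hx, -, -, hreg⟩ := hz
  exact ⟨x, hreg, hx⟩

theorem isClassFunction_prodFun [Fintype P] {ζ : P → ℂ} (hζ : IsClassFunction P ζ) {θ : G → ℂ}
    (hθ : IsClassFunction G θ) : IsClassFunction G (prodFun p P ζ θ) := by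
  classical
  intro g h
  haveI := normal_of_sup hG
  by_cases hg : ∃ y : P, ∃ x : G, ¬ p ∣ orderOf x ∧ (y : G) * x = g
  · obtain ⟨y, x, hx, rfl⟩ := hg
    have hx' : ¬ p ∣ orderOf (h * x * h⁻¹) := by
      rw [show orderOf (h * x * h⁻¹) = orderOf x from
        orderOf_injective (MulAut.conj h).toMonoidHom (MulAut.conj h).injective x]; exact hx
    let y' : P := ⟨h * y * h⁻¹, Subgroup.Normal.conj_mem inferInstance _ y.2 _⟩
    rw [show h * ((y : G) * x) * h⁻¹ = (y' : G) * (h * x * h⁻¹) by simp [y', mul_assoc],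
      prodFun_apply hM hP hG ζ θ y' hx', prodFun_apply hM hP hG ζ θ y hx, hθ x h,
      classFun_conj hG hζ h y y' rfl]
  · push Not at hg
    have h0 : ∀ (y : P) (x : G), ¬ p ∣ orderOf x → (y : G) * x ≠ h * g * h⁻¹ := by
      intro y x hx e
      refine hg ⟨h⁻¹ * y * h⁻¹⁻¹, Subgroup.Normal.conj_mem inferInstance _ y.2 _⟩ (h⁻¹ * x * h⁻¹⁻¹) ?_ ?_
      · rw [show orderOf (h⁻¹ * x * h⁻¹⁻¹) = orderOf x from
          orderOf_injective (MulAut.conj h⁻¹).toMonoidHom (MulAut.conj h⁻¹).injective x]; exact hx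
      · push_cast
        rw [show h⁻¹ * (y : G) * h⁻¹⁻¹ * (h⁻¹ * x * h⁻¹⁻¹) = h⁻¹ * ((y : G) * x) * h by group, e]
        group
    simp only [prodFun]
    rw [Finset.sum_eq_zero fun y _ => Finset.sum_eq_zero fun x _ => if_neg fun k => h0 y x k.1 k.2,
      Finset.sum_eq_zero fun y _ => Finset.sum_eq_zero fun x _ => if_neg fun k => hg y x k.1 k.2]

/-- The structure of a block with defect group `P` around a character trivial on `P` of minimal degree. -/
theorem block_structure [Fintype P] {B : Set (IrrCharacter G)} (hB : IsPBlock M B) {θ : IrrCharacter G} (hθB : θ ∈ B)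
    (hθP : ∀ y ∈ P, (θ : G → ℂ) y = (θ : G → ℂ) 1) (hθd : degExp p θ = P.index.factorization p)
    (hmin : ∀ ρ ∈ B, degExp p θ ≤ degExp p ρ) :
    (∀ ζ : IrrCharacter P, ∃ ρ ∈ B, (ρ : G → ℂ) = prodFun p P (ζ : P → ℂ) (θ : G → ℂ)) ∧
      ∀ ρ ∈ B, ∃ ζ : IrrCharacter P, (ρ : G → ℂ) = prodFun p P (ζ : P → ℂ) (θ : G → ℂ) := by
  classical
  haveI := Fact.mk hM.1
  haveI : Fintype (IrrCharacter G) := @Fintype.ofFinite _ finite_irrCharacter
  have hp : p.Prime := hM.1
  set b := P.index.factorization p with hb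
  set m := Nat.card G / p ^ (Nat.card G).factorization p with hm
  obtain ⟨e₀, he₀⟩ := IsPGroup.iff_card.1 hP
  have hae : (Nat.card G).factorization p = e₀ + b := by
    rw [hb, ← Subgroup.card_mul_index P, Nat.factorization_mul Nat.card_pos.ne' Subgroup.index_ne_zero_of_finite,
      Finsupp.add_apply, he₀, hp.factorization_pow, Finsupp.single_eq_same]
  have hGc : Nat.card G = Nat.card P * (p ^ b * m) := by
    rw [he₀, ← mul_assoc, ← pow_add, ← hae, hm, Nat.ordProj_mul_ordCompl_eq_self]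
  have hG0 : (Nat.card G : ℂ) ≠ 0 := Nat.cast_ne_zero.2 Nat.card_pos.ne'
  have hm0 : (m : ℂ) ≠ 0 := ordCompl_ne_zero_cast (G := G) p
  have hθ1 := apply_one_ne_zero θ.2
  have hθyx : ∀ (y : P) (x : G), ¬ p ∣ orderOf x → (θ : G → ℂ) ((y : G) * x) = (θ : G → ℂ) x := by
    intro y x hx
    have h := apply_mul_of_mem hG θ y.2 (regular_mem hG hp hP hx)
    rw [hθP y y.2, mul_comm ((θ : G → ℂ) 1)] at h
    exact mul_right_cancel₀ hθ1 h
  -- the regular norm of `θ`
  have hTnorm : regInt p (θ : G → ℂ) (θ : G → ℂ) = (p : ℤ) ^ b := by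
    have h1 := (regInt_self_bounds (p := p) hp θ).1
    have h2 : (p : ℤ) ^ b ∣ regInt p (θ : G → ℂ) (θ : G → ℂ) := hθd ▸ pow_dvd_regInt hM θ θ
    refine le_antisymm ?_ (Int.le_of_dvd h1 h2)
    let S : Finset (P × G) := Finset.univ.filter (fun q => ¬ p ∣ orderOf q.2)
    have hle : ∑ q ∈ S, Complex.normSq ((θ : G → ℂ) ((q.1 : G) * q.2)) ≤ ∑ g : G, Complex.normSq ((θ : G → ℂ) g) := by
      rw [← Finset.sum_image (f := fun g => Complex.normSq ((θ : G → ℂ) g)) (g := fun q : P × G => (q.1 : G) * q.2)]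
      · exact Finset.sum_le_univ_sum_of_nonneg fun g => Complex.normSq_nonneg _
      · intro q hq q' hq' h
        simp only [S, Finset.coe_filter, Finset.mem_univ, true_and, Set.mem_setOf_eq] at hq hq'
        obtain ⟨h1, h2⟩ := mul_unique hM hP hG q.1.2 q'.1.2 hq hq' h
        exact Prod.ext (Subtype.ext h1) h2
    have hL : ∑ q ∈ S, Complex.normSq ((θ : G → ℂ) ((q.1 : G) * q.2)) =
        (Nat.card P : ℝ) * ((regInt p (θ : G → ℂ) (θ : G → ℂ) : ℝ) * m) := by
      have hr : (regSum p (θ : G → ℂ) (θ : G → ℂ)).re = (regInt p (θ : G → ℂ) (θ : G → ℂ) : ℝ) * m := by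
        rw [regSum_eq_regInt hp (isCharacter_of_irr θ.2) (isCharacter_of_irr θ.2)]
        simp [hm]
      rw [← hr, Finset.sum_filter, Fintype.sum_prod_type, regSum, Complex.re_sum,
        Finset.sum_congr rfl (g := fun _ => ∑ x : G, if ¬ p ∣ orderOf x then Complex.normSq ((θ : G → ℂ) x) else 0)
          (fun y _ => Finset.sum_congr rfl fun x _ => ?_), Finset.sum_const, Finset.card_univ,
        Nat.card_eq_fintype_card, nsmul_eq_mul]
      · congr 1
        refine Finset.sum_congr rfl fun x _ => ?_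
        split_ifs <;> simp [Complex.mul_conj]
      · split_ifs with hx
        · rfl
        · rw [hθyx y x hx]
    have hR : ∑ g : G, Complex.normSq ((θ : G → ℂ) g) = (Nat.card G : ℝ) := by
      have h := classInner_self θ.2
      rw [classInner_eq, inv_mul_eq_iff_eq_mul₀ hG0, mul_one] at h
      have h' : ((∑ g : G, Complex.normSq ((θ : G → ℂ) g) : ℝ) : ℂ) = ((Nat.card G : ℝ) : ℂ) := by
        push_cast
        rw [← h]
        exact Finset.sum_congr rfl fun g _ => (Complex.mul_conj _).symm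
      exact_mod_cast h'
    rw [hL, hR, hGc] at hle
    push_cast at hle
    have hP0 : (0 : ℝ) < Nat.card P := by exact_mod_cast Nat.card_pos
    have hm0' : (0 : ℝ) < m := by exact_mod_cast Nat.ordCompl_pos p Nat.card_pos.ne'
    have := le_of_mul_le_mul_right (le_of_mul_le_mul_left hle hP0) hm0'
    exact_mod_cast this
  -- inner products
  have hinner : ∀ ρ : IrrCharacter G, ∃ (ζ₀ : IrrCharacter P) (k : ℤ),
      regInt p (θ : G → ℂ) (ρ : G → ℂ) = (p : ℤ) ^ b * (charDegree (ζ₀ : P → ℂ) : ℤ) * k ∧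
      ∀ ζ : IrrCharacter P, classInner (prodFun p P (ζ : P → ℂ) (θ : G → ℂ)) (ρ : G → ℂ) =
        if ζ = ζ₀ then (k : ℂ) else 0 := by
    intro ρ
    obtain ⟨ζ₀, e, h1e, hvP, hint⟩ := exists_type hG ρ
    have hρ1 := apply_one_ne_zero ρ.2
    have hζ1 := apply_one_ne_zero ζ₀.2
    obtain ⟨j, -, hj⟩ := (Nat.dvd_prime_pow hp).1 (he₀ ▸ degree_dvd ζ₀)
    obtain ⟨c, c', hc, hθc, hmc, hc'⟩ := exists_degree_eq (p := p) hp θ
    rw [hθd] at hθc
    -- the central element from the values of `ρ` on regular elements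
    let z : MonoidAlgebra ℂ G := ofFun fun x => if p ∣ orderOf x then 0 else conj ((ρ : G → ℂ) x / (ζ₀ : P → ℂ) 1)
    have hzc : IsClassElt z := by
      intro x h
      simp only [z, coeff_ofFun, show orderOf (h * x * h⁻¹) = orderOf x from
        orderOf_injective (MulAut.conj h).toMonoidHom (MulAut.conj h).injective x,
        isClassFunction (isCharacter_of_irr ρ.2) x h]
    have hzi : IsIntegralElt M z := fun x => by
      simp only [z, coeff_ofFun]
      split_ifs with hx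
      · exact memLocalRing_zero hM
      · exact memLocalRing_of_isIntegral hM ((hint x (regular_mem hG hp hP hx)).map (Complex.conjAe.toAlgHom.restrictScalars ℤ))
    have hω := memLocalRing_omega hM θ hzc hzi
    have e1 : omega (θ : G → ℂ) z =
        ((regInt p (θ : G → ℂ) (ρ : G → ℂ) * c' : ℤ) : ℂ) / (p : ℂ) ^ (b + j) := by
      have hs : ∑ g, z.coeff g * (θ : G → ℂ) g = regSum p (θ : G → ℂ) (ρ : G → ℂ) / (ζ₀ : P → ℂ) 1 := by
        rw [regSum, Finset.sum_div]
        refine Finset.sum_congr rfl fun g _ => ?_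
        simp only [z, coeff_ofFun]
        split_ifs
        · rw [zero_mul, zero_div]
        · rw [map_div₀, apply_one (isCharacter_of_irr ζ₀.2), Complex.conj_natCast]; ring
      rw [omega, hs, regSum_eq_regInt hp (isCharacter_of_irr θ.2) (isCharacter_of_irr ρ.2), hmc, hθc,
        apply_one (isCharacter_of_irr ζ₀.2), hj]
      have h1 : (c : ℂ) ≠ 0 := Nat.cast_ne_zero.2 fun h0 => hc (h0 ▸ dvd_zero p)
      have h2 : (p : ℂ) ≠ 0 := Nat.cast_ne_zero.2 hp.ne_zero
      push_cast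
      field_simp
      ring
    rw [e1] at hω
    obtain ⟨k, hk⟩ : (p : ℤ) ^ (b + j) ∣ regInt p (θ : G → ℂ) (ρ : G → ℂ) := by
      obtain ⟨w, hw⟩ := pow_dvd_of_memLocalRing hM _ _ hω
      exact (((Nat.prime_iff_prime_int.1 hp).coprime_iff_not_dvd.2
        (fun h => hc' (Int.natCast_dvd_natCast.1 h))).pow_left).dvd_of_dvd_mul_right ⟨w, hw⟩
    have hk' : regInt p (θ : G → ℂ) (ρ : G → ℂ) = (p : ℤ) ^ b * (charDegree (ζ₀ : P → ℂ) : ℤ) * k := by
      rw [hk, hj]; push_cast; ring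
    refine ⟨ζ₀, k, hk', fun ζ => ?_⟩
    have hsplit : ∀ (y : P) (x : G),
        (if p ∣ orderOf x then 0 else (ζ : P → ℂ) y * (θ : G → ℂ) x * conj ((ρ : G → ℂ) ((y : G) * x))) =
        ((e : ℂ) * ((ζ : P → ℂ) y * conj ((ζ₀ : P → ℂ) y))) *
          (if p ∣ orderOf x then 0 else (θ : G → ℂ) x * conj ((ρ : G → ℂ) x)) / (ρ : G → ℂ) 1 := by
      intro y x
      split_ifs with hx
      · simp
      · have h := congrArg conj (apply_mul_of_mem hG ρ y.2 (regular_mem hG hp hP hx))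
        rw [map_mul, map_mul, hvP, map_mul, Complex.conj_natCast] at h
        rw [show conj ((ρ : G → ℂ) 1) = (ρ : G → ℂ) 1 by
          rw [apply_one (isCharacter_of_irr ρ.2), Complex.conj_natCast]] at h
        rw [eq_div_iff hρ1]
        linear_combination ((ζ : P → ℂ) y * (θ : G → ℂ) x) * h
    rw [classInner_prodFun, Finset.sum_congr rfl (fun y _ => Finset.sum_congr rfl fun x _ => hsplit y x)]
    simp only [← Finset.sum_div, ← Finset.mul_sum]
    rw [← Finset.sum_mul, ← Finset.mul_sum]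
    have hin : ∑ y : P, (ζ : P → ℂ) y * conj ((ζ₀ : P → ℂ) y) =
        (Nat.card P : ℂ) * (if ζ = ζ₀ then 1 else 0) := by
      have h : classInner (ζ : P → ℂ) (ζ₀ : P → ℂ) = if ζ = ζ₀ then 1 else 0 := by
        split_ifs with hh
        · rw [hh, classInner_self ζ₀.2]
        · exact classInner_ne ζ.2 ζ₀.2 fun e => hh (Subtype.ext e)
      rw [← h, classInner_eq, mul_inv_cancel_left₀ (Nat.cast_ne_zero.2 Nat.card_pos.ne')]
    rw [hin, show (∑ x : G, if p ∣ orderOf x then 0 else (θ : G → ℂ) x * conj ((ρ : G → ℂ) x)) =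
      regSum p (θ : G → ℂ) (ρ : G → ℂ) from rfl, regSum_eq_regInt hp (isCharacter_of_irr θ.2) (isCharacter_of_irr ρ.2),
      hk', h1e, apply_one (isCharacter_of_irr ζ₀.2), ← hm, hGc]
    have he0 : (e : ℂ) ≠ 0 := fun h => hρ1 (by rw [h1e, h, zero_mul])
    have hd0 : (charDegree (ζ₀ : P → ℂ) : ℂ) ≠ 0 := Nat.cast_ne_zero.2 (charDegree_pos ζ₀.2).ne'
    have hP0 : (Nat.card P : ℂ) ≠ 0 := Nat.cast_ne_zero.2 Nat.card_pos.ne'
    have hp0 : (p : ℂ) ≠ 0 := Nat.cast_ne_zero.2 hp.ne_zero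
    split_ifs
    · push_cast
      field_simp
    · simp
  -- the functions are irreducible characters
  have hirr : ∀ ζ : IrrCharacter P, IsIrrCharacter G (prodFun p P (ζ : P → ℂ) (θ : G → ℂ)) := by
    intro ζ
    have hcl := isClassFunction_prodFun hM hP hG (isClassFunction (isCharacter_of_irr ζ.2))
      (isClassFunction (isCharacter_of_irr θ.2))
    refine BrauerInd.isIrr_of_genChar ?_ ?_ ?_
    · rw [classFun_expand hcl]
      refine AddSubgroup.sum_mem _ fun ρ _ => ?_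
      obtain ⟨ζ₀, k, -, hk⟩ := hinner ρ
      rw [hk ζ]
      have hmem : (ρ : G → ℂ) ∈ BrauerInd.genChar G := AddSubgroup.subset_closure (isCharacter_of_irr ρ.2)
      split_ifs
      · rw [Int.cast_smul_eq_zsmul]
        exact AddSubgroup.zsmul_mem _ hmem _
      · rw [zero_smul]
        exact AddSubgroup.zero_mem _
    · rw [classInner_prodFun]
      have hsplit : ∀ (y : P) (x : G),
          (if p ∣ orderOf x then 0 else (ζ : P → ℂ) y * (θ : G → ℂ) x *
            conj (prodFun p P (ζ : P → ℂ) (θ : G → ℂ) ((y : G) * x))) =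
          ((ζ : P → ℂ) y * conj ((ζ : P → ℂ) y)) *
            (if p ∣ orderOf x then 0 else (θ : G → ℂ) x * conj ((θ : G → ℂ) x)) := by
        intro y x
        split_ifs with hx
        · simp
        · rw [prodFun_apply hM hP hG _ _ y hx, map_mul]; ring
      rw [Finset.sum_congr rfl (fun y _ => Finset.sum_congr rfl fun x _ => hsplit y x)]
      simp only [← Finset.mul_sum, ← Finset.sum_mul]
      have h := classInner_self ζ.2
      rw [classInner_eq, inv_mul_eq_iff_eq_mul₀ (Nat.cast_ne_zero.2 Nat.card_pos.ne'), mul_one] at h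
      rw [h, show (∑ x : G, if p ∣ orderOf x then 0 else (θ : G → ℂ) x * conj ((θ : G → ℂ) x)) =
        regSum p (θ : G → ℂ) (θ : G → ℂ) from rfl, regSum_eq_regInt hp (isCharacter_of_irr θ.2) (isCharacter_of_irr θ.2),
        hTnorm, ← hm, inv_mul_eq_iff_eq_mul₀ hG0, mul_one, hGc]
      push_cast
      ring
    · have h1 : prodFun p P (ζ : P → ℂ) (θ : G → ℂ) 1 = (ζ : P → ℂ) 1 * (θ : G → ℂ) 1 := by
        have := prodFun_apply hM hP hG (ζ : P → ℂ) (θ : G → ℂ) 1 (x := (1 : G)) (by rw [orderOf_one]; exact hp.not_dvd_one)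
        simpa using this
      rw [h1, apply_one (isCharacter_of_irr ζ.2), apply_one (isCharacter_of_irr θ.2), ← Nat.cast_mul,
        Complex.natCast_re]
      exact_mod_cast Nat.mul_pos (charDegree_pos ζ.2) (charDegree_pos θ.2)
  refine ⟨fun ζ => ⟨⟨_, hirr ζ⟩, ?_, rfl⟩, fun ρ hρ => ?_⟩
  · have hreg : ∀ g : G, ¬ p ∣ orderOf g →
        prodFun p P (ζ : P → ℂ) (θ : G → ℂ) g = (ζ : P → ℂ) 1 * (θ : G → ℂ) g := fun g hg => by
      simpa using prodFun_apply hM hP hG (ζ : P → ℂ) (θ : G → ℂ) 1 hg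
    have h1 : omega (prodFun p P (ζ : P → ℂ) (θ : G → ℂ)) (blockElt B) = omega (θ : G → ℂ) (blockElt B) := by
      rw [omega, omega, hreg 1 (by rw [orderOf_one]; exact hp.not_dvd_one)]
      have hs : ∑ g, (blockElt B).coeff g * prodFun p P (ζ : P → ℂ) (θ : G → ℂ) g =
          (ζ : P → ℂ) 1 * ∑ g, (blockElt B).coeff g * (θ : G → ℂ) g := by
        rw [Finset.mul_sum]
        refine Finset.sum_congr rfl fun g _ => ?_
        by_cases hg : p ∣ orderOf g
        · rw [coeff_blockElt, blockCoeff_eq_zero hM hB hg]; simp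
        · rw [hreg g hg]; ring
      rw [hs, mul_div_mul_left _ _ (apply_one_ne_zero ζ.2)]
    by_contra hne
    have h2 := omega_blockElt B (⟨_, hirr ζ⟩ : IrrCharacter G)
    rw [if_neg hne] at h2
    rw [omega_blockElt B θ, if_pos hθB] at h1
    exact one_ne_zero (h1.symm.trans h2)
  · obtain ⟨ζ₀, k, hk, hin⟩ := hinner ρ
    refine ⟨ζ₀, ?_⟩
    have hk0 : k ≠ 0 := by
      rintro rfl
      exact regInt_not_dvd hM hB hθB hmin hρ (by rw [hk, mul_zero]; exact dvd_zero _)
    by_contra hne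
    have h := hin ζ₀
    rw [if_pos rfl, classInner_ne (hirr ζ₀) ρ.2 (fun e => hne e.symm)] at h
    exact hk0 (by exact_mod_cast h.symm)

/-- A block with defect group `P` has a member of minimal degree trivial on `P`. -/
theorem exists_trivial_member {B : Set (IrrCharacter G)} (hB : IsPBlock M B) (hD : IsDefectGroup p M B P) :
    ∃ θ ∈ B, (∀ y ∈ P, (θ : G → ℂ) y = (θ : G → ℂ) 1) ∧ degExp p θ = P.index.factorization p ∧
      ∀ ρ ∈ B, degExp p θ ≤ degExp p ρ := by
  classical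
  haveI := Fact.mk hM.1
  haveI := normal_of_sup hG
  have hidx : ∃ k : ℕ, (Subgroup.centralizer (P : Set G)).index = p ^ k := by
    obtain ⟨n, hn⟩ := IsPGroup.iff_card.1 hP
    have hd : (Subgroup.centralizer (P : Set G)).index ∣ p ^ n := by
      rw [← hn, ← Subgroup.relIndex_top_right, ← hG, sup_comm, Subgroup.relIndex_sup_left]
      exact Subgroup.index_dvd_card _
    obtain ⟨k, -, hk⟩ := (Nat.dvd_prime_pow hM.1).1 hd
    exact ⟨k, hk⟩
  obtain ⟨χ, θ, hθ, he⟩ := (Cfsg.Agent.S0941.result p M hM P hP hidx).2 B hB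
  obtain ⟨ψ, hψ, hmin, hs⟩ := exists_min_degExp hM hB
  have hle : degExp p θ ≤ P.index.factorization p := by
    have hdeg : charDegree (θ : G → ℂ) = charDegree (χ : G ⧸ P → ℂ) := by
      have h : (charDegree (θ : G → ℂ) : ℂ) = (charDegree (χ : G ⧸ P → ℂ) : ℂ) := by
        rw [← apply_one (isCharacter_of_irr θ.2), ← apply_one (isCharacter_of_irr χ.2), he]; rfl
      exact_mod_cast h
    rw [degExp, hdeg, Subgroup.index_eq_card]
    exact (Nat.factorization_le_iff_dvd (charDegree_pos χ.2).ne' Nat.card_pos.ne').2 (degree_dvd χ) p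
  have hmineq : degExp p ψ = P.index.factorization p := by
    have h1 := card_defectGroup hM hB hD
    rw [blockDefect_eq hs] at h1
    have h2 : (Nat.card G).factorization p = (Nat.card G).factorization p - degExp p ψ + P.index.factorization p := by
      conv_lhs => rw [← Subgroup.card_mul_index P, Nat.factorization_mul Nat.card_pos.ne' Subgroup.index_ne_zero_of_finite,
        Finsupp.add_apply, h1, hM.1.factorization_pow, Finsupp.single_eq_same]
    have := degExp_le (p := p) hM.1 ψ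
    omega
  have hθd : degExp p θ = P.index.factorization p := le_antisymm hle (hmineq ▸ hmin θ hθ)
  refine ⟨θ, hθ, fun y hy => ?_, hθd, fun ρ hρ => hθd ▸ hmineq ▸ hmin ρ hρ⟩
  rw [he]
  simp only [Function.comp_apply, (QuotientGroup.eq_one_iff y).2 hy, QuotientGroup.mk_one]

end Block

end CfsgLib.Blocks
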