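import Cfsg.Agent.Blocks.Rank
import Cfsg.Agent.Blocks.Contribution

/-!
# The matrix of contributions of a subsection and its Galois conjugates
-/

set_option linter.unusedSectionVars false
set_option linter.style.haveILetI false

namespace CfsgLib.Blocks

open Cfsg CfsgLib.CharBasics Polynomial
open scoped ComplexConjugate

/-- The members of a set of irreducible characters. -/
noncomputable def memFinset {A : Type*} [Group A] [Finite A] (b : Set (IrrCharacter A)) :
    Finset (IrrCharacter A) := by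
  classical
  haveI : Fintype (IrrCharacter A) := @Fintype.ofFinite _ finite_irrCharacter
  exact Finset.univ.filter (· ∈ b)

theorem mem_memFinset {A : Type*} [Group A] [Finite A] {b : Set (IrrCharacter A)} {ξ : IrrCharacter A} :
    ξ ∈ memFinset b ↔ ξ ∈ b := by
  simp [memFinset]

theorem memFinset_eq {A : Type*} [Group A] [Finite A] [Fintype (IrrCharacter A)] (b : Set (IrrCharacter A))
    [DecidablePred (· ∈ b)] : memFinset b = Finset.univ.filter (· ∈ b) := by
  ext ξ; simp [mem_memFinset]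

theorem conj_eq_pow {z : ℂ} {N : ℕ} (hN : N ≠ 0) (hz : z ^ N = 1) : conj z = z ^ (N - 1) := by
  have hn := Complex.norm_eq_one_of_pow_eq_one hz hN
  rw [← Complex.inv_eq_conj hn]
  refine inv_eq_of_mul_eq_one_left ?_
  rw [← pow_succ, Nat.sub_add_cancel (Nat.pos_of_ne_zero hN), hz]

theorem conj_aeval (z : ℂ) (Q : ℤ[X]) : conj (aeval z Q) = aeval (conj z) Q := by
  rw [aeval_def, aeval_def, Polynomial.hom_eval₂]
  exact eval₂_congr (Subsingleton.elim _ _) rfl rfl

/-- A relation at one primitive root holds at all of them. -/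
theorem aeval_conjugate_eq_zero {N : ℕ} (hN : N ≠ 0) {Q : ℤ[X]} (h : aeval (zetaRoot N) Q = 0) {j : ℕ}
    (hj : j.Coprime N) : aeval (zetaRoot N ^ j) Q = 0 := by
  have hz := zetaRoot_prim hN
  have hdvd : cyclotomic N ℤ ∣ Q := by
    rw [cyclotomic_eq_minpoly hz (Nat.pos_of_ne_zero hN)]
    exact minpoly.isIntegrallyClosed_dvd (hz.isIntegral (Nat.pos_of_ne_zero hN)) h
  obtain ⟨q, rfl⟩ := hdvd
  have h1 : aeval (zetaRoot N ^ j) (cyclotomic N ℤ) = 0 := by
    rw [cyclotomic_eq_minpoly (hz.pow_of_coprime j hj) (Nat.pos_of_ne_zero hN)]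
    exact minpoly.aeval _ _
  rw [map_mul, h1, zero_mul]

theorem zetaRoot_pow_div {N o : ℕ} (hN : N ≠ 0) (ho : o ∣ N) : zetaRoot N ^ (N / o) = zetaRoot o := by
  obtain ⟨c, rfl⟩ := ho
  have ho0 : o ≠ 0 := left_ne_zero_of_mul hN
  have hc0 : c ≠ 0 := right_ne_zero_of_mul hN
  rw [Nat.mul_div_cancel_left _ (Nat.pos_of_ne_zero ho0), zetaRoot, zetaRoot, ← Complex.exp_nat_mul]
  congr 1
  have : (c : ℂ) ≠ 0 := Nat.cast_ne_zero.2 hc0
  have : (o : ℂ) ≠ 0 := Nat.cast_ne_zero.2 ho0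
  push_cast
  field_simp

variable {G : Type*} [Group G] [Fintype G] {p : ℕ} {M : Ideal AlgInt} {x : G}
  [Fintype (Subgroup.centralizer ({x} : Set G))]

/-- The contribution of the pair `χ`, `ψ` to the subsection, as a polynomial in an `N`-th root of unity. -/
noncomputable def contribPoly (p N : ℕ) (x : G) [Fintype (Subgroup.centralizer ({x} : Set G))]
    (b : Set (IrrCharacter (Subgroup.centralizer ({x} : Set G)))) (v : ℕ) (χ ψ : IrrCharacter G) : ℤ[X] :=
  ∑ ξ ∈ memFinset b, ∑ η ∈ memFinset b,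
    C (regInt p (ξ : Subgroup.centralizer ({x} : Set G) → ℂ) (η : Subgroup.centralizer ({x} : Set G) → ℂ) / (p : ℤ) ^ v) *
      (shiftPoly x χ ξ).comp (X ^ (N / orderOf x)) * (shiftPoly x ψ η).comp (X ^ (N / orderOf x * (N - 1)))

theorem aeval_contrib_eq (N : ℕ) (b : Set (IrrCharacter (Subgroup.centralizer ({x} : Set G)))) (v : ℕ)
    (χ ψ : IrrCharacter G) (z : ℂ) :
    aeval z (contribPoly p N x b v χ ψ) = ∑ ξ ∈ memFinset b, ∑ η ∈ memFinset b,
      ((regInt p (ξ : Subgroup.centralizer ({x} : Set G) → ℂ) (η : Subgroup.centralizer ({x} : Set G) → ℂ) / (p : ℤ) ^ v : ℤ) : ℂ) *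
        aeval (z ^ (N / orderOf x)) (shiftPoly x χ ξ) *
        aeval ((z ^ (N / orderOf x)) ^ (N - 1)) (shiftPoly x ψ η) := by
  simp [contribPoly, map_sum, Polynomial.aeval_comp, pow_mul]

/-- The contributions are hermitian. -/
theorem conj_contrib (hp : p.Prime) {N : ℕ} (hN : N ≠ 0) (b : Set (IrrCharacter (Subgroup.centralizer ({x} : Set G)))) (v : ℕ)
    (χ ψ : IrrCharacter G) {z : ℂ} (hz : z ^ N = 1) :
    conj (aeval z (contribPoly p N x b v χ ψ)) = aeval z (contribPoly p N x b v ψ χ) := by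
  set w := z ^ (N / orderOf x) with hw
  have hwN : w ^ N = 1 := by rw [hw, ← pow_mul, mul_comm, pow_mul, hz, one_pow]
  have hw1 : conj w = w ^ (N - 1) := conj_eq_pow hN hwN
  rw [aeval_contrib_eq, aeval_contrib_eq, map_sum, Finset.sum_congr rfl fun ξ _ => map_sum _ _ _, Finset.sum_comm]
  refine Finset.sum_congr rfl fun η _ => Finset.sum_congr rfl fun ξ _ => ?_
  rw [map_mul, map_mul, map_intCast, conj_aeval, conj_aeval, ← hw, hw1, map_pow, hw1,
    regInt_comm hp ξ η]
  have e : (w ^ (N - 1)) ^ (N - 1) = w := by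
    rw [← hw1, ← map_pow, ← hw1, Complex.conj_conj]
  rw [e]
  ring

variable {b : Set (IrrCharacter (Subgroup.centralizer ({x} : Set G)))}
  {ξ₀ : IrrCharacter (Subgroup.centralizer ({x} : Set G))}

/-- The contribution at the standard root, from the values on the subsection. -/
theorem aeval_contribPoly (hM : IsPModular p M) {N : ℕ} (hN : N ≠ 0) (hxN : orderOf x ∣ N)
    (hmin₀ : ∀ ρ ∈ b, degExp p ξ₀ ≤ degExp p ρ) (χ ψ : IrrCharacter G) :
    aeval (zetaRoot N) (contribPoly p N x b (degExp p ξ₀) χ ψ) =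
      (p : ℂ) ^ ((Nat.card (Subgroup.centralizer ({x} : Set G))).factorization p - degExp p ξ₀) /
        (Nat.card (Subgroup.centralizer ({x} : Set G)) : ℂ) *
        ∑ y : Subgroup.centralizer ({x} : Set G),
          secVal p x b (χ : G → ℂ) y * conj (secVal p x b (ψ : G → ℂ) y) := by
  classical
  haveI : Fintype (IrrCharacter (Subgroup.centralizer ({x} : Set G))) := @Fintype.ofFinite _ finite_irrCharacter
  have hz : zetaRoot N ^ (N / orderOf x) = zetaRoot (orderOf x) := zetaRoot_pow_div hN hxN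
  have hconj : zetaRoot (orderOf x) ^ (N - 1) = conj (zetaRoot (orderOf x)) := by
    refine (conj_eq_pow hN ?_).symm
    obtain ⟨c, hc⟩ := hxN
    rw [hc, pow_mul, (zetaRoot_prim (orderOf_pos x).ne').pow_eq_one, one_pow]
  have hsum : ∑ y : Subgroup.centralizer ({x} : Set G),
      secVal p x b (χ : G → ℂ) y * conj (secVal p x b (ψ : G → ℂ) y) =
      ∑ ξ ∈ memFinset b, ∑ η ∈ memFinset b,
        classInner (shiftFun x (χ : G → ℂ)) (ξ : Subgroup.centralizer ({x} : Set G) → ℂ) *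
        conj (classInner (shiftFun x (ψ : G → ℂ)) (η : Subgroup.centralizer ({x} : Set G) → ℂ)) *
        regSum p (ξ : Subgroup.centralizer ({x} : Set G) → ℂ) (η : Subgroup.centralizer ({x} : Set G) → ℂ) := by
    simp only [regSum, Finset.mul_sum]
    rw [Finset.sum_congr rfl (fun ξ _ => Finset.sum_comm), Finset.sum_comm]
    refine Finset.sum_congr rfl fun y _ => ?_
    simp only [secVal, ZStar.blockPart_apply, ← Finset.sum_filter, ← memFinset_eq]
    split_ifs
    · simp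
    · rw [map_sum, Finset.sum_mul_sum]
      refine Finset.sum_congr rfl fun ξ _ => Finset.sum_congr rfl fun η _ => ?_
      rw [map_mul]
      ring
  rw [aeval_contrib_eq, hsum, hz, hconj, Finset.mul_sum]
  refine Finset.sum_congr rfl fun ξ hξ => ?_
  rw [Finset.mul_sum]
  refine Finset.sum_congr rfl fun η _ => ?_
  rw [← conj_aeval, aeval_shiftPoly, aeval_shiftPoly,
    regSum_eq_regInt hM.1 (isCharacter_of_irr ξ.2) (isCharacter_of_irr η.2)]
  obtain ⟨q, hq⟩ : (p : ℤ) ^ degExp p ξ₀ ∣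
      regInt p (ξ : Subgroup.centralizer ({x} : Set G) → ℂ) (η : Subgroup.centralizer ({x} : Set G) → ℂ) :=
    (pow_dvd_pow _ (hmin₀ ξ (mem_memFinset.1 hξ))).trans (pow_dvd_regInt hM ξ η)
  have hp0 : (p : ℂ) ≠ 0 := Nat.cast_ne_zero.2 hM.1.ne_zero
  have hle := degExp_le hM.1 ξ₀
  have hcard : (Nat.card (Subgroup.centralizer ({x} : Set G)) : ℂ) =
      (p : ℂ) ^ (Nat.card (Subgroup.centralizer ({x} : Set G))).factorization p *
        ((Nat.card (Subgroup.centralizer ({x} : Set G)) /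
          p ^ (Nat.card (Subgroup.centralizer ({x} : Set G))).factorization p : ℕ) : ℂ) := by
    rw [← Nat.cast_pow, ← Nat.cast_mul, Nat.ordProj_mul_ordCompl_eq_self]
  have hm0 := ordCompl_ne_zero_cast (G := Subgroup.centralizer ({x} : Set G)) p
  rw [hq, Int.mul_ediv_cancel_left _ (pow_ne_zero _ (Int.natCast_ne_zero.2 hM.1.ne_zero)), hcard,
    pow_sub₀ _ hp0 hle]
  push_cast
  field_simp

/-- The contributions multiply as a scaled projection, at every primitive root. -/
theorem sum_contrib_mul (hM : IsPModular p M) (hx : ∃ k : ℕ, orderOf x = p ^ k) [Fintype (IrrCharacter G)]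
    (hb : IsPBlock M b) {N : ℕ} (hN : N ≠ 0) (hxN : orderOf x ∣ N)
    (hmin₀ : ∀ ρ ∈ b, degExp p ξ₀ ≤ degExp p ρ) {j : ℕ} (hj : j.Coprime N) (χ ρ : IrrCharacter G) :
    ∑ ψ : IrrCharacter G, aeval (zetaRoot N ^ j) (contribPoly p N x b (degExp p ξ₀) χ ψ) *
        aeval (zetaRoot N ^ j) (contribPoly p N x b (degExp p ξ₀) ψ ρ) =
      (p : ℂ) ^ ((Nat.card (Subgroup.centralizer ({x} : Set G))).factorization p - degExp p ξ₀) *
        aeval (zetaRoot N ^ j) (contribPoly p N x b (degExp p ξ₀) χ ρ) := by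
  classical
  set n := (Nat.card (Subgroup.centralizer ({x} : Set G))).factorization p - degExp p ξ₀ with hn
  set P := fun χ ψ => contribPoly p N x b (degExp p ξ₀) χ ψ with hP
  have h := aeval_conjugate_eq_zero hN (Q := (∑ ψ : IrrCharacter G, P χ ψ * P ψ ρ) - C ((p : ℤ) ^ n) * P χ ρ) ?_ hj
  · simpa [hP, sub_eq_zero] using h
  simp only [map_sub, map_sum, map_mul, hP, sub_eq_zero, aeval_contribPoly hM hN hxN hmin₀, ← hn]
  have hC : (Nat.card (Subgroup.centralizer ({x} : Set G)) : ℂ) ≠ 0 := Nat.cast_ne_zero.2 Nat.card_pos.ne'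
  have key : ∑ ψ : IrrCharacter G,
      (∑ y : Subgroup.centralizer ({x} : Set G), secVal p x b (χ : G → ℂ) y * conj (secVal p x b (ψ : G → ℂ) y)) *
      (∑ y : Subgroup.centralizer ({x} : Set G), secVal p x b (ψ : G → ℂ) y * conj (secVal p x b (ρ : G → ℂ) y)) =
      (Nat.card (Subgroup.centralizer ({x} : Set G)) : ℂ) *
        ∑ y : Subgroup.centralizer ({x} : Set G), secVal p x b (χ : G → ℂ) y * conj (secVal p x b (ρ : G → ℂ) y) := by
    simp only [Finset.sum_mul_sum]
    rw [Finset.sum_comm, Finset.sum_congr rfl (fun y _ => Finset.sum_comm), Finset.sum_comm, Finset.mul_sum]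
    refine Finset.sum_congr rfl fun z _ => ?_
    by_cases hz : p ∣ orderOf z
    · rw [show secVal p x b (χ : G → ℂ) z = 0 from if_pos hz]
      have h0 : ∀ ψ : IrrCharacter G, secVal p x b (ψ : G → ℂ) z = 0 := fun ψ => if_pos hz
      simp [h0]
    have e : ∀ y : Subgroup.centralizer ({x} : Set G), ∑ ψ : IrrCharacter G,
        secVal p x b (χ : G → ℂ) y * conj (secVal p x b (ψ : G → ℂ) y) *
          (secVal p x b (ψ : G → ℂ) z * conj (secVal p x b (ρ : G → ℂ) z)) =
        blockKernel b z y * secVal p x b (χ : G → ℂ) y * conj (secVal p x b (ρ : G → ℂ) z) := by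
      intro y
      by_cases hy : p ∣ orderOf y
      · simp [show ∀ f : G → ℂ, secVal p x b f y = 0 from fun f => if_pos hy]
      · rw [← sum_secVal_mul hM hx hb hz hy, Finset.sum_mul, Finset.sum_mul]
        exact Finset.sum_congr rfl fun ψ _ => by ring
    rw [Finset.sum_congr rfl fun y _ => e y, ← Finset.sum_mul, sum_kernel_secVal hM hb _ hz]
    ring
  rw [Finset.sum_congr rfl (g := fun ψ : IrrCharacter G =>
    ((p : ℂ) ^ n / (Nat.card (Subgroup.centralizer ({x} : Set G)) : ℂ)) ^ 2 *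
    ((∑ y : Subgroup.centralizer ({x} : Set G), secVal p x b (χ : G → ℂ) y * conj (secVal p x b (ψ : G → ℂ) y)) *
      (∑ y : Subgroup.centralizer ({x} : Set G), secVal p x b (ψ : G → ℂ) y * conj (secVal p x b (ρ : G → ℂ) y))))
    (fun ψ _ => by ring), ← Finset.mul_sum, key]
  simp only [eq_intCast, map_intCast, aeval_C, Int.cast_pow, Int.cast_natCast, map_pow, map_natCast]
  field_simp

/-- The trace of the contributions, at every primitive root. -/
theorem sum_contrib_diag (hM : IsPModular p M) (hx : ∃ k : ℕ, orderOf x = p ^ k) [Fintype (IrrCharacter G)]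
    (hb : IsPBlock M b) {N : ℕ} (hN : N ≠ 0) (hxN : orderOf x ∣ N)
    (hmin₀ : ∀ ρ ∈ b, degExp p ξ₀ ≤ degExp p ρ) {j : ℕ} (hj : j.Coprime N) :
    ∑ χ : IrrCharacter G, aeval (zetaRoot N ^ j) (contribPoly p N x b (degExp p ξ₀) χ χ) =
      (p : ℂ) ^ ((Nat.card (Subgroup.centralizer ({x} : Set G))).factorization p - degExp p ξ₀) *
        blockRank p b := by
  classical
  set n := (Nat.card (Subgroup.centralizer ({x} : Set G))).factorization p - degExp p ξ₀ with hn
  have h := aeval_conjugate_eq_zero hN (Q := (∑ χ : IrrCharacter G, contribPoly p N x b (degExp p ξ₀) χ χ) -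
    C ((p : ℤ) ^ n * (blockRank p b : ℤ))) ?_ hj
  · simpa [sub_eq_zero] using h
  simp only [map_sub, map_sum, sub_eq_zero, aeval_contribPoly hM hN hxN hmin₀, ← hn, ← Finset.mul_sum]
  have hC : (Nat.card (Subgroup.centralizer ({x} : Set G)) : ℂ) ≠ 0 := Nat.cast_ne_zero.2 Nat.card_pos.ne'
  have key : ∑ χ : IrrCharacter G, ∑ y : Subgroup.centralizer ({x} : Set G),
      secVal p x b (χ : G → ℂ) y * conj (secVal p x b (χ : G → ℂ) y) =
      (Nat.card (Subgroup.centralizer ({x} : Set G)) : ℂ) * blockRank p b := by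
    rw [Finset.sum_comm, ← sum_blockKernel_diag hM hb]
    refine Finset.sum_congr rfl fun s _ => ?_
    split_ifs with hs
    · exact Finset.sum_eq_zero fun χ _ => by rw [secVal, if_pos hs, zero_mul]
    · exact sum_secVal_mul hM hx hb hs hs
  rw [key]
  simp only [eq_intCast, map_intCast, aeval_C, Int.cast_pow, Int.cast_natCast, Int.cast_mul, map_mul, map_pow, map_natCast]
  field_simp

/-- A row of contributions has square sum the scaled diagonal entry. -/
theorem sum_normSq_contrib (hM : IsPModular p M) (hx : ∃ k : ℕ, orderOf x = p ^ k) [Fintype (IrrCharacter G)]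
    (hb : IsPBlock M b) {N : ℕ} (hN : N ≠ 0) (hxN : orderOf x ∣ N)
    (hmin₀ : ∀ ρ ∈ b, degExp p ξ₀ ≤ degExp p ρ) {j : ℕ} (hj : j.Coprime N) (χ : IrrCharacter G) :
    ∑ ψ : IrrCharacter G, ‖aeval (zetaRoot N ^ j) (contribPoly p N x b (degExp p ξ₀) χ ψ)‖ ^ 2 =
      (p : ℝ) ^ ((Nat.card (Subgroup.centralizer ({x} : Set G))).factorization p - degExp p ξ₀) *
        (aeval (zetaRoot N ^ j) (contribPoly p N x b (degExp p ξ₀) χ χ)).re := by
  have hz : (zetaRoot N ^ j) ^ N = 1 := by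
    rw [← pow_mul, mul_comm, pow_mul, (zetaRoot_prim hN).pow_eq_one, one_pow]
  have h := sum_contrib_mul hM hx hb hN hxN hmin₀ hj χ χ
  rw [Finset.sum_congr rfl (fun ψ _ => by rw [← conj_contrib hM.1 hN b (degExp p ξ₀) χ ψ hz, Complex.mul_conj'])] at h
  have h2 := congrArg Complex.re h
  rw [Complex.re_sum] at h2
  simp only [← Complex.ofReal_pow, Complex.ofReal_re] at h2
  rw [h2, show ((p : ℂ) ^ ((Nat.card (Subgroup.centralizer ({x} : Set G))).factorization p - degExp p ξ₀)) =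
    (((p : ℝ) ^ ((Nat.card (Subgroup.centralizer ({x} : Set G))).factorization p - degExp p ξ₀) : ℝ) : ℂ) by
      push_cast; rfl, Complex.re_ofReal_mul]

/-- Members of height zero have unit contributions. -/
theorem contrib_not_mem (hM : IsPModular p M) {B : Set (IrrCharacter G)}
    (hind : IsInducedBlock M (Subgroup.centralizer ({x} : Set G)) b B) {χ ψ : IrrCharacter G}
    (hχ : χ ∈ B) (hχmin : ∀ ρ ∈ B, degExp p χ ≤ degExp p ρ) (hψ : ψ ∈ B)
    (hψmin : ∀ ρ ∈ B, degExp p ψ ≤ degExp p ρ) (h₀ : ξ₀ ∈ b) (hmin₀ : ∀ ρ ∈ b, degExp p ξ₀ ≤ degExp p ρ)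
    {K : ℕ} {z : ℂ} (hz : z ^ p ^ K = 1) :
    ¬ MemLocalIdeal M (aeval z (contribPoly p (p ^ K) x b (degExp p ξ₀) χ ψ)) := by
  classical
  haveI : Fintype (IrrCharacter (Subgroup.centralizer ({x} : Set G))) := @Fintype.ofFinite _ finite_irrCharacter
  intro hmem
  obtain ⟨c, c', -, h1, hcc, hc'⟩ := exists_degree_eq hM.1 ξ₀
  set W := omega (ξ₀ : Subgroup.centralizer ({x} : Set G) → ℂ) (regElt p (ξ₀ : Subgroup.centralizer ({x} : Set G) → ℂ)) with hW
  set w := z ^ (p ^ K / orderOf x) with hw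
  have hwN : w ^ p ^ K = 1 := by rw [hw, ← pow_mul, mul_comm, pow_mul, hz, one_pow]
  have hwN' : (w ^ (p ^ K - 1)) ^ p ^ K = 1 := by rw [← pow_mul, mul_comm, pow_mul, hwN, one_pow]
  set r := fun ξ : IrrCharacter (Subgroup.centralizer ({x} : Set G)) =>
    (ξ : Subgroup.centralizer ({x} : Set G) → ℂ) 1 / (ξ₀ : Subgroup.centralizer ({x} : Set G) → ℂ) 1 with hr
  have hintA : ∀ (u : ℂ), u ^ p ^ K = 1 → ∀ (Q : ℤ[X]), MemLocalRing M (aeval u Q) := by
    intro u hu Q
    refine memLocalRing_of_isIntegral hM ?_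
    have hui : IsIntegral ℤ u := IsIntegral.of_pow (pow_pos hM.1.pos K) (by rw [hu]; exact isIntegral_one)
    exact IsIntegral.of_mem_of_fg _ hui.fg_adjoin_singleton _ (Algebra.adjoin_singleton_eq_range_aeval ℤ u ▸ ⟨Q, rfl⟩)
  have hcong : MemLocalIdeal M ((c' : ℂ) * aeval z (contribPoly p (p ^ K) x b (degExp p ξ₀) χ ψ) -
      W * ((∑ ξ ∈ Finset.univ.filter (· ∈ b), aeval w (shiftPoly x χ ξ) * r ξ) *
        (∑ η ∈ Finset.univ.filter (· ∈ b), aeval (w ^ (p ^ K - 1)) (shiftPoly x ψ η) * r η))) := by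
    rw [aeval_contrib_eq, ← hw, memFinset_eq, Finset.sum_mul_sum, Finset.mul_sum, Finset.mul_sum,
      ← Finset.sum_sub_distrib]
    refine memLocalIdeal_sum hM _ fun ξ hξ => ?_
    rw [Finset.mul_sum, Finset.mul_sum, ← Finset.sum_sub_distrib]
    refine memLocalIdeal_sum hM _ fun η hη => ?_
    have h2 := memLocalIdeal_mul_left hM (memLocalRing_mul hM (hintA w hwN (shiftPoly x χ ξ))
      (hintA _ hwN' (shiftPoly x ψ η)))
      (regSum_congr hM hind.1 h₀ hmin₀ (Finset.mem_filter.1 hξ).2 (Finset.mem_filter.1 hη).2)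
    convert h2 using 1
    obtain ⟨q, hq⟩ : (p : ℤ) ^ degExp p ξ₀ ∣
        regInt p (ξ : Subgroup.centralizer ({x} : Set G) → ℂ) (η : Subgroup.centralizer ({x} : Set G) → ℂ) :=
      (pow_dvd_pow _ (hmin₀ ξ (Finset.mem_filter.1 hξ).2)).trans (pow_dvd_regInt hM ξ η)
    rw [regSum_eq_regInt hM.1 (isCharacter_of_irr ξ.2) (isCharacter_of_irr η.2), hq,
      Int.mul_ediv_cancel_left _ (pow_ne_zero _ (Int.natCast_ne_zero.2 hM.1.ne_zero)), hcc]
    simp only [hr]
    rw [← hW, h1]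
    have hc0 : (c : ℂ) ≠ 0 := by
      intro h0
      have h3 := ordCompl_ne_zero_cast (G := Subgroup.centralizer ({x} : Set G)) p
      rw [hcc, Nat.cast_mul, h0, zero_mul] at h3
      exact h3 rfl
    have hp0 : (p : ℂ) ≠ 0 := Nat.cast_ne_zero.2 hM.1.ne_zero
    push_cast
    field_simp
  have hW0 : ¬ MemLocalIdeal M W := by
    rw [hW, omega_regElt_mem_iff hM]
    exact regInt_self_not_dvd hM hind.1 h₀ hmin₀
  have hs := memLocalIdeal_sub hM (memLocalIdeal_mul_left hM (memLocalRing_natCast hM c') hmem) hcong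
  rw [sub_sub_cancel] at hs
  have hsumR : ∀ u : ℂ, u ^ p ^ K = 1 → ∀ φ : IrrCharacter G, MemLocalRing M
      (∑ η ∈ Finset.univ.filter (· ∈ b), aeval u (shiftPoly x φ η) * r η) := fun u hu φ =>
    memLocalRing_sum hM _ fun η hη =>
      memLocalRing_mul hM (hintA u hu _) (memLocalRing_degree_ratio hM hmin₀ (Finset.mem_filter.1 hη).2)
  rcases memLocalIdeal_of_mul hM (memLocalRing_omega hM ξ₀ (isClassElt_regElt (isCharacter_of_irr ξ₀.2))
    (isIntegralElt_regElt hM (isCharacter_of_irr ξ₀.2)))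
    (memLocalRing_mul hM (hsumR w hwN χ) (hsumR _ hwN' ψ)) hs with h | h
  · exact hW0 h
  rcases memLocalIdeal_of_mul hM (hsumR w hwN χ) (hsumR _ hwN' ψ) h with h' | h'
  · exact sum_twist_not_mem hM hind hχ hχmin h₀ hmin₀ hwN h'
  · exact sum_twist_not_mem hM hind hψ hψmin h₀ hmin₀ hwN' h'

/-- On average over the conjugates, a nonzero entry has square at least one. -/
theorem card_le_sum_conjugates {N : ℕ} (hN : N ≠ 0) (Q : ℤ[X])
    (hne : ∀ j ∈ coprimeResidues N, aeval (zetaRoot N ^ j) Q ≠ 0) :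
    ((coprimeResidues N).card : ℝ) ≤ ∑ j ∈ coprimeResidues N, ‖aeval (zetaRoot N ^ j) Q‖ ^ 2 := by
  refine card_le_sum_of_one_le_prod _ _ (fun j hj => pow_pos (norm_pos_iff.2 (hne j hj)) 2) ?_
  obtain ⟨R, hR⟩ := prod_coprime_int hN Q
  have hR0 : R ≠ 0 := by
    intro h0
    rw [h0, Int.cast_zero, Finset.prod_eq_zero_iff] at hR
    obtain ⟨j, hj, hj0⟩ := hR
    exact hne j hj hj0
  rw [Finset.prod_pow, ← norm_prod, hR, Complex.norm_intCast, sq_abs]
  have : (1 : ℤ) ≤ R ^ 2 := by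
    have := sq_pos_of_ne_zero hR0
    omega
  exact_mod_cast this

/-- The members of height zero against the square sums of their rows. -/
theorem card_mul_le_sum_re (hM : IsPModular p M) (hx : ∃ k : ℕ, orderOf x = p ^ k) [Fintype (IrrCharacter G)]
    {B : Set (IrrCharacter G)} (hind : IsInducedBlock M (Subgroup.centralizer ({x} : Set G)) b B)
    (h₀ : ξ₀ ∈ b) (hmin₀ : ∀ ρ ∈ b, degExp p ξ₀ ≤ degExp p ρ) {K : ℕ} (hxN : orderOf x ∣ p ^ K)
    (S : Finset (IrrCharacter G)) (hS : ∀ ρ ∈ S, ρ ∈ B ∧ ∀ τ ∈ B, degExp p ρ ≤ degExp p τ)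
    {χ : IrrCharacter G} (hχ : χ ∈ S) :
    ((coprimeResidues (p ^ K)).card : ℝ) * S.card ≤
      (p : ℝ) ^ ((Nat.card (Subgroup.centralizer ({x} : Set G))).factorization p - degExp p ξ₀) *
        ∑ j ∈ coprimeResidues (p ^ K),
          (aeval (zetaRoot (p ^ K) ^ j) (contribPoly p (p ^ K) x b (degExp p ξ₀) χ χ)).re := by
  have hN : p ^ K ≠ 0 := pow_ne_zero _ hM.1.ne_zero
  rw [Finset.mul_sum, Finset.sum_congr rfl fun j (hj : j ∈ coprimeResidues (p ^ K)) =>
    (sum_normSq_contrib hM hx hind.1 hN hxN hmin₀ (Finset.mem_filter.1 hj).2 χ).symm, Finset.sum_comm]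
  refine le_trans ?_ (Finset.sum_le_sum_of_subset_of_nonneg (Finset.subset_univ S)
    fun _ _ _ => Finset.sum_nonneg fun _ _ => by positivity)
  rw [mul_comm, ← nsmul_eq_mul, ← Finset.sum_const]
  refine Finset.sum_le_sum fun ψ hψ => card_le_sum_conjugates hN _ fun j _ h0 => ?_
  refine contrib_not_mem hM hind (hS χ hχ).1 (hS χ hχ).2 (hS ψ hψ).1 (hS ψ hψ).2 h₀ hmin₀
    (K := K) (z := zetaRoot (p ^ K) ^ j) ?_ (by rw [h0]; exact memLocalIdeal_zero hM)
  rw [← pow_mul, mul_comm, pow_mul, (zetaRoot_prim hN).pow_eq_one, one_pow]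

end CfsgLib.Blocks
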