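import Cfsg.Agent.Blocks.AlperinDade
import Cfsg.Agent.Blocks.RootsMod
import Cfsg.Agent.Blocks.Residue
import Cfsg.Agent.ZStar.Congr
import Cfsg.Agent.ZStar.Principal
import Cfsg.Agent.Clifford.ScalarIndex

/-!
# The scalars of the cosets of a normal subgroup on an irreducibly restricting character
-/

set_option autoImplicit false
set_option linter.unusedSectionVars false
set_option linter.style.haveILetI false

namespace CfsgLib.CosetScalar

/-- A root of unity congruent to a given `m`-th root of unity mod `M`, of order prime to `p`. -/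
theorem exists_coprime_root {p : ℕ} {M : Ideal Cfsg.AlgInt} (hM : Cfsg.IsPModular p M) {m : ℕ} (hm : m ≠ 0)
    {v : ℂ} (hv : Cfsg.MemLocalRing M v) (h : Cfsg.MemLocalIdeal M (v ^ m - 1)) :
    ∃ β : ℂ, β ^ (m / p ^ m.factorization p) = 1 ∧ Cfsg.MemLocalIdeal M (v - β) := by
  classical
  have hp := hM.1
  obtain ⟨ζ, hζ⟩ : ∃ ζ : ℂ, IsPrimitiveRoot ζ m := ⟨_, Complex.isPrimitiveRoot_exp m hm⟩
  have hprod := hζ.pow_sub_pow_eq_prod_sub_mul v 1 (Nat.pos_of_ne_zero hm)
  simp only [one_pow, mul_one] at hprod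
  rw [hprod] at h
  have hroot : ∀ η ∈ Polynomial.nthRootsFinset m (1 : ℂ), η ^ m = 1 := fun η hη =>
    (Polynomial.mem_nthRootsFinset (Nat.pos_of_ne_zero hm) 1).1 hη
  have hint : ∀ η : ℂ, η ^ m = 1 → Cfsg.MemLocalRing M η := fun η hη =>
    Blocks.memLocalRing_of_isIntegral hM (IsIntegral.of_pow (Nat.pos_of_ne_zero hm) (hη ▸ isIntegral_one))
  obtain ⟨η, hη, hvη⟩ : ∃ η, η ^ m = 1 ∧ Cfsg.MemLocalIdeal M (v - η) := by
    suffices H : ∀ s : Finset ℂ, (∀ η ∈ s, η ^ m = 1) → Cfsg.MemLocalIdeal M (∏ η ∈ s, (v - η)) →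
        ∃ η, η ^ m = 1 ∧ Cfsg.MemLocalIdeal M (v - η) from H _ hroot h
    intro s
    induction s using Finset.induction_on with
    | empty => exact fun _ h => absurd (by simpa using h) (Blocks.not_memLocalIdeal_one hM)
    | insert a s ha ih =>
      intro hs h
      rw [Finset.prod_insert ha] at h
      have hsub : ∀ η, η ^ m = 1 → Cfsg.MemLocalRing M (v - η) := fun η hη => by
        rw [sub_eq_add_neg]; exact Blocks.memLocalRing_add hM hv (Blocks.memLocalRing_neg (hint η hη))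
      rcases Blocks.memLocalIdeal_of_mul hM (hsub a (hs a (Finset.mem_insert_self a s)))
        (Blocks.memLocalRing_prod hM _ fun η hη => hsub η (hs η (Finset.mem_insert_of_mem hη))) h with h' | h'
      · exact ⟨a, hs a (Finset.mem_insert_self a s), h'⟩
      · exact ih (fun η hη => hs η (Finset.mem_insert_of_mem hη)) h'
  set q := p ^ m.factorization p with hq
  set r := m / q with hr
  have hqr : q * r = m := Nat.ordProj_mul_ordCompl_eq_self m p
  have hcop : r.Coprime q := (Nat.Coprime.pow_left _ (Nat.coprime_ordCompl hp hm)).symm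
  obtain ⟨e, he1, he2⟩ := Nat.chineseRemainder hcop 1 0
  obtain ⟨e', he1', he2'⟩ := Nat.chineseRemainder hcop 0 1
  have hsum : e + e' ≡ 1 [MOD m] := by
    rw [← hqr, mul_comm q r]
    exact (Nat.modEq_and_modEq_iff_modEq_mul hcop).1 ⟨by simpa using he1.add he1', by simpa using he2.add he2'⟩
  have hsplit : η = η ^ e * η ^ e' := by
    rw [← pow_add, pow_eq_pow_mod (e + e') hη, hsum, ← pow_eq_pow_mod 1 hη, pow_one]
  have hone : ∀ c b : ℕ, m ∣ c * b → (η ^ c) ^ b = 1 := fun c b hd => by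
    obtain ⟨t, ht⟩ := hd
    rw [← pow_mul, ht, pow_mul, hη, one_pow]
  refine ⟨η ^ e, hone e r ?_, ?_⟩
  · rw [← hqr]; exact Nat.mul_dvd_mul_right (Nat.modEq_zero_iff_dvd.1 he2) r
  have h1 : Blocks.EqMod M (η ^ e') 1 := Blocks.eqMod_one_of_pow_eq_one hM (m.factorization p) (hone e' q (by
    rw [← hqr, mul_comm q r]; exact Nat.mul_dvd_mul_right (Nat.modEq_zero_iff_dvd.1 he1') q))
  have e0 : v - η ^ e = (v - η) + η ^ e * (η ^ e' - 1) := by rw [mul_sub, ← hsplit]; ring
  rw [e0]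
  exact Blocks.memLocalIdeal_add hM hvη (Blocks.memLocalIdeal_mul_left hM (Blocks.memLocalRing_pow hM (hint η hη) e) h1)

open Cfsg CfsgLib.Blocks CfsgLib.CharBasics CfsgLib.Clifford

universe u

variable {G : Type u} [Group G] [Fintype G] {p : ℕ} {M : Ideal AlgInt} (N : Subgroup G) [hN : N.Normal]

/-- Elements of the group algebra fixed by conjugation by `N`. -/
def IsNElt (z : MonoidAlgebra ℂ G) : Prop := ∀ n ∈ N, ∀ g, z.coeff (n * g * n⁻¹) = z.coeff g

/-- Elements supported on the coset of `q`. -/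
def OnCoset (q : G) (z : MonoidAlgebra ℂ G) : Prop := ∀ g, g⁻¹ * q ∉ N → z.coeff g = 0

variable {N}

theorem isNElt_mul {z w : MonoidAlgebra ℂ G} (hz : IsNElt N z) (hw : IsNElt N w) : IsNElt N (z * w) := by
  intro n hn g
  rw [coeff_mul_eq, coeff_mul_eq, ← (MulAut.conj n).toEquiv.sum_comp]
  refine Finset.sum_congr rfl fun x _ => ?_
  show z.coeff (n * x * n⁻¹) * w.coeff ((n * x * n⁻¹)⁻¹ * (n * g * n⁻¹)) = _
  rw [hz n hn, show (n * x * n⁻¹)⁻¹ * (n * g * n⁻¹) = n * (x⁻¹ * g) * n⁻¹ by group, hw n hn]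

theorem onCoset_mul {a b : G} {z w : MonoidAlgebra ℂ G} (hz : OnCoset N a z) (hw : OnCoset N b w) :
    OnCoset N (a * b) (z * w) := by
  intro g hg
  rw [coeff_mul_eq]
  refine Finset.sum_eq_zero fun x _ => ?_
  by_cases hx : x⁻¹ * a ∈ N
  · refine mul_eq_zero_of_right _ (hw _ fun h => hg ?_)
    rw [show g⁻¹ * (a * b) = ((x⁻¹ * g)⁻¹ * b) * (b⁻¹ * (x⁻¹ * a) * b) by group]
    exact N.mul_mem h (by simpa using hN.conj_mem _ hx b⁻¹)
  · rw [hz x hx, zero_mul]

theorem aug_mul (z w : MonoidAlgebra ℂ G) :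
    ∑ g, (z * w).coeff g = (∑ g, z.coeff g) * ∑ g, w.coeff g := by
  simp only [coeff_mul_eq]
  rw [Finset.sum_comm (γ := G), Finset.sum_mul]
  refine Finset.sum_congr rfl fun x _ => ?_
  rw [← Finset.mul_sum]
  congr 1
  exact Fintype.sum_equiv (Equiv.mulLeft x⁻¹) _ _ fun _ => rfl

theorem natCoeff_mul {z w : MonoidAlgebra ℂ G} (hz : ∀ g, ∃ k : ℕ, z.coeff g = k) (hw : ∀ g, ∃ k : ℕ, w.coeff g = k)
    (g : G) : ∃ k : ℕ, (z * w).coeff g = k := by
  choose a ha using hz
  choose b hb using hw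
  exact ⟨∑ x, a x * b (x⁻¹ * g), by rw [coeff_mul_eq]; simp only [ha, hb]; push_cast; rfl⟩

/-- The central character of a class element with natural coefficients is an algebraic integer. -/
theorem isIntegral_omega_nat {A : Type u} [Group A] [Fintype A] (χ : IrrCharacter A) {z : MonoidAlgebra ℂ A}
    (hz : IsClassElt z) (hzn : ∀ g, ∃ k : ℕ, z.coeff g = k) : IsIntegral ℤ (omega (χ : A → ℂ) z) := by
  classical
  haveI : Fintype (ConjClasses A) := Fintype.ofFinite _
  rw [ZStar.eq_sum_classElt hz, ZStar.omega_sum]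
  refine IsIntegral.sum _ fun C _ => ?_
  rw [Blocks.omega_smul, omega_classElt χ.2]
  refine IsIntegral.mul ?_ (isIntegral_centralChar χ.2 _)
  obtain ⟨k, hk⟩ := hzn C.out
  rw [hk]
  simpa using (isIntegral_algebraMap (R := ℤ) (A := ℂ) (x := (k : ℤ)))

variable [Fintype N] {ψ : G → ℂ} (hψ : IsIrrCharacter G ψ) {θ : IrrCharacter N} (hres : ∀ n : N, ψ n = (θ : N → ℂ) n)
include hψ hres

theorem omega_mul_nElt {z : MonoidAlgebra ℂ G} (hz : IsNElt N z) (w : MonoidAlgebra ℂ G) :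
    omega ψ (z * w) = omega ψ z * omega ψ w := by
  classical
  have h1 := apply_one_ne_zero hψ
  obtain ⟨d, ρ, hρ, hc⟩ := id hψ
  have hirr : Representation.IsIrreducible (ρ.comp N.subtype : Representation ℂ N (Fin d → ℂ)) :=
    isIrreducible_of_character θ.2 (ρ := (ρ.comp N.subtype : Representation ℂ N (Fin d → ℂ))) (funext fun n => by rw [← hres, ← hc]; rfl)
  have hcomm : ∀ n : N, (∑ g, z.coeff g • ρ g) * (ρ.comp N.subtype : Representation ℂ N (Fin d → ℂ)) n =
      (ρ.comp N.subtype : Representation ℂ N (Fin d → ℂ)) n * ∑ g, z.coeff g • ρ g := by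
    intro n
    show _ * ρ n = ρ n * _
    rw [Finset.sum_mul, Finset.mul_sum]
    symm
    refine Fintype.sum_equiv (MulAut.conj (n : G)).toEquiv _ _ fun g => ?_
    show ρ n * z.coeff g • ρ g = z.coeff ((n : G) * g * (n : G)⁻¹) • ρ ((n : G) * g * (n : G)⁻¹) * ρ n
    rw [hz n n.2, mul_smul_comm, smul_mul_assoc, ← map_mul, ← map_mul, inv_mul_cancel_right]
  obtain ⟨c, hcA⟩ := schur_scalar hirr _ hcomm
  have key : ∀ y, ∑ g, z.coeff g * ψ (g * y) = c * ψ y := by
    intro y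
    have h : LinearMap.trace ℂ _ ((∑ g, z.coeff g • ρ g) * ρ y) = c * ψ y := by
      rw [hcA, smul_mul_assoc, one_mul, map_smul, smul_eq_mul, ← hc]; rfl
    rw [Finset.sum_mul, map_sum] at h
    rw [← h]
    refine Finset.sum_congr rfl fun g _ => ?_
    rw [smul_mul_assoc, map_smul, smul_eq_mul, ← map_mul, ← hc]; rfl
  have hω : omega ψ z = c := by
    have h := key 1
    simp only [mul_one] at h
    rw [omega, h, mul_div_cancel_right₀ _ h1]
  have hmul : ∑ g, (z * w).coeff g * ψ g = ∑ y, w.coeff y * ∑ g, z.coeff g * ψ (g * y) := by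
    simp only [coeff_mul_eq, Finset.sum_mul, Finset.mul_sum]
    rw [Finset.sum_comm]
    conv_rhs => rw [Finset.sum_comm]
    refine Finset.sum_congr rfl fun x _ => ?_
    rw [← Equiv.sum_comp (Equiv.mulLeft x)]
    refine Finset.sum_congr rfl fun y _ => ?_
    simp only [Equiv.coe_mulLeft, inv_mul_cancel_left]
    ring
  rw [hω, omega, omega, hmul]
  simp only [key]
  rw [mul_div_assoc']
  congr 1
  rw [Finset.mul_sum]
  exact Finset.sum_congr rfl fun y _ => by ring

theorem omega_eq_res {z : MonoidAlgebra ℂ G} (h1 : OnCoset N 1 z) : omega ψ z = omega (θ : N → ℂ) (ZStar.res N z) := by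
  classical
  have h0 : ψ 1 = (θ : N → ℂ) 1 := by rw [← hres]; rfl
  rw [ZStar.omega_res, omega, h0]
  congr 1
  rw [← Finset.sum_subset (Finset.subset_univ (Finset.univ.filter (· ∈ N))) fun g _ hg => by rw [h1 g (by simpa using hg), zero_mul],
    Finset.sum_subtype (p := (· ∈ N)) (Finset.univ.filter (· ∈ N)) (by simp) (fun g => z.coeff g * ψ g)]
  exact Finset.sum_congr rfl fun n _ => congrArg (z.coeff (n : G) * ·) (hres n)

/-- Integrality on a coset. -/
theorem isIntegral_omega {g : G} {z : MonoidAlgebra ℂ G} (hz : IsNElt N z) (hzn : ∀ x, ∃ k : ℕ, z.coeff x = k)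
    (hg : OnCoset N g z) : IsIntegral ℤ (omega ψ z) := by
  have hpow : ∀ j : ℕ, IsNElt N (z ^ (j + 1)) ∧ (∀ x, ∃ k : ℕ, (z ^ (j + 1)).coeff x = k) ∧
      OnCoset N (g ^ (j + 1)) (z ^ (j + 1)) ∧ omega ψ (z ^ (j + 1)) = omega ψ z ^ (j + 1) := by
    intro j
    induction j with
    | zero => simpa using ⟨hz, hzn, hg⟩
    | succ j ih =>
      rw [pow_succ' z, pow_succ' g, pow_succ' (omega ψ z)]
      exact ⟨isNElt_mul hz ih.1, natCoeff_mul hzn ih.2.1, onCoset_mul hg ih.2.2.1,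
        by rw [omega_mul_nElt hψ hres hz, ih.2.2.2]⟩
  obtain ⟨j, hj⟩ : ∃ j, Nat.card G = j + 1 := ⟨_, (Nat.succ_pred_eq_of_pos Nat.card_pos).symm⟩
  obtain ⟨h1, h2, h3, h4⟩ := hpow j
  rw [← hj, pow_card_eq_one', hj] at h3
  refine IsIntegral.of_pow (n := j + 1) (by omega) ?_
  rw [← h4, omega_eq_res hψ hres h3]
  exact isIntegral_omega_nat θ (fun a b => by simp only [ZStar.coeff_res]; exact h1 b b.2 a)
    fun n => by rw [ZStar.coeff_res]; exact h2 n

variable (hM : IsPModular p M) (hθ : θ ∈ principalBlock M N)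
include hM hθ

/-- On the trivial coset the central character is the augmentation. -/
theorem omega_of_onCoset_one {z : MonoidAlgebra ℂ G} (hz : IsNElt N z) (hzi : IsIntegralElt M z)
    (h1 : OnCoset N 1 z) : MemLocalIdeal M (omega ψ z - ∑ g, z.coeff g) := by
  classical
  have hsum : ∀ f : G → ℂ, ∑ g, z.coeff g * f g = ∑ n : N, z.coeff (n : G) * f n := by
    intro f
    rw [← Finset.sum_subset (Finset.subset_univ (Finset.univ.filter (· ∈ N))) fun g _ hg => ?_,
      Finset.sum_subtype (p := (· ∈ N)) (Finset.univ.filter (· ∈ N)) (by simp) (fun g => z.coeff g * f g)]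
    rw [h1 g (by simpa using hg), zero_mul]
  have h := ZStar.omega_sameBlock hM
    (sameBlock_symm (show SameBlock M ((oneChar : IrrCharacter N) : N → ℂ) (θ : N → ℂ) from hθ))
    (z := ZStar.res N z) (fun a b => by
      simp only [ZStar.coeff_res]
      exact hz b b.2 a) (fun n => by rw [ZStar.coeff_res]; exact hzi n)
  have e1 : omega (θ : N → ℂ) (ZStar.res N z) = omega ψ z := by
    have h0 : ψ 1 = (θ : N → ℂ) 1 := by rw [← hres]; rfl
    rw [ZStar.omega_res, omega, h0, hsum]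
    simp only [hres]
  have e2 : omega ((oneChar : IrrCharacter N) : N → ℂ) (ZStar.res N z) = ∑ g, z.coeff g := by
    rw [ZStar.omega_oneChar]
    simp only [ZStar.coeff_res]
    simpa using (hsum fun _ => 1).symm
  rwa [e1, e2] at h

variable (hcov : ∀ g : G, ∃ c : G, c⁻¹ * g ∈ N ∧ ¬ p ∣ Nat.card {x : G // ∃ n ∈ N, n * c * n⁻¹ = x})

/-- The orbit of a representative as an element of the group algebra. -/
noncomputable def orbElt (N : Subgroup G) (c : G) : MonoidAlgebra ℂ G := by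
  classical exact ofFun fun x => if ∃ n ∈ N, n * c * n⁻¹ = x then 1 else 0

include hcov in
/-- The scalar of a coset. -/
theorem exists_scalar : ∃ u : G → ℂ, (∀ g, MemLocalRing M (u g)) ∧
    (∀ g (z : MonoidAlgebra ℂ G), IsNElt N z → (∀ x, ∃ k : ℕ, z.coeff x = k) → OnCoset N g z →
      MemLocalIdeal M (omega ψ z - (∑ x, z.coeff x) * u g)) := by
  classical
  choose c hc hcp using hcov
  have hOc : ∀ g, IsNElt N (orbElt N (c g)) ∧ IsIntegralElt M (orbElt N (c g)) ∧ OnCoset N g (orbElt N (c g)) ∧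
      ∑ x, (orbElt N (c g)).coeff x = (Nat.card {x : G // ∃ n ∈ N, n * c g * n⁻¹ = x} : ℂ) := by
    intro g
    refine ⟨fun n hn x => ?_, fun x => ?_, fun x hx => ?_, ?_⟩
    · simp only [orbElt, coeff_ofFun]
      refine if_congr ⟨fun ⟨m, hm, he⟩ => ⟨n⁻¹ * m, N.mul_mem (N.inv_mem hn) hm, ?_⟩,
        fun ⟨m, hm, he⟩ => ⟨n * m, N.mul_mem hn hm, ?_⟩⟩ rfl rfl
      · rw [show n⁻¹ * m * c g * (n⁻¹ * m)⁻¹ = n⁻¹ * (m * c g * m⁻¹) * n by group, he]; group
      · rw [← he]; group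
    · simp only [orbElt, coeff_ofFun]
      split_ifs
      · exact memLocalRing_one hM
      · exact memLocalRing_zero hM
    · simp only [orbElt, coeff_ofFun]
      refine if_neg fun ⟨m, hm, he⟩ => hx ?_
      rw [← he, show (m * c g * m⁻¹)⁻¹ * g = (m * ((c g)⁻¹ * m⁻¹ * c g)) * ((c g)⁻¹ * g) by group]
      exact N.mul_mem (N.mul_mem hm (by simpa using hN.conj_mem _ (N.inv_mem hm) (c g)⁻¹)) (hc g)
    · simp only [orbElt, coeff_ofFun]
      rw [Finset.sum_boole, Nat.card_eq_fintype_card, Fintype.card_subtype]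
  set k : G → ℂ := fun g => (Nat.card {x : G // ∃ n ∈ N, n * c g * n⁻¹ = x} : ℂ) with hk
  have hki : ∀ g, MemLocalRing M (k g)⁻¹ := fun g => memLocalRing_natCast_inv hM (hcp g)
  have hk0 : ∀ g, k g ≠ 0 := fun g => Nat.cast_ne_zero.2 fun h => hcp g (h ▸ dvd_zero p)
  have hωr : ∀ z : MonoidAlgebra ℂ G, IsNElt N z → IsIntegralElt M z → ∀ g, OnCoset N g z →
      MemLocalIdeal M (omega ψ z * omega ψ (orbElt N (c g⁻¹)) - (∑ x, z.coeff x) * k g⁻¹) := by
    intro z hz hzi g hg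
    obtain ⟨hO1, hO2, hO3, hO4⟩ := hOc g⁻¹
    have h := omega_of_onCoset_one hψ hres hM hθ (isNElt_mul hz hO1) (hzi.mul hM hO2)
      (by simpa using onCoset_mul hg hO3)
    rwa [omega_mul_nElt hψ hres hz, aug_mul, hO4] at h
  have hint : ∀ z : MonoidAlgebra ℂ G, (∀ x, ∃ k : ℕ, z.coeff x = k) → IsIntegralElt M z := fun z hz x => by
    obtain ⟨k, hk⟩ := hz x
    rw [hk]
    exact memLocalRing_natCast hM k
  have hOn : ∀ g x, ∃ k : ℕ, (orbElt N (c g)).coeff x = k := fun g x => by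
    simp only [orbElt, coeff_ofFun]
    split_ifs
    · exact ⟨1, Nat.cast_one.symm⟩
    · exact ⟨0, Nat.cast_zero.symm⟩
  have hωint : ∀ g, MemLocalRing M (omega ψ (orbElt N (c g))) := fun g =>
    memLocalRing_of_isIntegral hM (isIntegral_omega hψ hres (hOc g).1 (hOn g) (hOc g).2.2.1)
  refine ⟨fun g => omega ψ (orbElt N (c g)) * (k g)⁻¹, fun g => memLocalRing_mul hM (hωint g) (hki g), ?_⟩
  intro g z hz hzn hg
  have hzi := hint z hzn
  obtain ⟨hO1, hO2, hO3, hO4⟩ := hOc g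
  have a := hωr z hz hzi g hg
  have b := hωr _ hO1 hO2 g hO3
  rw [hO4] at b
  -- `w_z w' ≡ aug z k'` and `w w' ≡ k k'`
  have hzω : MemLocalRing M (omega ψ z) := memLocalRing_of_isIntegral hM (isIntegral_omega hψ hres hz hzn hg)
  have hw : MemLocalRing M (omega ψ (orbElt N (c g))) := hωint g
  have e : omega ψ z - (∑ x, z.coeff x) * (omega ψ (orbElt N (c g)) * (k g)⁻¹) =
      (omega ψ (orbElt N (c g)) * ((k g)⁻¹ * (k g⁻¹)⁻¹)) *
        (omega ψ z * omega ψ (orbElt N (c g⁻¹)) - (∑ x, z.coeff x) * k g⁻¹) -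
      (omega ψ z * ((k g)⁻¹ * (k g⁻¹)⁻¹)) *
        (omega ψ (orbElt N (c g)) * omega ψ (orbElt N (c g⁻¹)) - k g * k g⁻¹) := by
    have := hk0 g
    have := hk0 g⁻¹
    field_simp
    ring
  rw [e]
  exact memLocalIdeal_sub hM (memLocalIdeal_mul_left hM (memLocalRing_mul hM hw (memLocalRing_mul hM (hki g) (hki g⁻¹))) a)
    (memLocalIdeal_mul_left hM (memLocalRing_mul hM hzω (memLocalRing_mul hM (hki g) (hki g⁻¹))) b)

include hcov in
/-- Every coset carries an element fixed by `N` with augmentation prime to `p`. -/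
theorem exists_unit_elt (g : G) : ∃ z : MonoidAlgebra ℂ G, IsNElt N z ∧ (∀ x, ∃ k : ℕ, z.coeff x = k) ∧
    OnCoset N g z ∧ ∃ k : ℕ, ¬ p ∣ k ∧ ∑ x, z.coeff x = k := by
  classical
  obtain ⟨c, hc, hcp⟩ := hcov g
  refine ⟨orbElt N c, fun n hn x => ?_, fun x => ?_, fun x hx => ?_, _, hcp, ?_⟩
  · simp only [orbElt, coeff_ofFun]
    refine if_congr ⟨fun ⟨m, hm, he⟩ => ⟨n⁻¹ * m, N.mul_mem (N.inv_mem hn) hm, ?_⟩,
      fun ⟨m, hm, he⟩ => ⟨n * m, N.mul_mem hn hm, ?_⟩⟩ rfl rfl
    · rw [show n⁻¹ * m * c * (n⁻¹ * m)⁻¹ = n⁻¹ * (m * c * m⁻¹) * n by group, he]; group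
    · rw [← he]; group
  · simp only [orbElt, coeff_ofFun]
    split_ifs
    · exact ⟨1, Nat.cast_one.symm⟩
    · exact ⟨0, Nat.cast_zero.symm⟩
  · simp only [orbElt, coeff_ofFun]
    refine if_neg fun ⟨m, hm, he⟩ => hx ?_
    rw [← he, show (m * c * m⁻¹)⁻¹ * g = (m * (c⁻¹ * m⁻¹ * c)) * (c⁻¹ * g) by group]
    exact N.mul_mem (N.mul_mem hm (by simpa using hN.conj_mem _ (N.inv_mem hm) c⁻¹)) hc
  · simp only [orbElt, coeff_ofFun]
    rw [Finset.sum_boole, Nat.card_eq_fintype_card, Fintype.card_subtype]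

include hcov in
/-- The linear twist with scalars one on all cosets. -/
theorem exists_twist : ∃ l : G →* ℂ, (∀ n ∈ N, l n = 1) ∧
    ∀ g (z : MonoidAlgebra ℂ G), IsNElt N z → (∀ x, ∃ k : ℕ, z.coeff x = k) → OnCoset N g z →
      MemLocalIdeal M (omega (fun x => l x * ψ x) z - ∑ x, z.coeff x) := by
  classical
  obtain ⟨u, hu, key⟩ := exists_scalar hψ hres hM hθ hcov
  have hunit : ∀ {k : ℕ} {x : ℂ}, ¬ p ∣ k → MemLocalIdeal M ((k : ℂ) * x) → MemLocalIdeal M x := fun {k x} hk h => by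
    have := memLocalIdeal_mul_left hM (memLocalRing_natCast_inv hM hk) h
    rwa [inv_mul_cancel_left₀ (Nat.cast_ne_zero.2 fun h0 => hk (by rw [h0]; exact dvd_zero p))] at this
  have hN1 : ∀ n ∈ N, MemLocalIdeal M (1 - u n) := fun n hn => by
    have h := key n 1 (fun m hm x => ?_) (fun x => ?_) (fun x hx => ?_)
    · rw [omega_one hψ, MonoidAlgebra.one_def] at h
      simpa [MonoidAlgebra.coeff_single, Finsupp.single_apply] using h
    · simp only [MonoidAlgebra.one_def, MonoidAlgebra.coeff_single, Finsupp.single_apply]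
      refine if_congr ⟨fun he => ?_, fun he => ?_⟩ rfl rfl
      · rw [show x = m⁻¹ * (m * x * m⁻¹) * m by group, ← he]; group
      · rw [← he]; group
    · simp only [MonoidAlgebra.one_def, MonoidAlgebra.coeff_single, Finsupp.single_apply]
      split_ifs
      · exact ⟨1, Nat.cast_one.symm⟩
      · exact ⟨0, Nat.cast_zero.symm⟩
    · simp only [MonoidAlgebra.one_def, MonoidAlgebra.coeff_single, Finsupp.single_apply]
      refine if_neg fun he => hx ?_
      rw [← he, inv_one, one_mul]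
      exact hn
  have hmul : ∀ a b, MemLocalIdeal M (u (a * b) - u a * u b) := by
    intro a b
    obtain ⟨z, hz1, hz2, hz3, i, hi, hza⟩ := exists_unit_elt hψ hres hM hθ hcov a
    obtain ⟨w, hw1, hw2, hw3, j, hj, hwa⟩ := exists_unit_elt hψ hres hM hθ hcov b
    have h12 := key (a * b) (z * w) (isNElt_mul hz1 hw1) (natCoeff_mul hz2 hw2) (onCoset_mul hz3 hw3)
    rw [omega_mul_nElt hψ hres hz1, aug_mul, hza, hwa] at h12
    have h1 := key a z hz1 hz2 hz3
    have h2 := key b w hw1 hw2 hw3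
    rw [hza] at h1
    rw [hwa] at h2
    have hωz := memLocalRing_of_isIntegral hM (isIntegral_omega hψ hres hz1 hz2 hz3)
    refine hunit hi (hunit hj ?_)
    have e : (j : ℂ) * ((i : ℂ) * (u (a * b) - u a * u b)) =
        (omega ψ z * (omega ψ w - j * u b) + ((j : ℂ) * u b) * (omega ψ z - i * u a)) -
          (omega ψ z * omega ψ w - i * j * u (a * b)) := by ring
    rw [e]
    exact memLocalIdeal_sub hM (memLocalIdeal_add hM (memLocalIdeal_mul_left hM hωz h2)
      (memLocalIdeal_mul_left hM (memLocalRing_mul hM (memLocalRing_natCast hM j) (hu b)) h1)) h12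
  have hpow : ∀ g (j : ℕ), MemLocalIdeal M (u (g ^ j) - u g ^ j) := by
    intro g j
    induction j with
    | zero => simpa using memLocalIdeal_neg (hN1 1 N.one_mem)
    | succ j ih =>
      rw [pow_succ, pow_succ]
      have e : u (g ^ j * g) - u g ^ j * u g = (u (g ^ j * g) - u (g ^ j) * u g) + u g * (u (g ^ j) - u g ^ j) := by ring
      rw [e]
      exact memLocalIdeal_add hM (hmul _ _) (memLocalIdeal_mul_left hM (hu g) ih)
  have hm0 : Nat.card G ≠ 0 := Nat.card_pos.ne'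
  have hex : ∀ g, ∃ β : ℂ, β ^ (Nat.card G / p ^ (Nat.card G).factorization p) = 1 ∧ MemLocalIdeal M (u g - β) := by
    intro g
    refine exists_coprime_root hM hm0 (hu g) ?_
    have h := hpow g (Nat.card G)
    rw [pow_card_eq_one'] at h
    have h1 := memLocalIdeal_add hM (hN1 1 N.one_mem) h
    have := memLocalIdeal_neg h1
    convert this using 1
    ring
  choose β hβ hβu using hex
  set r := Nat.card G / p ^ (Nat.card G).factorization p with hr
  have hrp : ¬ p ∣ r := Nat.not_dvd_ordCompl hM.1 hm0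
  have hr0 : 0 < r := Nat.pos_of_ne_zero fun h => hrp (h ▸ dvd_zero p)
  have hrint : ∀ g, MemLocalRing M (β g) := fun g =>
    memLocalRing_of_isIntegral hM (IsIntegral.of_pow hr0 ((hβ g).symm ▸ isIntegral_one))
  have huniq : ∀ {x y : ℂ}, x ^ r = 1 → y ^ r = 1 → MemLocalIdeal M (x - y) → x = y := fun {x y} hx hy h => by
    have hy0 : y ≠ 0 := fun h0 => by rw [h0, zero_pow hr0.ne'] at hy; exact zero_ne_one hy
    have hyi : MemLocalRing M y⁻¹ := memLocalRing_of_isIntegral hM (IsIntegral.of_pow hr0 (by rw [inv_pow, hy, inv_one]; exact isIntegral_one))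
    have h2 : x * y⁻¹ = 1 := root_eq_one_of_sub_mem hM hrp (by rw [mul_pow, hx, inv_pow, hy, inv_one, one_mul]) (by
      have := memLocalIdeal_mul_left hM hyi h
      rwa [mul_sub, mul_comm y⁻¹ x, inv_mul_cancel₀ hy0] at this)
    rw [← mul_inv_cancel_right₀ hy0 x, mul_right_comm, h2, one_mul]
  have hβmul : ∀ a b, β (a * b) = β a * β b := fun a b => huniq (hβ _) (by rw [mul_pow, hβ, hβ, one_mul]) (by
    have e : β (a * b) - β a * β b = (u (a * b) - u a * u b) - (u (a * b) - β (a * b)) + (u a * (u b - β b) + β b * (u a - β a)) := by ring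
    rw [e]
    exact memLocalIdeal_add hM (memLocalIdeal_sub hM (hmul a b) (hβu _))
      (memLocalIdeal_add hM (memLocalIdeal_mul_left hM (hu a) (hβu b)) (memLocalIdeal_mul_left hM (hrint b) (hβu a))))
  have hβN : ∀ n ∈ N, β n = 1 := fun n hn => huniq (hβ n) (one_pow r) (by
    have := memLocalIdeal_neg (memLocalIdeal_add hM (hN1 n hn) (hβu n))
    convert this using 1
    ring)
  refine ⟨⟨⟨fun g => β g⁻¹, ?_⟩, fun a b => ?_⟩, fun n hn => hβN _ (N.inv_mem hn), fun g z hz hzn hg => ?_⟩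
  · show β 1⁻¹ = 1
    rw [inv_one]; exact hβN 1 N.one_mem
  · show β (a * b)⁻¹ = β a⁻¹ * β b⁻¹
    rw [mul_inv_rev, hβmul, mul_comm]
  show MemLocalIdeal M (omega (fun x => β x⁻¹ * ψ x) z - _)
  have hcoset : ∀ x, z.coeff x * (β x⁻¹ * ψ x) = β g⁻¹ * (z.coeff x * ψ x) := by
    intro x
    by_cases hx : x⁻¹ * g ∈ N
    · have : β x⁻¹ = β g⁻¹ := by
        rw [show x⁻¹ = (x⁻¹ * g) * g⁻¹ by group, hβmul, hβN _ hx, one_mul]
      rw [this]; ring
    · rw [hg x hx]; ring
  have hω : omega (fun x => β x⁻¹ * ψ x) z = β g⁻¹ * omega ψ z := by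
    simp only [omega, inv_one, hβN 1 N.one_mem, one_mul, hcoset, ← Finset.mul_sum, mul_div_assoc]
  rw [hω]
  have hk := key g z hz hzn hg
  have haug : MemLocalRing M (∑ x, z.coeff x) := memLocalRing_sum hM _ fun x _ => by
    obtain ⟨k, hk⟩ := hzn x
    rw [hk]; exact memLocalRing_natCast hM k
  -- `β (g⁻¹) β g = 1`
  have hinv : β g⁻¹ * β g = 1 := by rw [← hβmul, inv_mul_cancel, hβN 1 N.one_mem]
  have e : β g⁻¹ * omega ψ z - ∑ x, z.coeff x =
      β g⁻¹ * (omega ψ z - (∑ x, z.coeff x) * u g) + (β g⁻¹ * ∑ x, z.coeff x) * (u g - β g) +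
        (∑ x, z.coeff x) * (β g⁻¹ * β g - 1) := by ring
  rw [e, hinv, sub_self, mul_zero, add_zero]
  exact memLocalIdeal_add hM (memLocalIdeal_mul_left hM (hrint _) hk)
    (memLocalIdeal_mul_left hM (memLocalRing_mul hM (hrint _) haug) (hβu g))

end CfsgLib.CosetScalar
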