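import Cfsg.Agent.Blocks.MaxPairs
import Cfsg.Agent.Blocks.InducedDefect
import Cfsg.Agent.Blocks.Covering
import Cfsg.Agent.Blocks.NormalPSub

/-!
# The first main theorem
-/

set_option linter.unusedSectionVars false
set_option linter.style.haveILetI false

namespace CfsgLib.Blocks

set_option maxHeartbeats 1600000

open Cfsg CfsgLib.CharBasics CfsgLib.ZStar
open scoped ComplexConjugate

universe u

variable {G : Type u} [Group G] [Fintype G] {p : ℕ} {M : Ideal AlgInt}

/-- No `p`-overgroup in the stabilizer centralizes a unit coefficient of the block. -/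
def NoExtension (p : ℕ) (M : Ideal AlgInt) (P : Subgroup G)
    (e : Set (IrrCharacter (Subgroup.centralizer (P : Set G)))) : Prop :=
  ∀ R : Subgroup G, P < R → IsPGroup p R → R ≤ Subgroup.normalizer (P : Set G) →
    (∀ x ∈ R, StabilizesBlock (Subgroup.centralizer (P : Set G)) e x) →
      ∀ v : Subgroup.centralizer (P : Set G), (v : G) ∈ Subgroup.centralizer (R : Set G) →
        MemLocalIdeal M (blockCoeff e v)

section Basic

variable (hM : IsPModular p M) {B : Set (IrrCharacter G)} {P : Subgroup G}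
  {e : Set (IrrCharacter (Subgroup.centralizer (P : Set G)))}
include hM

theorem noExtension_of_maximal (hmax : IsMaximalBrauerPair p M B P e) : NoExtension p M P e :=
  fun _ hlt hR hRN hst _ hv => blockCoeff_mem_of_maximal hM hmax hR hlt hRN hst hv

/-- The first proper step of a chain. -/
theorem chain_head (a b : BrauerPairIdx G) (h : Relation.ReflTransGen (NormalSubpairRel p M) a b)
    (hne : a.1 ≠ b.1) : ∃ c : BrauerPairIdx G, NormalSubpairRel p M a c ∧ a.1 < c.1 := by
  induction h using Relation.ReflTransGen.head_induction_on with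
  | refl => exact absurd rfl hne
  | @head a c hac hcb ih =>
    rcases lt_or_eq_of_le hac.2.2.1 with hlt | heq
    · exact ⟨c, hac, hlt⟩
    · obtain ⟨R, g⟩ := a
      obtain ⟨S, k⟩ := c
      change R = S at heq
      subst heq
      obtain rfl := eq_of_normalSubpair_self hM hac
      exact ih hne

theorem isMaximal_of_noExtension (h : IsBrauerPairOf p M B P e) (hno : NoExtension p M P e) :
    IsMaximalBrauerPair p M B P e := by
  classical
  refine ⟨h, fun R g _ hle => ?_⟩
  by_contra hne
  obtain ⟨⟨S, k⟩, hs, hlt⟩ := chain_head hM _ _ hle (Ne.symm hne)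
  haveI := Fintype.ofFinite (Subgroup.centralizer (P : Set G))
  haveI := Fintype.ofFinite (Subgroup.centralizer (S : Set G))
  obtain ⟨ξ, hξ⟩ := IsPBlock.nonempty hM hs.2.1.2
  have hCK : Subgroup.centralizer (S : Set G) ≤ Subgroup.centralizer (P : Set G) :=
    Subgroup.centralizer_le (SetLike.coe_subset_coe.2 hs.2.2.1)
  obtain ⟨-, hst, h1⟩ := (isNormalSubpair_iff hM hs.2.1.1 hs.2.2.1 hs.2.2.2.1 hs.2.1.2 hξ).1 hs
  have h2 : MemLocalIdeal M (phi S (Subgroup.centralizer (P : Set G)) ξ (blockElt e)) :=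
    memLocalIdeal_omega hM ξ (isClassElt_res_extElt hCK (isClassElt_blockElt e)) fun c => by
      rw [coeff_res, coeff_extElt_mem _ _ (hCK c.2), coeff_blockElt]
      exact hno S hlt hs.2.1.1 hs.2.2.2.1 hst ⟨c, hCK c.2⟩ c.2
  exact not_memLocalIdeal_one hM (by simpa using memLocalIdeal_sub hM h2 h1)

/-- A unit coefficient in the centralizer gives a pair of the block. -/
theorem exists_pair_of_unit_coeff (hP : IsPGroup p P) (hB : IsPBlock M B) {w : G}
    (hw : w ∈ Subgroup.centralizer (P : Set G)) (hwu : ¬ MemLocalIdeal M (blockCoeff B w)) :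
    ∃ e, IsBrauerPairOf p M B P e := by
  classical
  haveI := Fintype.ofFinite (Subgroup.centralizer (P : Set G))
  obtain ⟨ξ, hξ⟩ : ∃ ξ : IrrCharacter (Subgroup.centralizer (P : Set G)),
      ¬ MemLocalIdeal M (omega (ξ : _ → ℂ) (res (Subgroup.centralizer (P : Set G)) (blockElt B))) := by
    by_contra hcon
    push Not at hcon
    have hec := isClassElt_blockElt B
    obtain ⟨N, hN0, hN⟩ := exists_pow_isSmall hM (isClassElt_res hec (Subgroup.centralizer (P : Set G))) hcon
    obtain ⟨n, rfl⟩ : ∃ n, N = n + 1 := ⟨N - 1, by omega⟩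
    have h := res_pow_congr hM hP (fun g => Subgroup.mem_centralizer_iff) (isIntegralElt_blockElt hM hB)
      (IsClassElt.conjInv hec P) (n + 1) ⟨w, hw⟩
    rw [(isIdempotentElem_blockElt B).pow_succ_eq n, coeff_res, coeff_blockElt] at h
    exact hwu (by simpa using memLocalIdeal_add hM h (hN ⟨w, hw⟩))
  exact ⟨blockOf M (ξ : _ → ℂ), (isBrauerPairOf_iff hM hP hB (isPBlock_blockOf M ξ) (mem_blockOf_self hM ξ)).2
    ((omega_res_blockElt_zero_or_one hM hP hB ξ).resolve_left hξ)⟩

/-- A defect group carries a maximal pair. -/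
theorem exists_maximal_on_defect (hB : IsPBlock M B) (hD : IsDefectGroup p M B P) :
    ∃ e, IsMaximalBrauerPair p M B P e := by
  haveI := Fact.mk hM.1
  have hcard := card_defectGroup hM hB hD
  have hP : IsPGroup p P := IsPGroup.of_card hcard
  obtain ⟨g, hg, S, hS⟩ := id hD
  have hgC : g ∈ Subgroup.centralizer (P : Set G) := Subgroup.mem_centralizer_iff.2 fun q hq => by
    rw [SetLike.mem_coe, hS] at hq
    exact Subgroup.mem_centralizer_singleton_iff.1 (Subgroup.map_subtype_le _ hq)
  obtain ⟨e, he⟩ := exists_pair_of_unit_coeff hM hP hB hgC hg.2.1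
  obtain ⟨R, k, hk, hle⟩ := exists_maximal_above hM he
  have hPR : P = R := Subgroup.eq_of_le_of_card_ge (subpairLE_le hM hle)
    (by rw [card_defectGroup hM hB (maximal_key hM hk).2, hcard])
  refine ⟨e, he, fun R' g' hg' hle' => ?_⟩
  obtain ⟨R'', k', hk', hle''⟩ := exists_maximal_above hM hg'
  refine (Subgroup.eq_of_le_of_card_ge (subpairLE_le hM hle') ?_).symm
  calc Nat.card R' ≤ Nat.card R'' :=
        Subgroup.card_le_of_le (subpairLE_le hM hle'')
    _ = Nat.card P := by rw [card_defectGroup hM hB (maximal_key hM hk').2, hcard]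

/-- Conjugate pairs on the same group are pairs of the block. -/
theorem isBrauerPairOf_of_mem_orbit (h : IsBrauerPairOf p M B P e)
    {f : Set (IrrCharacter (Subgroup.centralizer (P : Set G)))} (hf : f ∈ orbitFinset M P e) :
    IsBrauerPairOf p M B P f := by
  obtain ⟨x, hx, rfl⟩ := (mem_orbitFinset h.1.2).1 hf
  have hmap : P.map (MulAut.conj x).toMonoidHom = P := by
    refine Subgroup.ext fun y => ?_
    rw [symm_mem_of_map (MulAut.conj x) rfl, MulAut.conj_symm_apply]
    have := Subgroup.mem_normalizer_iff.1 (inv_mem hx) y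
    rw [inv_inv] at this
    exact this.symm
  have h2 := isBrauerPairOf_push (MulAut.conj x) hmap h
  rw [pushBlock_conj] at h2
  convert h2 using 2
  exact MulEquiv.ext fun k => Subtype.ext (by simp [coe_conjK, coe_centEquiv])

theorem isClassElt_sum_blockElt {A : Type*} [Group A] [Fintype A] (s : Finset (Set (IrrCharacter A))) :
    IsClassElt (∑ f ∈ s, blockElt f : MonoidAlgebra ℂ A) := by
  intro g k
  simp only [MonoidAlgebra.coeff_sum, Finsupp.finsetSum_apply]
  exact Finset.sum_congr rfl fun f' _ => isClassElt_blockElt f' g k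

/-- The Brauer image of a block at a defect group is the orbit sum. -/
theorem blockCoeff_congr_orbitSum (hmax : IsMaximalBrauerPair p M B P e)
    (c : Subgroup.centralizer (P : Set G)) : MemLocalIdeal M (blockCoeff B c - orbitSum M P e c) := by
  classical
  haveI := Fintype.ofFinite (Subgroup.centralizer (P : Set G))
  have he := hmax.1.1.2
  have hP := hmax.1.1.1
  have hB := hmax.1.2.1
  have hmem : ∀ g, g ∈ Subgroup.centralizer (P : Set G) ↔ ∀ q ∈ P, q * g = g * q :=
    fun g => Subgroup.mem_centralizer_iff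
  have hec := isClassElt_blockElt B
  have hei := isIntegralElt_blockElt hM hB
  obtain ⟨w, hw⟩ : ∃ w : MonoidAlgebra ℂ (Subgroup.centralizer (P : Set G)),
      w = ∑ f ∈ orbitFinset M P e, blockElt f := ⟨_, rfl⟩
  have hwc : IsClassElt w := hw ▸ isClassElt_sum_blockElt hM _
  have hwcoeff : ∀ k, w.coeff k = orbitSum M P e k := fun k => by
    simp [hw, orbitSum, MonoidAlgebra.coeff_sum, Finsupp.finsetSum_apply, coeff_blockElt]
  have hwi : IsIntegralElt M w := fun k => by
    rw [hwcoeff]
    exact memLocalRing_sum hM _ fun f hf => by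
      obtain ⟨x, hx, hxe⟩ := (mem_orbitFinset he).1 hf
      exact memLocalRing_blockCoeff hM (hxe ▸ isPBlock_pushBlock _ he) _
  have hwω : ∀ ξ : IrrCharacter (Subgroup.centralizer (P : Set G)), omega (ξ : _ → ℂ) w =
      if blockOf M (ξ : _ → ℂ) ∈ orbitFinset M P e then 1 else 0 := fun ξ => by
    rw [hw]; exact omega_orbitSum hM he (isPBlock_blockOf M ξ) (mem_blockOf_self hM ξ)
  have hwid : IsIdempotentElem w := eq_of_omega_eq (hwc.mul hwc) hwc fun ξ => by
    rw [omega_mul ξ.2 hwc, hwω]
    split_ifs <;> simp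
  have h1w : IsClassElt (1 - w) := isClassElt_one.sub hwc
  have hz : ∀ ξ : IrrCharacter (Subgroup.centralizer (P : Set G)),
      MemLocalIdeal M (omega (ξ : _ → ℂ) (res (Subgroup.centralizer (P : Set G)) (blockElt B)) - omega (ξ : _ → ℂ) w) := by
    intro ξ
    rw [hwω]
    split_ifs with hξ
    · exact (isBrauerPairOf_iff hM hP hB (isPBlock_blockOf M ξ) (mem_blockOf_self hM ξ)).1
        (isBrauerPairOf_of_mem_orbit hM hmax.1 hξ)
    · rw [sub_zero]
      refine (omega_res_blockElt_zero_or_one hM hP hB ξ).resolve_right fun h1 => hξ ?_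
      exact (maximal_key hM hmax).1 _ ((isBrauerPairOf_iff hM hP hB (isPBlock_blockOf M ξ) (mem_blockOf_self hM ξ)).2 h1)
  have hwR : ∀ ξ : IrrCharacter (Subgroup.centralizer (P : Set G)), MemLocalRing M (omega (ξ : _ → ℂ) w) :=
    fun ξ => memLocalRing_omega hM ξ hwc hwi
  have s1 : IsSmall M (res (Subgroup.centralizer (P : Set G)) (blockElt B) * (1 - w)) := by
    refine isSmall_res_mul hM hP hmem (isIdempotentElem_blockElt B) hec hei hwid.one_sub h1w
      ((isIntegralElt_one hM).sub hM hwi) fun ξ => ?_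
    rw [omega_sub, omega_one ξ.2, hwω]
    split_ifs with hξ
    · rw [sub_self, mul_zero]; exact memLocalIdeal_zero hM
    · rw [sub_zero, mul_one]
      have := hz ξ
      rwa [hwω, if_neg hξ, sub_zero] at this
  have s2 : IsSmall M (res (Subgroup.centralizer (P : Set G)) (1 - blockElt B) * w) := by
    refine isSmall_res_mul hM hP hmem (isIdempotentElem_blockElt B).one_sub (isClassElt_one.sub hec)
      ((isIntegralElt_one hM).sub hM hei) hwid hwc hwi fun ξ => ?_
    rw [res_sub, res_one, omega_sub, omega_one ξ.2, hwω]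
    split_ifs with hξ
    · rw [mul_one]
      have := memLocalIdeal_neg (hz ξ)
      rwa [hwω, if_pos hξ, neg_sub] at this
    · rw [mul_zero]; exact memLocalIdeal_zero hM
  have key : res (Subgroup.centralizer (P : Set G)) (blockElt B) - w =
      res (Subgroup.centralizer (P : Set G)) (blockElt B) * (1 - w) -
        res (Subgroup.centralizer (P : Set G)) (1 - blockElt B) * w := by
    rw [res_sub, res_one, mul_sub, mul_one, sub_mul, one_mul]
    abel
  have hk := congrArg (fun z : MonoidAlgebra ℂ (Subgroup.centralizer (P : Set G)) => z.coeff c) key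
  simp only [MonoidAlgebra.coeff_sub, Finsupp.sub_apply, coeff_res, coeff_blockElt] at hk
  rw [hwcoeff] at hk
  rw [hk]
  exact memLocalIdeal_sub hM (s1 c) (s2 c)

/-- Blocks congruent on the centralizer share their pairs. -/
theorem eq_of_coeff_congr {B' : Set (IrrCharacter G)} (h : IsBrauerPairOf p M B P e) (hB' : IsPBlock M B')
    (hc : ∀ c : Subgroup.centralizer (P : Set G), MemLocalIdeal M (blockCoeff B c - blockCoeff B' c)) :
    B' = B := by
  classical
  haveI := Fintype.ofFinite (Subgroup.centralizer (P : Set G))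
  obtain ⟨ξ, hξ⟩ := IsPBlock.nonempty hM h.1.2
  have h1 := (isBrauerPairOf_iff hM h.1.1 h.2.1 h.1.2 hξ).1 h
  have h2 : MemLocalIdeal M (omega (ξ : _ → ℂ) (res (Subgroup.centralizer (P : Set G)) (blockElt B)) -
      omega (ξ : _ → ℂ) (res (Subgroup.centralizer (P : Set G)) (blockElt B'))) :=
    omega_congr hM ξ (isClassElt_res (isClassElt_blockElt B) _) (isClassElt_res (isClassElt_blockElt B') _)
      fun c => by simp only [coeff_res, coeff_blockElt]; exact hc c
  refine (existsUnique_brauerPairOf hM h.1).unique ((isBrauerPairOf_iff hM h.1.1 hB' h.1.2 hξ).2 ?_) h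
  have := memLocalIdeal_sub hM h1 h2
  rwa [sub_sub_sub_cancel_left] at this

end Basic

section Local

variable {P H : Subgroup G} [Fintype H]

/-- The centralizer inside a subgroup containing it. -/
def inclEquiv (hPH : P ≤ H) (hCH : Subgroup.centralizer (P : Set G) ≤ H) :
    Subgroup.centralizer ((P.subgroupOf H : Subgroup H) : Set H) ≃* Subgroup.centralizer (P : Set G) where
  toFun c := ⟨((c : H) : G), Subgroup.mem_centralizer_iff.2 fun q hq =>
    congrArg Subtype.val (Subgroup.mem_centralizer_iff.1 c.2 ⟨q, hPH hq⟩ hq)⟩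
  invFun c := ⟨⟨c, hCH c.2⟩, Subgroup.mem_centralizer_iff.2 fun q hq =>
    Subtype.ext (Subgroup.mem_centralizer_iff.1 c.2 q hq)⟩
  left_inv _ := rfl
  right_inv _ := rfl
  map_mul' _ _ := rfl

theorem coe_inclEquiv (hPH : P ≤ H) (hCH : Subgroup.centralizer (P : Set G) ≤ H)
    (c : Subgroup.centralizer ((P.subgroupOf H : Subgroup H) : Set H)) : (inclEquiv hPH hCH c : G) = ((c : H) : G) :=
  rfl

theorem mem_normalizer_subgroupOf (hPH : P ≤ H) (x : H) :
    x ∈ Subgroup.normalizer ((P.subgroupOf H : Subgroup H) : Set H) ↔ (x : G) ∈ Subgroup.normalizer (P : Set G) := by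
  simp only [Subgroup.mem_normalizer_iff, SetLike.mem_coe, Subgroup.mem_subgroupOf]
  constructor
  · intro h y
    constructor
    · exact fun hy => (h ⟨y, hPH hy⟩).1 hy
    · intro hy
      have hyH : y ∈ H := by
        have := mul_mem (mul_mem (inv_mem x.2) (hPH hy)) x.2
        simpa [mul_assoc] using this
      exact (h ⟨y, hyH⟩).2 hy
  · exact fun h y => h y

theorem stabilizesBlock_incl_iff (hPH : P ≤ H) (hCH : Subgroup.centralizer (P : Set G) ≤ H)
    {e : Set (IrrCharacter (Subgroup.centralizer ((P.subgroupOf H : Subgroup H) : Set H)))} {x : H}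
    (hx : (x : G) ∈ Subgroup.normalizer (P : Set G)) :
    StabilizesBlock (Subgroup.centralizer (P : Set G)) (pushBlock (inclEquiv hPH hCH) e) (x : G) ↔
      StabilizesBlock (Subgroup.centralizer ((P.subgroupOf H : Subgroup H) : Set H)) e x := by
  have hx' := (mem_normalizer_subgroupOf hPH x).2 hx
  rw [stabilizesBlock_iff, stabilizesBlock_iff]
  have key : pushBlock (conjK (le_normalizer_centralizer P hx)) (pushBlock (inclEquiv hPH hCH) e) =
      pushBlock (inclEquiv hPH hCH) (pushBlock (conjK (le_normalizer_centralizer (P.subgroupOf H) hx')) e) := by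
    rw [← pushBlock_trans, ← pushBlock_trans]
    congr 1
  constructor
  · rintro ⟨_, h⟩
    exact ⟨le_normalizer_centralizer _ hx', Set.image_injective.2 (pushChar_injective _) (key.symm.trans h)⟩
  · rintro ⟨_, h⟩
    exact ⟨le_normalizer_centralizer _ hx, key.trans (congrArg (pushBlock (inclEquiv hPH hCH)) h)⟩

theorem noExtension_incl_iff (hPH : P ≤ H) (hNH : Subgroup.normalizer (P : Set G) ≤ H)
    (hCH : Subgroup.centralizer (P : Set G) ≤ H)
    (e : Set (IrrCharacter (Subgroup.centralizer ((P.subgroupOf H : Subgroup H) : Set H)))) :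
    NoExtension p M P (pushBlock (inclEquiv hPH hCH) e) ↔ NoExtension p M (P.subgroupOf H) e := by
  constructor
  · intro h R hlt hR hRN hst v hv
    have hmapP : (P.subgroupOf H).map H.subtype = P := Subgroup.map_subgroupOf_eq_of_le hPH
    have hlt' : P < R.map H.subtype := by
      rw [← hmapP]
      exact Subgroup.map_lt_map_iff_of_injective H.subtype_injective |>.2 hlt
    have hRN' : R.map H.subtype ≤ Subgroup.normalizer (P : Set G) := by
      rintro _ ⟨r, hr, rfl⟩
      exact (mem_normalizer_subgroupOf hPH r).1 (hRN hr)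
    have := h (R.map H.subtype) hlt' (hR.map _) hRN' (by
        rintro _ ⟨r, hr, rfl⟩
        exact (stabilizesBlock_incl_iff hPH hCH (hRN' ⟨r, hr, rfl⟩)).2 (hst r hr))
      (inclEquiv hPH hCH v) (Subgroup.mem_centralizer_iff.2 (by
        rintro _ ⟨r, hr, rfl⟩
        exact congrArg Subtype.val (Subgroup.mem_centralizer_iff.1 hv r hr)))
    rwa [blockCoeff_pushBlock] at this
  · intro h R hlt hR hRN hst v hv
    have hRH : R ≤ H := hRN.trans hNH
    obtain ⟨v, rfl⟩ := (inclEquiv hPH hCH).surjective v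
    rw [blockCoeff_pushBlock]
    refine h (R.subgroupOf H) ?_ (hR.of_equiv (Subgroup.subgroupOfEquivOfLe hRH).symm) ?_ ?_ v ?_
    · obtain ⟨r, hr, hrn⟩ := SetLike.exists_of_lt hlt
      exact SetLike.lt_iff_le_and_exists.2 ⟨fun q hq => hlt.le hq, ⟨r, hRH hr⟩, hr, hrn⟩
    · exact fun r hr => (mem_normalizer_subgroupOf hPH r).2 (hRN hr)
    · exact fun r hr => (stabilizesBlock_incl_iff hPH hCH (hRN hr)).1 (hst r hr)
    · exact Subgroup.mem_centralizer_iff.2 fun r hr => Subtype.ext (Subgroup.mem_centralizer_iff.1 hv r hr)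

theorem orbitSum_incl (hM : IsPModular p M) (hPH : P ≤ H) (hNH : Subgroup.normalizer (P : Set G) ≤ H)
    (hCH : Subgroup.centralizer (P : Set G) ≤ H)
    {e : Set (IrrCharacter (Subgroup.centralizer ((P.subgroupOf H : Subgroup H) : Set H)))} (he : IsPBlock M e)
    (c : Subgroup.centralizer ((P.subgroupOf H : Subgroup H) : Set H)) :
    orbitSum M P (pushBlock (inclEquiv hPH hCH) e) (inclEquiv hPH hCH c) = orbitSum M (P.subgroupOf H) e c := by
  classical
  have he' := isPBlock_pushBlock (inclEquiv hPH hCH) he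
  refine (Finset.sum_bij (fun f _ => pushBlock (inclEquiv hPH hCH) f) (fun f hf => ?_)
    (fun f _ f' _ h => Set.image_injective.2 (pushChar_injective _) h) (fun f hf => ?_)
    (fun f _ => (blockCoeff_pushBlock _ f c).symm)).symm
  · obtain ⟨x, hx, rfl⟩ := (mem_orbitFinset he).1 hf
    refine (mem_orbitFinset he').2 ⟨(x : G), (mem_normalizer_subgroupOf hPH x).1 hx, ?_⟩
    rw [← pushBlock_trans, ← pushBlock_trans]
    congr 1
  · obtain ⟨x, hx, rfl⟩ := (mem_orbitFinset he').1 hf
    have hx' : (⟨x, hNH hx⟩ : H) ∈ Subgroup.normalizer ((P.subgroupOf H : Subgroup H) : Set H) :=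
      (mem_normalizer_subgroupOf hPH _).2 hx
    refine ⟨_, (mem_orbitFinset he).2 ⟨⟨x, hNH hx⟩, hx', rfl⟩, ?_⟩
    rw [← pushBlock_trans, ← pushBlock_trans]
    congr 1

theorem subgroupBlockCoeff_coe (c : Set (IrrCharacter H)) (h : H) : subgroupBlockCoeff H c (h : G) = blockCoeff c h := by
  simp [subgroupBlockCoeff]

/-- The local block of a block with defect group `P`. -/
theorem exists_local_block (hM : IsPModular p M) (hPH : P ≤ H) (hNH : Subgroup.normalizer (P : Set G) ≤ H)
    {B : Set (IrrCharacter G)} (hB : IsPBlock M B) (hD : IsDefectGroup p M B P) :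
    ∃ c : Set (IrrCharacter H), IsPBlock M c ∧ IsDefectGroup p M c (P.subgroupOf H) ∧
      ∀ x ∈ Subgroup.centralizer (P : Set G), MemLocalIdeal M (blockCoeff B x - subgroupBlockCoeff H c x) := by
  classical
  have hCH : Subgroup.centralizer (P : Set G) ≤ H := (Subgroup.centralizer_le_normalizer (s := (P : Set G))).trans hNH
  obtain ⟨e, hmax⟩ := exists_maximal_on_defect hM hB hD
  set φ := inclEquiv hPH hCH with hφ
  obtain ⟨e', rfl⟩ : ∃ e', pushBlock φ e' = e :=
    ⟨pushBlock φ.symm e, by rw [← pushBlock_trans, MulEquiv.symm_trans_self, pushBlock_refl]⟩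
  have he' : IsPBlock M e' := by
    have h := isPBlock_pushBlock φ.symm hmax.1.1.2
    rwa [← pushBlock_trans, MulEquiv.self_trans_symm, pushBlock_refl] at h
  have hP' : IsPGroup p (P.subgroupOf H) :=
    hmax.1.1.1.of_equiv (Subgroup.subgroupOfEquivOfLe hPH).symm
  obtain ⟨c, hc, -⟩ := existsUnique_brauerPairOf hM (P := P.subgroupOf H) ⟨hP', he'⟩
  have hcmax := isMaximal_of_noExtension hM hc
    ((noExtension_incl_iff hPH hNH hCH e').1 (noExtension_of_maximal hM hmax))
  refine ⟨c, hc.2.1, (maximal_key hM hcmax).2, fun x hx => ?_⟩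
  obtain ⟨v, hv⟩ := φ.surjective ⟨x, hx⟩
  have hxv : x = ((v : H) : G) := by rw [← coe_inclEquiv hPH hCH v, ← hφ, hv]
  have h1 := blockCoeff_congr_orbitSum hM hmax (φ v)
  rw [orbitSum_incl hM hPH hNH hCH he'] at h1
  have h2 := blockCoeff_congr_orbitSum hM hcmax v
  have h3 := memLocalIdeal_sub hM h1 h2
  rw [sub_sub_sub_cancel_right] at h3
  rw [hxv, subgroupBlockCoeff_coe]
  exact h3

/-- The global block of a local block with defect group `P`. -/
theorem exists_global_block (hM : IsPModular p M) (hPH : P ≤ H) (hNH : Subgroup.normalizer (P : Set G) ≤ H)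
    {c : Set (IrrCharacter H)} (hc : IsPBlock M c) (hD : IsDefectGroup p M c (P.subgroupOf H)) :
    ∃ B : Set (IrrCharacter G), IsPBlock M B ∧ IsDefectGroup p M B P ∧
      ∀ x ∈ Subgroup.centralizer (P : Set G), MemLocalIdeal M (blockCoeff B x - subgroupBlockCoeff H c x) := by
  classical
  have hCH : Subgroup.centralizer (P : Set G) ≤ H := (Subgroup.centralizer_le_normalizer (s := (P : Set G))).trans hNH
  obtain ⟨e', hcmax⟩ := exists_maximal_on_defect hM hc hD
  have he' := hcmax.1.1.2
  set φ := inclEquiv hPH hCH with hφ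
  have hP : IsPGroup p P := hcmax.1.1.1.of_equiv (Subgroup.subgroupOfEquivOfLe hPH)
  obtain ⟨B, hB, -⟩ := existsUnique_brauerPairOf hM (P := P) ⟨hP, isPBlock_pushBlock φ he'⟩
  have hmax := isMaximal_of_noExtension hM hB
    ((noExtension_incl_iff hPH hNH hCH e').2 (noExtension_of_maximal hM hcmax))
  refine ⟨B, hB.2.1, (maximal_key hM hmax).2, fun x hx => ?_⟩
  obtain ⟨v, hv⟩ := φ.surjective ⟨x, hx⟩
  have hxv : x = ((v : H) : G) := by rw [← coe_inclEquiv hPH hCH v, ← hφ, hv]
  have h1 := blockCoeff_congr_orbitSum hM hmax (φ v)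
  rw [orbitSum_incl hM hPH hNH hCH he'] at h1
  have h2 := blockCoeff_congr_orbitSum hM hcmax v
  have h3 := memLocalIdeal_sub hM h1 h2
  rw [sub_sub_sub_cancel_right] at h3
  rw [hxv, subgroupBlockCoeff_coe]
  exact h3

/-- The block correspondence for a subgroup containing the normalizer. -/
theorem first_main (hM : IsPModular p M) (hP : IsPGroup p P) (hNH : Subgroup.normalizer (P : Set G) ≤ H) :
    (∀ B : Set (IrrCharacter G), IsPBlock M B → IsDefectGroup p M B P →
      ∃! c : Set (IrrCharacter H), IsPBlock M c ∧ IsDefectGroup p M c (P.subgroupOf H) ∧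
        ∀ x, x ∈ Subgroup.centralizer (P : Set G) → MemLocalIdeal M (blockCoeff B x - subgroupBlockCoeff H c x)) ∧
    (∀ c : Set (IrrCharacter H), IsPBlock M c → IsDefectGroup p M c (P.subgroupOf H) →
      ∃! B : Set (IrrCharacter G), IsPBlock M B ∧ IsDefectGroup p M B P ∧
        ∀ x, x ∈ Subgroup.centralizer (P : Set G) → MemLocalIdeal M (blockCoeff B x - subgroupBlockCoeff H c x)) := by
  have hPH : P ≤ H := Subgroup.le_normalizer.trans hNH
  refine ⟨fun B hB hD => ?_, fun c hc hD => ?_⟩
  · obtain ⟨c, hc, hcD, hcc⟩ := exists_local_block hM hPH hNH hB hD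
    refine ⟨c, ⟨hc, hcD, hcc⟩, fun c' ⟨hc', _, hcc'⟩ => ?_⟩
    obtain ⟨e, he⟩ := exists_maximal_on_defect hM hc hcD
    refine eq_of_coeff_congr hM he.1 hc' fun v => ?_
    have hv : ((v : H) : G) ∈ Subgroup.centralizer (P : Set G) := Subgroup.mem_centralizer_iff.2 fun q hq =>
      congrArg Subtype.val (Subgroup.mem_centralizer_iff.1 v.2 ⟨q, hPH hq⟩ hq)
    have h := memLocalIdeal_sub hM (hcc' _ hv) (hcc _ hv)
    rw [sub_sub_sub_cancel_left, subgroupBlockCoeff_coe, subgroupBlockCoeff_coe] at h
    exact h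
  · obtain ⟨B, hB, hBD, hBc⟩ := exists_global_block hM hPH hNH hc hD
    refine ⟨B, ⟨hB, hBD, hBc⟩, fun B' ⟨hB', _, hBc'⟩ => ?_⟩
    obtain ⟨e, he⟩ := exists_maximal_on_defect hM hB hBD
    refine eq_of_coeff_congr hM he.1 hB' fun v => ?_
    have h := memLocalIdeal_sub hM (hBc _ v.2) (hBc' _ v.2)
    rwa [sub_sub_sub_cancel_right] at h

/-- Congruence on the centralizer gives induction from the normalizer. -/
theorem isInducedBlock_of_coeff_congr (hM : IsPModular p M) (hP : IsPGroup p P)
    (hH : H = Subgroup.normalizer (P : Set G)) {b : Set (IrrCharacter H)} (hb : IsPBlock M b)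
    {B : Set (IrrCharacter G)} (hB : IsPBlock M B)
    (hc : ∀ x ∈ Subgroup.centralizer (P : Set G), MemLocalIdeal M (blockCoeff B x - subgroupBlockCoeff H b x)) :
    IsInducedBlock M H b B := by
  classical
  haveI := Fintype.ofFinite (Subgroup.centralizer (P : Set G))
  haveI : Fintype (ConjClasses H) := Fintype.ofFinite _
  have hPH : P ≤ H := hH ▸ Subgroup.le_normalizer
  have hCH : Subgroup.centralizer (P : Set G) ≤ H := hH ▸ Subgroup.centralizer_le_normalizer (s := (P : Set G))
  haveI : (P.subgroupOf H).Normal := (Subgroup.normal_subgroupOf_iff_le_normalizer hPH).2 hH.le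
  haveI := Fintype.ofFinite (P.subgroupOf H)
  haveI := Fintype.ofFinite (Subgroup.centralizer ((P.subgroupOf H : Subgroup H) : Set H))
  have hQ : IsPGroup p (P.subgroupOf H) := hP.of_equiv (Subgroup.subgroupOfEquivOfLe hPH).symm
  refine ⟨hb, hB, fun η hη χ hχ g => ?_⟩
  obtain ⟨θ, hθ⟩ := exists_constituent_restrict (Subgroup.centralizer ((P.subgroupOf H : Subgroup H) : Set H)) η
  have hHC : ∀ z : MonoidAlgebra ℂ H, IsClassElt z → IsIntegralElt M z →
      MemLocalIdeal M (omega (η : H → ℂ) z -
        omega (θ : _ → ℂ) (res (Subgroup.centralizer ((P.subgroupOf H : Subgroup H) : Set H)) z)) := by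
    intro z hz hzi
    obtain ⟨r, hr⟩ : ∃ r : MonoidAlgebra ℂ H, r = ofFun fun h : H =>
        if h ∈ Subgroup.centralizer ((P.subgroupOf H : Subgroup H) : Set H) then z.coeff h else 0 := ⟨_, rfl⟩
    have hrc : IsClassElt r := by
      intro x h
      simp only [hr, coeff_ofFun]
      have hn := (inferInstance : (Subgroup.centralizer ((P.subgroupOf H : Subgroup H) : Set H)).Normal)
      exact if_congr ⟨fun k => by simpa [mul_assoc] using hn.conj_mem _ k h⁻¹, fun k => hn.conj_mem _ k h⟩
        (coeff_conj hz x h) rfl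
    have h1 : MemLocalIdeal M (omega (η : H → ℂ) z - omega (η : H → ℂ) r) := by
      rw [← omega_sub, omega_eq_sum_classes η (hz.sub hrc)]
      refine memLocalIdeal_sum hM _ fun K _ => ?_
      simp only [MonoidAlgebra.coeff_sub, Finsupp.sub_apply, hr, coeff_ofFun]
      split_ifs with hK
      · rw [sub_self, zero_mul]; exact memLocalIdeal_zero hM
      · rw [sub_zero]
        exact memLocalIdeal_mul_left hM (hzi _) (centralChar_mem_of_notMem_centralizer hM (P.subgroupOf H) hQ η hK)
    rw [omega_eq_res_constituent hrc (fun h hh => by simp only [hr, coeff_ofFun]; exact if_neg hh) η θ hθ] at h1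
    have hres : res (Subgroup.centralizer ((P.subgroupOf H : Subgroup H) : Set H)) r =
        res (Subgroup.centralizer ((P.subgroupOf H : Subgroup H) : Set H)) z := by
      ext k
      rw [coeff_res, coeff_res, hr, coeff_ofFun, if_pos k.2]
    rwa [hres] at h1
  set φ := inclEquiv hPH hCH with hφ
  have hpush : ∀ z : MonoidAlgebra ℂ G,
      omega (θ : _ → ℂ) (res (Subgroup.centralizer ((P.subgroupOf H : Subgroup H) : Set H)) (res H z)) =
        omega (pushChar φ θ : _ → ℂ) (res (Subgroup.centralizer (P : Set G)) z) := by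
    intro z
    simp only [omega, coeff_res, pushChar_apply, map_one]
    congr 1
    refine Fintype.sum_equiv φ.toEquiv _ _ fun k => ?_
    show _ = z.coeff ((φ k : G)) * (θ : _ → ℂ) (φ.symm (φ k))
    rw [MulEquiv.symm_apply_apply]
    rfl
  set θ' := pushChar φ θ with hθ'
  have h1 : MemLocalIdeal M (omega (θ' : _ → ℂ) (res (Subgroup.centralizer (P : Set G)) (blockElt B)) - 1) := by
    rw [hθ', ← hpush]
    have h2 := hHC (blockElt b) (isClassElt_blockElt b) (isIntegralElt_blockElt hM hb)
    rw [omega_blockElt, if_pos hη] at h2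
    have h3 : MemLocalIdeal M
        (omega (θ : _ → ℂ) (res (Subgroup.centralizer ((P.subgroupOf H : Subgroup H) : Set H)) (res H (blockElt B))) -
          omega (θ : _ → ℂ) (res (Subgroup.centralizer ((P.subgroupOf H : Subgroup H) : Set H)) (blockElt b))) :=
      omega_congr hM θ (isClassElt_res (isClassElt_res (isClassElt_blockElt B) H) _)
        (isClassElt_res (isClassElt_blockElt b) _) fun k => by
          rw [coeff_res, coeff_res, coeff_res, coeff_blockElt, coeff_blockElt]
          have := hc _ (inclEquiv hPH hCH k).2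
          rwa [coe_inclEquiv, subgroupBlockCoeff_coe] at this
    have := memLocalIdeal_sub hM h3 h2
    rwa [show ∀ a b : ℂ, (a - b) - (1 - b) = a - 1 from fun a b => by ring] at this
  have hind : IsInducedBlock M (Subgroup.centralizer (P : Set G)) (blockOf M (θ' : _ → ℂ)) B :=
    isInducedBlock_of_not_small hM hP (fun x => Subgroup.mem_centralizer_iff) (isPBlock_blockOf M θ') hB
      (mem_blockOf_self hM θ') fun h => not_memLocalIdeal_one hM (by simpa using memLocalIdeal_sub hM h h1)
  have h4 := omega_res_induced hM hind (mem_blockOf_self hM θ') hχ (isClassElt_classElt g) (isIntegralElt_classElt hM g)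
  rw [omega_classElt χ.2, hθ', ← hpush] at h4
  have h5 := hHC (res H (classElt g)) (isClassElt_res (isClassElt_classElt g) H)
    (isIntegralElt_res (isIntegralElt_classElt hM g) H)
  rw [omega_res_classElt] at h5
  have := memLocalIdeal_add hM h5 h4
  rwa [sub_add_sub_cancel] at this

end Local

end CfsgLib.Blocks
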