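import Cfsg.Agent.Blocks.ContribMatrix

/-!
# Integral positive semidefinite forms on cyclotomic vectors of prime power level

The sum over the conjugates of the value of a form at a vector of cyclotomic integers is given by the values of the
form at differences of the integral coefficient vectors inside the cosets of the subgroup of order `p`.
-/

set_option linter.unusedSectionVars false
set_option linter.style.haveILetI false

namespace CfsgLib.Blocks

open Cfsg CfsgLib.CharBasics Polynomial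
open scoped ComplexConjugate

variable {ι : Type*}

/-- The bilinear form of an integer matrix on a finite index set. -/
def intForm (s : Finset ι) (W : ι → ι → ℤ) (u v : ι → ℤ) : ℤ := ∑ a ∈ s, ∑ b ∈ s, W a b * u a * v b

variable {s : Finset ι} {W : ι → ι → ℤ}

theorem intForm_comm (hW : ∀ a b, W a b = W b a) (u v : ι → ℤ) : intForm s W u v = intForm s W v u := by
  rw [intForm, intForm, Finset.sum_comm]
  exact Finset.sum_congr rfl fun a _ => Finset.sum_congr rfl fun b _ => by rw [hW b a]; ring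

theorem intForm_sub_left (u u' v : ι → ℤ) : intForm s W (u - u') v = intForm s W u v - intForm s W u' v := by
  simp only [intForm, Pi.sub_apply, mul_sub, sub_mul, Finset.sum_sub_distrib]

theorem intForm_sub_right (u v v' : ι → ℤ) : intForm s W u (v - v') = intForm s W u v - intForm s W u v' := by
  simp only [intForm, Pi.sub_apply, mul_sub, Finset.sum_sub_distrib]

theorem intForm_smul_left (c : ℤ) (u v : ι → ℤ) : intForm s W (c • u) v = c * intForm s W u v := by
  simp only [intForm, Pi.smul_apply, smul_eq_mul, Finset.mul_sum]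
  exact Finset.sum_congr rfl fun a _ => Finset.sum_congr rfl fun b _ => by ring

theorem intForm_smul_right (c : ℤ) (u v : ι → ℤ) : intForm s W u (c • v) = c * intForm s W u v := by
  simp only [intForm, Pi.smul_apply, smul_eq_mul, Finset.mul_sum]
  exact Finset.sum_congr rfl fun a _ => Finset.sum_congr rfl fun b _ => by ring

/-- An isotropic vector of a semidefinite form is in the radical. -/
theorem intForm_eq_zero_of_isotropic (hW : ∀ a b, W a b = W b a) (hpsd : ∀ v, 0 ≤ intForm s W v v)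
    {v : ι → ℤ} (hv : intForm s W v v = 0) (u : ι → ℤ) : intForm s W v u = 0 := by
  have h := hpsd (u - ((intForm s W u u + 1) * intForm s W v u) • v)
  rw [intForm_sub_left, intForm_sub_right, intForm_sub_right, intForm_smul_left, intForm_smul_left,
    intForm_smul_right, intForm_smul_right, intForm_comm hW u v, hv] at h
  have h0 := hpsd u
  by_contra hne
  have h1 : 1 ≤ intForm s W v u ^ 2 := by have := sq_pos_of_ne_zero hne; omega
  nlinarith

/-- Splitting off a vector of norm one. -/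
theorem intForm_split (hW : ∀ a b, W a b = W b a) {v : ι → ℤ} (hv : intForm s W v v = 1) (x y : ι → ℤ) :
    intForm s W x y = intForm s W v x * intForm s W v y +
      intForm s W (x - intForm s W v x • v) (y - intForm s W v y • v) := by
  rw [intForm_sub_left, intForm_sub_right, intForm_sub_right, intForm_smul_left, intForm_smul_left,
    intForm_smul_right, intForm_smul_right, hv, intForm_comm hW x v]
  ring

theorem intForm_perp {v : ι → ℤ} (hv : intForm s W v v = 1) (x : ι → ℤ) :
    intForm s W v (x - intForm s W v x • v) = 0 := by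
  rw [intForm_sub_right, intForm_smul_right, hv, mul_one, sub_self]

/-- Bounding a symmetric double sum from two distinguished indices. -/
theorem pair_sum_bound {p : ℕ} (f : ℕ → ℕ → ℤ) (hf : ∀ i j, 0 ≤ f i j) (hs : ∀ i j, f i j = f j i) {m : ℤ}
    {i j : ℕ} (hi : i < p) (hj : j < p) (hij : i ≠ j) (h : ∀ k < p, m ≤ f k i + f k j) :
    (2 * (p : ℤ) - 2) * m ≤ ∑ a ∈ Finset.range p, ∑ b ∈ Finset.range p, f a b := by
  classical
  set T : Finset ℕ := {i, j} with hT
  have hTp : T ⊆ Finset.range p := by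
    intro k hk; simp [hT] at hk; rcases hk with rfl | rfl <;> simpa
  have e : ∀ a, ∑ b ∈ Finset.range p, f a b = (f a i + f a j) + ∑ b ∈ Finset.range p \ T, f a b := by
    intro a
    rw [← Finset.sum_sdiff hTp, hT, Finset.sum_pair hij, add_comm]
  rw [Finset.sum_congr rfl fun a _ => e a, Finset.sum_add_distrib]
  have h1 : (p : ℤ) * m ≤ ∑ a ∈ Finset.range p, (f a i + f a j) := by
    calc (p : ℤ) * m = ∑ _a ∈ Finset.range p, m := by simp
      _ ≤ _ := Finset.sum_le_sum fun a ha => h a (Finset.mem_range.1 ha)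
  have h2 : ((p : ℤ) - 2) * m ≤ ∑ a ∈ Finset.range p, ∑ b ∈ Finset.range p \ T, f a b := by
    refine le_trans ?_ (Finset.sum_le_sum_of_subset_of_nonneg hTp fun a _ _ => Finset.sum_nonneg fun b _ => hf a b)
    rw [hT, Finset.sum_pair hij, ← Finset.sum_add_distrib]
    have hc : ((Finset.range p \ T).card : ℤ) = (p : ℤ) - 2 := by
      rw [Finset.card_sdiff_of_subset hTp, hT, Finset.card_pair hij, Finset.card_range]
      omega
    calc ((p : ℤ) - 2) * m = ∑ _b ∈ Finset.range p \ T, m := by rw [Finset.sum_const, nsmul_eq_mul, hc]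
      _ ≤ _ := Finset.sum_le_sum fun b hb => by
        have := h b (Finset.mem_range.1 (Finset.mem_sdiff.1 hb).1)
        rwa [hs b i, hs b j] at this
  linarith

theorem sq_ge_two_of_diff {a b : ℤ} (h : 2 ≤ a - b ∨ 2 ≤ b - a) : 2 ≤ a ^ 2 + b ^ 2 := by
  rcases h with h | h <;> nlinarith [sq_nonneg (a + b)]

/-- The spread inside the cosets of a vector whose entries sum to a multiple of `p`. -/
theorem spread_bound {p q : ℕ} (hp : p.Prime) (c : ℕ → ℕ → ℤ)
    (hdvd : (p : ℤ) ∣ ∑ t ∈ Finset.range q, ∑ i ∈ Finset.range p, c t i)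
    (hne : ∃ t < q, ∃ i < p, ∃ j < p, c t i ≠ c t j) :
    4 * ((p : ℤ) - 1) ≤ ∑ t ∈ Finset.range q, ∑ i ∈ Finset.range p, ∑ j ∈ Finset.range p, (c t i - c t j) ^ 2 := by
  classical
  obtain ⟨t, ht, i, hi, j, hj, hij⟩ := hne
  have hnn : ∀ u ∈ Finset.range q, 0 ≤ ∑ a ∈ Finset.range p, ∑ b ∈ Finset.range p, (c u a - c u b) ^ 2 :=
    fun u _ => Finset.sum_nonneg fun _ _ => Finset.sum_nonneg fun _ _ => sq_nonneg _
  have hone : ∀ u, ∀ a < p, ∀ b < p, c u a ≠ c u b →
      2 * ((p : ℤ) - 1) ≤ ∑ a ∈ Finset.range p, ∑ b ∈ Finset.range p, (c u a - c u b) ^ 2 := by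
    intro u a ha b hb hab
    have h := pair_sum_bound (fun a b => (c u a - c u b) ^ 2) (fun _ _ => sq_nonneg _) (fun _ _ => by ring)
      (m := 1) ha hb (fun h => hab (h ▸ rfl)) (fun k _ => by
        by_contra hlt
        push Not at hlt
        have h1 : (c u k - c u a) ^ 2 = 0 := by nlinarith [sq_nonneg (c u k - c u a), sq_nonneg (c u k - c u b)]
        have h2 : (c u k - c u b) ^ 2 = 0 := by nlinarith [sq_nonneg (c u k - c u a), sq_nonneg (c u k - c u b)]
        simp only [sq_eq_zero_iff] at h1 h2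
        exact hab (by linarith))
    linarith
  by_cases hbig : ∃ u < q, ∃ a < p, ∃ b < p, 2 ≤ c u a - c u b
  · obtain ⟨u, hu, a, ha, b, hb, hab⟩ := hbig
    refine le_trans ?_ (Finset.single_le_sum hnn (Finset.mem_range.2 hu))
    have h := pair_sum_bound (fun a b => (c u a - c u b) ^ 2) (fun _ _ => sq_nonneg _) (fun _ _ => by ring)
      (m := 2) ha hb (fun h => by subst h; omega) (fun k _ => sq_ge_two_of_diff (Or.inr (by omega)))
    linarith
  push Not at hbig
  by_cases htwo : ∃ u < q, u ≠ t ∧ ∃ a < p, ∃ b < p, c u a ≠ c u b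
  · obtain ⟨u, hu, hut, a, ha, b, hb, hab⟩ := htwo
    refine le_trans ?_ (Finset.sum_le_sum_of_subset_of_nonneg (s := {u, t}) ?_ fun v hv _ => hnn v hv)
    · rw [Finset.sum_pair hut]
      have h1 := hone u a ha b hb hab
      have h2 := hone t i hi j hj hij
      linarith
    · intro v hv; simp at hv; rcases hv with rfl | rfl <;> simpa
  push Not at htwo
  exfalso
  have hrest : (p : ℤ) ∣ ∑ u ∈ (Finset.range q).erase t, ∑ a ∈ Finset.range p, c u a := by
    refine Finset.dvd_sum fun u hu => ?_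
    obtain ⟨hut, huq⟩ := Finset.mem_erase.1 hu
    rw [Finset.sum_congr rfl (g := fun _ => c u 0) fun a ha =>
      htwo u (Finset.mem_range.1 huq) hut a (Finset.mem_range.1 ha) 0 hp.pos, Finset.sum_const, Finset.card_range,
      nsmul_eq_mul]
    exact dvd_mul_right _ _
  rw [← Finset.add_sum_erase _ _ (Finset.mem_range.2 ht)] at hdvd
  have hrow := (dvd_add_left hrest).1 hdvd
  obtain ⟨i0, hi0, hmin⟩ := Finset.exists_min_image (Finset.range p) (c t) ⟨i, Finset.mem_range.2 hi⟩
  rw [Finset.mem_range] at hi0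
  have hval : ∀ a ∈ Finset.range p, c t a = c t i0 + (if c t a = c t i0 then 0 else 1) := by
    intro a ha
    have h1 := hmin a ha
    have h2 := hbig t ht a (Finset.mem_range.1 ha) i0 hi0
    split_ifs <;> omega
  rw [Finset.sum_congr rfl hval, Finset.sum_add_distrib, Finset.sum_const, Finset.card_range, nsmul_eq_mul,
    Finset.sum_ite, Finset.sum_const_zero, zero_add, Finset.sum_const, nsmul_eq_mul, mul_one] at hrow
  have h3 := (dvd_add_right (dvd_mul_right (p : ℤ) _)).1 hrow
  have hlt : ((Finset.range p).filter fun a => ¬ c t a = c t i0).card < p := by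
    calc _ < (Finset.range p).card := Finset.card_lt_card (Finset.filter_ssubset.2
          ⟨i0, Finset.mem_range.2 hi0, not_not.2 rfl⟩)
      _ = p := Finset.card_range p
  have hpos : 0 < ((Finset.range p).filter fun a => ¬ c t a = c t i0).card := by
    rw [Finset.card_pos]
    by_cases h : c t i = c t i0
    · exact ⟨j, Finset.mem_filter.2 ⟨Finset.mem_range.2 hj, fun h' => hij (h.trans h'.symm)⟩⟩
    · exact ⟨i, Finset.mem_filter.2 ⟨Finset.mem_range.2 hi, h⟩⟩
  have h4 := Nat.le_of_dvd hpos (Int.natCast_dvd_natCast.1 h3)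
  omega

/-- The coefficients of a polynomial read at exponents below `p ^ (k + 1)`, split by cosets. -/
noncomputable def cosetCoeff (p k : ℕ) (A : ℤ[X]) (t i : ℕ) : ℤ :=
  (A %ₘ (X ^ p ^ (k + 1) - 1)).coeff (t + p ^ k * i)

variable {p k : ℕ}

theorem sum_range_split {α : Type*} [AddCommMonoid α] (g : ℕ → α) :
    ∑ n ∈ Finset.range (p ^ (k + 1)), g n = ∑ t ∈ Finset.range (p ^ k), ∑ i ∈ Finset.range p, g (t + p ^ k * i) := by
  rw [← Finset.sum_product']
  rcases Nat.eq_zero_or_pos (p ^ k) with h0 | h0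
  · rw [pow_succ, h0]; simp
  refine Finset.sum_bij' (fun n _ => (n % p ^ k, n / p ^ k)) (fun a _ => a.1 + p ^ k * a.2) (fun n hn => ?_)
    (fun a ha => ?_) (fun n _ => Nat.mod_add_div n _) (fun a ha => ?_) (fun n _ => by rw [Nat.mod_add_div])
  · simp only [Finset.mem_product, Finset.mem_range] at hn ⊢
    exact ⟨Nat.mod_lt _ h0, Nat.div_lt_of_lt_mul (by rwa [← pow_succ])⟩
  · simp only [Finset.mem_product, Finset.mem_range] at ha ⊢
    rw [pow_succ]
    calc a.1 + p ^ k * a.2 < p ^ k * (a.2 + 1) := by rw [Nat.mul_succ]; omega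
      _ ≤ _ := Nat.mul_le_mul_left _ ha.2
  · simp only [Finset.mem_product, Finset.mem_range] at ha
    rw [Nat.add_mul_mod_self_left, Nat.mod_eq_of_lt ha.1, Nat.add_mul_div_left _ _ h0, Nat.div_eq_of_lt ha.1,
      zero_add]

theorem aeval_eq_cosetCoeff (hp : p.Prime) (A : ℤ[X]) {z : ℂ} (hz : z ^ p ^ (k + 1) = 1) :
    aeval z A = ∑ t ∈ Finset.range (p ^ k), ∑ i ∈ Finset.range p, (cosetCoeff p k A t i : ℂ) * z ^ (t + p ^ k * i) := by
  have hN : p ^ (k + 1) ≠ 0 := pow_ne_zero _ hp.ne_zero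
  have hmon : (X ^ p ^ (k + 1) - 1 : ℤ[X]).Monic := monic_X_pow_sub_C (1 : ℤ) hN
  have hnd : (X ^ p ^ (k + 1) - 1 : ℤ[X]).natDegree = p ^ (k + 1) := by
    rw [show (X ^ p ^ (k + 1) - 1 : ℤ[X]) = X ^ p ^ (k + 1) - C 1 by rw [C_1], natDegree_X_pow_sub_C]
  have hdeg : (A %ₘ (X ^ p ^ (k + 1) - 1)).natDegree < p ^ (k + 1) := by
    refine (natDegree_modByMonic_lt A hmon fun h => ?_).trans_eq hnd
    rw [h, natDegree_one] at hnd
    omega
  conv_lhs => rw [← modByMonic_add_div A (X ^ p ^ (k + 1) - 1)]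
  simp only [map_add, map_mul, map_sub, map_pow, aeval_X, map_one, hz, sub_self, zero_mul, add_zero]
  rw [aeval_eq_sum_range' hdeg, sum_range_split]
  exact Finset.sum_congr rfl fun t _ => Finset.sum_congr rfl fun i _ => by rw [zsmul_eq_mul, cosetCoeff]

theorem eval_one_eq_cosetCoeff (hp : p.Prime) (A : ℤ[X]) :
    A.eval 1 = ∑ t ∈ Finset.range (p ^ k), ∑ i ∈ Finset.range p, cosetCoeff p k A t i := by
  have h := aeval_eq_cosetCoeff (k := k) hp A (z := 1) (one_pow _)
  rw [← map_one (algebraMap ℤ ℂ), aeval_algebraMap_apply] at h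
  simp only [map_one, one_pow, mul_one] at h
  have h2 : ((A.eval 1 : ℤ) : ℂ) = ((∑ t ∈ Finset.range (p ^ k), ∑ i ∈ Finset.range p, cosetCoeff p k A t i : ℤ) : ℂ) := by
    push_cast; simpa using h
  exact_mod_cast h2

/-- Orthogonality of the conjugates of powers of a primitive root. -/
theorem sum_coprime_pow (hp : p.Prime) {t t' i i' : ℕ} (ht : t < p ^ k) (ht' : t' < p ^ k) (hi : i < p) (hi' : i' < p) :
    ∑ j ∈ coprimeResidues (p ^ (k + 1)),
      (zetaRoot (p ^ (k + 1)) ^ j) ^ (t + p ^ k * i) * conj ((zetaRoot (p ^ (k + 1)) ^ j) ^ (t' + p ^ k * i')) =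
      (p : ℂ) ^ (k + 1) * (if t = t' ∧ i = i' then 1 else 0) - (p : ℂ) ^ k * (if t = t' then 1 else 0) := by
  classical
  set N := p ^ (k + 1) with hNdef
  have hN : N ≠ 0 := pow_ne_zero _ hp.ne_zero
  set ζ := zetaRoot N with hζ
  have hz : IsPrimitiveRoot ζ N := zetaRoot_prim hN
  set w := ζ ^ (t + p ^ k * i) * conj (ζ ^ (t' + p ^ k * i')) with hw
  have hterm : ∀ j, (ζ ^ j) ^ (t + p ^ k * i) * conj ((ζ ^ j) ^ (t' + p ^ k * i')) = w ^ j := fun j => by
    rw [hw, mul_pow, ← map_pow, pow_right_comm, pow_right_comm ζ j]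
  rw [Finset.sum_congr rfl fun j _ => hterm j]
  have hwN : w ^ N = 1 := by
    rw [hw, mul_pow, ← map_pow, pow_right_comm, hz.pow_eq_one, one_pow, pow_right_comm, hz.pow_eq_one, one_pow,
      map_one, mul_one]
  have hwq : (w ^ p) ^ p ^ k = 1 := by rw [← pow_mul, ← pow_succ', hwN]
  have hnorm : ∀ n : ℕ, conj (ζ ^ n) * ζ ^ n = 1 := fun n => by
    rw [mul_comm, Complex.mul_conj', norm_pow, Complex.norm_eq_one_of_pow_eq_one hz.pow_eq_one hN]; simp
  have hlt : ∀ {a b : ℕ}, a < p ^ k → b < p → a + p ^ k * b < N := fun {a b} ha hb => by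
    rw [hNdef, pow_succ]
    calc a + p ^ k * b < p ^ k * (b + 1) := by rw [Nat.mul_succ]; omega
      _ ≤ _ := Nat.mul_le_mul_left _ hb
  have hw1 : w = 1 ↔ t = t' ∧ i = i' := by
    constructor
    · intro h
      have h2 : ζ ^ (t + p ^ k * i) = ζ ^ (t' + p ^ k * i') := by
        have := congrArg (· * ζ ^ (t' + p ^ k * i')) h
        simp only [hw, mul_assoc, hnorm, mul_one, one_mul] at this
        exact this
      have h3 := hz.pow_inj (hlt ht hi) (hlt ht' hi') h2
      have h4 : t = t' := by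
        have := congrArg (· % p ^ k) h3
        simpa [Nat.mod_eq_of_lt ht, Nat.mod_eq_of_lt ht'] using this
      subst h4
      exact ⟨rfl, Nat.eq_of_mul_eq_mul_left (pow_pos hp.pos k) (Nat.add_left_cancel h3)⟩
    · rintro ⟨rfl, rfl⟩
      rw [hw, mul_comm, hnorm]
  have hwp : w ^ p = 1 ↔ t = t' := by
    have hcollapse : ∀ a b, (ζ ^ (a + p ^ k * b)) ^ p = (ζ ^ p) ^ a := fun a b => by
      rw [← pow_mul, ← pow_mul, show (a + p ^ k * b) * p = p * a + N * b by rw [hNdef, pow_succ]; ring, pow_add,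
        pow_mul ζ N b, hz.pow_eq_one, one_pow, mul_one]
    rw [hw, mul_pow, ← map_pow, hcollapse, hcollapse]
    have hprim : IsPrimitiveRoot (ζ ^ p) (p ^ k) := hz.pow (Nat.pos_of_ne_zero hN) (by rw [hNdef, pow_succ'])
    constructor
    · intro h
      have h2 : (ζ ^ p) ^ t = (ζ ^ p) ^ t' := by
        have := congrArg (· * (ζ ^ p) ^ t') h
        simp only [mul_assoc, ← pow_mul, hnorm, mul_one, one_mul] at this
        simpa [← pow_mul] using this
      exact hprim.pow_inj ht ht' h2
    · rintro rfl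
      rw [← pow_mul, mul_comm, hnorm]
  have hgeom : ∀ (u : ℂ) (m : ℕ), u ^ m = 1 → ∑ n ∈ Finset.range m, u ^ n = if u = 1 then (m : ℂ) else 0 := by
    intro u m hu
    split_ifs with h
    · simp [h]
    · rw [geom_sum_eq h, hu, sub_self, zero_div]
  have himg : coprimeResidues N = Finset.range N \ (Finset.range (p ^ k)).image (fun n => p * n) := by
    ext j
    simp only [coprimeResidues, Finset.mem_filter, Finset.mem_sdiff, Finset.mem_range, Finset.mem_image, hNdef,
      Nat.coprime_pow_right_iff (Nat.succ_pos k)]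
    refine and_congr_right fun hj => ?_
    rw [Nat.coprime_comm, hp.coprime_iff_not_dvd]
    refine not_congr ⟨?_, ?_⟩
    · rintro ⟨n, rfl⟩
      exact ⟨n, by rw [pow_succ'] at hj; exact Nat.lt_of_mul_lt_mul_left hj, rfl⟩
    · rintro ⟨n, -, rfl⟩
      exact Dvd.intro n rfl
  rw [himg, Finset.sum_sdiff_eq_sub (fun j hj => by
      obtain ⟨n, hn, rfl⟩ := Finset.mem_image.1 hj
      rw [Finset.mem_range] at hn ⊢
      rw [hNdef, pow_succ']
      exact Nat.mul_lt_mul_of_pos_left hn hp.pos),
    Finset.sum_image (fun a _ b _ h => Nat.eq_of_mul_eq_mul_left hp.pos h), hgeom w N hwN,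
    Finset.sum_congr rfl (fun n _ => pow_mul w p n), hgeom _ _ hwq]
  simp only [hw1, hwp, mul_ite, mul_one, mul_zero, hNdef, Nat.cast_pow]

/-- The sum over the conjugates of a form at a cyclotomic vector. -/
theorem sum_form_conjugates (hp : p.Prime) (hW : ∀ a b, W a b = W b a) (A : ι → ℤ[X]) :
    2 * ∑ j ∈ coprimeResidues (p ^ (k + 1)), ∑ a ∈ s, ∑ b ∈ s,
        (W a b : ℂ) * aeval (zetaRoot (p ^ (k + 1)) ^ j) (A a) * conj (aeval (zetaRoot (p ^ (k + 1)) ^ j) (A b)) =
      (p : ℂ) ^ k * ((∑ t ∈ Finset.range (p ^ k), ∑ i ∈ Finset.range p, ∑ i' ∈ Finset.range p,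
        intForm s W ((fun a => cosetCoeff p k (A a) t i) - fun a => cosetCoeff p k (A a) t i')
          ((fun a => cosetCoeff p k (A a) t i) - fun a => cosetCoeff p k (A a) t i') : ℤ) : ℂ) := by
  classical
  have hN : p ^ (k + 1) ≠ 0 := pow_ne_zero _ hp.ne_zero
  set c := fun t i a => cosetCoeff p k (A a) t i with hc
  have hexp : ∀ j : ℕ, ∑ a ∈ s, ∑ b ∈ s,
        (W a b : ℂ) * aeval (zetaRoot (p ^ (k + 1)) ^ j) (A a) * conj (aeval (zetaRoot (p ^ (k + 1)) ^ j) (A b)) =
      ∑ t ∈ Finset.range (p ^ k), ∑ i ∈ Finset.range p, ∑ t' ∈ Finset.range (p ^ k), ∑ i' ∈ Finset.range p,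
        (intForm s W (c t i) (c t' i') : ℂ) *
        ((zetaRoot (p ^ (k + 1)) ^ j) ^ (t + p ^ k * i) * conj ((zetaRoot (p ^ (k + 1)) ^ j) ^ (t' + p ^ k * i'))) := by
    intro j
    have hz : (zetaRoot (p ^ (k + 1)) ^ j) ^ p ^ (k + 1) = 1 := by
      rw [← pow_mul, mul_comm, pow_mul, (zetaRoot_prim hN).pow_eq_one, one_pow]
    rw [← Finset.sum_product' (s := Finset.range (p ^ k)) (t := Finset.range p)]
    simp only [← Finset.sum_product' (s := Finset.range (p ^ k)) (t := Finset.range p),
      aeval_eq_cosetCoeff hp _ hz, map_sum, map_mul, map_intCast, intForm, Int.cast_sum, Int.cast_mul,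
      Finset.sum_mul, Finset.mul_sum, hc]
    rw [Finset.sum_congr rfl (fun a _ => Finset.sum_comm), Finset.sum_comm,
      Finset.sum_congr rfl (fun y _ => Finset.sum_congr rfl (fun a _ => Finset.sum_comm)),
      Finset.sum_congr rfl (fun y _ => Finset.sum_comm)]
    conv_lhs => rw [Finset.sum_comm]
    refine Finset.sum_congr rfl fun x _ => Finset.sum_congr rfl fun y _ => ?_
    exact Finset.sum_congr rfl fun a _ => Finset.sum_congr rfl fun b _ => by ring
  rw [Finset.sum_congr rfl fun j _ => hexp j, Finset.sum_comm, Int.cast_sum, Finset.mul_sum, Finset.mul_sum]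
  refine Finset.sum_congr rfl fun t ht => ?_
  rw [Finset.mem_range] at ht
  rw [Finset.sum_comm, Finset.sum_congr rfl (g := fun i => (p : ℂ) ^ (k + 1) * (intForm s W (c t i) (c t i) : ℂ) -
    (p : ℂ) ^ k * ∑ i' ∈ Finset.range p, (intForm s W (c t i) (c t i') : ℂ)) fun i hi => ?_]
  · simp only [intForm_sub_left, intForm_sub_right, Int.cast_sum, Int.cast_sub, Finset.sum_sub_distrib,
      Finset.sum_const, Finset.card_range, nsmul_eq_mul, ← Finset.mul_sum]
    rw [Finset.sum_comm (f := fun i i' => ((intForm s W (c t i') (c t i) : ℤ) : ℂ))]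
    try simp only [← Finset.mul_sum]
    rw [pow_succ]
    simp only [hc]; push_cast
    ring
  · rw [Finset.mem_range] at hi
    rw [Finset.sum_comm, Finset.sum_eq_single t]
    · rw [Finset.sum_comm, Finset.sum_congr rfl fun i' hi' => by
        rw [← Finset.mul_sum, sum_coprime_pow hp ht ht hi (Finset.mem_range.1 hi')]]
      simp only [true_and, if_true, mul_sub, mul_one, mul_ite, mul_zero, Finset.sum_sub_distrib,
        Finset.sum_ite_eq, Finset.mem_range, hi, if_true, ← Finset.sum_mul]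
      ring
    · intro t' ht' hne
      rw [Finset.sum_comm]
      refine Finset.sum_eq_zero fun i' hi' => ?_
      rw [← Finset.mul_sum, sum_coprime_pow hp ht (Finset.mem_range.1 ht') hi (Finset.mem_range.1 hi'),
        if_neg (fun h => hne h.1.symm), if_neg (Ne.symm hne)]
      ring
    · exact fun h => absurd (Finset.mem_range.2 ht) h

/-- A coset constant vector gives zero at a primitive root. -/
theorem sum_coset_const (hp : p.Prime) (g : ℕ → ℕ → ℂ) (hg : ∀ t < p ^ k, ∀ i < p, g t i = g t 0) :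
    ∑ t ∈ Finset.range (p ^ k), ∑ i ∈ Finset.range p, g t i * zetaRoot (p ^ (k + 1)) ^ (t + p ^ k * i) = 0 := by
  refine Finset.sum_eq_zero fun t ht => ?_
  rw [Finset.sum_congr rfl (g := fun i => g t 0 * zetaRoot (p ^ (k + 1)) ^ t *
    (zetaRoot (p ^ (k + 1)) ^ p ^ k) ^ i) fun i hi => by
      rw [hg t (Finset.mem_range.1 ht) i (Finset.mem_range.1 hi), pow_add, pow_mul, mul_assoc], ← Finset.mul_sum]
  have hprim := (zetaRoot_prim (pow_ne_zero (k + 1) hp.ne_zero)).pow (pow_pos hp.pos _) (pow_succ p k)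
  rw [hprim.geom_sum_eq_zero hp.one_lt, mul_zero]

end CfsgLib.Blocks
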