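import Cfsg.Agent.Blocks.RootsMod
import Cfsg.Agent.CharBasics.Avg
import Mathlib.RingTheory.Polynomial.Cyclotomic.Expand

/-!
# Divisibility by `p` in a cyclotomic ring of `p`-power level, read in the local ring at `M`
-/

set_option linter.style.haveILetI false

namespace CfsgLib.Blocks

open Cfsg CfsgLib.CharBasics Polynomial
open scoped ComplexConjugate

variable {p : ℕ} {M : Ideal AlgInt}

theorem memLocalRing_aeval (hM : IsPModular p M) {z : ℂ} {N : ℕ} (hN : N ≠ 0) (hz : z ^ N = 1) (Q : ℤ[X]) :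
    MemLocalRing M (aeval z Q) := by
  refine memLocalRing_of_isIntegral hM ?_
  have hi : IsIntegral ℤ z := IsIntegral.of_pow (Nat.pos_of_ne_zero hN) (by rw [hz]; exact isIntegral_one)
  exact IsIntegral.of_mem_of_fg _ hi.fg_adjoin_singleton _ (Algebra.adjoin_singleton_eq_range_aeval ℤ z ▸ ⟨Q, rfl⟩)

theorem aeval_mem_iff (hM : IsPModular p M) {z : ℂ} {k : ℕ} (hz : z ^ p ^ k = 1) (Q : ℤ[X]) :
    MemLocalIdeal M (aeval z Q) ↔ (p : ℤ) ∣ Q.eval 1 := by
  rw [← memLocalIdeal_intCast_iff hM]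
  have hE : MemLocalIdeal M (aeval z Q - ((Q.eval 1 : ℤ) : ℂ)) := by
    induction Q using Polynomial.induction_on' with
    | add f g hf hg => simpa [add_sub_add_comm] using memLocalIdeal_add hM hf hg
    | monomial n c =>
      have h1 : (z ^ n) ^ p ^ k = 1 := by rw [← pow_mul, mul_comm, pow_mul, hz, one_pow]
      simpa [mul_sub] using memLocalIdeal_mul_left hM (memLocalRing_intCast hM c) (eqMod_one_of_pow_eq_one hM k h1)
  exact ⟨fun h => by simpa using memLocalIdeal_sub hM h hE, fun h => by simpa using memLocalIdeal_add hM hE h⟩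

/-- A power of `X - 1` is the cyclotomic polynomial modulo `p`. -/
theorem exists_X_sub_one_pow (hp : p.Prime) (k : ℕ) :
    ∃ R : ℤ[X], (X - 1) ^ (p ^ (k + 1) - p ^ k) = cyclotomic (p ^ (k + 1)) ℤ + C (p : ℤ) * R ∧ R.eval 1 = -1 := by
  haveI := Fact.mk hp
  have h : (cyclotomic (p ^ (k + 1)) (ZMod p)) = (X - 1) ^ (p ^ (k + 1) - p ^ k) := by
    have h1 := cyclotomic_mul_prime_pow_eq (ZMod p) (p := p) (m := 1) (k := k + 1)
      (by rw [Nat.dvd_one]; exact hp.ne_one) (Nat.succ_pos k)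
    rwa [mul_one, cyclotomic_one, Nat.add_sub_cancel] at h1
  have hd : C (p : ℤ) ∣ (X - 1) ^ (p ^ (k + 1) - p ^ k) - cyclotomic (p ^ (k + 1)) ℤ := by
    rw [C_dvd_iff_dvd_coeff]
    intro i
    rw [← ZMod.intCast_zmod_eq_zero_iff_dvd]
    have h2 := congrArg (fun f => f.coeff i) h
    simp only [← map_cyclotomic_int _ (ZMod p)] at h2
    have h3 : ((X : (ZMod p)[X]) - 1) ^ (p ^ (k + 1) - p ^ k) =
        (((X : ℤ[X]) - 1) ^ (p ^ (k + 1) - p ^ k)).map (Int.castRingHom (ZMod p)) := by simp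
    rw [h3, coeff_map, coeff_map] at h2
    simp only [eq_intCast] at h2
    rw [coeff_sub, Int.cast_sub, h2, sub_self]
  obtain ⟨R, hR⟩ := hd
  refine ⟨R, by rw [← hR]; ring, ?_⟩
  have h1 := congrArg (Polynomial.eval 1) hR
  have hpos : p ^ (k + 1) - p ^ k ≠ 0 :=
    Nat.sub_ne_zero_of_lt (Nat.pow_lt_pow_right hp.one_lt (Nat.lt_succ_self k))
  rw [eval_sub, eval_one_cyclotomic_prime_pow, eval_mul, eval_C, eval_pow, eval_sub, eval_X, eval_one, sub_self,
    zero_pow hpos] at h1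
  have hp0 : (p : ℤ) ≠ 0 := Int.natCast_ne_zero.2 hp.ne_zero
  exact mul_left_cancel₀ hp0 (by linarith)

/-- An element of the cyclotomic ring which `p` divides locally at `M` is divisible by `p`. -/
theorem exists_eq_p_mul (hM : IsPModular p M) (k : ℕ) (Q : ℤ[X])
    (h : MemLocalRing M (aeval (zetaRoot (p ^ (k + 1))) Q / (p : ℂ))) :
    ∃ R : ℤ[X], aeval (zetaRoot (p ^ (k + 1))) Q = (p : ℂ) * aeval (zetaRoot (p ^ (k + 1))) R := by
  haveI := Fact.mk hM.1
  set ζ := zetaRoot (p ^ (k + 1)) with hζ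
  have hN : p ^ (k + 1) ≠ 0 := pow_ne_zero _ hM.1.ne_zero
  have hz := zetaRoot_prim hN
  rw [← hζ] at hz
  have hroot : aeval ζ (cyclotomic (p ^ (k + 1)) ℤ) = 0 := by
    rw [cyclotomic_eq_minpoly hz (Nat.pos_of_ne_zero hN)]
    exact minpoly.aeval _ _
  set φ := p ^ (k + 1) - p ^ k with hφ
  obtain ⟨R₀, hR₀, hR₁⟩ := exists_X_sub_one_pow hM.1 k
  have hpow : (ζ - 1) ^ φ = (p : ℂ) * aeval ζ R₀ := by
    have h1 := congrArg (aeval ζ) hR₀
    simpa [hroot] using h1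
  have hπ : MemLocalIdeal M (ζ - 1) := eqMod_one_of_pow_eq_one hM (k + 1) hz.pow_eq_one
  have hπ0 : ζ - 1 ≠ 0 := sub_ne_zero.2 (hz.ne_one (Nat.one_lt_pow (Nat.succ_ne_zero k) hM.1.one_lt))
  have hR0n : ¬ MemLocalIdeal M (aeval ζ R₀) := by
    rw [aeval_mem_iff hM hz.pow_eq_one, hR₁, dvd_neg]
    exact fun hd => hM.1.ne_one (Nat.dvd_one.1 (by exact_mod_cast hd))
  have hR0ne : aeval ζ R₀ ≠ 0 := fun h0 => hR0n (h0 ▸ memLocalIdeal_zero hM)
  obtain ⟨T, hT⟩ := X_sub_C_dvd_sub_C_eval (a := (1 : ℤ)) (p := cyclotomic (p ^ (k + 1)) ℤ)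
  have hpT : (p : ℂ) = (ζ - 1) * (- aeval ζ T) := by
    have h1 := congrArg (aeval ζ) hT
    rw [eval_one_cyclotomic_prime_pow] at h1
    simp [hroot] at h1
    rw [mul_neg, ← h1, neg_neg]
  have hstep : ∀ i ≤ φ, ∃ Qi : ℤ[X], aeval ζ Q = (ζ - 1) ^ i * aeval ζ Qi := by
    intro i hi
    induction i with
    | zero => exact ⟨Q, by simp⟩
    | succ i ih =>
      obtain ⟨Qi, hQi⟩ := ih (Nat.le_of_succ_le hi)
      have hmem : MemLocalIdeal M (aeval ζ Qi) := by
        have e : aeval ζ Qi = (ζ - 1) * ((ζ - 1) ^ (φ - i - 1) * (aeval ζ Q / p) * (aeval ζ R₀)⁻¹) := by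
          have hp0 : (p : ℂ) ≠ 0 := Nat.cast_ne_zero.2 hM.1.ne_zero
          apply mul_left_cancel₀ (pow_ne_zero i hπ0)
          rw [← hQi]
          have e2 : (ζ - 1) ^ φ = (ζ - 1) ^ i * ((ζ - 1) * (ζ - 1) ^ (φ - i - 1)) := by
            rw [← pow_succ', ← pow_add]; congr 1; omega
          rw [hpow] at e2
          field_simp
          linear_combination (aeval ζ Q) * e2
        rw [e]
        exact memLocalIdeal_mul_right hM hπ (memLocalRing_mul hM (memLocalRing_mul hM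
          (memLocalRing_pow hM (memLocalRing_of_memLocalIdeal hπ) _) h)
          (memLocalRing_inv hM (memLocalRing_aeval hM hN hz.pow_eq_one R₀) hR0n))
      rw [aeval_mem_iff hM hz.pow_eq_one] at hmem
      obtain ⟨c, hc⟩ := hmem
      obtain ⟨S, hS⟩ := X_sub_C_dvd_sub_C_eval (a := (1 : ℤ)) (p := Qi)
      refine ⟨S - C c * T, ?_⟩
      have h1 := congrArg (aeval ζ) hS
      rw [hc] at h1
      simp only [map_sub, map_mul, aeval_X, eq_intCast, map_one, map_natCast, map_intCast, Int.cast_natCast] at h1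
      rw [hQi, pow_succ, mul_assoc, map_sub, map_mul, aeval_C, eq_intCast]
      congr 1
      linear_combination h1 + (c : ℂ) * hpT
  obtain ⟨Qf, hQf⟩ := hstep φ le_rfl
  exact ⟨R₀ * Qf, by rw [hQf, hpow, map_mul, mul_assoc]⟩

/-- The same for a power of `p`. -/
theorem exists_eq_pow_mul (hM : IsPModular p M) (k h : ℕ) (Q : ℤ[X])
    (hh : MemLocalRing M (aeval (zetaRoot (p ^ (k + 1))) Q / (p : ℂ) ^ h)) :
    ∃ R : ℤ[X], aeval (zetaRoot (p ^ (k + 1))) Q = (p : ℂ) ^ h * aeval (zetaRoot (p ^ (k + 1))) R := by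
  induction h generalizing Q with
  | zero => exact ⟨Q, by simp⟩
  | succ h ih =>
    have hp0 : (p : ℂ) ≠ 0 := Nat.cast_ne_zero.2 hM.1.ne_zero
    have h1 : MemLocalRing M (aeval (zetaRoot (p ^ (k + 1))) Q / (p : ℂ)) := by
      have e : aeval (zetaRoot (p ^ (k + 1))) Q / (p : ℂ) =
          (p : ℂ) ^ h * (aeval (zetaRoot (p ^ (k + 1))) Q / (p : ℂ) ^ (h + 1)) := by
        rw [pow_succ (p : ℂ)]; field_simp
      rw [e]
      exact memLocalRing_mul hM (memLocalRing_pow hM (memLocalRing_natCast hM p) h) hh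
    obtain ⟨R, hR⟩ := exists_eq_p_mul hM k Q h1
    obtain ⟨R', hR'⟩ := ih R (by rw [hR, pow_succ' (p : ℂ), mul_div_mul_left _ _ hp0] at hh; exact hh)
    exact ⟨R', by rw [hR, hR', pow_succ' (p : ℂ)]; ring⟩

end CfsgLib.Blocks
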