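import Cfsg.Agent.Blocks.ContribMatrix
import Cfsg.Agent.Blocks.CycloDiv

/-!
# Major subsections

When the block of the centralizer has the defect of the block it induces, the contribution of the pair `χ`, `ψ`
divided by the `p`-part belonging to the height of `χ` is, up to a unit, a central character of `χ` at one fixed
integral combination of class sums; so it depends modulo `M` only on the block.
-/

set_option linter.unusedSectionVars false
set_option linter.style.haveILetI false

namespace CfsgLib.Blocks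

open Cfsg CfsgLib.CharBasics Polynomial
open scoped ComplexConjugate

theorem sum_div_classSize {A : Type*} [Group A] [Fintype A] [Fintype (ConjClasses A)] [DecidableEq (ConjClasses A)]
    {f : A → ℂ} (hf : IsClassFunction A f) :
    ∑ y : A, f y / ((Subgroup.centralizer ({y} : Set A)).index : ℂ) =
      ∑ C : ConjClasses A, f (Quotient.out C) := by
  classical
  rw [← Finset.sum_fiberwise Finset.univ ConjClasses.mk]
  refine Finset.sum_congr rfl fun C _ => ?_
  set r := Quotient.out C with hr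
  have hC : ConjClasses.mk r = C := Quotient.out_eq C
  have hmem : ∀ y : A, ConjClasses.mk y = C ↔ IsConj r y := fun y => by
    rw [← hC, ConjClasses.mk_eq_mk_iff_isConj]
    exact ⟨IsConj.symm, IsConj.symm⟩
  have hc : ∀ y : A, IsConj r y → f y / ((Subgroup.centralizer ({y} : Set A)).index : ℂ) =
      f r / ((Subgroup.centralizer ({r} : Set A)).index : ℂ) := by
    intro y hy
    obtain ⟨c, hc⟩ := isConj_iff.1 hy
    have h1 := card_centralizer_eq hy
    have h2 := Subgroup.card_mul_index (Subgroup.centralizer ({y} : Set A))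
    rw [← Subgroup.card_mul_index (Subgroup.centralizer ({r} : Set A)), h1] at h2
    rw [← hc, hf r c, hc]
    congr 1
    exact_mod_cast Nat.eq_of_mul_eq_mul_left Nat.card_pos h2
  rw [Finset.sum_congr rfl (fun y hy => hc y ((hmem y).1 (Finset.mem_filter.1 hy).2)), Finset.sum_const,
    nsmul_eq_mul, Finset.filter_congr (fun y _ => hmem y), ← card_conjClass,
    Nat.card_eq_fintype_card (α := {y // IsConj r y}), Fintype.card_subtype]
  refine mul_div_cancel₀ _ (Nat.cast_ne_zero.2 ?_)
  rw [← Fintype.card_subtype]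
  haveI : Nonempty {y // IsConj r y} := ⟨⟨r, IsConj.refl r⟩⟩
  exact Fintype.card_ne_zero

variable {G : Type*} [Group G] [Fintype G] {p : ℕ} {M : Ideal AlgInt} {x : G}
  [Fintype (Subgroup.centralizer ({x} : Set G))]
  {b : Set (IrrCharacter (Subgroup.centralizer ({x} : Set G)))}

/-- Projecting one factor is enough. -/
theorem sum_shift_conj_secVal (hM : IsPModular p M) (hb : IsPBlock M b) (χ ψ : G → ℂ) :
    ∑ y : Subgroup.centralizer ({x} : Set G), (if p ∣ orderOf y then 0 else shiftFun x χ y) * conj (secVal p x b ψ y) =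
      ∑ y : Subgroup.centralizer ({x} : Set G), secVal p x b χ y * conj (secVal p x b ψ y) := by
  classical
  set H := Nat.card (Subgroup.centralizer ({x} : Set G)) with hH
  have hH0 : (H : ℂ) ≠ 0 := Nat.cast_ne_zero.2 Nat.card_pos.ne'
  apply mul_left_cancel₀ hH0
  rw [Finset.mul_sum, Finset.mul_sum]
  have e1 : ∀ y : Subgroup.centralizer ({x} : Set G),
      (H : ℂ) * ((if p ∣ orderOf y then 0 else shiftFun x χ y) * conj (secVal p x b ψ y)) =
      ∑ z : Subgroup.centralizer ({x} : Set G),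
        (if p ∣ orderOf y then 0 else shiftFun x χ y) * blockKernel b z y * conj (secVal p x b ψ z) := by
    intro y
    by_cases hy : p ∣ orderOf y
    · simp [hy]
    · rw [mul_left_comm, show (H : ℂ) * conj (secVal p x b ψ y) = conj ((H : ℂ) * secVal p x b ψ y) by
        rw [map_mul, Complex.conj_natCast], hH, ← sum_kernel_secVal hM hb ψ hy, map_sum, Finset.mul_sum]
      refine Finset.sum_congr rfl fun z _ => ?_
      rw [map_mul, conj_blockKernel]
      ring
  rw [Finset.sum_congr rfl (fun y _ => e1 y), Finset.sum_comm]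
  refine Finset.sum_congr rfl fun z _ => ?_
  rw [← Finset.sum_mul]
  by_cases hz : p ∣ orderOf z
  · simp [show secVal p x b ψ z = 0 from if_pos hz]
  · rw [secVal_eq_kernel hM hb χ hz, ← hH, mul_assoc, ← mul_assoc (H : ℂ), mul_inv_cancel₀ hH0, one_mul]

/-- The value `c ↦ χ (x c)` of the block part, as an integral element. -/
theorem memLocalRing_conj_secVal (hM : IsPModular p M) (hx : ∃ k : ℕ, orderOf x = p ^ k) (χ : IrrCharacter G)
    (y : Subgroup.centralizer ({x} : Set G)) : MemLocalRing M (conj (secVal p x b (χ : G → ℂ) y)) := by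
  classical
  haveI : Fintype (IrrCharacter (Subgroup.centralizer ({x} : Set G))) := @Fintype.ofFinite _ finite_irrCharacter
  rw [secVal]
  split_ifs
  · rw [map_zero]; exact memLocalRing_zero hM
  · rw [ZStar.blockPart_apply, ← Finset.sum_filter, map_sum]
    refine memLocalRing_sum hM _ fun ξ _ => ?_
    rw [map_mul, ← aeval_shiftPoly, conj_aeval]
    refine memLocalRing_mul hM (memLocalRing_aeval hM (orderOf_pos x).ne' ?_ _) (memLocalRing_conj hM ξ y)
    rw [← map_pow, (zetaRoot_prim (orderOf_pos x).ne').pow_eq_one, map_one]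

variable {B : Set (IrrCharacter G)} {ξ₀ : IrrCharacter (Subgroup.centralizer ({x} : Set G))}

/-- In a major subsection the scaled contributions are congruent along the block. -/
theorem major_congr (hM : IsPModular p M) (hx : ∃ k : ℕ, orderOf x = p ^ k) (hb : IsPBlock M b)
    (hB : IsPBlock M B) {N : ℕ} (hN : N ≠ 0) (hxN : orderOf x ∣ N) (hmin₀ : ∀ ρ ∈ b, degExp p ξ₀ ≤ degExp p ρ)
    (hdef : blockDefect p B = (Nat.card (Subgroup.centralizer ({x} : Set G))).factorization p - degExp p ξ₀)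
    (ψ : IrrCharacter G) {χ ρ : IrrCharacter G} (hχ : χ ∈ B) (hρ : ρ ∈ B) :
    ∃ c c' : ℕ, ¬ p ∣ c ∧ ¬ p ∣ c' ∧
      MemLocalRing M ((c : ℂ) * (aeval (zetaRoot N) (contribPoly p N x b (degExp p ξ₀) χ ψ) /
        (p : ℂ) ^ blockHeight p B (χ : G → ℂ))) ∧
      MemLocalIdeal M ((c : ℂ) * (aeval (zetaRoot N) (contribPoly p N x b (degExp p ξ₀) χ ψ) /
          (p : ℂ) ^ blockHeight p B (χ : G → ℂ)) -
        (c' : ℂ) * (aeval (zetaRoot N) (contribPoly p N x b (degExp p ξ₀) ρ ψ) /
          (p : ℂ) ^ blockHeight p B (ρ : G → ℂ))) := by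
  classical
  haveI : Fintype (ConjClasses (Subgroup.centralizer ({x} : Set G))) := Fintype.ofFinite _
  obtain ⟨χ₁, hχ₁, hmin₁, he₁⟩ := exists_min_degExp hM hB
  rw [blockDefect_eq he₁] at hdef
  set S := fun φ : IrrCharacter G => ∑ y : Subgroup.centralizer ({x} : Set G),
    (conj (secVal p x b (ψ : G → ℂ) y) *
      (if p ∣ orderOf y then 0 else centralChar (φ : G → ℂ) (x * y))) /
        ((Subgroup.centralizer ({y} : Set (Subgroup.centralizer ({x} : Set G)))).index : ℂ) with hS
  have hclass : ∀ φ : IrrCharacter G, IsClassFunction (Subgroup.centralizer ({x} : Set G))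
      (fun y => conj (secVal p x b (ψ : G → ℂ) y) *
        (if p ∣ orderOf y then 0 else centralChar (φ : G → ℂ) (x * y))) := by
    intro φ w d
    haveI : Fintype (IrrCharacter (Subgroup.centralizer ({x} : Set G))) := @Fintype.ofFinite _ finite_irrCharacter
    have e : orderOf (d * w * d⁻¹) = orderOf w :=
      orderOf_injective (MulAut.conj d).toMonoidHom (MulAut.conj d).injective w
    have hd : (d : G) * x = x * d := Subgroup.mem_centralizer_singleton_iff.1 d.2
    have hbp : blockPart b (shiftFun x (ψ : G → ℂ)) (d * w * d⁻¹) = blockPart b (shiftFun x (ψ : G → ℂ)) w := by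
      simp only [ZStar.blockPart_apply]
      exact Finset.sum_congr rfl fun ξ _ => by rw [isClassFunction (isCharacter_of_irr ξ.2) w d]
    have hcc : centralChar (φ : G → ℂ) (x * ((d * w * d⁻¹ : Subgroup.centralizer ({x} : Set G)) : G)) =
        centralChar (φ : G → ℂ) (x * w) := by
      have e2 : x * ((d * w * d⁻¹ : Subgroup.centralizer ({x} : Set G)) : G) = (d : G) * (x * w) * (d : G)⁻¹ := by
        simp only [Subgroup.coe_mul, Subgroup.coe_inv, ← mul_assoc, hd]
      have hconj : IsConj (x * (w : G)) ((d : G) * (x * w) * (d : G)⁻¹) := isConj_iff.2 ⟨d, rfl⟩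
      rw [e2, centralChar, centralChar, isClassFunction (isCharacter_of_irr φ.2)]
      congr 3
      have h1 := card_centralizer_eq hconj
      have h2 := Subgroup.card_mul_index (Subgroup.centralizer ({(d : G) * (x * w) * (d : G)⁻¹} : Set G))
      rw [← Subgroup.card_mul_index (Subgroup.centralizer ({x * (w : G)} : Set G)), h1] at h2
      exact_mod_cast Nat.eq_of_mul_eq_mul_left Nat.card_pos h2
    simp only [secVal, e, hbp, hcc]
  have hsum : ∀ φ : IrrCharacter G, S φ = ∑ C : ConjClasses (Subgroup.centralizer ({x} : Set G)),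
      conj (secVal p x b (ψ : G → ℂ) (Quotient.out C)) *
        (if p ∣ orderOf (Quotient.out C) then 0 else centralChar (φ : G → ℂ) (x * (Quotient.out C :))) := fun φ =>
    sum_div_classSize (hclass φ)
  have hloc : MemLocalRing M (S χ) := by
    rw [hsum]
    refine memLocalRing_sum hM _ fun C _ => memLocalRing_mul hM (memLocalRing_conj_secVal hM hx ψ _) ?_
    split_ifs
    · exact memLocalRing_zero hM
    · exact memLocalRing_centralChar hM χ _
  have hcong : MemLocalIdeal M (S χ - S ρ) := by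
    rw [hsum, hsum, ← Finset.sum_sub_distrib]
    refine memLocalIdeal_sum hM _ fun C _ => ?_
    rw [← mul_sub]
    refine memLocalIdeal_mul_left hM (memLocalRing_conj_secVal hM hx ψ _) ?_
    split_ifs
    · rw [sub_zero]; exact memLocalIdeal_zero hM
    · exact (IsPBlock.mem_iff hM hB hχ).1 hρ _
  have hval : ∀ φ ∈ B, ∃ c : ℕ, ¬ p ∣ c ∧ S φ = (c : ℂ) *
      (aeval (zetaRoot N) (contribPoly p N x b (degExp p ξ₀) φ ψ) / (p : ℂ) ^ blockHeight p B (φ : G → ℂ)) := by
    intro φ hφ
    obtain ⟨c, c', hc, hφ1, hm, hc'⟩ := exists_degree_eq hM.1 φ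
    refine ⟨c', hc', ?_⟩
    have hC0 : (Nat.card (Subgroup.centralizer ({x} : Set G)) : ℂ) ≠ 0 := Nat.cast_ne_zero.2 Nat.card_pos.ne'
    have hterm : ∀ y : Subgroup.centralizer ({x} : Set G),
        (conj (secVal p x b (ψ : G → ℂ) y) * (if p ∣ orderOf y then 0 else centralChar (φ : G → ℂ) (x * y))) /
          ((Subgroup.centralizer ({y} : Set (Subgroup.centralizer ({x} : Set G)))).index : ℂ) =
        ((Nat.card G : ℂ) / Nat.card (Subgroup.centralizer ({x} : Set G)) / (φ : G → ℂ) 1) *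
          ((if p ∣ orderOf y then 0 else shiftFun x (φ : G → ℂ) y) * conj (secVal p x b (ψ : G → ℂ) y)) := by
      intro y
      by_cases hy : p ∣ orderOf y
      · simp [hy]
      have h1 := Subgroup.card_mul_index (Subgroup.centralizer ({x * (y : G)} : Set G))
      have h2 := Subgroup.card_mul_index (Subgroup.centralizer ({y} : Set (Subgroup.centralizer ({x} : Set G))))
      rw [card_centralizer_mul hx hM.1 hy] at h1
      simp only [hy, if_false, shiftFun, centralChar]
      have i1 : ((Subgroup.centralizer ({y} : Set (Subgroup.centralizer ({x} : Set G)))).index : ℂ) ≠ 0 :=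
        Nat.cast_ne_zero.2 Subgroup.index_ne_zero_of_finite
      have i2 : (φ : G → ℂ) 1 ≠ 0 := apply_one_ne_zero φ.2
      have i3 : (Nat.card (Subgroup.centralizer ({y} : Set (Subgroup.centralizer ({x} : Set G)))) : ℂ) ≠ 0 :=
        Nat.cast_ne_zero.2 Nat.card_pos.ne'
      rw [← h1, ← h2, Nat.cast_mul, Nat.cast_mul]
      field_simp
    simp only [hS, hterm, ← Finset.mul_sum, sum_shift_conj_secVal hM hb]
    rw [aeval_contribPoly hM hN hxN hmin₀, ← hdef, blockHeight_eq he₁]
    have hmin := hmin₁ φ hφ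
    have hle := degExp_le hM.1 φ
    have hG : (Nat.card G : ℂ) = (p : ℂ) ^ (Nat.card G).factorization p * ((c : ℂ) * c') := by
      rw [← Nat.cast_mul, ← hm, ← Nat.cast_pow, ← Nat.cast_mul, Nat.ordProj_mul_ordCompl_eq_self]
    have hc0 : (c : ℂ) ≠ 0 := Nat.cast_ne_zero.2 fun h0 => hc (h0 ▸ dvd_zero p)
    have hp0 : (p : ℂ) ≠ 0 := Nat.cast_ne_zero.2 hM.1.ne_zero
    obtain ⟨t, ht⟩ := Nat.exists_eq_add_of_le hle
    obtain ⟨u, hu⟩ := Nat.exists_eq_add_of_le hmin
    rw [hG, hφ1, show degExp p φ - degExp p χ₁ = u by omega,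
      show (Nat.card G).factorization p - degExp p χ₁ = t + u by omega, ht, pow_add, pow_add]
    field_simp
  obtain ⟨c, hc, eχ⟩ := hval χ hχ
  obtain ⟨c', hc', eρ⟩ := hval ρ hρ
  refine ⟨c, c', hc, hc', eχ ▸ hloc, ?_⟩
  rw [← eχ, ← eρ]
  exact hcong

/-- The contributions of `χ` are divisible by the `p`-part belonging to its height. -/
theorem major_local (hM : IsPModular p M) (hx : ∃ k : ℕ, orderOf x = p ^ k) (hb : IsPBlock M b)
    (hB : IsPBlock M B) {N : ℕ} (hN : N ≠ 0) (hxN : orderOf x ∣ N) (hmin₀ : ∀ ρ ∈ b, degExp p ξ₀ ≤ degExp p ρ)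
    (hdef : blockDefect p B = (Nat.card (Subgroup.centralizer ({x} : Set G))).factorization p - degExp p ξ₀)
    (ψ : IrrCharacter G) {χ : IrrCharacter G} (hχ : χ ∈ B) :
    MemLocalRing M (aeval (zetaRoot N) (contribPoly p N x b (degExp p ξ₀) χ ψ) /
      (p : ℂ) ^ blockHeight p B (χ : G → ℂ)) := by
  obtain ⟨c, c', hc, -, h, -⟩ := major_congr hM hx hb hB hN hxN hmin₀ hdef ψ hχ hχ
  have hc0 : (c : ℂ) ≠ 0 := Nat.cast_ne_zero.2 fun h0 => hc (h0 ▸ dvd_zero p)
  have h' := memLocalRing_mul hM (memLocalRing_natCast_inv hM hc) h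
  rwa [inv_mul_cancel_left₀ hc0] at h'

/-- Against a member of height zero the contribution has exactly that `p`-part. -/
theorem major_not_mem (hM : IsPModular p M) (hx : ∃ k : ℕ, orderOf x = p ^ k)
    (hind : IsInducedBlock M (Subgroup.centralizer ({x} : Set G)) b B) {K : ℕ} (hxN : orderOf x ∣ p ^ K)
    (h₀ : ξ₀ ∈ b) (hmin₀ : ∀ ρ ∈ b, degExp p ξ₀ ≤ degExp p ρ)
    (hdef : blockDefect p B = (Nat.card (Subgroup.centralizer ({x} : Set G))).factorization p - degExp p ξ₀)
    {χ ψ : IrrCharacter G} (hχ : χ ∈ B) (hψ : ψ ∈ B) (hψ0 : blockHeight p B (ψ : G → ℂ) = 0) :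
    ¬ MemLocalIdeal M (aeval (zetaRoot (p ^ K)) (contribPoly p (p ^ K) x b (degExp p ξ₀) χ ψ) /
      (p : ℂ) ^ blockHeight p B (χ : G → ℂ)) := by
  have hN : p ^ K ≠ 0 := pow_ne_zero _ hM.1.ne_zero
  obtain ⟨χ₁, hχ₁, hmin₁, he₁⟩ := exists_min_degExp hM hind.2.1
  have hψmin : ∀ ρ ∈ B, degExp p ψ ≤ degExp p ρ := fun ρ hρ => by
    have := hmin₁ ρ hρ
    rw [blockHeight_eq he₁] at hψ0
    omega
  intro h
  obtain ⟨c, c', -, hc', -, hcg⟩ := major_congr hM hx hind.1 hind.2.1 hN hxN hmin₀ hdef ψ hχ hψ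
  have h1 := memLocalIdeal_sub hM (memLocalIdeal_mul_left hM (memLocalRing_natCast hM c) h) hcg
  rw [sub_sub_cancel, hψ0, pow_zero, div_one] at h1
  rcases memLocalIdeal_of_mul hM (memLocalRing_natCast hM c')
    (memLocalRing_aeval hM hN (zetaRoot_prim hN).pow_eq_one _) h1 with h2 | h2
  · exact hc' ((memLocalIdeal_natCast_iff hM c').1 h2)
  · exact contrib_not_mem hM hind hψ hψmin hψ hψmin h₀ hmin₀ (zetaRoot_prim hN).pow_eq_one h2

/-- Two members of positive height contribute a further factor from `M`. -/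
theorem major_mem (hM : IsPModular p M) (hx : ∃ k : ℕ, orderOf x = p ^ k)
    (hind : IsInducedBlock M (Subgroup.centralizer ({x} : Set G)) b B) {k : ℕ} (hxN : orderOf x ∣ p ^ (k + 1))
    (hmin₀ : ∀ ρ ∈ b, degExp p ξ₀ ≤ degExp p ρ)
    (hdef : blockDefect p B = (Nat.card (Subgroup.centralizer ({x} : Set G))).factorization p - degExp p ξ₀)
    {χ ψ : IrrCharacter G} (hχ : χ ∈ B) (hψ : ψ ∈ B) (hψ0 : blockHeight p B (ψ : G → ℂ) ≠ 0) :
    MemLocalIdeal M (aeval (zetaRoot (p ^ (k + 1))) (contribPoly p (p ^ (k + 1)) x b (degExp p ξ₀) χ ψ) /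
      (p : ℂ) ^ blockHeight p B (χ : G → ℂ)) := by
  have hN : p ^ (k + 1) ≠ 0 := pow_ne_zero _ hM.1.ne_zero
  obtain ⟨χ₁, hχ₁, hmin₁, he₁⟩ := exists_min_degExp hM hind.2.1
  have hχ₁0 : blockHeight p B (χ₁ : G → ℂ) = 0 := by rw [blockHeight_eq he₁, Nat.sub_self]
  obtain ⟨c, c', hc, -, -, hcg⟩ := major_congr hM hx hind.1 hind.2.1 hN hxN hmin₀ hdef ψ hχ hχ₁
  have hz := (zetaRoot_prim hN).pow_eq_one
  obtain ⟨R, hR⟩ := exists_eq_pow_mul hM k _ _
    (major_local hM hx hind.1 hind.2.1 hN hxN hmin₀ hdef χ₁ hψ)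
  have h0 : MemLocalIdeal M (aeval (zetaRoot (p ^ (k + 1)))
      (contribPoly p (p ^ (k + 1)) x b (degExp p ξ₀) χ₁ ψ)) := by
    rw [← conj_contrib hM.1 hN b _ ψ χ₁ hz, hR, map_mul, map_pow, Complex.conj_natCast, conj_aeval]
    refine memLocalIdeal_mul_right hM ?_ (memLocalRing_aeval hM hN (by rw [← map_pow, hz, map_one]) _)
    rw [← Nat.cast_pow, memLocalIdeal_natCast_iff hM]
    exact dvd_pow_self p hψ0
  rw [hχ₁0, pow_zero, div_one] at hcg
  have h1 := memLocalIdeal_add hM hcg (memLocalIdeal_mul_left hM (memLocalRing_natCast hM c') h0)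
  rw [sub_add_cancel] at h1
  have hc0 : (c : ℂ) ≠ 0 := Nat.cast_ne_zero.2 fun h => hc (h ▸ dvd_zero p)
  have h2 := memLocalIdeal_mul_left hM (memLocalRing_natCast_inv hM hc) h1
  rwa [inv_mul_cancel_left₀ hc0] at h2

end CfsgLib.Blocks
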