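import Cfsg.Agent.Blocks.PairAlg.Local
import Cfsg.Agent.Blocks.PairAlg.Nilpotent
import Cfsg.Agent.Blocks.InducedDefect
import Cfsg.Agent.Blocks.FirstMain
import Cfsg.Agent.Blocks.Rank
import Cfsg.Agent.S4633
import Cfsg.Agent.S4650
import Cfsg.Agent.S4682
import Cfsg.Agent.S4539
import Cfsg.Agent.S4669
import Cfsg.Agent.S0912

/-!
# Blocks with cyclic defect group and trivial inertial quotient have rank one
-/

set_option linter.unusedSectionVars false
set_option linter.style.haveILetI false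

namespace CfsgLib.Blocks

open Cfsg CfsgLib.CharBasics CfsgLib.PairAlg
open scoped ComplexConjugate
attribute [local instance] residueField residue_charP

universe u

variable {G : Type u} [Group G] [Fintype G] {p : ℕ} {M : Ideal AlgInt}

/-- A pair of a block gives an inducing block. -/
theorem isInducedBlock_of_pairOf (hM : IsPModular p M) {B : Set (IrrCharacter G)} {Q : Subgroup G}
    [Fintype (Subgroup.centralizer (Q : Set G))]
    {f : Set (IrrCharacter (Subgroup.centralizer (Q : Set G)))} (h : IsBrauerPairOf p M B Q f) :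
    IsInducedBlock M (Subgroup.centralizer (Q : Set G)) f B := by
  obtain ⟨θ, hθ⟩ := IsPBlock.nonempty hM h.1.2
  have h1 := (isBrauerPairOf_iff hM h.1.1 h.2.1 h.1.2 hθ).1 h
  exact ZStar.isInducedBlock_of_not_small hM h.1.1 (fun g => Subgroup.mem_centralizer_iff) h.1.2 h.2.1 hθ
    fun h' => not_memLocalIdeal_one hM (by simpa using memLocalIdeal_sub hM h' h1)

/-- Conjugating the subgroup keeps the induced block. -/
theorem isInducedBlock_pushConj (hM : IsPModular p M) {H H' : Subgroup G} [Fintype H] (φ : H ≃* H') {a : G}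
    (hφ : ∀ k : H, ((φ k : H') : G) = a * k * a⁻¹) {f : Set (IrrCharacter H)} {B : Set (IrrCharacter G)}
    (h : IsInducedBlock M H f B) : IsInducedBlock M H' (pushBlock φ f) B := by
  refine ⟨isPBlock_pushBlock φ h.1, h.2.1, ?_⟩
  rintro _ ⟨ξ, hξ, rfl⟩ χ hχ g
  have key : inducedCentralChar H' (pushChar φ ξ : H' → ℂ) g = inducedCentralChar H (ξ : H → ℂ) g := by
    unfold inducedCentralChar
    symm
    refine finsum_mem_eq_of_bijOn φ ?_ fun k _ => by simp
    have hc : ∀ k : H, IsConj g ((φ k : H') : G) ↔ IsConj g (k : G) := fun k => by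
      have hk : IsConj (k : G) ((φ k : H') : G) := by rw [hφ]; exact isConj_iff.2 ⟨a, rfl⟩
      exact ⟨fun h => h.trans hk.symm, fun h => h.trans hk⟩
    exact ⟨fun k hk => (hc k).2 hk, φ.injective.injOn, fun k hk =>
      ⟨φ.symm k, (hc _).1 (by simpa using hk), φ.apply_symm_apply k⟩⟩
  rw [key]
  exact h.2.2 ξ hξ χ hχ g

/-- Equal images under two conjugations give a stabilizing element. -/
theorem stabilizesBlock_of_push_eq {H H' : Subgroup G} (φ ψ : H ≃* H') {a b : G}
    (hφ : ∀ k : H, ((φ k : H') : G) = a * k * a⁻¹) (hψ : ∀ k : H, ((ψ k : H') : G) = b * k * b⁻¹)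
    {f : Set (IrrCharacter H)} (h : pushBlock φ f = pushBlock ψ f) : StabilizesBlock H f (b⁻¹ * a) := by
  have hconj : ∀ k : H, b⁻¹ * a * k * (b⁻¹ * a)⁻¹ = (ψ.symm (φ k) : H) := fun k => by
    have h1 := hψ (ψ.symm (φ k))
    rw [MulEquiv.apply_symm_apply, hφ] at h1
    calc b⁻¹ * a * (k : G) * (b⁻¹ * a)⁻¹ = b⁻¹ * (a * k * a⁻¹) * b := by group
      _ = _ := by rw [h1]; group
  refine ⟨Subgroup.mem_normalizer_iff.2 fun k => ⟨fun hk => ?_, fun hk => ?_⟩, fun θ hθ => ?_⟩
  · rw [hconj ⟨k, hk⟩]; exact SetLike.coe_mem _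
  · have h2 := hconj (φ.symm (ψ ⟨_, hk⟩))
    rw [MulEquiv.apply_symm_apply, MulEquiv.symm_apply_apply] at h2
    have h3 : ((φ.symm (ψ ⟨_, hk⟩) : H) : G) = k := mul_left_cancel (mul_right_cancel h2)
    exact h3 ▸ SetLike.coe_mem _
  · obtain ⟨θ', hθ', he⟩ : pushChar φ θ ∈ pushBlock ψ f := h ▸ ⟨θ, hθ, rfl⟩
    refine ⟨θ', hθ', fun x y hxy => ?_⟩
    have h1 := congrArg (fun z : IrrCharacter H' => (z : H' → ℂ) (φ x)) he
    simp only [pushChar_apply, MulEquiv.symm_apply_apply] at h1
    have h2 : ψ.symm (φ x) = y := Subtype.ext (by rw [← hconj x, hxy])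
    rwa [h2] at h1

variable [Fact p.Prime]

noncomputable local instance instFintypeSubgroupCyclicNil (K : Subgroup G) : Fintype K := Fintype.ofFinite K

/-- A block with cyclic defect group and trivial inertial quotient has rank one. -/
theorem rank_one_of_cyclic_inertial_trivial (hM : IsPModular p M) {B : Set (IrrCharacter G)} (hB : IsPBlock M B)
    {P : Subgroup G} (hPD : IsDefectGroup p M B P) (hP1 : P ≠ ⊥) (hcyc : IsCyclic P)
    {c : Set (IrrCharacter (Subgroup.centralizer (P : Set G)))}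
    (hc : IsInducedBlock M (Subgroup.centralizer (P : Set G)) c B)
    (hfree : ∀ g ∈ Subgroup.normalizer (P : Set G),
      StabilizesBlock (Subgroup.centralizer (P : Set G)) c g → g ∈ Subgroup.centralizer (P : Set G)) :
    blockRank p B = 1 := by
  classical
  haveI : Fintype (IrrCharacter G) := @Fintype.ofFinite _ finite_irrCharacter
  haveI : Finite (Set (IrrCharacter G)) := inferInstance
  have hPp : IsPGroup p P := isPGroup_of_isDefectGroup hPD
  have hdcard := card_defectGroup hM hB hPD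
  have hmax := isMaximal_of_induced hM hPD hc
  obtain ⟨z₀, hz₀⟩ := hcyc.exists_generator
  have hPab : ∀ x ∈ P, ∀ y ∈ P, x * y = y * x := fun x hx y hy => by
    obtain ⟨i, hi⟩ := Subgroup.mem_zpowers_iff.1 (hz₀ ⟨x, hx⟩)
    obtain ⟨j, hj⟩ := Subgroup.mem_zpowers_iff.1 (hz₀ ⟨y, hy⟩)
    exact congrArg Subtype.val (show (⟨x, hx⟩ : P) * ⟨y, hy⟩ = ⟨y, hy⟩ * ⟨x, hx⟩ by
      rw [← hi, ← hj, ← zpow_add, ← zpow_add, add_comm])
  have hord : ∀ x ∈ P, ∃ k : ℕ, orderOf x = p ^ k := fun x hx => by
    obtain ⟨k, -, hk⟩ := (Nat.dvd_prime_pow hM.1).1 (show orderOf x ∣ p ^ blockDefect p B by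
      rw [← hdcard]; exact Subgroup.orderOf_dvd_natCard P hx)
    exact ⟨k, hk⟩
  -- the upper bound
  have hk : Nat.card B ≤ p ^ blockDefect p B := by
    haveI := Fintype.ofFinite (Subgroup.centralizer ({(z₀ : G)} : Set G))
    have hPC : P ≤ Subgroup.centralizer ({(z₀ : G)} : Set G) := fun d hd =>
      Subgroup.mem_centralizer_singleton_iff.2 (hPab d hd _ z₀.2)
    obtain ⟨b, hind, hge⟩ := exists_inducing_defect_ge hM (ZStar.isPGroup_zpowers hM.1 (hord _ z₀.2))
      (ZStar.mem_centralizer_zpowers (z₀ : G)) hB hPD (Subgroup.zpowers_le.2 z₀.2) hPC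
    have hdef := le_antisymm (blockDefect_le_induced hM hind) hge
    have hcen : P.subgroupOf (Subgroup.centralizer ({(z₀ : G)} : Set G)) ≤
        Subgroup.center (Subgroup.centralizer ({(z₀ : G)} : Set G)) := fun x hx => by
      refine Subgroup.mem_center_iff.2 fun y => Subtype.ext ?_
      obtain ⟨i, hi⟩ := Subgroup.mem_zpowers_iff.1 (hz₀ ⟨(x : G), hx⟩)
      have hi' : (z₀ : G) ^ i = (x : G) := congrArg Subtype.val hi
      have hy : Commute (y : G) (z₀ : G) := Subgroup.mem_centralizer_singleton_iff.1 y.2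
      rw [Subgroup.coe_mul, Subgroup.coe_mul, ← hi']
      exact hy.zpow_right i
    haveI : (P.subgroupOf (Subgroup.centralizer ({(z₀ : G)} : Set G))).Normal :=
      ⟨fun x hx g => by rw [Subgroup.mem_center_iff.1 (hcen hx) g, mul_inv_cancel_right]; exact hx⟩
    obtain ⟨y, hy⟩ := exists_defectClass hM hind.1
    obtain ⟨S⟩ : Nonempty (Sylow p (Subgroup.centralizer ({y} : Set (Subgroup.centralizer ({(z₀ : G)} : Set G))))) :=
      inferInstance
    obtain ⟨D, hD⟩ : ∃ D, IsDefectGroup p M b D := ⟨_, y, hy, S, rfl⟩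
    have hle : P.subgroupOf _ ≤ D :=
      (CfsgLib.PCore.le_pCore inferInstance (hPp.of_equiv (Subgroup.subgroupOfEquivOfLe hPC).symm)).trans
        (Cfsg.Agent.S0912.result p M hM b hind.1 D hD)
    have hDP : P.subgroupOf _ = D := Subgroup.eq_of_le_of_card_ge hle (by
      rw [card_defectGroup hM hind.1 hD, hdef, ← hdcard, Nat.card_congr (Subgroup.subgroupOfEquivOfLe hPC).toEquiv])
    exact Cfsg.Agent.S4539.result p M hM B hB P hPD _ z₀.2 (fun d hd => hPab d hd _ z₀.2) b hind (hDP ▸ hD)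
      (by rw [Cfsg.Agent.S4669.result p M hM b hind.1 D hD (hDP ▸ hcen)]; omega)
  -- the lower bound
  haveI : Fintype {x : G // x ∈ P ∧ x ≠ 1} := Fintype.ofFinite _
  let rep : G → G := fun x => (ConjClasses.mk x).out
  have hrep : ∀ x, IsConj x (rep x) := fun x => by
    have := Quotient.out_eq (ConjClasses.mk x)
    exact (ConjClasses.mk_eq_mk_iff_isConj.1 (this : ConjClasses.mk (rep x) = ConjClasses.mk x)).symm
  choose a ha using fun x => isConj_iff.1 (hrep x)
  have hmem : ∀ x k, k ∈ Subgroup.centralizer ((Subgroup.zpowers x : Subgroup G) : Set G) →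
      a x * k * (a x)⁻¹ ∈ Subgroup.centralizer ({rep x} : Set G) := fun x k hk => by
    refine Subgroup.mem_centralizer_singleton_iff.2 ?_
    have h := Subgroup.mem_centralizer_iff.1 hk x (Subgroup.mem_zpowers x)
    conv_lhs => rw [← ha x]
    conv_rhs => rw [← ha x]
    calc a x * k * (a x)⁻¹ * (a x * x * (a x)⁻¹) = a x * (k * x) * (a x)⁻¹ := by group
      _ = _ := by rw [← h]; group
  have hmem' : ∀ x k, k ∈ Subgroup.centralizer ({rep x} : Set G) →
      (a x)⁻¹ * k * a x ∈ Subgroup.centralizer ((Subgroup.zpowers x : Subgroup G) : Set G) := fun x k hk => by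
    have h : k * rep x = rep x * k := Subgroup.mem_centralizer_singleton_iff.1 hk
    refine (ZStar.mem_centralizer_zpowers x _).1 ?_ |> Subgroup.mem_centralizer_iff.2
    refine Subgroup.mem_centralizer_singleton_iff.2 ?_
    conv_rhs at h => rw [← ha x]
    conv_lhs at h => rw [← ha x]
    calc (a x)⁻¹ * k * a x * x = (a x)⁻¹ * (k * (a x * x * (a x)⁻¹)) * a x := by group
      _ = _ := by rw [h]; group
  let φ : ∀ x : G, Subgroup.centralizer ((Subgroup.zpowers x : Subgroup G) : Set G) ≃*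
      Subgroup.centralizer ({rep x} : Set G) := fun x =>
    { toFun := fun k => ⟨_, hmem x k k.2⟩
      invFun := fun k => ⟨_, hmem' x k k.2⟩
      left_inv := fun k => Subtype.ext (by simp [mul_assoc])
      right_inv := fun k => Subtype.ext (by simp [mul_assoc])
      map_mul' := fun k l => Subtype.ext (by simp [mul_assoc]) }
  have hF0 : ∀ Q : Subgroup G, ∃ f : Set (IrrCharacter (Subgroup.centralizer (Q : Set G))), Q ≤ P →
      IsBrauerPairOf p M B Q f ∧ SubpairLE p M Q f P c := fun Q => by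
    by_cases hQ : Q ≤ P
    · obtain ⟨e, he⟩ := CfsgLib.PairAlg.exists_below (complete (G := G) hM) (isPair_bc hM hmax.1.1) hQ
      obtain ⟨f, hQf, rfl⟩ := exists_bc hM (he.isPair (isPair_bc hM hmax.1.1))
      exact ⟨f, fun _ => ⟨(isBrauerPairOf_iff_bc hM hB hQf).2 (ofBlk_of_below hM hmax he),
        subpairLE_of_le' hM hQf hmax.1.1 he⟩⟩
    · exact ⟨∅, fun h => absurd h hQ⟩
  choose F hF using hF0
  let blk : ∀ x : G, Set (IrrCharacter (Subgroup.centralizer ({rep x} : Set G))) := fun x =>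
    pushBlock (φ x) (F (Subgroup.zpowers x))
  have hblk : ∀ x ∈ P, IsInducedBlock M (Subgroup.centralizer ({rep x} : Set G)) (blk x) B := fun x hx =>
    isInducedBlock_pushConj hM (φ x) (a := a x) (fun k => rfl)
      (isInducedBlock_of_pairOf hM (hF _ (Subgroup.zpowers_le.2 hx)).1)
  have hinj : ∀ x ∈ P, ∀ y ∈ P, rep x = rep y → HEq (blk x) (blk y) → x = y := by
    intro x hx y hy hxy
    have hconj : IsConj x y := (hrep x).trans (hxy ▸ (hrep y).symm)
    obtain ⟨g, hg⟩ := isConj_iff.1 hconj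
    have hsame : Subgroup.zpowers x = Subgroup.zpowers y := by
      have ho : orderOf x = orderOf y := by rw [← hg]; exact ((orderOf_injective (MulAut.conj g).toMonoidHom
        (MulAut.conj g).injective x)).symm
      haveI := hcyc
      have h2 : Subgroup.zpowers (⟨x, hx⟩ : P) = Subgroup.zpowers ⟨y, hy⟩ := by
        haveI : Fintype P := Fintype.ofFinite P
        have hcard : (Finset.univ.filter fun a : P => a ∈ Subgroup.zpowers (⟨x, hx⟩ : P)) =
            Finset.univ.filter fun a : P => a ^ orderOf x = 1 := by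
          refine Finset.eq_of_subset_of_card_le (fun a ha => ?_) ?_
          · obtain ⟨i, rfl⟩ := Subgroup.mem_zpowers_iff.1 (Finset.mem_filter.1 ha).2
            refine Finset.mem_filter.2 ⟨Finset.mem_univ _, ?_⟩
            rw [← zpow_natCast, ← zpow_mul, mul_comm, zpow_mul, zpow_natCast, ← Subgroup.orderOf_mk x hx,
              pow_orderOf_eq_one, one_zpow]
          · refine (IsCyclic.card_pow_eq_one_le (orderOf_pos x)).trans ?_
            rw [← Fintype.card_subtype, ← Nat.card_eq_fintype_card, Nat.card_zpowers, Subgroup.orderOf_mk]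
        have hy' : (⟨y, hy⟩ : P) ∈ Subgroup.zpowers (⟨x, hx⟩ : P) := by
          have h : (⟨y, hy⟩ : P) ∈ Finset.univ.filter fun a : P => a ^ orderOf x = 1 := by
            refine Finset.mem_filter.2 ⟨Finset.mem_univ _, ?_⟩
            rw [ho, ← Subgroup.orderOf_mk y hy, pow_orderOf_eq_one]
          rw [← hcard] at h
          exact (Finset.mem_filter.1 h).2
        exact (Subgroup.eq_of_le_of_card_ge (Subgroup.zpowers_le.2 hy') (by
          rw [Nat.card_zpowers, Nat.card_zpowers, Subgroup.orderOf_mk, Subgroup.orderOf_mk, ho])).symm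
      have h3 := congrArg (Subgroup.map P.subtype) h2
      rwa [MonoidHom.map_zpowers, MonoidHom.map_zpowers] at h3
    intro hb
    -- compare over one subgroup
    have main : ∀ (R R' : Subgroup G) (r r' : G) (u v : G) (ψ : Subgroup.centralizer (R : Set G) ≃*
        Subgroup.centralizer ({r} : Set G)) (ψ' : Subgroup.centralizer (R' : Set G) ≃*
        Subgroup.centralizer ({r'} : Set G)), R = R' → R ≤ P → ∀ hr : r = r',
        (∀ k, ((ψ k : Subgroup.centralizer ({r} : Set G)) : G) = u * k * u⁻¹) →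
        (∀ k, ((ψ' k : Subgroup.centralizer ({r'} : Set G)) : G) = v * k * v⁻¹) →
        HEq (pushBlock ψ (F R)) (pushBlock ψ' (F R')) →
          StabilizesBlock (Subgroup.centralizer (R : Set G)) (F R) (v⁻¹ * u) := by
      intro R R' r r' u v ψ ψ' hR hRP hr hu hv he
      subst hR hr
      exact stabilizesBlock_of_push_eq ψ ψ' hu hv (eq_of_heq he)
    have hst := main _ _ _ _ (a x) (a y) (φ x) (φ y) hsame (Subgroup.zpowers_le.2 hx) hxy (fun k => rfl)
      (fun k => rfl) hb
    have hxy' : ((a y)⁻¹ * a x) * x * ((a y)⁻¹ * a x)⁻¹ = y := by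
      calc ((a y)⁻¹ * a x) * x * ((a y)⁻¹ * a x)⁻¹ = (a y)⁻¹ * (a x * x * (a x)⁻¹) * a y := by group
        _ = (a y)⁻¹ * (a y * y * (a y)⁻¹) * a y := by rw [ha, ha, hxy]
        _ = y := by group
    have hgN : (a y)⁻¹ * a x ∈ Subgroup.normalizer ((Subgroup.zpowers x : Subgroup G) : Set G) := by
      refine mem_normalizer_of_cm ?_
      show (Subgroup.zpowers x).map _ = _
      rw [MonoidHom.map_zpowers, show (MulAut.conj ((a y)⁻¹ * a x)).toMonoidHom x = y from hxy', hsame]
    obtain ⟨hpair, hle⟩ := hF _ (Subgroup.zpowers_le.2 hx)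
    obtain ⟨t, ht, d, hd, he⟩ := (Cfsg.Agent.S4682.result p M hM B P c hmax hPab _ _ (Subgroup.zpowers_le.2 hx)
      hpair.1.2 hle
      (stab (Subgroup.zpowers x) (bc hM _ (F (Subgroup.zpowers x))))
      (fun w => ⟨fun h => ⟨h.1, (stabilizesBlock_bc_iff hM hpair.1.2 h.1).2 h.2⟩,
        fun h => ⟨h.1, (stabilizesBlock_bc_iff hM hpair.1.2 h.1).1 h.2⟩⟩)
      (stab P (bc hM P c)) (fun w => ⟨fun h => ⟨h.1, (stabilizesBlock_bc_iff hM hc.1 h.1).2 h.2⟩,
        fun h => ⟨h.1, (stabilizesBlock_bc_iff hM hc.1 h.1).1 h.2⟩⟩)).1 _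
      ⟨hgN, (stabilizesBlock_bc_iff hM hpair.1.2 hgN).1 hst⟩
    have htC := hfree t ht.1 ((stabilizesBlock_bc_iff hM hc.1 ht.1).2 ht.2)
    have hgC : (a y)⁻¹ * a x ∈ Subgroup.centralizer ((Subgroup.zpowers x : Subgroup G) : Set G) :=
      he ▸ mul_mem (Subgroup.centralizer_le (Subgroup.zpowers_le.2 hx) htC) hd
    rw [← hxy', ← Subgroup.mem_centralizer_iff.1 hgC x (Subgroup.mem_zpowers x), mul_inv_cancel_right]
  -- the count
  let R : Finset G := (Finset.univ : Finset {x : G // x ∈ P ∧ x ≠ 1}).image fun x => rep x.1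
  have hRx : ∀ r ∈ R, ∃ x ∈ P, x ≠ 1 ∧ rep x = r := fun r hr => by
    obtain ⟨x, -, rfl⟩ := Finset.mem_image.1 hr
    exact ⟨x.1, x.2.1, x.2.2, rfl⟩
  haveI : ∀ r : G, Fintype (IrrCharacter (Subgroup.centralizer ({r} : Set G))) := fun r =>
    @Fintype.ofFinite _ finite_irrCharacter
  let S : ∀ r : G, Finset (Set (IrrCharacter (Subgroup.centralizer ({r} : Set G)))) := fun r =>
    (blockFinset M (Subgroup.centralizer ({r} : Set G))).filter
      fun b => IsInducedBlock M (Subgroup.centralizer ({r} : Set G)) b B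
  have hcount : Fintype.card {x : G // x ∈ P ∧ x ≠ 1} ≤ ∑ r ∈ R, (S r).card := by
    rw [← Finset.card_sigma, ← Finset.card_univ]
    refine Finset.card_le_card_of_injOn (fun x => (⟨rep x.1, blk x.1⟩ :
      Σ r : G, Set (IrrCharacter (Subgroup.centralizer ({r} : Set G))))) (fun x _ => ?_) fun x _ y _ h => ?_
    · exact Finset.mem_sigma.2 ⟨Finset.mem_image.2 ⟨x, Finset.mem_univ _, rfl⟩,
        Finset.mem_filter.2 ⟨mem_blockFinset.2 (hblk _ x.2.1).1, hblk _ x.2.1⟩⟩
    · obtain ⟨h1, h2⟩ := Sigma.mk.inj_iff.1 h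
      exact Subtype.ext (hinj _ x.2.1 _ y.2.1 h1 h2)
  choose pp yy hyy using ZStar.exists_pPart hM.1 (G := G)
  have hpp : ∀ g, IsPPart p g (pp g) := fun g =>
    ⟨yy g, (hyy g).1, (hyy g).2.1, (hyy g).2.2.1, (hyy g).2.2.2.1⟩
  set Φ : G → ℂ := fun g => ∑ χ : IrrCharacter G,
    if χ ∈ B then (χ : G → ℂ) g * conj ((χ : G → ℂ) g) else 0 with hΦ
  have hΦc : IsClassFunction G Φ := fun u v => by
    simp only [hΦ]
    exact Finset.sum_congr rfl fun χ _ => by rw [isClassFunction (isCharacter_of_irr χ.2) u v]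
  have hΦ0 : ∀ g, 0 ≤ (Φ g).re := fun g => by
    simp only [hΦ, Complex.re_sum]
    refine Finset.sum_nonneg fun χ _ => ?_
    split_ifs
    · rw [Complex.mul_conj]; exact Complex.normSq_nonneg _
    · exact le_refl _
  have htot : ∑ g : G, Φ g = (Nat.card G : ℂ) * (Nat.card B : ℂ) := by
    simp only [hΦ]
    rw [Finset.sum_comm, Finset.sum_congr rfl (g := fun χ => if χ ∈ B then (Nat.card G : ℂ) else 0) fun χ _ => ?_]
    · rw [← Finset.sum_filter, Finset.sum_const, nsmul_eq_mul, mul_comm, Nat.card_eq_fintype_card (α := B),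
        Fintype.card_subtype]
    · split_ifs
      · rw [sum_mul_conj, if_pos rfl]
      · simp
  have hreg : ∑ g : G, (if p ∣ orderOf g then 0 else Φ g) = (Nat.card G : ℂ) * blockRank p B := by
    rw [← sum_blockKernel_diag hM hB]
    refine Finset.sum_congr rfl fun g _ => ?_
    split_ifs
    · rfl
    · rw [blockKernel_eq, Finset.sum_filter]
  have hRp : ∀ r ∈ R, (∃ k : ℕ, orderOf r = p ^ k) ∧ r ≠ 1 := fun r hr => by
    obtain ⟨x, hx, hx1, rfl⟩ := hRx r hr
    constructor
    · obtain ⟨k, hk'⟩ := hord x hx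
      refine ⟨k, ?_⟩
      rw [← ha x, ← hk']
      exact orderOf_injective (MulAut.conj (a x)).toMonoidHom (MulAut.conj (a x)).injective x
    · intro h
      apply hx1
      have h2 := ha x
      rw [h] at h2
      simpa using h2
  have hsec : ∀ r ∈ R, ∑ g : G, (if IsConj r (pp g) then Φ g else 0) =
      (Nat.card G : ℂ) * ∑ b ∈ S r, (blockRank p b : ℂ) := fun r hr => by
    apply mul_left_cancel₀ (Nat.cast_ne_zero.2 Nat.card_pos.ne' :
      (Nat.card (Subgroup.centralizer ({r} : Set G)) : ℂ) ≠ 0)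
    rw [sum_section hM.1 hΦc (hRp r hr).1 pp hpp, mul_left_comm]
    refine congrArg _ ?_
    rw [Finset.mul_sum, Finset.sum_congr rfl (g := fun y => ∑ b ∈ S r, if p ∣ orderOf y then 0 else blockKernel b y y)
      fun y _ => ?_, Finset.sum_comm]
    · exact Finset.sum_congr rfl fun b hb =>
        sum_blockKernel_diag hM (mem_blockFinset.1 (Finset.mem_filter.1 hb).1)
    · split_ifs with hy
      · simp
      · exact sum_sq_section hM (hRp r hr).1 hB hy
  have hge : (Nat.card G : ℝ) * (blockRank p B + ∑ r ∈ R, ((S r).card : ℝ)) ≤ (Nat.card G : ℝ) * Nat.card B := by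
    have hle : (∑ g : G, (if p ∣ orderOf g then 0 else Φ g)).re +
        ∑ r ∈ R, (∑ g : G, (if IsConj r (pp g) then Φ g else 0)).re ≤ (∑ g : G, Φ g).re := by
      simp only [Complex.re_sum]
      rw [Finset.sum_comm, ← Finset.sum_add_distrib]
      refine Finset.sum_le_sum fun g _ => ?_
      simp only [apply_ite Complex.re, Complex.zero_re]
      by_cases hg : p ∣ orderOf g
      · rw [if_pos hg, zero_add, ← Finset.sum_filter, Finset.sum_const, nsmul_eq_mul]
        refine mul_le_of_le_one_left (hΦ0 g) ?_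
        refine Nat.cast_le_one.2 (Finset.card_le_one.2 fun r hr s hs => ?_)
        obtain ⟨x, -, -, rfl⟩ := hRx r (Finset.mem_filter.1 hr).1
        obtain ⟨y, -, -, rfl⟩ := hRx s (Finset.mem_filter.1 hs).1
        have : ConjClasses.mk x = ConjClasses.mk y := ConjClasses.mk_eq_mk_iff_isConj.2
          (((hrep x).trans (Finset.mem_filter.1 hr).2).trans ((hrep y).trans (Finset.mem_filter.1 hs).2).symm)
        simp only [rep, this]
      · rw [if_neg hg, Finset.sum_eq_zero, add_zero]
        intro r hr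
        rw [if_neg]
        intro h
        have h1 : pp g = 1 := by
          obtain ⟨y, hy, hc', ⟨k, hk'⟩, hyr⟩ := hpp g
          have hd : orderOf (pp g) ∣ orderOf g := by
            have e := hc'.orderOf_mul_eq_mul_orderOf_of_coprime
              (hk' ▸ ((hM.1.coprime_iff_not_dvd.2 hyr).pow_left k))
            rw [hy] at e
            rw [e]
            exact dvd_mul_right _ _
          rw [hk'] at hd
          rcases Nat.eq_zero_or_pos k with rfl | hk0
          · exact orderOf_eq_one_iff.1 hk'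
          · exact absurd ((dvd_pow_self p hk0.ne').trans hd) hg
        rw [h1] at h
        exact (hRp r hr).2 (isConj_one_right.1 h.symm)
    rw [hreg, htot] at hle
    rw [Finset.sum_congr rfl fun r hr => congrArg Complex.re (hsec r hr)] at hle
    simp only [Complex.mul_re, Complex.natCast_re, Complex.natCast_im, zero_mul, sub_zero, Complex.re_sum] at hle
    refine le_trans ?_ hle
    rw [mul_add, Finset.mul_sum]
    refine add_le_add le_rfl (Finset.sum_le_sum fun r _ => ?_)
    refine mul_le_mul_of_nonneg_left ?_ (Nat.cast_nonneg _)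
    rw [Finset.card_eq_sum_ones, Nat.cast_sum]
    exact Finset.sum_le_sum fun b hb =>
      Nat.cast_le.2 (blockRank_pos hM (mem_blockFinset.1 (Finset.mem_filter.1 hb).1))
  have hge' : blockRank p B + ∑ r ∈ R, (S r).card ≤ Nat.card B := by
    have := le_of_mul_le_mul_left hge (Nat.cast_pos.2 Nat.card_pos)
    exact_mod_cast this
  have hcardP : Fintype.card {x : G // x ∈ P ∧ x ≠ 1} + 1 = Nat.card P := by
    rw [Nat.card_eq_fintype_card, Fintype.card_subtype, Fintype.card_subtype,
      ← Finset.card_erase_add_one (s := Finset.univ.filter fun x => x ∈ P) (a := 1) (by simp)]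
    congr 2
    ext x
    simp [and_comm]
  have := blockRank_pos hM hB
  omega

/-- Nilpotent blocks with cyclic defect group have rank one. -/
theorem rank_one_of_nilpotent_cyclic (hM : IsPModular p M) {B : Set (IrrCharacter G)}
    (hnil : IsNilpotentBlock p M B) {P : Subgroup G} (hPD : IsDefectGroup p M B P) (hP1 : P ≠ ⊥)
    (hcyc : IsCyclic P) : blockRank p B = 1 := by
  classical
  haveI := Fintype.ofFinite (Subgroup.centralizer (P : Set G))
  obtain ⟨c, hmax⟩ := exists_maximal_on_defect hM hnil.1 hPD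
  have hc := isInducedBlock_of_pairOf hM hmax.1
  refine rank_one_of_cyclic_inertial_trivial hM hnil.1 hPD hP1 hcyc hc fun g hg hst => ?_
  set T := stab P (bc hM P c) with hTdef
  have hTmem : ∀ z : G, z ∈ T ↔
      z ∈ Subgroup.normalizer (P : Set G) ∧ StabilizesBlock (Subgroup.centralizer (P : Set G)) c z :=
    fun z => ⟨fun h => ⟨h.1, (stabilizesBlock_bc_iff hM hc.1 h.1).2 h.2⟩,
      fun h => ⟨h.1, (stabilizesBlock_bc_iff hM hc.1 h.1).1 h.2⟩⟩
  have hgT : g ∈ T := (hTmem g).2 ⟨hg, hst⟩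
  haveI : ((Subgroup.centralizer (P : Set G)).subgroupOf T).Normal :=
    Subgroup.normal_subgroupOf_of_le_normalizer fun u hu => le_normalizer_centralizer P hu.1
  obtain ⟨-, hdvd, -⟩ := Cfsg.Agent.S4633.result p M hM B hnil.1 P hPD hP1 hcyc c hc T hTmem
  set n := orderOf g with hn
  have hreg : IsPRegular p (g ^ p ^ n.factorization p) := by
    rw [IsPRegular, orderOf_pow' _ (pow_ne_zero _ hM.1.ne_zero), ← hn, Nat.gcd_eq_right (Nat.ordProj_dvd n p)]
    exact Nat.not_dvd_ordCompl hM.1 (orderOf_pos _).ne'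
  have hN := Subgroup.pow_mem _ hgT (p ^ n.factorization p)
  have hC := hnil.2 P c hmax.1 _ ((hTmem _).1 hN).1 ((hTmem _).1 hN).2 hreg
  have h1 : ((⟨g, hgT⟩ : T) : T ⧸ (Subgroup.centralizer (P : Set G)).subgroupOf T) ^ p ^ n.factorization p = 1 := by
    rw [← QuotientGroup.mk_pow, QuotientGroup.eq_one_iff, Subgroup.mem_subgroupOf]
    exact hC
  have h2 := (orderOf_dvd_natCard
    ((⟨g, hgT⟩ : T) : T ⧸ (Subgroup.centralizer (P : Set G)).subgroupOf T))
  rw [← Subgroup.index_eq_card] at h2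
  have hcop : Nat.Coprime (p ^ n.factorization p) (p - 1) :=
    ((hM.1.coprime_iff_not_dvd.2 fun h => by
      have h2 := hM.1.two_le
      have := Nat.le_of_dvd (by omega) h
      omega)).pow_left _
  have h3 := orderOf_eq_one_iff.1
    (Nat.eq_one_of_dvd_coprimes hcop (orderOf_dvd_of_pow_eq_one h1) (h2.trans hdvd))
  exact (QuotientGroup.eq_one_iff (⟨g, hgT⟩ : T)).1 h3

/-- The local block at a nontrivial subgroup of a cyclic defect group. -/
theorem cyclic_local_block (hM : IsPModular p M) {B : Set (IrrCharacter G)} (hB : IsPBlock M B) {P : Subgroup G}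
    (hPD : IsDefectGroup p M B P) (hP1 : P ≠ ⊥) (hcyc : IsCyclic P)
    {c : Set (IrrCharacter (Subgroup.centralizer (P : Set G)))}
    (hc : IsInducedBlock M (Subgroup.centralizer (P : Set G)) c B) {T : Subgroup G}
    (hT : ∀ g : G, g ∈ T ↔ (g ∈ Subgroup.normalizer (P : Set G) ∧
      StabilizesBlock (Subgroup.centralizer (P : Set G)) c g))
    {Q : Subgroup G} (hQP : Q ≤ P) (hQ1 : Q ≠ ⊥) {f : Set (IrrCharacter (Subgroup.centralizer (Q : Set G)))}
    (hf : IsInducedBlockIn M (Subgroup.centralizer (Q : Set G)) (Subgroup.centralizer (P : Set G)) c f)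
    {T' : Subgroup G} (hT' : ∀ g : G, g ∈ T' ↔ (g ∈ Subgroup.normalizer (Q : Set G) ∧
      StabilizesBlock (Subgroup.centralizer (Q : Set G)) f g)) :
    T' = T ⊔ Subgroup.centralizer (Q : Set G) ∧
      (Subgroup.centralizer (Q : Set G)).relIndex T' = (Subgroup.centralizer (P : Set G)).relIndex T ∧
      blockRank p f = 1 ∧ IsNilpotentBlock p M f := by
  classical
  have hmax := isMaximal_of_induced hM hPD hc
  haveI := hcyc
  have hPab : ∀ x ∈ P, ∀ y ∈ P, x * y = y * x := fun x hx y hy => by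
    letI := hcyc.commGroup
    exact congrArg Subtype.val (mul_comm (⟨x, hx⟩ : P) ⟨y, hy⟩)
  have hPQ : P ≤ Subgroup.centralizer (Q : Set G) := fun a ha =>
    Subgroup.mem_centralizer_iff.2 fun q hq => (hPab a ha q (hQP hq)).symm
  haveI : ((Subgroup.centralizer (P : Set G)).subgroupOf T).Normal :=
    Subgroup.normal_subgroupOf_of_le_normalizer fun u hu => le_normalizer_centralizer P ((hT u).1 hu).1
  obtain ⟨-, -, hfree⟩ := Cfsg.Agent.S4633.result p M hM B hB P hPD hP1 hcyc c hc T hT
  have hN := (isInducedBlockIn_iff hM hQP hPQ hmax.1.1).1 hf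
  have hQf : IsBrauerPair p M Q f := hN.1
  have hstep := (nstep_bc_iff hM hQf hmax.1.1).1 hN
  have hle := hstep.le'
  have hnil := (Cfsg.Agent.S4650.result p M hM B hB P hPD hPab hP1 c hc T hT).1 hfree Q hQP hQ1 f hf
  obtain ⟨hkey, hidx⟩ := Cfsg.Agent.S4682.result p M hM B P c hmax hPab Q f hQP hQf.2
    (subpairLE_of_le' hM hQf hmax.1.1 hle) T' hT' T hT
  have hTN : T ≤ Subgroup.normalizer (Q : Set G) := fun g hg => by
    refine mem_normalizer_of_cm ?_
    have hle' : Q.map (MulAut.conj g).toMonoidHom ≤ P := by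
      rintro _ ⟨q, hq, rfl⟩
      exact (Subgroup.mem_normalizer_iff.1 ((hT g).1 hg).1 q).1 (hQP hq)
    haveI : Fintype P := Fintype.ofFinite P
    have hsub : ∀ R : Subgroup G, R ≤ P → Nat.card R = Nat.card Q →
        ∀ a : P, (a : G) ∈ R ↔ a ^ Nat.card Q = 1 := by
      intro R hR hcard
      have h1 : (Finset.univ.filter fun a : P => (a : G) ∈ R) =
          Finset.univ.filter fun a : P => a ^ Nat.card Q = 1 := by
        refine Finset.eq_of_subset_of_card_le (fun a ha => ?_) ?_
        · refine Finset.mem_filter.2 ⟨Finset.mem_univ _, Subtype.ext ?_⟩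
          have h3 : (a : G) ^ Nat.card R = 1 :=
            congrArg Subtype.val (pow_card_eq_one' (x := (⟨(a : G), (Finset.mem_filter.1 ha).2⟩ : R)))
          rw [SubgroupClass.coe_pow, ← hcard, h3]
          rfl
        · refine (IsCyclic.card_pow_eq_one_le Nat.card_pos).trans ?_
          rw [← Fintype.card_subtype, ← Nat.card_eq_fintype_card, ← hcard]
          exact (Nat.card_congr (Subgroup.subgroupOfEquivOfLe hR).toEquiv).symm.le
      intro a
      have := congrArg (a ∈ ·) h1
      simpa using this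
    ext x
    constructor
    · intro hx
      exact (hsub Q hQP rfl ⟨x, hle' hx⟩).2 ((hsub _ hle' (card_cm g Q) ⟨x, hle' hx⟩).1 hx)
    · intro hx
      exact (hsub _ hle' (card_cm g Q) ⟨x, hQP hx⟩).2 ((hsub Q hQP rfl ⟨x, hQP hx⟩).1 hx)
  have hTT' : T ≤ T' := fun g hg => by
    refine (hT' g).2 ⟨hTN hg, (stabilizesBlock_bc_iff hM hQf.2 (hTN hg)).2 ?_⟩
    refine CfsgLib.PairAlg.below_unique (complete (G := G) hM) (isPair_bc hM hmax.1.1) ?_ hle
    have := hle.cj g
    rwa [cm_of_mem_normalizer (hTN hg), cm_of_mem_normalizer ((hT g).1 hg).1,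
      (stabilizesBlock_bc_iff hM hc.1 ((hT g).1 hg).1).1 ((hT g).1 hg).2] at this
  have hCT' : Subgroup.centralizer (Q : Set G) ≤ T' := fun g hg => by
    have h := centralizer_le_stab (isPair_bc hM hQf) hg
    exact (hT' g).2 ⟨h.1, (stabilizesBlock_bc_iff hM hQf.2 h.1).2 h.2⟩
  refine ⟨le_antisymm (fun g hg => ?_) (sup_le hTT' hCT'), ?_, ?_, hnil⟩
  · obtain ⟨y, hy, d, hd, rfl⟩ := hkey g hg
    exact Subgroup.mul_mem_sup hy hd
  · show ((Subgroup.centralizer (Q : Set G)).subgroupOf T').index = _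
    rw [hidx, inf_eq_left.2 hTN]
    show ((T ⊓ Subgroup.centralizer (Q : Set G)).subgroupOf T).index = _
    refine congrArg Subgroup.index ?_
    ext ⟨g, hg⟩
    simp only [Subgroup.mem_subgroupOf, Subgroup.mem_inf]
    refine ⟨fun h => ?_, fun h => ⟨hg, Subgroup.centralizer_le hQP h⟩⟩
    obtain ⟨q, hq, hq1⟩ : ∃ q ∈ Q, q ≠ 1 := by
      by_contra hcon
      push Not at hcon
      exact hQ1 ((Subgroup.eq_bot_iff_forall _).2 hcon)
    exact hfree g hg q (hQP hq) hq1 (by rw [← Subgroup.mem_centralizer_iff.1 h.2 q hq, mul_inv_cancel_right])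
  · have hne : Br P (bl hM (Subgroup.centralizer (Q : Set G)).subtype f) ≠ 0 := fun h0 => by
      have h1 := hstep.mul
      rw [show bc hM Q f = bl hM (Subgroup.centralizer (Q : Set G)).subtype f from rfl, h0, mul_zero] at h1
      exact hstep.right.blk.ne h1.symm
    obtain ⟨D, hD, hPD'⟩ := exists_defectGroup_sub_ge hM hQf.2 hmax.1.1.1 hPQ hne
    have hpair : IsBrauerPairOf p M B Q f :=
      (isBrauerPairOf_iff_bc hM hB hQf).2 (ofBlk_of_below hM hmax hle)
    have hd := blockDefect_le_induced hM (isInducedBlock_of_pairOf hM hpair)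
    have hDP : P.subgroupOf (Subgroup.centralizer (Q : Set G)) = D := Subgroup.eq_of_le_of_card_ge hPD' (by
      rw [card_defectGroup hM hQf.2 hD, Nat.card_congr (Subgroup.subgroupOfEquivOfLe hPQ).toEquiv,
        card_defectGroup hM hB hPD]
      exact Nat.pow_le_pow_right hM.1.pos hd)
    refine rank_one_of_nilpotent_cyclic hM hnil (hDP.symm ▸ hD) (fun h => hP1 ?_)
      (isCyclic_of_surjective _ (Subgroup.subgroupOfEquivOfLe hPQ).symm.surjective)
    rw [← Subgroup.map_subgroupOf_eq_of_le hPQ, h, Subgroup.map_bot]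

end CfsgLib.Blocks
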