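import Cfsg.Agent.Blocks.Rank
import Cfsg.Agent.Blocks.RegularRank

/-!
# Induced blocks do not raise the defect; blocks of defect one for `p = 2`
-/

set_option linter.unusedSectionVars false
set_option linter.style.haveILetI false

namespace CfsgLib.Blocks

open Cfsg CfsgLib.CharBasics
open scoped ComplexConjugate

variable {G : Type*} [Group G] [Fintype G] {p : ℕ} {M : Ideal AlgInt}

/-- The defect of a block of a subgroup is at most that of the block it induces. -/
theorem blockDefect_le_of_induced (hM : IsPModular p M) {H : Subgroup G} [Fintype H]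
    {b : Set (IrrCharacter H)} {B : Set (IrrCharacter G)} (hind : IsInducedBlock M H b B) :
    blockDefect p b ≤ blockDefect p B := by
  classical
  haveI : Fintype (ConjClasses H) := Fintype.ofFinite _
  obtain ⟨g, hg⟩ := exists_defectClass hM hind.2.1
  obtain ⟨ξ, hξ, hmin, hs⟩ := exists_min_degExp hM hind.1
  obtain ⟨χ, hχ⟩ := IsPBlock.nonempty hM hind.2.1
  have hunit : ¬ MemLocalIdeal M (omega (ξ : H → ℂ) (ZStar.res H (classElt g))) := by
    rw [ZStar.omega_res_classElt]
    intro h
    exact hg.2.2 χ hχ (by simpa using memLocalIdeal_sub hM h (hind.2.2 ξ hξ χ hχ g))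
  rw [omega_eq_sum_classes ξ (ZStar.isClassElt_res (isClassElt_classElt g) H)] at hunit
  obtain ⟨C, hC1, hC2⟩ : ∃ C : ConjClasses H, IsConj g ((C.out : H) : G) ∧
      ¬ MemLocalIdeal M (centralChar (ξ : H → ℂ) C.out) := by
    by_contra hcon
    push Not at hcon
    refine hunit (memLocalIdeal_sum hM _ fun C _ => ?_)
    rw [ZStar.coeff_res, coeff_classElt]
    split_ifs with h
    · rw [one_mul]; exact hcon C h
    · rw [zero_mul]; exact memLocalIdeal_zero hM
  have h1 := le_centExp hM ξ hC2
  rw [← blockDefect_eq hs] at h1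
  refine h1.trans ?_
  rw [← centExp_eq_blockDefect hM hind.2.1 hg, centExp, centExp, card_centralizer_eq hC1]
  refine (Nat.factorization_le_iff_dvd Nat.card_pos.ne' Nat.card_pos.ne').2 ?_ p
  rw [← Subgroup.card_map_of_injective H.subtype_injective]
  refine Subgroup.card_dvd_of_le ?_
  rintro _ ⟨c, hc, rfl⟩
  exact Subgroup.mem_centralizer_singleton_iff.2 (congrArg Subtype.val (Subgroup.mem_centralizer_singleton_iff.1 hc))

/-- A `2`-block of defect one has two members and rank one. -/
theorem defect_one_two (hM : IsPModular 2 M) {B : Set (IrrCharacter G)} (hB : IsPBlock M B)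
    (hd : blockDefect 2 B = 1) : Nat.card B = 2 ∧ blockRank 2 B = 1 := by
  classical
  haveI : Fintype (IrrCharacter G) := @Fintype.ofFinite _ finite_irrCharacter
  have h := brauer_feit hM hB
  rw [hd] at h
  have hk : Nat.card B ≤ 2 := by
    rw [Nat.card_eq_fintype_card (α := B), Fintype.card_subtype]
    have h2 : (Finset.univ.filter fun ρ => ρ ∈ B).card ≤
        ∑ ρ : IrrCharacter G, if ρ ∈ B then 2 ^ (2 * blockHeight 2 B (ρ : G → ℂ)) else 0 := by
      rw [← Finset.sum_filter, Finset.card_eq_sum_ones]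
      exact Finset.sum_le_sum fun ρ _ => Nat.one_le_two_pow
    norm_num at h
    omega
  have hlt : blockRank 2 B < Nat.card B := by
    refine lt_of_le_of_ne (by rw [Nat.card_eq_fintype_card (α := B)]; exact blockRank_le hM hB) fun he => ?_
    have h0 := defect_zero_of_vanish (p := 2) hM.1 (IsPBlock.nonempty hM hB) fun χ hχ g hg =>
      apply_eq_zero_of_rank_eq hM hB (by rw [he, Nat.card_eq_fintype_card (α := B)]) hχ hg
    omega
  have := blockRank_pos hM hB
  omega

/-- In a block of rank one the members are proportional on the regular elements. -/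
theorem apply_mul_of_rank_one (hp : p.Prime) {B : Set (IrrCharacter G)} (hl : blockRank p B = 1)
    {ξ η : IrrCharacter G} (hξ : ξ ∈ B) (hη : η ∈ B) {y : G} (hy : ¬ p ∣ orderOf y) :
    (η : G → ℂ) y * (ξ : G → ℂ) 1 = (η : G → ℂ) 1 * (ξ : G → ℂ) y := by
  unfold blockRank at hl
  generalize hW : Submodule.span ℂ ((fun χ : IrrCharacter G => pRegularPart p (χ : G → ℂ)) '' B) = W at hl
  have hmem : ∀ ζ ∈ B, pRegularPart p (ζ : G → ℂ) ∈ W := fun ζ hζ =>
    hW ▸ Submodule.subset_span ⟨ζ, hζ, rfl⟩
  have hne : (⟨_, hmem ξ hξ⟩ : W) ≠ 0 := by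
    intro h
    have h2 : pRegularPart p (ξ : G → ℂ) 1 = 0 := congrFun (congrArg Subtype.val h) 1
    rw [pRegularPart_apply, orderOf_one, if_neg (by rw [Nat.dvd_one]; exact hp.ne_one)] at h2
    exact apply_one_ne_zero ξ.2 h2
  obtain ⟨c, hc⟩ := exists_smul_eq_of_finrank_eq_one hl hne ⟨_, hmem η hη⟩
  have hv : ∀ z, c * pRegularPart p (ξ : G → ℂ) z = pRegularPart p (η : G → ℂ) z := fun z =>
    congrFun (congrArg Subtype.val hc) z
  have h3 := hv 1
  have h4 := hv y
  rw [pRegularPart_apply, pRegularPart_apply, orderOf_one,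
    if_neg (by rw [Nat.dvd_one]; exact hp.ne_one), if_neg (by rw [Nat.dvd_one]; exact hp.ne_one)] at h3
  rw [pRegularPart_apply, pRegularPart_apply, if_neg hy, if_neg hy] at h4
  rw [← h3, ← h4]
  ring

end CfsgLib.Blocks
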