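import Cfsg.Agent.Blocks.Glauberman
import Cfsg.Agent.Clifford.BrauerPerm
import Cfsg.Agent.Exceptional.OddReal

/-!
# Real characters and real classes under a coprime action of a `p`-group
-/

set_option autoImplicit false
set_option linter.unusedSectionVars false

namespace CfsgLib.Blocks

open Cfsg CfsgLib.CharBasics
open scoped ComplexConjugate

universe u

variable {p : ℕ} {M : Ideal AlgInt}

theorem im_zero_iff_conjFun {G : Type*} (f : G → ℂ) : (∀ g, (f g).im = 0) ↔ conjFun f = f :=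
  ⟨fun h => funext fun g => Complex.conj_eq_iff_im.2 (h g), fun h g => Complex.conj_eq_iff_im.1 (congrFun h g)⟩

theorem class_real_iff {G : Type*} [Group G] {k : G} :
    (∀ k' : G, ConjClasses.mk k' = ConjClasses.mk k → IsConj k' k'⁻¹) ↔ IsConj k k⁻¹ := by
  refine ⟨fun h => h k rfl, fun h k' hk' => ?_⟩
  obtain ⟨g, hg⟩ := isConj_iff.1 (ConjClasses.mk_eq_mk_iff_isConj.1 hk')
  have h' : IsConj k⁻¹ k'⁻¹ := isConj_iff.2 ⟨g⁻¹, by rw [← hg]; simp [mul_assoc]⟩
  exact ((ConjClasses.mk_eq_mk_iff_isConj.1 hk').trans h).trans h'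

/-- As many real irreducible characters as real classes. -/
theorem card_real_irr_eq {G : Type u} [Group G] [Finite G] :
    Nat.card {χ : IrrCharacter G // ∀ g, ((χ : G → ℂ) g).im = 0} =
      Nat.card {C : ConjClasses G // ∀ k : G, ConjClasses.mk k = C → IsConj k k⁻¹} := by
  haveI := Fintype.ofFinite G
  let σ : IrrCharacter G ≃ IrrCharacter G :=
    { toFun := fun χ => ⟨conjFun (χ : G → ℂ), Exceptional.irr_conjFun χ.2⟩
      invFun := fun χ => ⟨conjFun (χ : G → ℂ), Exceptional.irr_conjFun χ.2⟩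
      left_inv := fun χ => Subtype.ext (Exceptional.conjFun_conjFun _)
      right_inv := fun χ => Subtype.ext (Exceptional.conjFun_conjFun _) }
  have hinv : ∀ a b : G, IsConj a b → IsConj a⁻¹ b⁻¹ := fun a b h => by
    obtain ⟨g, hg⟩ := isConj_iff.1 h
    exact isConj_iff.2 ⟨g, by rw [← hg]; simp [mul_assoc]⟩
  let ι : ConjClasses G → ConjClasses G :=
    Quotient.map (fun g : G => g⁻¹) hinv
  have hι : ∀ C, ι (ι C) = C := fun C => by
    obtain ⟨g, rfl⟩ := ConjClasses.exists_rep C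
    show ConjClasses.mk g⁻¹⁻¹ = _
    rw [inv_inv]
  let τ : ConjClasses G ≃ ConjClasses G := ⟨ι, ι, hι, hι⟩
  have h := Clifford.brauer_perm σ τ fun χ g g' hgg => by
    have hc : ConjClasses.mk g' = ConjClasses.mk g⁻¹ := hgg
    show conj ((χ : G → ℂ) g') = _
    rw [apply_isConj (isCharacter_of_irr χ.2) (ConjClasses.mk_eq_mk_iff_isConj.1 hc),
      apply_inv (isCharacter_of_irr χ.2), Complex.conj_conj]
  rw [show Nat.card {χ : IrrCharacter G // ∀ g, ((χ : G → ℂ) g).im = 0} = Nat.card {χ : IrrCharacter G // σ χ = χ} from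
    Nat.card_congr (Equiv.subtypeEquivRight fun χ =>
      (im_zero_iff_conjFun _).trans ⟨fun h => Subtype.ext h, fun h => congrArg Subtype.val h⟩), h]
  refine Nat.card_congr (Equiv.subtypeEquivRight fun C => ?_)
  obtain ⟨k, rfl⟩ := ConjClasses.exists_rep C
  rw [class_real_iff]
  show ConjClasses.mk k⁻¹ = ConjClasses.mk k ↔ _
  rw [ConjClasses.mk_eq_mk_iff_isConj]
  exact ⟨IsConj.symm, IsConj.symm⟩

variable {G S : Type u} [Group G] [Group S] [Fintype G] [Finite S] (φ : S →* MulAut G)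

theorem corr_conj [Fintype (fixedSub φ)] {χ χ' : IrrCharacter G} {β β' : IrrCharacter (fixedSub φ)}
    (hχ : (χ' : G → ℂ) = conjFun (χ : G → ℂ)) (hβ : (β' : fixedSub φ → ℂ) = conjFun (β : fixedSub φ → ℂ))
    (h : Corr φ M χ β) : Corr φ M χ' β' := by
  have hval : omega (β' : fixedSub φ → ℂ) (brIdem φ χ') = omega (β : fixedSub φ → ℂ) (brIdem φ χ) := by
    have h1 : (β' : fixedSub φ → ℂ) 1 = (β : fixedSub φ → ℂ) 1 := by
      rw [hβ]; exact Exceptional.conjFun_apply_one (isCharacter_of_irr β.2)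
    have h2 : (χ' : G → ℂ) 1 = (χ : G → ℂ) 1 := by
      rw [hχ]; exact Exceptional.conjFun_apply_one (isCharacter_of_irr χ.2)
    simp only [omega, h1]
    congr 1
    refine Fintype.sum_equiv (Equiv.inv _) _ _ fun c => ?_
    simp only [brIdem, coeff_ofFun, blockCoeff_singleton, h2, Equiv.inv_apply, Subgroup.coe_inv]
    rw [hβ, hχ, apply_inv (isCharacter_of_irr β.2), apply_inv (isCharacter_of_irr χ.2)]
    rfl
  rw [Corr, hval]
  exact h

variable (hM : IsPModular p M) (hS : IsPGroup p S) (hpG : ¬ p ∣ Nat.card G)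
include hM hS hpG

theorem card_real_invariant :
    Nat.card {χ : IrrCharacter G // (∀ g, ((χ : G → ℂ) g).im = 0) ∧ IsInvariant φ (χ : G → ℂ)} =
      Nat.card {C : ConjClasses G // (∀ k : G, ConjClasses.mk k = C → IsConj k k⁻¹) ∧
        ∀ k : G, ConjClasses.mk k = C → ∀ s : S, ConjClasses.mk (φ s k) = C} := by
  classical
  haveI := Fact.mk hM.1
  haveI : Fintype (fixedSub φ) := Fintype.ofFinite _
  have key : ∀ χ : IrrCharacter G, IsInvariant φ (χ : G → ℂ) → ∀ β : IrrCharacter (fixedSub φ), Corr φ M χ β →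
      ((∀ g, ((χ : G → ℂ) g).im = 0) ↔ ∀ c, ((β : fixedSub φ → ℂ) c).im = 0) := by
    intro χ hχ β hβ
    rw [im_zero_iff_conjFun, im_zero_iff_conjFun]
    constructor
    · intro h
      have h' : Corr φ M χ ⟨_, Exceptional.irr_conjFun β.2⟩ := corr_conj φ (χ' := χ) h.symm rfl hβ
      exact congrArg Subtype.val (corr_unique φ hM hS hpG hχ h' hβ)
    · intro h
      have hχ' : IsInvariant φ (conjFun (χ : G → ℂ)) := fun s g => by
        show conj _ = conj _
        rw [hχ s g]
      have h' : Corr φ M ⟨_, Exceptional.irr_conjFun χ.2⟩ β := corr_conj φ (β' := β) rfl h.symm hβ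
      exact congrArg Subtype.val (corr_injective φ hM hS hpG (χ := ⟨_, Exceptional.irr_conjFun χ.2⟩) hχ' hχ h' hβ)
  have e1 : Nat.card {χ : IrrCharacter G // (∀ g, ((χ : G → ℂ) g).im = 0) ∧ IsInvariant φ (χ : G → ℂ)} =
      Nat.card {β : IrrCharacter (fixedSub φ) // ∀ c, ((β : fixedSub φ → ℂ) c).im = 0} := by
    choose b hb using fun χ : {χ : IrrCharacter G // (∀ g, ((χ : G → ℂ) g).im = 0) ∧ IsInvariant φ (χ : G → ℂ)} =>
      corr_exists_right φ hM hS hpG χ.2.2
    refine Nat.card_eq_of_bijective (fun χ => ⟨b χ, (key χ.1 χ.2.2 _ (hb χ)).1 χ.2.1⟩) ⟨fun a a' h => ?_, fun β => ?_⟩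
    · have h' : b a = b a' := congrArg Subtype.val h
      exact Subtype.ext (corr_injective φ hM hS hpG a.2.2 a'.2.2 (hb a) (h' ▸ hb a'))
    · obtain ⟨χ, hχ, hc⟩ := corr_exists_left φ hM hS hpG β.1
      refine ⟨⟨χ, (key χ hχ β.1 hc).2 β.2, hχ⟩, Subtype.ext ?_⟩
      exact corr_unique φ hM hS hpG hχ (hb _) hc
  rw [e1, card_real_irr_eq]
  have hmem : ∀ c : fixedSub φ, ∀ k : G, ConjClasses.mk k = ConjClasses.mk (c : G) → ∀ s : S,
      ConjClasses.mk (φ s k) = ConjClasses.mk (c : G) := by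
    intro c k hk s
    rw [ConjClasses.mk_eq_mk_iff_isConj] at hk ⊢
    have := MonoidHom.map_isConj (φ s).toMonoidHom hk
    simpa [c.2 s] using this
  refine Nat.card_eq_of_bijective (fun C => ⟨ConjClasses.mk ((Quotient.out C.1 : fixedSub φ) : G), ?_, hmem _⟩)
    ⟨fun a a' h => ?_, fun C => ?_⟩
  · rw [class_real_iff]
    exact MonoidHom.map_isConj (fixedSub φ).subtype (C.2 _ (Quotient.out_eq C.1))
  · have h1 := ConjClasses.mk_eq_mk_iff_isConj.1 (congrArg Subtype.val h)
    have h2 := ConjClasses.mk_eq_mk_iff_isConj.2 (isConj_fixedSub hM φ hS hpG h1)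
    exact Subtype.ext ((Quotient.out_eq a.1).symm.trans (h2.trans (Quotient.out_eq a'.1)))
  · obtain ⟨D, hreal, hinv⟩ := C
    obtain ⟨k, rfl⟩ := ConjClasses.exists_rep D
    let X := {g : G // IsConj k g}
    letI : MulAction S X :=
      { smul := fun s g => ⟨φ s g.1, ConjClasses.mk_eq_mk_iff_isConj.1
          ((hinv g.1 (ConjClasses.mk_eq_mk_iff_isConj.2 g.2.symm) s).symm)⟩
        one_smul := fun g => Subtype.ext (by show φ 1 g.1 = g.1; rw [map_one]; rfl)
        mul_smul := fun s t g => Subtype.ext (by show φ (s * t) g.1 = φ s (φ t g.1); rw [map_mul]; rfl) }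
    have hX : Nat.card X ∣ Nat.card G := by
      rw [show Nat.card X = (MulAction.stabilizer (ConjAct G) k).index from by
        rw [MulAction.index_stabilizer, ← Nat.card_coe_set_eq]
        exact Nat.card_congr (Equiv.subtypeEquivRight fun g => by
          rw [ConjAct.mem_orbit_conjAct]; exact ⟨IsConj.symm, IsConj.symm⟩)]
      exact Subgroup.index_dvd_card _
    obtain ⟨g, hg⟩ := hS.nonempty_fixed_point_of_prime_not_dvd_card X fun h => hpG (h.trans hX)
    let c : fixedSub φ := ⟨g.1, fun s => congrArg Subtype.val (hg s)⟩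
    have hc : IsConj c c⁻¹ := by
      refine isConj_fixedSub hM φ hS hpG ?_
      exact hreal g.1 (ConjClasses.mk_eq_mk_iff_isConj.2 g.2.symm)
    refine ⟨⟨ConjClasses.mk c, (class_real_iff (k := c)).2 hc⟩, Subtype.ext ?_⟩
    show ConjClasses.mk ((Quotient.out (ConjClasses.mk c) : fixedSub φ) : G) = ConjClasses.mk k
    rw [ConjClasses.mk_eq_mk_iff_isConj]
    have h1 : IsConj (Quotient.out (ConjClasses.mk c) : fixedSub φ) c :=
      ConjClasses.mk_eq_mk_iff_isConj.1 (Quotient.out_eq (ConjClasses.mk c))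
    exact (MonoidHom.map_isConj (fixedSub φ).subtype h1).trans g.2.symm

theorem real_classes_fixed (hall : ∀ χ : IrrCharacter G, (∀ g, ((χ : G → ℂ) g).im = 0) → IsInvariant φ (χ : G → ℂ))
    {k : G} (hk : IsConj k k⁻¹) : ∃ c : G, IsConj k c ∧ ∀ s : S, φ s c = c := by
  classical
  haveI := Fact.mk hM.1
  have h1 := card_real_invariant φ hM hS hpG
  rw [show Nat.card {χ : IrrCharacter G // (∀ g, ((χ : G → ℂ) g).im = 0) ∧ IsInvariant φ (χ : G → ℂ)} =
    Nat.card {χ : IrrCharacter G // ∀ g, ((χ : G → ℂ) g).im = 0} from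
      Nat.card_congr (Equiv.subtypeEquivRight fun χ => ⟨And.left, fun h => ⟨h, hall χ h⟩⟩), card_real_irr_eq] at h1
  have hinj : Function.Injective (fun C : {C : ConjClasses G // (∀ k : G, ConjClasses.mk k = C → IsConj k k⁻¹) ∧
        ∀ k : G, ConjClasses.mk k = C → ∀ s : S, ConjClasses.mk (φ s k) = C} =>
      (⟨C.1, C.2.1⟩ : {C : ConjClasses G // ∀ k : G, ConjClasses.mk k = C → IsConj k k⁻¹})) :=
    fun a b h => Subtype.ext (Subtype.mk.inj h)
  obtain ⟨C, hC⟩ := (hinj.bijective_of_nat_card_le h1.le).2 ⟨ConjClasses.mk k, class_real_iff.2 hk⟩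
  have hinv := C.2.2
  rw [show C.1 = ConjClasses.mk k from congrArg Subtype.val hC] at hinv
  let X := {g : G // IsConj k g}
  letI : MulAction S X :=
    { smul := fun s g => ⟨φ s g.1, ConjClasses.mk_eq_mk_iff_isConj.1
        ((hinv g.1 (ConjClasses.mk_eq_mk_iff_isConj.2 g.2.symm) s).symm)⟩
      one_smul := fun g => Subtype.ext (by show φ 1 g.1 = g.1; rw [map_one]; rfl)
      mul_smul := fun s t g => Subtype.ext (by show φ (s * t) g.1 = φ s (φ t g.1); rw [map_mul]; rfl) }
  have hX : Nat.card X ∣ Nat.card G := by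
    rw [show Nat.card X = (MulAction.stabilizer (ConjAct G) k).index from by
      rw [MulAction.index_stabilizer, ← Nat.card_coe_set_eq]
      exact Nat.card_congr (Equiv.subtypeEquivRight fun g => by
        rw [ConjAct.mem_orbit_conjAct]; exact ⟨IsConj.symm, IsConj.symm⟩)]
    exact Subgroup.index_dvd_card _
  obtain ⟨g, hg⟩ := hS.nonempty_fixed_point_of_prime_not_dvd_card X fun h => hpG (h.trans hX)
  exact ⟨g.1, g.2, fun s => congrArg Subtype.val (hg s)⟩

end CfsgLib.Blocks
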