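import Cfsg.Agent.Blocks.CoveredDefect
import Cfsg.Agent.Blocks.InertialIndex
import Cfsg.Agent.Blocks.InducedDefect
import Cfsg.Agent.Blocks.FirstMain

/-!
# The covering blocks of largest defect
-/

set_option linter.unusedSectionVars false
set_option linter.style.haveILetI false

namespace CfsgLib.Blocks

open Cfsg CfsgLib.CharBasics CfsgLib.Clifford CfsgLib.ZStar

universe u

variable {G : Type u} [Group G] [Fintype G] {p : ℕ} {M : Ideal AlgInt}
variable {N : Subgroup G} [hN : N.Normal] [Fintype N] {b : Set (IrrCharacter N)}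

/-- A stable block has a covering block with a unit coefficient where its idempotent has one. -/
theorem exists_covering_unit_coeff (hM : IsPModular p M) (hb : IsPBlock M b) (hst : ∀ x : G, StabilizesBlock N b x)
    {y : N} (hy : ¬ MemLocalIdeal M (blockCoeff b y)) :
    ∃ B : Set (IrrCharacter G), IsPBlock M B ∧
      (∃ χ ∈ B, ∃ θ ∈ b, classInner (fun n : N => (χ : G → ℂ) n) (θ : N → ℂ) ≠ 0) ∧
      ¬ MemLocalIdeal M (blockCoeff B (y : G)) := by
  classical
  haveI : Fintype (IrrCharacter G) := Fintype.ofFinite _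
  set W := (blockFinset M G).filter fun B : Set (IrrCharacter G) =>
    ∃ χ ∈ B, ∃ θ ∈ b, classInner (fun n : N => (χ : G → ℂ) n) (θ : N → ℂ) ≠ 0 with hW
  have key : extElt N (blockElt b) = ∑ B ∈ W, blockElt B := by
    refine eq_of_omega_eq (isClassElt_extElt_stable hst) (isClassElt_sum_blockElt hM W) fun χ => ?_
    obtain ⟨θ, hθ⟩ := exists_constituent_restrict N χ
    rw [omega_extElt_stable hst χ hθ, ZStar.omega_sum]
    simp only [omega_blockElt]
    split_ifs with hθb
    · rw [Finset.sum_eq_single (blockOf M (χ : G → ℂ))]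
      · rw [if_pos (mem_blockOf_self hM χ)]
      · intro B hB hne
        rw [if_neg]
        exact fun h => hne (Set.ext fun η => IsPBlock.mem_iff hM (mem_blockFinset.1 (Finset.mem_filter.1 hB).1) h)
      · exact fun h => absurd (Finset.mem_filter.2 ⟨mem_blockFinset.2 (isPBlock_blockOf M χ), χ,
          mem_blockOf_self hM χ, θ, hθb, hθ⟩) h
    · rw [Finset.sum_eq_zero]
      intro B hB
      rw [if_neg]
      intro h
      obtain ⟨hB1, hB2⟩ := Finset.mem_filter.1 hB
      exact hθb (constituent_mem_stable hM hb hst (mem_blockFinset.1 hB1) hB2 h hθ)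
  by_contra hcon
  push Not at hcon
  refine hy ?_
  rw [← coeff_blockElt, ← coeff_extElt_coe N (blockElt b) y, key, MonoidAlgebra.coeff_sum, Finsupp.finsetSum_apply]
  refine memLocalIdeal_sum hM _ fun B hB => ?_
  obtain ⟨hB1, hB2⟩ := Finset.mem_filter.1 hB
  rw [coeff_blockElt]
  exact hcon B (mem_blockFinset.1 hB1) hB2

/-- Some covering block of a stable block has defect at least the defect below plus the exponent of the index. -/
theorem exists_covering_defect_ge (hM : IsPModular p M) (hb : IsPBlock M b) (hst : ∀ x : G, StabilizesBlock N b x) :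
    ∃ B : Set (IrrCharacter G), IsPBlock M B ∧
      (∃ χ ∈ B, ∃ θ ∈ b, classInner (fun n : N => (χ : G → ℂ) n) (θ : N → ℂ) ≠ 0) ∧
      blockDefect p b + N.index.factorization p ≤ blockDefect p B := by
  classical
  haveI := Fact.mk hM.1
  obtain ⟨S⟩ : Nonempty (Sylow p G) := inferInstance
  obtain ⟨y, hy, hfix⟩ := exists_fixed_defectClass hM S.isPGroup' (A := N)
    (fun r : (S : Subgroup G) => conjK (mem_normalizer_of_normal (N := N) (r : G)))
    (conjK_one _) (fun r s => (conjK_mul _ _).symm) hb
    (fun r => (stabilizesBlock_iff.1 (hst r)).2)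
  obtain ⟨B, hB, hcov, hu⟩ := exists_covering_unit_coeff hM hb hst hy.2.1
  refine ⟨B, hB, hcov, ?_⟩
  obtain ⟨z, hz⟩ := exists_defectClass hM hB
  obtain ⟨χ, hχ⟩ := IsPBlock.nonempty hM hB
  have h1 := centExp_le hM hB hχ hu (hz.2.2 χ hχ)
  rw [centExp_eq_blockDefect hM hB hz] at h1
  refine le_trans ?_ h1
  rw [← centExp_eq_blockDefect hM hb hy, centExp, centExp]
  set C := Subgroup.centralizer ({(y : G)} : Set G) with hC
  have hSle : (S : Subgroup G) ≤ C ⊔ N := by
    intro r hr
    obtain ⟨n, hn⟩ := isConj_iff.1 (hfix ⟨r, hr⟩)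
    have hn' : (n : G) * y * (n : G)⁻¹ = r * y * r⁻¹ := congrArg Subtype.val hn
    have h : (n : G)⁻¹ * r ∈ C := by
      rw [hC, Subgroup.mem_centralizer_singleton_iff]
      calc (n : G)⁻¹ * r * y = (n : G)⁻¹ * (r * y * r⁻¹) * r := by group
        _ = y * ((n : G)⁻¹ * r) := by rw [← hn']; group
    rw [show r = (n : G) * ((n : G)⁻¹ * r) by group]
    exact mul_mem (Subgroup.mem_sup_right n.2) (Subgroup.mem_sup_left h)
  have hidx : ¬ p ∣ (C ⊔ N).index := fun h => S.not_dvd_index (h.trans (Subgroup.index_dvd_of_le hSle))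
  have h2 : N.relIndex C * (C ⊔ N).index = N.index := by
    rw [← Subgroup.relIndex_sup_right (H := C) (K := N)]
    exact Subgroup.relIndex_mul_index le_sup_right
  have e : Nat.card (Subgroup.centralizer ({y} : Set N)) = Nat.card (N.subgroupOf C) := by
    have hmem : ∀ n : N, n ∈ Subgroup.centralizer ({y} : Set N) ↔ (n : G) ∈ C := fun n => by
      rw [hC, Subgroup.mem_centralizer_singleton_iff, Subgroup.mem_centralizer_singleton_iff]
      exact ⟨fun h => congrArg Subtype.val h, fun h => Subtype.ext h⟩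
    exact Nat.card_congr
      { toFun := fun n => ⟨⟨((n : N) : G), (hmem n).1 n.2⟩, (n : N).2⟩
        invFun := fun n => ⟨⟨((n : C) : G), n.2⟩, (hmem _).2 (n : C).2⟩
        left_inv := fun _ => rfl
        right_inv := fun _ => rfl }
  have h3 : Nat.card (N.subgroupOf C) * N.relIndex C = Nat.card C := Subgroup.card_mul_index _
  have hne : N.relIndex C ≠ 0 := Subgroup.index_ne_zero_of_finite
  rw [e, ← h3, ← h2, Nat.factorization_mul Nat.card_pos.ne' hne,
    Nat.factorization_mul hne Subgroup.index_ne_zero_of_finite, Finsupp.add_apply, Finsupp.add_apply,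
    Nat.factorization_eq_zero_of_not_dvd hidx, add_zero]

/-- The defect groups of a covering block of largest defect. -/
theorem maxCovering_spec (hM : IsPModular p M) (hb : IsPBlock M b) (hst : ∀ x : G, StabilizesBlock N b x)
    {B : Set (IrrCharacter G)} (hB : IsPBlock M B)
    (hcov : ∃ χ ∈ B, ∃ θ ∈ b, classInner (fun n : N => (χ : G → ℂ) n) (θ : N → ℂ) ≠ 0)
    (hmax : ∀ B' : Set (IrrCharacter G), IsPBlock M B' →
      (∃ χ ∈ B', ∃ θ ∈ b, classInner (fun n : N => (χ : G → ℂ) n) (θ : N → ℂ) ≠ 0) →
      blockDefect p B' ≤ blockDefect p B)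
    {P : Subgroup G} (hP : IsDefectGroup p M B P) :
    ¬ p ∣ (P ⊔ N).index ∧ IsDefectGroup p M b ((P ⊓ N).subgroupOf N) ∧
      blockDefect p B = blockDefect p b + N.index.factorization p := by
  classical
  haveI := Fact.mk hM.1
  have hinf := isDefectGroup_inf hM hb hst hB hcov hP
  obtain ⟨B₀, hB₀, hcov₀, hge⟩ := exists_covering_defect_ge hM hb hst
  have hlow := hge.trans (hmax B₀ hB₀ hcov₀)
  have hR : Nat.card (N.subgroupOf P) = p ^ blockDefect p b := by
    rw [← card_defectGroup hM hb hinf, Nat.card_congr (Subgroup.subgroupOfEquivOfLe (inf_le_right : P ⊓ N ≤ N)).toEquiv,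
      inf_comm, ← Nat.card_congr (Subgroup.subgroupOfEquivOfLe (inf_le_right : N ⊓ P ≤ P)).toEquiv,
      Subgroup.inf_subgroupOf_right]
  have hcard : p ^ blockDefect p b * N.relIndex P = p ^ blockDefect p B := by
    rw [← hR, ← card_defectGroup hM hB hP]
    exact Subgroup.card_mul_index _
  have hne : N.relIndex P ≠ 0 := Subgroup.index_ne_zero_of_finite
  have h1 := congrArg (fun n => n.factorization p) hcard
  simp only [Nat.factorization_mul (pow_ne_zero _ hM.1.ne_zero) hne, Finsupp.add_apply, hM.1.factorization_pow,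
    Finsupp.single_eq_same] at h1
  have h2 : N.relIndex P * (P ⊔ N).index = N.index := by
    rw [← Subgroup.relIndex_sup_right (H := P) (K := N)]
    exact Subgroup.relIndex_mul_index le_sup_right
  have h3 := congrArg (fun n => n.factorization p) h2
  simp only [Nat.factorization_mul hne Subgroup.index_ne_zero_of_finite, Finsupp.add_apply] at h3
  refine ⟨fun h => ?_, hinf, by omega⟩
  have := hM.1.factorization_pos_of_dvd Subgroup.index_ne_zero_of_finite h
  omega

end CfsgLib.Blocks
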