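import Cfsg.Agent.Blocks.InertialIndex
import Cfsg.Agent.Blocks.CoveredDefect
import Cfsg.Agent.Blocks.CentralDefect
import Cfsg.Agent.Blocks.QuotientDefect
import Cfsg.Agent.CharBasics.Extra
import Cfsg.Agent.S0914

/-!
# Maximal pairs recognized in the centralizer
-/

set_option linter.unusedSectionVars false
set_option linter.style.haveILetI false

namespace CfsgLib.Blocks

open Cfsg CfsgLib.CharBasics CfsgLib.Clifford CfsgLib.ZStar

universe u

variable {G : Type u} [Group G] [Fintype G] {p : ℕ} {M : Ideal AlgInt} {P H : Subgroup G}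

theorem factorization_card_div (p : ℕ) {A : Type*} [Group A] [Fintype A] (χ : IrrCharacter A) :
    (Nat.card A / charDegree (χ : A → ℂ)).factorization p = (Nat.card A).factorization p - degExp p χ := by
  rw [Nat.factorization_div (degree_dvd χ), Finsupp.tsub_apply]
  rfl

theorem card_inf_eq (P C : Subgroup G) : Nat.card ((P ⊓ C : Subgroup G).subgroupOf C) = Nat.card (P ⊓ C : Subgroup G) :=
  Nat.card_congr (Subgroup.subgroupOfEquivOfLe inf_le_right).toEquiv

theorem normal_inf_centralizer :
    ((P ⊓ Subgroup.centralizer (P : Set G)).subgroupOf (Subgroup.centralizer (P : Set G))).Normal := by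
  refine ⟨fun z hz g => ?_⟩
  have hc : (g : G) * z = z * g :=
    ((Subgroup.mem_centralizer_iff.1 g.2) (z : G) (Subgroup.mem_inf.1 (Subgroup.mem_subgroupOf.1 hz)).1).symm
  have : g * z * g⁻¹ = z := by
    rw [mul_inv_eq_iff_eq_mul]
    exact Subtype.ext hc
  rw [this]; exact hz

theorem inf_centralizer_sup_eq_top :
    (P ⊓ Subgroup.centralizer (P : Set G)).subgroupOf (Subgroup.centralizer (P : Set G)) ⊔
      Subgroup.centralizer (((P ⊓ Subgroup.centralizer (P : Set G)).subgroupOf (Subgroup.centralizer (P : Set G)) :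
        Subgroup (Subgroup.centralizer (P : Set G))) : Set (Subgroup.centralizer (P : Set G))) = ⊤ := by
  refine top_le_iff.1 fun c _ => Subgroup.mem_sup_right (Subgroup.mem_centralizer_iff.2 fun z hz => Subtype.ext ?_)
  exact Subgroup.mem_centralizer_iff.1 c.2 (z : G) (Subgroup.mem_inf.1 (Subgroup.mem_subgroupOf.1 hz)).1

/-- The centre of `P` is the defect group exactly when some member has defect zero over it. -/
theorem centralizer_defectGroup_iff (hM : IsPModular p M) (hP : IsPGroup p P)
    [Fintype (Subgroup.centralizer (P : Set G))]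
    {e : Set (IrrCharacter (Subgroup.centralizer (P : Set G)))} (he : IsPBlock M e) :
    IsDefectGroup p M e ((P ⊓ Subgroup.centralizer (P : Set G)).subgroupOf (Subgroup.centralizer (P : Set G))) ↔
      ∃ θ ∈ e, (∀ z : Subgroup.centralizer (P : Set G), (z : G) ∈ P →
          (θ : Subgroup.centralizer (P : Set G) → ℂ) z = (θ : Subgroup.centralizer (P : Set G) → ℂ) 1) ∧
        (charDegree (θ : Subgroup.centralizer (P : Set G) → ℂ)).factorization p +
          (Nat.card (P ⊓ Subgroup.centralizer (P : Set G) : Subgroup G)).factorization p =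
          (Nat.card (Subgroup.centralizer (P : Set G))).factorization p := by
  classical
  haveI := Fact.mk hM.1
  set Z := (P ⊓ (Subgroup.centralizer (P : Set G))).subgroupOf (Subgroup.centralizer (P : Set G)) with hZ
  haveI : Z.Normal := normal_inf_centralizer
  have hZp : IsPGroup p Z := (hP.to_le inf_le_left).of_equiv (Subgroup.subgroupOfEquivOfLe inf_le_right).symm
  have hcard : (Nat.card (Subgroup.centralizer (P : Set G))).factorization p =
      (Nat.card (P ⊓ (Subgroup.centralizer (P : Set G)) : Subgroup G)).factorization p + Z.index.factorization p := by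
    rw [← Subgroup.card_mul_index Z, Nat.factorization_mul Nat.card_pos.ne' Subgroup.index_ne_zero_of_finite,
      Finsupp.add_apply, hZ, card_inf_eq]
  constructor
  · intro hD
    obtain ⟨θ, hθ, htriv, hdeg, -⟩ := exists_trivial_member hM hZp inf_centralizer_sup_eq_top he hD
    refine ⟨θ, hθ, fun z hz => htriv z ⟨hz, z.2⟩, ?_⟩
    have hdeg' : (charDegree (θ : (Subgroup.centralizer (P : Set G)) → ℂ)).factorization p = Z.index.factorization p := hdeg
    rw [hdeg', hcard, add_comm]
  · rintro ⟨θ, hθ, htriv, hdeg⟩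
    haveI : Fintype ((Subgroup.centralizer (P : Set G)) ⧸ Z) := Fintype.ofFinite _
    obtain ⟨θb, hθb⟩ := exists_quotient_irr θ Z fun z hz => htriv z (Subgroup.mem_subgroupOf.1 hz).1
    have hdegb : charDegree (θb : (Subgroup.centralizer (P : Set G)) ⧸ Z → ℂ) = charDegree (θ : (Subgroup.centralizer (P : Set G)) → ℂ) := by
      rw [charDegree, charDegree, ← hθb 1]
      rfl
    have hzero : ¬ p ∣ Nat.card ((Subgroup.centralizer (P : Set G)) ⧸ Z) / charDegree (θb : (Subgroup.centralizer (P : Set G)) ⧸ Z → ℂ) := by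
      intro hd
      have h := hM.1.factorization_pos_of_dvd
        (Nat.div_pos (Nat.le_of_dvd Nat.card_pos (degree_dvd θb)) (charDegree_pos θb.2)).ne' hd
      rw [factorization_card_div, degExp, hdegb, ← Subgroup.index_eq_card] at h
      omega
    have hsing := (Cfsg.Agent.S0914.result p M hM θb).1 hzero
    obtain ⟨y, hy⟩ := exists_defectClass hM he
    obtain ⟨S⟩ : Nonempty (Sylow p (Subgroup.centralizer ({y} : Set (Subgroup.centralizer (P : Set G))))) := inferInstance
    obtain ⟨D, hD⟩ : ∃ D, IsDefectGroup p M e D := ⟨_, y, hy, S, rfl⟩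
    obtain ⟨Bbar, hBb, hin, hDb⟩ := exists_contained_block hM hZp he hD
    obtain ⟨φ, hφ⟩ := IsPBlock.nonempty hM hBb
    have hidx : ∃ k : ℕ, (Subgroup.centralizer ((Z : Subgroup (Subgroup.centralizer (P : Set G))) : Set (Subgroup.centralizer (P : Set G)))).index = p ^ k := by
      refine ⟨0, ?_⟩
      rw [pow_zero, Subgroup.index_eq_one]
      refine top_le_iff.1 fun c _ => Subgroup.mem_centralizer_iff.2 fun z hz => Subtype.ext ?_
      exact Subgroup.mem_centralizer_iff.1 c.2 (z : G) (Subgroup.mem_inf.1 (Subgroup.mem_subgroupOf.1 hz)).1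
    have hsame : SameBlock M (θb : (Subgroup.centralizer (P : Set G)) ⧸ Z → ℂ) (φ : (Subgroup.centralizer (P : Set G)) ⧸ Z → ℂ) := by
      refine ((Cfsg.Agent.S0941.result p M hM Z hZp hidx).1 θb φ).2 ?_
      have e1 : (θb : (Subgroup.centralizer (P : Set G)) ⧸ Z → ℂ) ∘ QuotientGroup.mk = (θ : (Subgroup.centralizer (P : Set G)) → ℂ) := funext hθb
      rw [e1, ← inflChar_coe]
      exact (IsPBlock.mem_iff hM he hθ).1 (hin φ hφ)
    have hφθ : φ = θb := by
      have : φ ∈ blockOf M (θb : (Subgroup.centralizer (P : Set G)) ⧸ Z → ℂ) := hsame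
      rwa [hsing, Set.mem_singleton_iff] at this
    subst hφθ
    have hBeq : Bbar = blockOf M (φ : (Subgroup.centralizer (P : Set G)) ⧸ Z → ℂ) := Set.ext fun η => IsPBlock.mem_iff hM hBb hφ
    have hd0 : blockDefect p Bbar = 0 := by
      obtain ⟨w, hw, -, hws⟩ := exists_min_degExp hM hBb
      rw [hBeq, hsing, Set.mem_singleton_iff] at hw
      subst hw
      rw [blockDefect_eq hws, ← factorization_card_div]
      exact Nat.factorization_eq_zero_of_not_dvd hzero
    have hbot : D.map (QuotientGroup.mk' Z) = ⊥ := by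
      refine Subgroup.eq_bot_of_card_eq _ ?_
      rw [card_defectGroup hM hBb hDb, hd0, pow_zero]
    have hDZ : D ≤ Z := by
      have := (Subgroup.map_eq_bot_iff D).1 hbot
      rwa [QuotientGroup.ker_mk'] at this
    have hZD : Z ≤ D :=
      (CfsgLib.PCore.le_pCore inferInstance hZp).trans (Cfsg.Agent.S0912.result p M hM e he D hD)
    exact (le_antisymm hDZ hZD) ▸ hD

section Pair

variable [Fintype H] (hH : H = P ⊔ Subgroup.centralizer (P : Set G))
  (hCH : Subgroup.centralizer (P : Set G) ≤ H)
include hH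

/-- A pair of `B` comes from a block of `H` inducing `B`. -/
theorem isInducedBlock_of_pair [Fintype (Subgroup.centralizer (P : Set G))] (hM : IsPModular p M) (hP : IsPGroup p P)
    {b : Set (IrrCharacter H)} (hb : IsPBlock M b) {ξ : IrrCharacter H} (hξ : ξ ∈ b)
    {θ : IrrCharacter (Subgroup.centralizer (P : Set G))} (h : LiesOver hCH ξ θ)
    {B : Set (IrrCharacter G)}
    (hpair : IsBrauerPairOf p M B P (blockOf M (θ : Subgroup.centralizer (P : Set G) → ℂ))) :
    IsInducedBlock M H b B := by
  classical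
  haveI : Fintype (ConjClasses H) := Fintype.ofFinite _
  have hB := hpair.2.1
  have h1 := (isBrauerPairOf_iff hM hP hB hpair.1.2 (mem_blockOf_self hM θ)).1 hpair
  have hindC : IsInducedBlock M (Subgroup.centralizer (P : Set G)) (blockOf M (θ : (Subgroup.centralizer (P : Set G)) → ℂ)) B :=
    isInducedBlock_of_not_small hM hP (fun g => Subgroup.mem_centralizer_iff) hpair.1.2 hB (mem_blockOf_self hM θ)
      fun h' => not_memLocalIdeal_one hM (by simpa using memLocalIdeal_sub hM h' h1)
  refine ⟨hb, hB, fun η hη χ hχ g => ?_⟩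
  have hzc := isClassElt_classElt g
  have hzi := isIntegralElt_classElt hM g
  have h2 := omega_res_induced hM hindC (mem_blockOf_self hM θ) hχ hzc hzi
  rw [← omega_extElt_eq hH hCH h, omega_classElt χ.2] at h2
  have hc2 := isClassElt_res_ext hH hCH (isClassElt_res hzc (Subgroup.centralizer (P : Set G)))
  have h3 : MemLocalIdeal M (omega (ξ : H → ℂ) (res H (classElt g)) -
      omega (ξ : H → ℂ) (res H (extElt (Subgroup.centralizer (P : Set G)) (res (Subgroup.centralizer (P : Set G)) (classElt g))))) := by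
    rw [omega_eq_sum_classes ξ (isClassElt_res hzc H), omega_eq_sum_classes ξ hc2, ← Finset.sum_sub_distrib]
    refine memLocalIdeal_sum hM _ fun K _ => ?_
    rw [← sub_mul]
    by_cases hK : ((K.out : H) : G) ∈ (Subgroup.centralizer (P : Set G))
    · rw [coeff_res, coeff_res, coeff_extElt_mem _ _ hK, coeff_res, sub_self, zero_mul]
      exact memLocalIdeal_zero hM
    · rw [coeff_res, coeff_res, coeff_extElt_of_notMem _ _ hK, sub_zero]
      exact memLocalIdeal_mul_left hM (hzi _) (centralChar_mem_of_notMem hH hCH hM hP ξ hK)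
  have h4 := omega_sub_mem_of_sameBlock hM ((IsPBlock.mem_iff hM hb hη).1 hξ)
    (isClassElt_res hzc H) (isIntegralElt_res hzi H)
  rw [← CfsgLib.ZStar.omega_res_classElt]
  have := memLocalIdeal_add hM (memLocalIdeal_add hM h4 h3) h2
  simpa using this

/-- A block of `H` above a character of the centralizer. -/
theorem exists_block_over (hM : IsPModular p M) [Fintype (Subgroup.centralizer (P : Set G))]
    (θ : IrrCharacter (Subgroup.centralizer (P : Set G))) :
    ∃ (b : Set (IrrCharacter H)) (ξ : IrrCharacter H), IsPBlock M b ∧ ξ ∈ b ∧ LiesOver hCH ξ θ ∧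
      classInner (fun m : Subgroup.centralizer (P : Set G) => (ξ : H → ℂ) (Subgroup.inclusion hCH m))
        (θ : Subgroup.centralizer (P : Set G) → ℂ) ≠ 0 := by
  classical
  haveI : ((Subgroup.centralizer (P : Set G)).subgroupOf H).Normal := normal_centralizer_subgroupOf hH
  haveI := Fintype.ofFinite ((Subgroup.centralizer (P : Set G)).subgroupOf H)
  set e := Subgroup.subgroupOfEquivOfLe hCH with he
  obtain ⟨ξ, hξ⟩ := exists_over_character (G := H) (pushChar e.symm θ)
  obtain ⟨θ', hl⟩ := exists_liesOver hH hCH ξ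
  have hθ : classInner (fun m : (Subgroup.centralizer (P : Set G)) => (ξ : H → ℂ) (Subgroup.inclusion hCH m)) (θ : (Subgroup.centralizer (P : Set G)) → ℂ) ≠ 0 := by
    rw [← classInner_comp_equiv e]
    have h2 : (fun k => (θ : (Subgroup.centralizer (P : Set G)) → ℂ) (e k)) = (pushChar e.symm θ : (Subgroup.centralizer (P : Set G)).subgroupOf H → ℂ) := funext fun k => by simp
    rw [h2]
    exact hξ
  refine ⟨blockOf M (ξ : H → ℂ), ξ, isPBlock_blockOf M ξ, mem_blockOf_self hM ξ, ?_, hθ⟩
  suffices θ' = θ from this ▸ hl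
  by_contra hne
  refine hθ ?_
  have h1 : (fun m : (Subgroup.centralizer (P : Set G)) => (ξ : H → ℂ) (Subgroup.inclusion hCH m)) =
      ((ξ : H → ℂ) 1 / (θ' : (Subgroup.centralizer (P : Set G)) → ℂ) 1) • (θ' : (Subgroup.centralizer (P : Set G)) → ℂ) := by
    funext m
    have := hl m
    rw [Pi.smul_apply, smul_eq_mul, div_mul_eq_mul_div, eq_div_iff (apply_one_ne_zero θ'.2)]
    exact this.trans (mul_comm _ _)
  rw [h1, classInner_smul_left, classInner_ne θ'.2 θ.2 fun h => hne (Subtype.ext h), mul_zero]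

/-- The defect group of a block of `P * (Subgroup.centralizer (P : Set G))(P)` against that of the block below. -/
theorem defectGroup_over_iff (hM : IsPModular p M) (hP : IsPGroup p P) [Fintype (Subgroup.centralizer (P : Set G))]
    {b : Set (IrrCharacter H)} (hb : IsPBlock M b) {ξ : IrrCharacter H} (hξ : ξ ∈ b)
    {e : Set (IrrCharacter (Subgroup.centralizer (P : Set G)))} (he : IsPBlock M e)
    {θ : IrrCharacter (Subgroup.centralizer (P : Set G))} (hθ : θ ∈ e)
    (hne : classInner (fun m : Subgroup.centralizer (P : Set G) => (ξ : H → ℂ) (Subgroup.inclusion hCH m))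
      (θ : Subgroup.centralizer (P : Set G) → ℂ) ≠ 0) :
    IsDefectGroup p M b (P.subgroupOf H) ↔
      IsDefectGroup p M e ((P ⊓ Subgroup.centralizer (P : Set G)).subgroupOf (Subgroup.centralizer (P : Set G))) := by
  classical
  haveI := Fact.mk hM.1
  have hPH : P ≤ H := hH ▸ le_sup_left
  haveI : ((Subgroup.centralizer (P : Set G)).subgroupOf H).Normal := normal_centralizer_subgroupOf hH
  haveI hPn := normal_subgroupOf_left hH hCH
  haveI := Fintype.ofFinite ((Subgroup.centralizer (P : Set G)).subgroupOf H)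
  set φ := Subgroup.subgroupOfEquivOfLe hCH with hφ
  have hcov : ∃ η ∈ b, ∃ ψ ∈ pushBlock φ.symm e,
      classInner (fun m : (Subgroup.centralizer (P : Set G)).subgroupOf H => (η : H → ℂ) m) (ψ : (Subgroup.centralizer (P : Set G)).subgroupOf H → ℂ) ≠ 0 := by
    refine ⟨ξ, hξ, pushChar φ.symm θ, ⟨θ, hθ, rfl⟩, ?_⟩
    rw [← classInner_comp_equiv φ] at hne
    exact hne
  obtain ⟨D, hD, hDC, -⟩ := exists_defectGroup_inf hM (isPBlock_pushBlock φ.symm he) hb hcov
  have hDe := isDefectGroup_push φ hM hDC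
  rw [← pushBlock_trans, MulEquiv.symm_trans_self, pushBlock_refl] at hDe
  have hPD : P.subgroupOf H ≤ D :=
    (CfsgLib.PCore.le_pCore hPn (hP.of_equiv (Subgroup.subgroupOfEquivOfLe hPH).symm)).trans
      (Cfsg.Agent.S0912.result p M hM b hb D hD)
  have hcP : Nat.card (P.subgroupOf H) = Nat.card P := Nat.card_congr (Subgroup.subgroupOfEquivOfLe hPH).toEquiv
  constructor
  · intro hbP
    have hDP : D = P.subgroupOf H := (Subgroup.eq_of_le_of_card_ge hPD (by
      rw [card_defectGroup hM hb hD, card_defectGroup hM hb hbP])).symm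
    subst hDP
    convert hDe using 1
    ext k
    rw [Subgroup.mem_map_equiv, Subgroup.mem_subgroupOf, Subgroup.mem_subgroupOf, Subgroup.mem_inf, Subgroup.mem_inf]
    exact ⟨fun h => ⟨h.1, (φ.symm k).2⟩, fun h => ⟨h.1, k.2⟩⟩
  · intro heP
    suffices D = P.subgroupOf H from this ▸ hD
    refine (Subgroup.eq_of_le_of_card_ge hPD ?_).symm
    have h1 : Nat.card (((Subgroup.centralizer (P : Set G)).subgroupOf H).subgroupOf D) = Nat.card (P ⊓ (Subgroup.centralizer (P : Set G)) : Subgroup G) := by
      rw [← card_inf_eq, card_defectGroup hM he heP, ← card_defectGroup hM he hDe,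
        Subgroup.card_map_of_injective (f := φ.toMonoidHom) φ.injective,
        Nat.card_congr (Subgroup.subgroupOfEquivOfLe (inf_le_right : D ⊓ (Subgroup.centralizer (P : Set G)).subgroupOf H ≤ (Subgroup.centralizer (P : Set G)).subgroupOf H)).toEquiv,
        ← Subgroup.inf_subgroupOf_right ((Subgroup.centralizer (P : Set G)).subgroupOf H) D,
        Nat.card_congr (Subgroup.subgroupOfEquivOfLe (inf_le_right : (Subgroup.centralizer (P : Set G)).subgroupOf H ⊓ D ≤ D)).toEquiv, inf_comm]
    have h2 : ((Subgroup.centralizer (P : Set G)).subgroupOf H).relIndex D ≤ ((Subgroup.centralizer (P : Set G)).subgroupOf H).index :=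
      Nat.le_of_dvd (Nat.pos_of_ne_zero Subgroup.index_ne_zero_of_finite)
        (Subgroup.relIndex_dvd_index_of_normal _ _)
    have h3 : ((Subgroup.centralizer (P : Set G)).subgroupOf H).index = (Subgroup.centralizer (P : Set G)).relIndex P := by
      have htop : P.subgroupOf H ⊔ (Subgroup.centralizer (P : Set G)).subgroupOf H = ⊤ := by
        rw [← Subgroup.subgroupOf_sup hPH hCH, ← hH, Subgroup.subgroupOf_self]
      rw [← Subgroup.relIndex_top_right, ← htop, Subgroup.relIndex_sup_right, Subgroup.relIndex_subgroupOf hPH]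
    have h4 : Nat.card (((Subgroup.centralizer (P : Set G)).subgroupOf H).subgroupOf D) * ((Subgroup.centralizer (P : Set G)).subgroupOf H).relIndex D = Nat.card D :=
      Subgroup.card_mul_index _
    have h5 : Nat.card ((Subgroup.centralizer (P : Set G)).subgroupOf P) * (Subgroup.centralizer (P : Set G)).relIndex P = Nat.card P := Subgroup.card_mul_index _
    have h6 : Nat.card ((Subgroup.centralizer (P : Set G)).subgroupOf P) = Nat.card (P ⊓ (Subgroup.centralizer (P : Set G)) : Subgroup G) := by
      rw [← Subgroup.inf_subgroupOf_left (Subgroup.centralizer (P : Set G)) P,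
        Nat.card_congr (Subgroup.subgroupOfEquivOfLe (inf_le_left : P ⊓ (Subgroup.centralizer (P : Set G)) ≤ P)).toEquiv]
    rw [hcP, ← h4, ← h5, h1, h6]
    exact Nat.mul_le_mul_left _ (h3 ▸ h2)

end Pair

/-- Index prime to `p` against the elements of `p`-power order. -/
theorem not_dvd_relIndex_iff (hp : p.Prime) {H T : Subgroup G} (hHT : H ≤ T) (hn : T ≤ Subgroup.normalizer (H : Set G)) :
    ¬ p ∣ H.relIndex T ↔ ∀ g ∈ T, (∃ k : ℕ, orderOf g = p ^ k) → g ∈ H := by
  classical
  haveI := Fact.mk hp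
  haveI : (H.subgroupOf T).Normal := (Subgroup.normal_subgroupOf_iff_le_normalizer hHT).2 hn
  constructor
  · rintro h g hg ⟨k, hk⟩
    by_contra hgH
    refine h ?_
    have h1 : orderOf (QuotientGroup.mk' (H.subgroupOf T) ⟨g, hg⟩) ∣ p ^ k := by
      rw [← hk, ← Subgroup.orderOf_mk g hg]
      exact orderOf_map_dvd _ _
    obtain ⟨j, -, hj⟩ := (Nat.dvd_prime_pow hp).1 h1
    rcases Nat.eq_zero_or_pos j with rfl | hj0
    · rw [pow_zero, orderOf_eq_one_iff] at hj
      exact absurd ((QuotientGroup.eq_one_iff (⟨g, hg⟩ : T)).1 hj) hgH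
    · refine (dvd_pow_self p hj0.ne').trans (hj ▸ ?_)
      rw [Subgroup.relIndex, Subgroup.index_eq_card]
      exact orderOf_dvd_natCard _
  · intro h
    obtain ⟨S⟩ : Nonempty (Sylow p T) := inferInstance
    have hS : (S : Subgroup T) ≤ H.subgroupOf T := fun x hx => by
      obtain ⟨k, hk⟩ := IsPGroup.iff_orderOf.1 S.isPGroup' ⟨x, hx⟩
      exact h x x.2 ⟨k, by rw [← hk, Subgroup.orderOf_mk, Subgroup.orderOf_coe]⟩
    exact fun hd => S.not_dvd_index (hd.trans (Subgroup.index_dvd_of_le hS))

/-- Maximal pairs recognized by a member of defect zero over the centre. -/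
theorem maximal_pair_iff (hM : IsPModular p M) {e : Set (IrrCharacter (Subgroup.centralizer (P : Set G)))}
    (he : IsBrauerPair p M P e) :
    (∃ B : Set (IrrCharacter G), IsMaximalBrauerPair p M B P e) ↔
      ∃ θ ∈ e, (∀ z : Subgroup.centralizer (P : Set G), (z : G) ∈ P →
          (θ : Subgroup.centralizer (P : Set G) → ℂ) z = (θ : Subgroup.centralizer (P : Set G) → ℂ) 1) ∧
        (charDegree (θ : Subgroup.centralizer (P : Set G) → ℂ)).factorization p +
          (Nat.card (P ⊓ Subgroup.centralizer (P : Set G) : Subgroup G)).factorization p =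
          (Nat.card (Subgroup.centralizer (P : Set G))).factorization p ∧
        ∀ g : G, g ∈ Subgroup.normalizer (P : Set G) →
          StabilizesBlock (Subgroup.centralizer (P : Set G)) e g → (∃ k : ℕ, orderOf g = p ^ k) →
          g ∈ P ⊔ Subgroup.centralizer (P : Set G) := by
  classical
  haveI := Fact.mk hM.1
  haveI := Fintype.ofFinite (Subgroup.centralizer (P : Set G))
  obtain ⟨H, hH⟩ : ∃ H, H = P ⊔ Subgroup.centralizer (P : Set G) := ⟨_, rfl⟩
  rw [← hH]
  haveI := Fintype.ofFinite H
  have hCH : Subgroup.centralizer (P : Set G) ≤ H := hH ▸ le_sup_right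
  have hPH : P ≤ H := hH ▸ le_sup_left
  have hP := he.1
  obtain ⟨θ, hθ⟩ := IsPBlock.nonempty hM he.2
  obtain ⟨b, ξ, hb, hξ, hl, hne⟩ := exists_block_over hH hCH hM θ
  obtain ⟨B, hpair, huniq⟩ := existsUnique_brauerPairOf hM he
  have hblk : blockOf M (θ : Subgroup.centralizer (P : Set G) → ℂ) = e :=
    Set.ext fun η => (IsPBlock.mem_iff hM he.2 hθ).symm
  have hind : IsInducedBlock M H b B := isInducedBlock_of_pair hH hCH hM hP hb hξ hl (hblk.symm ▸ hpair)
  have hNH : Subgroup.normalizer (P : Set G) ≤ Subgroup.normalizer (H : Set G) := hH ▸ normalizer_le_normalizer_sup P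
  have hHN : H ≤ Subgroup.normalizer (P : Set G) :=
    hH ▸ sup_le Subgroup.le_normalizer (Subgroup.centralizer_le_normalizer _)
  obtain ⟨T, hT⟩ : ∃ T : Subgroup G, ∀ g : G, g ∈ T ↔ g ∈ Subgroup.normalizer (P : Set G) ∧ StabilizesBlock H b g :=
    ⟨Subgroup.normalizer (P : Set G) ⊓ stabSub H b, fun _ => Iff.rfl⟩
  have hHT : H ≤ T := fun x hx => (hT x).2 ⟨hHN hx, stabilizes_of_mem hH hCH b hx⟩
  have hTn : T ≤ Subgroup.normalizer (H : Set G) := fun x hx => hNH ((hT x).1 hx).1
  have hst : ∀ g ∈ Subgroup.normalizer (P : Set G),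
      (g ∈ T ↔ StabilizesBlock (Subgroup.centralizer (P : Set G)) e g) := fun g hg => by
    rw [hT, and_iff_right hg, stable_liesOver hH hCH hb hM hP hξ hl hg (hNH hg), hblk]
  constructor
  · rintro ⟨B', hmax⟩
    obtain rfl := huniq B' hmax.1
    obtain ⟨-, hBP⟩ := maximal_key hM hmax
    have hbP := isDefectGroup_of_induced hH hCH hM hP hind hBP
    obtain ⟨θ', hθ', h1, h2⟩ :=
      (centralizer_defectGroup_iff hM hP he.2).1 ((defectGroup_over_iff hH hCH hM hP hb hξ he.2 hθ hne).1 hbP)
    refine ⟨θ', hθ', h1, h2, fun g hg hgs hgk => ?_⟩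
    exact (not_dvd_relIndex_iff hM.1 hHT hTn).1 ((isDefectGroup_induced_iff hM hP hH hb hbP hind hT).1 hBP) g
      ((hst g hg).2 hgs) hgk
  · rintro ⟨θ', hθ', h1, h2, h3⟩
    have hbP := (defectGroup_over_iff hH hCH hM hP hb hξ he.2 hθ hne).2
      ((centralizer_defectGroup_iff hM hP he.2).2 ⟨θ', hθ', h1, h2⟩)
    refine ⟨B, isMaximal_of_defectGroup hM ?_ hpair⟩
    refine (isDefectGroup_induced_iff hM hP hH hb hbP hind hT).2 ((not_dvd_relIndex_iff hM.1 hHT hTn).2 ?_)
    intro g hg hgk
    have hgN := ((hT g).1 hg).1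
    exact h3 g hgN ((hst g hgN).1 hg) hgk

end CfsgLib.Blocks
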