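import Cfsg.Agent.ZStar.Twisted
import Cfsg.Agent.Blocks.Residue

/-!
# The sum of the coefficients at the `p`-elements kills elements nilpotent modulo `M`

For an element `a` of the integral group algebra and `N` a large power of `p`, the coefficient of `1` in `a ^ N`
is congruent to the `N`-th power of the sum of the coefficients of `a` at `p`-elements.
-/

set_option autoImplicit false
set_option linter.style.haveILetI false
set_option linter.unusedSectionVars false

namespace CfsgLib.Blocks

open Cfsg CfsgLib.ZStar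

variable {p : ℕ} {M : Ideal AlgInt} {G : Type*} [Group G] [Fintype G]

/-- The sum of the coefficients at `p`-elements. -/
noncomputable def pEltSum (p : ℕ) (a : MonoidAlgebra ℂ G) : ℂ := by
  classical exact ∑ g, if ∃ k : ℕ, orderOf g = p ^ k then a.coeff g else 0

theorem seqProd_const (g : G) (n : ℕ) : seqProd (fun _ => g) n = g ^ n := by
  induction n with
  | zero => simp [seqProd]
  | succ n ih => rw [seqProd_succ, ih, pow_succ]

/-- Rotation congruence for the coefficient of `1` in a `p`-power. -/
theorem coeff_one_pow_congr (hM : IsPModular p M) {a : MonoidAlgebra ℂ G} (ha : IsIntegralElt M a) (n : ℕ)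
    [DecidablePred fun g : G => g ^ p ^ n = 1] :
    MemLocalIdeal M ((a ^ p ^ n).coeff 1 - ∑ g : G, if g ^ p ^ n = 1 then a.coeff g ^ p ^ n else 0) := by
  classical
  haveI := Fact.mk hM.1
  set N := p ^ n with hN
  haveI : NeZero N := ⟨pow_ne_zero _ hM.1.ne_zero⟩
  haveI : Fintype (TwWord N (1 : G)) := Fintype.ofEquiv _ (twEquiv N 1)
  have hper : ∀ (F : TwWord N (1 : G)) (i : ℕ), F.1 (i + N) = F.1 i := fun F i => by rw [F.2 i]; simp
  have hcongr : ∀ (F : TwWord N (1 : G)) {u v : ℕ}, u ≡ v [MOD N] → F.1 u = F.1 v := fun F u v h => by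
    refine TwWord.congr F ?_
    rwa [orderOf_one, mul_one]
  letI : MulAction (Multiplicative (ZMod N)) (TwWord N (1 : G)) :=
    { smul := fun j F => ⟨fun i => F.1 (i + (Multiplicative.toAdd j).val), fun i => by
        show F.1 (i + N + _) = 1 * F.1 (i + _) * 1⁻¹
        rw [add_right_comm]; exact F.2 _⟩
      one_smul := fun F => Subtype.ext (funext fun i => by
        show F.1 (i + (0 : ZMod N).val) = F.1 i
        simp)
      mul_smul := fun j l F => Subtype.ext (funext fun i => by
        show F.1 (i + (Multiplicative.toAdd j + Multiplicative.toAdd l).val) = F.1 (i + _ + _)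
        refine hcongr F ?_
        rw [ZMod.val_add, add_assoc, add_comm (Multiplicative.toAdd j).val]
        exact Nat.ModEq.add_left i ((Nat.mod_modEq _ _).trans (by rw [add_comm]))) }
  have hsmul : ∀ (j : Multiplicative (ZMod N)) (F : TwWord N (1 : G)) (i : ℕ),
      (j • F).1 i = F.1 (i + (Multiplicative.toAdd j).val) := fun _ _ _ => rfl
  set Φ : TwWord N (1 : G) → ℂ := fun F =>
    if seqProd F.1 N = 1 then ∏ i ∈ Finset.range N, a.coeff (F.1 i) else 0 with hΦ
  have hexp : (a ^ N).coeff 1 = ∑ F : TwWord N (1 : G), Φ F := by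
    conv_lhs => rw [pow_eq_sum_words, MonoidAlgebra.coeff_sum, Finset.sum_apply']
    refine Fintype.sum_equiv (twEquiv N (1 : G)) _ _ fun f => ?_
    have e1 : (List.ofFn f).prod = seqProd (twEquiv N (1 : G) f).1 N := by
      rw [seqProd, ← List.map_coe_finRange_eq_range, List.map_map, List.ofFn_eq_map]
      congr 1
      exact List.map_congr_left fun i _ => (twEquiv_apply_fin N (1 : G) f i).symm
    have e2 : ∏ i, a.coeff (f i) = ∏ i ∈ Finset.range N, a.coeff ((twEquiv N (1 : G) f).1 i) := by
      rw [← Fin.prod_univ_eq_prod_range (fun i => a.coeff ((twEquiv N (1 : G) f).1 i)) N]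
      exact Finset.prod_congr rfl fun i _ => by rw [twEquiv_apply_fin]
    rw [MonoidAlgebra.coeff_single, Finsupp.single_apply]
    simp only [hΦ, e1, e2]
  have hinv : ∀ (j : Multiplicative (ZMod N)) (F : TwWord N (1 : G)), Φ (j • F) = Φ F := by
    intro j F
    have hc := TwWord.isConj_shift F (Multiplicative.toAdd j).val
    rw [mul_one, mul_one] at hc
    have hp' : ∀ l : ℕ, ∏ i ∈ Finset.range N, a.coeff (F.1 (i + l)) = ∏ i ∈ Finset.range N, a.coeff (F.1 i) := by
      intro l
      induction l with
      | zero => simp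
      | succ l ih =>
        rw [← ih]
        obtain ⟨K, hK⟩ : ∃ K, N = K + 1 := ⟨N - 1, (Nat.succ_pred_eq_of_ne_zero (NeZero.ne N)).symm⟩
        have hrK : Finset.range N = Finset.range (K + 1) := congrArg Finset.range hK
        have e : F.1 (K + (l + 1)) = F.1 l := by
          rw [show K + (l + 1) = l + (K + 1) by omega, show l + (K + 1) = l + N by rw [hK]]; exact hper F l
        rw [hrK, Finset.prod_range_succ, Finset.prod_range_succ', e, zero_add]
        congr 1
        exact Finset.prod_congr rfl fun i _ => by rw [show i + 1 + l = i + (l + 1) by omega]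
    simp only [hΦ, hsmul, hp']
    refine if_congr ⟨fun h => ?_, fun h => ?_⟩ rfl rfl
    · rw [show seqProd (fun i => F.1 (i + (Multiplicative.toAdd j).val)) N = 1 from h] at hc
      exact isConj_one_right.1 hc
    · rw [h] at hc
      exact isConj_one_left.1 hc
  have hS : IsPGroup p (Multiplicative (ZMod N)) := IsPGroup.of_card (n := n) (by
    rw [Nat.card_congr Multiplicative.toAdd, Nat.card_zmod, hN])
  have key := sum_sub_fixed_mem hM hS Φ hinv (fun F => by
    simp only [hΦ]
    split_ifs
    · exact memLocalRing_prod hM _ fun i _ => ha _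
    · exact memLocalRing_zero hM)
  have hfix : (∑ F : TwWord N (1 : G), if (∀ s : Multiplicative (ZMod N), s • F = F) then Φ F else 0) =
      ∑ g : G, if g ^ N = 1 then a.coeff g ^ N else 0 := by
    rw [← Finset.sum_filter]
    refine Finset.sum_bij' (fun F _ => F.1 0) (fun g _ => ⟨fun _ => g, fun _ => by simp⟩)
      (fun F _ => Finset.mem_univ _) (fun g _ => ?_) (fun F hF => ?_) (fun g _ => rfl) (fun F hF => ?_)
    · exact Finset.mem_filter.2 ⟨Finset.mem_univ _, fun s => Subtype.ext rfl⟩
    · refine Subtype.ext (funext fun i => ?_)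
      have h := congrFun (congrArg Subtype.val ((Finset.mem_filter.1 hF).2
        (Multiplicative.ofAdd ((i : ℕ) : ZMod N)))) 0
      rw [hsmul, zero_add, toAdd_ofAdd, ZMod.val_natCast, hcongr F (Nat.mod_modEq i N)] at h
      exact h.symm
    · have hconst : ∀ i, F.1 i = F.1 0 := fun i => by
        have h := congrFun (congrArg Subtype.val ((Finset.mem_filter.1 hF).2
          (Multiplicative.ofAdd ((i : ℕ) : ZMod N)))) 0
        rwa [hsmul, zero_add, toAdd_ofAdd, ZMod.val_natCast, hcongr F (Nat.mod_modEq i N)] at h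
      have h1 : F.1 = fun _ => F.1 0 := funext hconst
      simp only [hΦ]
      rw [h1, seqProd_const, Finset.prod_const, Finset.card_range]
      simp
  simp only [← hN]
  rw [hexp, ← hfix]
  exact key

/-- An element nilpotent modulo `M` has coefficient sum over the `p`-elements in the ideal. -/
theorem pEltSum_mem_of_nilpotent (hM : IsPModular p M) {a : MonoidAlgebra ℂ G} (ha : IsIntegralElt M a)
    (hnil : ∃ N₀, ∀ N, N₀ ≤ N → IsSmall M (a ^ N)) : MemLocalIdeal M (pEltSum p a) := by
  classical
  haveI := Fact.mk hM.1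
  obtain ⟨N₀, hN₀⟩ := hnil
  set n := N₀ + Nat.card G with hn
  have hpow : ∀ g : G, g ^ p ^ n = 1 ↔ ∃ k : ℕ, orderOf g = p ^ k := fun g => by
    rw [← orderOf_dvd_iff_pow_eq_one, Nat.dvd_prime_pow hM.1]
    refine ⟨fun ⟨k, _, hk⟩ => ⟨k, hk⟩, fun ⟨k, hk⟩ => ⟨k, ?_, hk⟩⟩
    have h1 := (Nat.le_of_dvd Nat.card_pos (orderOf_dvd_natCard g))
    rw [hk] at h1
    have h2 := Nat.lt_pow_self (n := k) hM.1.one_lt
    omega
  have h1 := coeff_one_pow_congr hM ha n
  have h2 := hN₀ (p ^ n) (by
    have := Nat.lt_pow_self (n := n) hM.1.one_lt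
    omega) 1
  have h3 : MemLocalIdeal M (∑ g : G, if g ^ p ^ n = 1 then a.coeff g ^ p ^ n else 0) := by
    simpa using memLocalIdeal_sub hM h2 h1
  set b : G → localRing hM := fun g =>
    ⟨if ∃ k : ℕ, orderOf g = p ^ k then a.coeff g else 0, by
      split_ifs
      · exact ha g
      · exact memLocalRing_zero hM⟩ with hb
  haveI := isMaximal_localIdeal hM
  haveI := residue_charP hM
  letI := residueField hM
  set q := Ideal.Quotient.mk (localIdeal hM) with hq
  have hsum : ((∑ g, b g : localRing hM) : ℂ) = pEltSum p a := by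
    simp only [AddSubmonoidClass.coe_finsetSum, hb, pEltSum]
  rw [← hsum]
  refine (mem_localIdeal hM).1 (Ideal.Quotient.eq_zero_iff_mem.1 (pow_eq_zero_iff (n := p ^ n)
    (pow_ne_zero _ hM.1.ne_zero) |>.1 ?_))
  rw [map_sum, sum_pow_char_pow, ← Finset.sum_congr rfl fun g _ => map_pow q (b g) (p ^ n), ← map_sum, hq,
    Ideal.Quotient.eq_zero_iff_mem, mem_localIdeal]
  simp only [AddSubmonoidClass.coe_finsetSum, SubmonoidClass.coe_pow, hb]
  convert h3 using 1
  refine Finset.sum_congr rfl fun g _ => ?_
  by_cases hg : ∃ k : ℕ, orderOf g = p ^ k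
  · rw [if_pos hg, if_pos ((hpow g).2 hg)]
  · rw [if_neg hg, if_neg fun h => hg ((hpow g).1 h), zero_pow (pow_ne_zero _ hM.1.ne_zero)]

end CfsgLib.Blocks
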