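import Cfsg.Agent.Blocks.StablePrime
import Cfsg.Agent.Blocks.FirstMain
import Cfsg.Agent.PCore.PConstrained

/-!
# Stable characters of the `p'`-core of a constrained group
-/

set_option linter.unusedSectionVars false
set_option linter.style.haveILetI false

namespace CfsgLib.Blocks

open Cfsg CfsgLib.CharBasics CfsgLib.Clifford CfsgLib.ZStar

universe u

variable {G : Type u} [Group G] [Fintype G] {p : ℕ} {M : Ideal AlgInt}

theorem principal_type [Fact p.Prime] (hM : IsPModular p M) {K : Subgroup G} (hK : K = pPrimeCore p G) [Fintype K]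
    {L : Subgroup G} (hL : L = pPrimePCore p G) {Q : Subgroup G} (hQL : Q ≤ L) (hQp : IsPGroup p Q)
    (hQS : ¬ p ∣ Q.relIndex L) (hCQ : Subgroup.centralizer (Q : Set G) ≤ L) (θ : IrrCharacter K)
    (hθ : ∀ g : G, IsConjCharOf K g (θ : K → ℂ) (θ : K → ℂ)) {B : Set (IrrCharacter G)}
    (hBdef : ∀ χ : IrrCharacter G, χ ∈ B ↔ classInner (fun k : K => (χ : G → ℂ) k) (θ : K → ℂ) ≠ 0) :
    IsPBlock M B ∧ (∀ S : Sylow p G, IsDefectGroup p M B S) ∧ ∀ R : Subgroup G, IsPGroup p R →
      ∃! f : Set (IrrCharacter (Subgroup.centralizer (R : Set G))),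
        IsInducedBlock M (Subgroup.centralizer (R : Set G)) f B := by
  classical
  have hp := hM.1
  subst hK
  subst hL
  haveI hKn : (pPrimeCore p G).Normal := inferInstance
  haveI hLn : (pPrimePCore p G).Normal := by rw [pPrimePCore]; haveI := Cfsg.pCore_normal p (G ⧸ pPrimeCore p G); infer_instance
  have hKp : ¬ p ∣ Nat.card (pPrimeCore p G) := (Nat.Prime.coprime_iff_not_dvd hp).1 (CfsgLib.PCore.pPrimeCore_coprime p G).symm
  have hKL : (pPrimeCore p G) ≤ pPrimePCore p G := CfsgLib.PCore.pPrimeCore_le_pPrimePCore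
  set π := QuotientGroup.mk' (pPrimeCore p G) with hπ
  -- constraint in the quotient
  have hQbar : Q.map π = pCore p (G ⧸ (pPrimeCore p G)) := by
    have hSyl : ((Q.subgroupOf (pPrimePCore p G)).map (pPrimePCore p G).subtype).map π =
        pCore p (G ⧸ (pPrimeCore p G)) := CfsgLib.PCore.sylow_map_eq_pCore
      ((hQp.of_equiv (Subgroup.subgroupOfEquivOfLe hQL).symm).toSylow hQS)
    rwa [Subgroup.map_subgroupOf_eq_of_le hQL] at hSyl
  have hconstr : Subgroup.centralizer ((pCore p (G ⧸ (pPrimeCore p G)) : Subgroup _) : Set (G ⧸ (pPrimeCore p G))) ≤ pCore p (G ⧸ (pPrimeCore p G)) := by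
    rw [← hQbar, CfsgLib.PCore.centralizer_map_eq _ (CfsgLib.PCore.pPrimeCore_coprime p G) Q hQp, hQbar,
      ← CfsgLib.PCore.map_pPrimePCore]
    exact Subgroup.map_mono hCQ
  have hQbarp : IsPGroup p (pCore p (G ⧸ (pPrimeCore p G))) := hQbar ▸ hQp.map π
  -- a regular element centralizing the `p`-core of the quotient lies in `(pPrimeCore p G)`
  have hreg : ∀ x : G, ¬ p ∣ orderOf x → π x ∈ Subgroup.centralizer ((pCore p (G ⧸ (pPrimeCore p G)) : Subgroup _) : Set (G ⧸ (pPrimeCore p G))) →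
      x ∈ (pPrimeCore p G) := by
    intro x hx h
    obtain ⟨j, hj⟩ := IsPGroup.iff_orderOf.1 hQbarp ⟨π x, hconstr h⟩
    rw [Subgroup.orderOf_mk] at hj
    rcases Nat.eq_zero_or_pos j with rfl | hj0
    · rw [pow_zero, orderOf_eq_one_iff] at hj
      exact (QuotientGroup.eq_one_iff x).1 hj
    · exact absurd ((dvd_pow_self p hj0.ne').trans (hj ▸ orderOf_map_dvd π x)) hx
  have hidx : ∃ k : ℕ, ((pPrimeCore p G).subgroupOf (pPrimePCore p G)).index = p ^ k := by
    obtain ⟨k, hk⟩ := IsPGroup.iff_card.1 hQbarp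
    refine ⟨k, ?_⟩
    rw [← hk, ← CfsgLib.PCore.map_pPrimePCore, ← Subgroup.relIndex, ← hπ, ← Subgroup.relIndex_bot_left,
      ← Subgroup.relIndex_comap, MonoidHom.comap_bot, QuotientGroup.ker_mk']
  have hcommMem : ∀ x s : G, x * s * x⁻¹ * s⁻¹ ∈ (pPrimeCore p G) → π x * π s = π s * π x := by
    intro x s h
    have h1 : π (x * s * x⁻¹ * s⁻¹) = 1 := (QuotientGroup.eq_one_iff _).2 h
    simp only [map_mul, map_inv] at h1
    calc π x * π s = π x * π s * (π x)⁻¹ * (π s)⁻¹ * (π s * π x) := by group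
      _ = _ := by rw [h1, one_mul]
  -- the stable block
  set b := blockOf M (θ : (pPrimeCore p G) → ℂ) with hbdef
  have hb : IsPBlock M b := isPBlock_blockOf M θ
  have hb1 : ∀ φ ∈ b, φ = θ := fun φ hφ => eq_of_sameBlock_primeTo hM hKp hφ
  have hθb : θ ∈ b := mem_blockOf_self hM θ
  have hst : ∀ x : G, StabilizesBlock (pPrimeCore p G) b x := fun x =>
    ⟨mem_normalizer_of_normal x, fun φ hφ => ⟨θ, hθb, hb1 φ hφ ▸ hθ x⟩⟩
  have hC : ∀ x : G, ¬ p ∣ orderOf x → (∀ s ∈ pPrimePCore p G, x * s * x⁻¹ * s⁻¹ ∈ (pPrimeCore p G)) → x ∈ (pPrimeCore p G) := by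
    intro x hx h
    refine hreg x hx (Subgroup.mem_centralizer_iff.2 fun y hy => ?_)
    rw [SetLike.mem_coe, ← CfsgLib.PCore.map_pPrimePCore] at hy
    obtain ⟨s, hs, rfl⟩ := hy
    exact (hcommMem x s (h s hs)).symm
  obtain ⟨B₀, hB₀, hcov₀, hfull⟩ := exists_covering_full_defect hM hKp hb hst
  have hBeq : B = B₀ := by
    ext χ
    rw [hBdef]
    constructor
    · intro h
      rw [← covering_block_unique hM hb hst hKL hidx hC (isPBlock_blockOf M χ) hB₀
        ⟨χ, mem_blockOf_self hM χ, θ, hθb, h⟩ hcov₀]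
      exact mem_blockOf_self hM χ
    · intro h
      obtain ⟨φ, hφ⟩ := exists_constituent_restrict (pPrimeCore p G) χ
      rwa [hb1 φ (constituent_mem_stable hM hb hst hB₀ hcov₀ h hφ)] at hφ
  subst hBeq
  have hSyl : ∀ S : Sylow p G, IsDefectGroup p M B S := by
    intro S
    obtain ⟨g, hg⟩ := exists_defectClass hM hB₀
    obtain ⟨T⟩ : Nonempty (Sylow p (Subgroup.centralizer ({g} : Set G))) := inferInstance
    set D := (T : Subgroup _).map (Subgroup.centralizer ({g} : Set G)).subtype with hD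
    have hDd : IsDefectGroup p M B D := ⟨g, hg, T, rfl⟩
    have hcard : Nat.card D = p ^ (Nat.card G).factorization p := by rw [card_defectGroup hM hB₀ hDd, hfull]
    obtain ⟨c, hc⟩ := MulAction.exists_smul_eq G (Sylow.ofCard D hcard) S
    have := isDefectGroup_map_conj hM hB₀ hDd c
    rw [← hc, Sylow.coe_subgroup_smul, Sylow.coe_ofCard]
    exact this
  refine ⟨hB₀, hSyl, fun R hR => ?_⟩
  set C := Subgroup.centralizer (R : Set G) with hCdef
  haveI : Fintype C := Fintype.ofFinite _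
  -- existence
  obtain ⟨S, hRS⟩ := hR.exists_le_sylow
  obtain ⟨g, hg, T, hT⟩ := hSyl S
  have hgC : g ∈ C := Subgroup.mem_centralizer_iff.2 fun q hq =>
    Subgroup.mem_centralizer_singleton_iff.1 (Subgroup.map_subtype_le _ (hT ▸ hRS hq))
  obtain ⟨e, he⟩ := exists_pair_of_unit_coeff hM hR hB₀ hgC hg.2.1
  obtain ⟨ξe, hξe⟩ := IsPBlock.nonempty hM he.1.2
  have hinde : IsInducedBlock M C e B :=
    isInducedBlock_of_not_small hM hR (fun x => Subgroup.mem_centralizer_iff) he.1.2 hB₀ hξe fun h =>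
      not_memLocalIdeal_one hM (by
        simpa using memLocalIdeal_sub hM h ((isBrauerPairOf_iff hM hR hB₀ he.1.2 hξe).1 he))
  refine ⟨e, hinde, fun f hf => ?_⟩
  -- the correspondent below
  set N : Subgroup C := (pPrimeCore p G).subgroupOf C with hN
  haveI : N.Normal := hKn.subgroupOf C
  haveI : Fintype N := Fintype.ofFinite _
  set act : R →* MulAut (pPrimeCore p G) := (MulAut.conjNormal : G →* MulAut (pPrimeCore p G)).comp R.subtype with hact
  haveI : Fintype (fixedSub act) := Fintype.ofFinite _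
  have hinv : IsInvariant act (θ : (pPrimeCore p G) → ℂ) := fun r k => hθ r k _ (MulAut.conjNormal_apply _ _)
  let eF : fixedSub act ≃* N :=
    { toFun := fun k => ⟨⟨((k : (pPrimeCore p G)) : G), Subgroup.mem_centralizer_iff.2 fun r hr => by
          have := congrArg Subtype.val (mem_fixedSub.1 k.2 ⟨r, hr⟩)
          simp only [hact, MonoidHom.coe_comp, Function.comp_apply, Subgroup.coe_subtype,
            MulAut.conjNormal_apply] at this
          calc r * ((k : (pPrimeCore p G)) : G) = r * ((k : (pPrimeCore p G)) : G) * r⁻¹ * r := by group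
            _ = _ := by rw [this]⟩, (k : (pPrimeCore p G)).2⟩
      invFun := fun n => ⟨⟨((n : C) : G), n.2⟩, mem_fixedSub.2 fun r => Subtype.ext (by
          simp only [hact, MonoidHom.coe_comp, Function.comp_apply, Subgroup.coe_subtype, MulAut.conjNormal_apply]
          rw [Subgroup.mem_centralizer_iff.1 (n : C).2 r r.2, mul_inv_cancel_right])⟩
      left_inv := fun _ => rfl
      right_inv := fun _ => rfl
      map_mul' := fun _ _ => rfl }
  have hz := isClassElt_extElt_stable hst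
  have hzi : IsIntegralElt M (extElt (pPrimeCore p G) (blockElt b)) := isIntegralElt_extElt hM (pPrimeCore p G) (isIntegralElt_blockElt hM hb)
  have hbs : b = {θ} := Set.ext fun φ => ⟨hb1 φ, fun h => h ▸ hθb⟩
  have hcorr : ∀ f' : Set (IrrCharacter C), IsInducedBlock M C f' B → ∀ ξ ∈ f', ∀ φ : IrrCharacter N,
      classInner (fun n : N => (ξ : C → ℂ) n) (φ : N → ℂ) ≠ 0 → Corr act M θ (pushChar eF.symm φ) := by
    intro f' hf' ξ hξ φ hφ
    obtain ⟨χ, hχ⟩ := IsPBlock.nonempty hM hB₀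
    have h := omega_res_induced hM hf' hξ hχ hz hzi
    rw [omega_extElt_covering hM hb hst hB₀ hcov₀ hχ, omega_eq_res_constituent (ZStar.isClassElt_res hz C)
      (fun g hg => by rw [coeff_res]; exact coeff_extElt_of_notMem (pPrimeCore p G) _ hg) ξ φ hφ] at h
    have key : omega (φ : N → ℂ) (res N (res C (extElt (pPrimeCore p G) (blockElt b)))) =
        omega (pushChar eF.symm φ : fixedSub act → ℂ) (brIdem act θ) := by
      simp only [omega, pushChar_apply, map_one]
      congr 1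
      refine Fintype.sum_equiv eF.symm.toEquiv _ _ fun k => ?_
      rw [brIdem, coeff_ofFun, coeff_res, coeff_res, coeff_extElt_mem (pPrimeCore p G) _ (show ((k : C) : G) ∈ pPrimeCore p G from k.2), coeff_blockElt, hbs]
      simp only [MulEquiv.toEquiv_eq_coe, EquivLike.coe_coe, MulEquiv.apply_symm_apply]
      rfl
    rw [key] at h
    exact h
  have huniq : ∀ f' : Set (IrrCharacter C), IsInducedBlock M C f' B → ∀ ξ ∈ f', ∀ φ : IrrCharacter N,
      classInner (fun n : N => (ξ : C → ℂ) n) (φ : N → ℂ) ≠ 0 →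
      ∀ f'' : Set (IrrCharacter C), IsInducedBlock M C f'' B → ∀ ξ' ∈ f'', ∀ φ' : IrrCharacter N,
      classInner (fun n : N => (ξ' : C → ℂ) n) (φ' : N → ℂ) ≠ 0 → φ = φ' := by
    intro f' hf' ξ hξ φ hφ f'' hf'' ξ' hξ' φ' hφ'
    exact pushChar_injective eF.symm
      (corr_unique act hM hR hKp hinv (hcorr f' hf' ξ hξ φ hφ) (hcorr f'' hf'' ξ' hξ' φ' hφ'))
  obtain ⟨φ, hφ⟩ := exists_constituent_restrict N ξe
  obtain ⟨ξf, hξf⟩ := IsPBlock.nonempty hM hf.1
  obtain ⟨φf, hφf⟩ := exists_constituent_restrict N ξf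
  have hφeq : φf = φ := huniq f hf ξf hξf φf hφf e hinde ξe hξe φ hφ
  subst hφeq
  set b' := blockOf M (φf : N → ℂ) with hb'def
  have hb' : IsPBlock M b' := isPBlock_blockOf M φf
  have hNp : ¬ p ∣ Nat.card N := fun h => by
    rw [← Nat.card_congr eF.toEquiv] at h
    exact hKp (h.trans (Subgroup.card_subgroup_dvd_card _))
  have hb'1 : ∀ ψ ∈ b', ψ = φf := fun ψ hψ => eq_of_sameBlock_primeTo hM hNp hψ
  have hst' : ∀ x : C, StabilizesBlock N b' x := fun x =>
    mem_stabSub.1 ((isStab_stabSub (b := b') x).2 fun ψ hψ ψ' hψ' => by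
      have hne : classInner (fun n : N => (ξe : C → ℂ) n) (ψ' : N → ℂ) ≠ 0 := by
        rw [hψ', hb'1 ψ hψ, ← conjFun_restrict (isClassFunction (isCharacter_of_irr ξe.2)) x, classInner_conjFun]
        exact hφ
      rw [huniq e hinde ξe hξe ψ' hne e hinde ξe hξe φf hφ]
      exact mem_blockOf_self hM φf)
  haveI : ((pPrimePCore p G).subgroupOf C).Normal := hLn.subgroupOf C
  have hNLC : N ≤ (pPrimePCore p G).subgroupOf C := fun x hx => hKL hx
  have hidxC : ∃ k : ℕ, (N.subgroupOf ((pPrimePCore p G).subgroupOf C)).index = p ^ k := by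
    obtain ⟨k, hk⟩ := hidx
    have e1 : (N.subgroupOf ((pPrimePCore p G).subgroupOf C)).index =
        ((pPrimeCore p G).subgroupOf (pPrimePCore p G)).relIndex ((C ⊓ pPrimePCore p G).subgroupOf (pPrimePCore p G)) := by
      rw [Subgroup.relIndex_subgroupOf inf_le_right, hN, ← Subgroup.relIndex,
        ← Subgroup.inf_subgroupOf_left (pPrimePCore p G) C, Subgroup.relIndex_subgroupOf inf_le_left, inf_comm]
    obtain ⟨j, -, hj⟩ := (Nat.dvd_prime_pow hp).1 (hk ▸ Subgroup.relIndex_dvd_index_of_normal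
      ((pPrimeCore p G).subgroupOf (pPrimePCore p G)) ((C ⊓ pPrimePCore p G).subgroupOf (pPrimePCore p G)))
    exact ⟨j, e1.trans hj⟩
  have hCC : ∀ x : C, ¬ p ∣ orderOf x →
      (∀ s ∈ (pPrimePCore p G).subgroupOf C, x * s * x⁻¹ * s⁻¹ ∈ N) → x ∈ N := by
    intro x hx h
    have hx' : ¬ p ∣ orderOf (x : G) := by rwa [Subgroup.orderOf_coe]
    refine hreg (x : G) hx' ?_
    have hB' : (Nat.card (Subgroup.zpowers (π (x : G)))).Coprime p := by
      rw [Nat.card_zpowers]
      exact ((Nat.Prime.coprime_iff_not_dvd hp).2 hx').symm.coprime_dvd_left (orderOf_map_dvd π (x : G))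
    have hnorm : ∀ X : Subgroup (G ⧸ (pPrimeCore p G)), X ≤ Subgroup.normalizer ((pCore p (G ⧸ (pPrimeCore p G)) : Subgroup _) : Set (G ⧸ (pPrimeCore p G))) := fun X => by
      haveI := Cfsg.pCore_normal p (G ⧸ (pPrimeCore p G))
      rw [Subgroup.normalizer_eq_top]; exact le_top
    refine CfsgLib.PCore.thompson_AxB (hR.map π) hB' hQbarp ?_ (hnorm _) (hnorm _) ?_ (Subgroup.mem_zpowers _)
    · rintro _ ⟨r, hr, rfl⟩ y hy
      obtain ⟨n, rfl⟩ := hy
      show π r * π (x : G) ^ n = π (x : G) ^ n * π r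
      rw [← map_zpow, ← map_mul, ← map_mul, Subgroup.mem_centralizer_iff.1 (C.zpow_mem x.2 n) r hr]
    · rw [Subgroup.zpowers_le]
      refine Subgroup.mem_centralizer_iff.2 fun y hy => ?_
      obtain ⟨hy1, hy2⟩ := hy
      rw [CfsgLib.PCore.centralizer_map_eq _ (CfsgLib.PCore.pPrimeCore_coprime p G) R hR] at hy2
      obtain ⟨c, hc, rfl⟩ := hy2
      exact (hcommMem x c (h ⟨c, hc⟩ hy1)).symm
  exact covering_block_unique hM hb' hst' hNLC hidxC hCC hf.1 hinde.1
    ⟨ξf, hξf, φf, mem_blockOf_self hM φf, hφf⟩ ⟨ξe, hξe, φf, mem_blockOf_self hM φf, hφ⟩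

end CfsgLib.Blocks
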