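import Cfsg.Agent.Blocks.HeightZero
import Cfsg.Agent.Blocks.DefectGroup
import Cfsg.Agent.Blocks.RegularRank

/-!
# Blocks with one regular part
-/

set_option linter.unusedSectionVars false
set_option linter.style.haveILetI false

namespace CfsgLib.Blocks

open Cfsg CfsgLib.CharBasics
open scoped ComplexConjugate

variable {G : Type*} [Group G] [Fintype G] {p : ℕ} {M : Ideal AlgInt}

theorem exists_bezout {ι : Type*} [DecidableEq ι] (s : Finset ι) (f : ι → ℕ) :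
    ∃ n : ι → ℤ, ((s.gcd f : ℕ) : ℤ) = ∑ i ∈ s, n i * f i := by
  induction s using Finset.induction with
  | empty => exact ⟨0, by simp⟩
  | @insert a s ha ih =>
    obtain ⟨n, hn⟩ := ih
    refine ⟨fun i => if i = a then Nat.gcdA (f a) (s.gcd f) else Nat.gcdB (f a) (s.gcd f) * n i, ?_⟩
    rw [Finset.gcd_insert, Finset.sum_insert ha]
    simp only [if_true]
    show ((Nat.gcd (f a) (s.gcd f) : ℕ) : ℤ) = _
    rw [Nat.gcd_eq_gcd_ab, hn, Finset.sum_mul, mul_comm (f a : ℤ)]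
    congr 1
    refine Finset.sum_congr rfl fun i hi => ?_
    simp only [if_neg (fun h : i = a => ha (h ▸ hi))]
    ring

/-- With one regular part all members are multiples of one of them on regular elements. -/
theorem prop_of_rank_one (hM : IsPModular p M) {B : Set (IrrCharacter G)}
    (hl : blockRank p B = 1) {χ ρ : IrrCharacter G} (hχ : χ ∈ B) (hρ : ρ ∈ B) {x : G} (hx : ¬ p ∣ orderOf x) :
    (ρ : G → ℂ) 1 * (χ : G → ℂ) x = (χ : G → ℂ) 1 * (ρ : G → ℂ) x := by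
  classical
  obtain ⟨v, -, hv⟩ := finrank_eq_one_iff'.1 (show Module.finrank ℂ
    ↥(Submodule.span ℂ ((fun χ : IrrCharacter G => pRegularPart p (χ : G → ℂ)) '' B)) = 1 from hl)
  obtain ⟨a, ha⟩ := hv ⟨pRegularPart p (χ : G → ℂ), Submodule.subset_span ⟨χ, hχ, rfl⟩⟩
  obtain ⟨b, hb⟩ := hv ⟨pRegularPart p (ρ : G → ℂ), Submodule.subset_span ⟨ρ, hρ, rfl⟩⟩
  have h1 : ¬ p ∣ orderOf (1 : G) := by rw [orderOf_one]; exact hM.1.not_dvd_one
  have ha' : ∀ y, ¬ p ∣ orderOf y → a * (v : G → ℂ) y = (χ : G → ℂ) y := fun y hy => by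
    have := congrFun (congrArg Subtype.val ha) y
    simpa [pRegularPart_eq, hy] using this
  have hb' : ∀ y, ¬ p ∣ orderOf y → b * (v : G → ℂ) y = (ρ : G → ℂ) y := fun y hy => by
    have := congrFun (congrArg Subtype.val hb) y
    simpa [pRegularPart_eq, hy] using this
  rw [← ha' 1 h1, ← hb' 1 h1, ← ha' x hx, ← hb' x hx]
  ring

/-- The block with one regular part: multiplicities against the gcd of the degrees. -/
theorem rank_one_structure (hM : IsPModular p M) {B : Set (IrrCharacter G)} (hB : IsPBlock M B)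
    (hl : blockRank p B = 1) [Fintype (IrrCharacter G)] [DecidablePred (· ∈ B)] :
    ∃ (φ : G → ℂ) (d : IrrCharacter G → ℕ) (n : IrrCharacter G → ℤ),
      (∀ x : G, ¬ p ∣ orderOf x → φ x = ∑ ψ : IrrCharacter G, if ψ ∈ B then (n ψ : ℂ) * (ψ : G → ℂ) x else 0) ∧
      (∀ χ ∈ B, ∀ x : G, ¬ p ∣ orderOf x → (χ : G → ℂ) x = (d χ : ℂ) * φ x) ∧
      (∑ χ : IrrCharacter G, if χ ∈ B then d χ ^ 2 else 0) = p ^ blockDefect p B := by
  classical
  haveI := Fact.mk hM.1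
  obtain ⟨χ, hχ, hmin, hsInf⟩ := exists_min_degExp hM hB
  set s := Finset.univ.filter (fun ψ : IrrCharacter G => ψ ∈ B) with hs
  set g := s.gcd (fun ψ : IrrCharacter G => charDegree (ψ : G → ℂ)) with hg
  obtain ⟨n, hn⟩ := exists_bezout s (fun ψ : IrrCharacter G => charDegree (ψ : G → ℂ))
  have hmem : ∀ ψ, ψ ∈ s ↔ ψ ∈ B := fun ψ => by simp [hs]
  have hdvd : ∀ ψ ∈ B, g ∣ charDegree (ψ : G → ℂ) := fun ψ hψ => Finset.gcd_dvd ((hmem ψ).2 hψ)
  have hg0 : g ≠ 0 := fun h0 => (charDegree_pos χ.2).ne' (Nat.eq_zero_of_zero_dvd (h0 ▸ hdvd χ hχ))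
  set d : IrrCharacter G → ℕ := fun ψ => charDegree (ψ : G → ℂ) / g with hd
  have hdeg : ∀ ψ ∈ B, charDegree (ψ : G → ℂ) = g * d ψ := fun ψ hψ => (Nat.mul_div_cancel' (hdvd ψ hψ)).symm
  have hone : ∀ ψ ∈ B, (ψ : G → ℂ) 1 = (g : ℂ) * (d ψ : ℂ) := fun ψ hψ => by
    rw [CharBasics.apply_one (isCharacter_of_irr ψ.2), hdeg ψ hψ, Nat.cast_mul]
  set φ : G → ℂ := fun x => (g : ℂ) * (χ : G → ℂ) x / (χ : G → ℂ) 1 with hφ
  have hχ1 := apply_one_ne_zero χ.2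
  have hmult : ∀ ψ ∈ B, ∀ x : G, ¬ p ∣ orderOf x → (ψ : G → ℂ) x = (d ψ : ℂ) * φ x := by
    intro ψ hψ x hx
    have h := prop_of_rank_one hM hl hψ hχ hx
    rw [hone ψ hψ] at h
    rw [hφ]
    field_simp
    linear_combination h
  refine ⟨φ, d, n, fun x hx => ?_, hmult, ?_⟩
  · rw [← Finset.sum_filter, ← hs, Finset.sum_congr rfl fun ψ hψ => by rw [hmult ψ ((hmem ψ).1 hψ) x hx, ← mul_assoc],
      ← Finset.sum_mul]
    have h1 : ((g : ℤ) : ℂ) = ((∑ ψ ∈ s, n ψ * (charDegree (ψ : G → ℂ) : ℕ) : ℤ) : ℂ) := by rw [← hn]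
    have h2 : ∑ ψ ∈ s, (n ψ : ℂ) * (d ψ : ℂ) = 1 := by
      refine mul_left_cancel₀ (Nat.cast_ne_zero.2 hg0 : (g : ℂ) ≠ 0) ?_
      rw [mul_one, Finset.mul_sum]
      push_cast at h1
      refine (Finset.sum_congr rfl fun ψ hψ => ?_).trans h1.symm
      rw [hdeg ψ ((hmem ψ).1 hψ)]
      push_cast
      ring
    rw [h2, one_mul]
  -- the regular products form a rank one integral matrix
  set c := classInner (fun y : G => if p ∣ orderOf y then 0 else φ y) (fun y : G => if p ∣ orderOf y then 0 else φ y)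
    with hc
  set m : ℂ := ((Nat.card G / p ^ (Nat.card G).factorization p : ℕ) : ℂ) with hm
  have hG : (Nat.card G : ℂ) ≠ 0 := Nat.cast_ne_zero.2 Nat.card_pos.ne'
  have hmG : m ≠ 0 := ordCompl_ne_zero_cast (G := G) p
  obtain ⟨K, hK⟩ : ∃ K : ℤ, ∀ ψ ∈ B, ∀ ρ ∈ B,
      regInt p (ψ : G → ℂ) (ρ : G → ℂ) = K * ((d ψ : ℕ) : ℤ) * ((d ρ : ℕ) : ℤ) := by
    have hval : ∀ ψ ∈ B, ∀ ρ ∈ B, (regInt p (ψ : G → ℂ) (ρ : G → ℂ) : ℂ) * m =
        (Nat.card G : ℂ) * ((d ψ : ℂ) * (d ρ : ℂ) * c) := by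
      intro ψ hψ ρ hρ
      rw [← regSum_eq_regInt hM.1 (isCharacter_of_irr ψ.2) (isCharacter_of_irr ρ.2), hc, classInner_eq,
        ← mul_assoc ((d ψ : ℂ) * (d ρ : ℂ)), mul_comm ((d ψ : ℂ) * (d ρ : ℂ)), mul_assoc, mul_inv_cancel_left₀ hG,
        regSum, Finset.mul_sum]
      refine Finset.sum_congr rfl fun y _ => ?_
      split_ifs with hy
      · simp
      · rw [hmult ψ hψ y hy, hmult ρ hρ y hy, map_mul, Complex.conj_natCast]
        ring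
    refine ⟨∑ ψ ∈ s, ∑ ρ ∈ s, n ψ * n ρ * regInt p (ψ : G → ℂ) (ρ : G → ℂ), fun ψ hψ ρ hρ => ?_⟩
    have hT : ((∑ ψ ∈ s, ∑ ρ ∈ s, n ψ * n ρ * regInt p (ψ : G → ℂ) (ρ : G → ℂ) : ℤ) : ℂ) * m =
        (Nat.card G : ℂ) * c := by
      have h2 : ∑ ψ ∈ s, (n ψ : ℂ) * (d ψ : ℂ) = 1 := by
        refine mul_left_cancel₀ (Nat.cast_ne_zero.2 hg0 : (g : ℂ) ≠ 0) ?_
        rw [mul_one, Finset.mul_sum]
        have h1 : ((g : ℤ) : ℂ) = ((∑ ψ ∈ s, n ψ * (charDegree (ψ : G → ℂ) : ℕ) : ℤ) : ℂ) := by rw [← hn]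
        push_cast at h1
        refine (Finset.sum_congr rfl fun ψ hψ => ?_).trans h1.symm
        rw [hdeg ψ ((hmem ψ).1 hψ)]
        push_cast
        ring
      push_cast
      rw [Finset.sum_mul]
      calc ∑ ψ ∈ s, (∑ ρ ∈ s, (n ψ : ℂ) * n ρ * regInt p (ψ : G → ℂ) (ρ : G → ℂ)) * m
          = ∑ ψ ∈ s, ∑ ρ ∈ s, ((n ψ : ℂ) * d ψ) * ((n ρ : ℂ) * d ρ) * ((Nat.card G : ℂ) * c) := by
            refine Finset.sum_congr rfl fun ψ hψ => ?_
            rw [Finset.sum_mul]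
            refine Finset.sum_congr rfl fun ρ hρ => ?_
            rw [mul_assoc, hval ψ ((hmem ψ).1 hψ) ρ ((hmem ρ).1 hρ)]
            ring
        _ = (∑ ψ ∈ s, (n ψ : ℂ) * d ψ) * (∑ ρ ∈ s, (n ρ : ℂ) * d ρ) * ((Nat.card G : ℂ) * c) := by
            rw [Finset.sum_mul_sum, Finset.sum_mul]
            exact Finset.sum_congr rfl fun ψ _ => (Finset.sum_mul _ _ _).symm
        _ = (Nat.card G : ℂ) * c := by rw [h2, one_mul, one_mul]
    have h := hval ψ hψ ρ hρ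
    rw [show (Nat.card G : ℂ) * ((d ψ : ℂ) * (d ρ : ℂ) * c) = (d ψ : ℂ) * (d ρ : ℂ) * ((Nat.card G : ℂ) * c) by ring,
      ← hT] at h
    refine Int.cast_injective (α := ℂ) (mul_right_cancel₀ hmG ?_)
    rw [h]
    push_cast
    ring
  obtain ⟨S, hS⟩ : ∃ S : ℕ, S = ∑ ρ : IrrCharacter G, if ρ ∈ B then d ρ ^ 2 else 0 := ⟨_, rfl⟩
  rw [← hS]
  have hd0 : d χ ≠ 0 := fun h0 => (charDegree_pos χ.2).ne' (by rw [hdeg χ hχ, h0, mul_zero])
  have hsq := sum_regInt_sq hM.1 χ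
  have hleft : ∑ ρ : IrrCharacter G, regInt p (χ : G → ℂ) (ρ : G → ℂ) ^ 2 =
      K ^ 2 * (d χ : ℤ) ^ 2 * (S : ℤ) := by
    rw [hS, Nat.cast_sum, Finset.mul_sum]
    refine Finset.sum_congr rfl fun ρ _ => ?_
    split_ifs with hρ
    · rw [hK χ hχ ρ hρ]; push_cast; ring
    · rw [regInt_eq_zero_of_notMem hM hB hχ hρ]; simp
  rw [hleft, hK χ hχ χ hχ] at hsq
  have hK0 : K ≠ 0 := fun h0 => regInt_self_not_dvd hM hB hχ hmin (by rw [hK χ hχ χ hχ, h0]; simp)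
  set a := (Nat.card G).factorization p with ha
  have hKS : K * (S : ℤ) = (p : ℤ) ^ a := by
    refine mul_left_cancel₀ (mul_ne_zero hK0 (pow_ne_zero 2 (Int.natCast_ne_zero.2 hd0))) ?_
    linear_combination hsq
  obtain ⟨j, hja, hj⟩ : ∃ j, j ≤ a ∧ S = p ^ j := by
    have : (S : ℤ) ∣ (p : ℤ) ^ a := Dvd.intro_left K hKS
    exact (Nat.dvd_prime_pow hM.1).1 (by exact_mod_cast this)
  have hK' : K = (p : ℤ) ^ (a - j) := by
    refine mul_right_cancel₀ (pow_ne_zero j (Int.natCast_ne_zero.2 hM.1.ne_zero)) ?_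
    rw [← pow_add, Nat.sub_add_cancel hja, ← hKS, hj, Nat.cast_pow]
  have hdp : ¬ p ∣ d χ := by
    intro hpd
    have hge : ∀ ψ ∈ s, p ^ degExp p χ ∣ charDegree (ψ : G → ℂ) := fun ψ hψ =>
      (pow_dvd_pow p (hmin ψ ((hmem ψ).1 hψ))).trans (Nat.ordProj_dvd _ _)
    have h1 : p ^ degExp p χ ∣ g := Finset.dvd_gcd hge
    have h2 : p ^ (degExp p χ + 1) ∣ charDegree (χ : G → ℂ) := by
      rw [hdeg χ hχ, pow_succ]; exact mul_dvd_mul h1 hpd
    have h3 := (hM.1.pow_dvd_iff_le_factorization (charDegree_pos χ.2).ne').1 h2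
    rw [degExp] at h3
    omega
  have hreg : regInt p (χ : G → ℂ) (χ : G → ℂ) = ((p ^ (a - j) * d χ ^ 2 : ℕ) : ℤ) := by
    rw [hK χ hχ χ hχ, hK']; push_cast; ring
  have hlow := pow_dvd_regInt hM χ χ
  have hup := regInt_self_not_dvd hM hB hχ hmin
  rw [hreg, ← Nat.cast_pow, Int.natCast_dvd_natCast] at hlow hup
  have hcop : ∀ k, (p ^ k).Coprime (d χ ^ 2) := fun k =>
    (Nat.Coprime.pow k 2 (hM.1.coprime_iff_not_dvd.2 hdp))
  have h1 : degExp p χ ≤ a - j :=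
    (Nat.pow_dvd_pow_iff_le_right hM.1.one_lt).1 ((hcop _).dvd_of_dvd_mul_right hlow)
  have h2 : a - j ≤ degExp p χ := by
    by_contra hlt
    exact hup ((pow_dvd_pow p (by omega : degExp p χ + 1 ≤ a - j)).trans (Dvd.intro _ rfl))
  rw [blockDefect_eq hsInf, hj, ← ha]
  congr 1
  omega

end CfsgLib.Blocks
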