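import Cfsg.Agent.Blocks.Subsection
import Cfsg.Agent.ZStar.PartChar

/-!
# Sums over a section

For a character outside the principal block the values over the elements with a given `p`-part sum to zero.
-/

set_option autoImplicit false
set_option linter.style.haveILetI false
set_option linter.unusedSectionVars false
set_option linter.deprecated false

namespace CfsgLib.Blocks

open Cfsg CfsgLib.CharBasics CfsgLib.BrauerInd CfsgLib.ZStar
open scoped ComplexConjugate Classical

universe u

variable {G : Type u} [Group G] [Fintype G] {p : ℕ} [Fact p.Prime]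

/-- Outside the principal block the values over the regular elements of a section sum to zero. -/
theorem sum_regular_section_eq_zero {M : Ideal AlgInt} (hM : IsPModular p M) {χ : IrrCharacter G}
    (hχ : χ ∉ principalBlock M G) {z : G} (hx : ∃ k : ℕ, orderOf z = p ^ k) :
    ∑ y : Subgroup.centralizer ({z} : Set G), (if p ∣ orderOf y then 0 else (χ : G → ℂ) (z * y)) = 0 := by
  haveI : Fintype (IrrCharacter (Subgroup.centralizer ({z} : Set G))) := @Fintype.ofFinite _ finite_irrCharacter
  have hcls := isClassFunction_shiftFun (x := z) (CfsgLib.CharBasics.isClassFunction (isCharacter_of_irr χ.2))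
  calc ∑ y : Subgroup.centralizer ({z} : Set G), (if p ∣ orderOf y then 0 else (χ : G → ℂ) (z * y))
      = ∑ b ∈ blockFinset M (Subgroup.centralizer ({z} : Set G)),
          ∑ y : Subgroup.centralizer ({z} : Set G), secVal p z b (χ : G → ℂ) y := by
        rw [Finset.sum_comm]
        refine Finset.sum_congr rfl fun y _ => ?_
        by_cases hy : p ∣ orderOf y
        · simp [secVal, hy]
        · simp only [secVal, if_neg hy]
          rw [sum_blockPart hM hcls y]
          rfl
    _ = 0 := Finset.sum_eq_zero fun b hb => ?_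
  have hb' := mem_blockFinset.1 hb
  by_cases hb0 : b = principalBlock M (Subgroup.centralizer ({z} : Set G))
  · refine Finset.sum_eq_zero fun y _ => secVal_eq_zero hM hx hb' (isPBlock_blockOf M χ)
      (mem_blockOf_self hM χ) (fun hi => hχ ?_) y
    subst hb0
    have h0 := (isInducedBlock_principal_iff hM ⟨_, hi⟩).2 rfl
    obtain ⟨ξ, hξ⟩ := IsPBlock.nonempty hM hi.1
    exact fun g => by
      simpa [show ((oneChar : IrrCharacter G) : G → ℂ) = fun _ => 1 from rfl] using
        memLocalIdeal_sub hM (hi.2.2 ξ hξ χ (mem_blockOf_self hM χ) g) (h0.2.2 ξ hξ oneChar (oneChar_mem_principal hM) g)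
  · have e : ∀ y : Subgroup.centralizer ({z} : Set G), secVal p z b (χ : G → ℂ) y =
        ∑ ξ : IrrCharacter (Subgroup.centralizer ({z} : Set G)), if ξ ∈ b then
          classInner (shiftFun z (χ : G → ℂ)) (ξ : Subgroup.centralizer ({z} : Set G) → ℂ) *
            (if p ∣ orderOf y then 0 else (ξ : Subgroup.centralizer ({z} : Set G) → ℂ) y) else 0 := by
      intro y
      rw [secVal]
      by_cases hy : p ∣ orderOf y
      · simp [hy]
      · simp only [if_neg hy, ZStar.blockPart_apply]
    rw [Finset.sum_congr rfl fun y _ => e y, Finset.sum_comm]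
    refine Finset.sum_eq_zero fun ξ _ => ?_
    split_ifs with hξ
    · rw [← Finset.mul_sum, sum_regular_eq_zero hM, mul_zero]
      exact fun h => hb0 (IsPBlock.eq_of_mem hM hb' isPBlock_principal hξ h)
    · exact Finset.sum_const_zero

/-- The elements with a given `p`-part are the translates of the regular elements of the centralizer. -/
theorem sum_fiber_eq {z : G} (hz : ∃ k : ℕ, orderOf z = p ^ k) (F : G → ℂ) :
    ∑ g : {g : G // ppart p g = z}, F g.1 =
      ∑ y : {y : Subgroup.centralizer ({z} : Set G) // ¬ p ∣ orderOf y}, F (z * (y.1 : G)) := by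
  refine (Finset.sum_bij' (fun g _ => (⟨⟨prest p g.1, Subgroup.mem_centralizer_singleton_iff.2 (by
          have h := (part_spec (p := p) g.1).2.1
          rw [g.2] at h
          exact h.eq.symm)⟩, by rw [← Subgroup.orderOf_coe]; exact (part_spec (p := p) g.1).2.2.2.1⟩ :
        {y : Subgroup.centralizer ({z} : Set G) // ¬ p ∣ orderOf y}))
      (fun y _ => (⟨z * (y.1 : G), (part_unique rfl (Subgroup.mem_centralizer_singleton_iff.1 y.1.2).symm hz
        (by rw [Subgroup.orderOf_coe]; exact y.2)).1⟩ : {g : G // ppart p g = z}))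
      (fun _ _ => Finset.mem_univ _) (fun _ _ => Finset.mem_univ _) (fun g _ => Subtype.ext ?_) (fun y _ => ?_)
      fun g _ => ?_)
  · show z * prest p g.1 = g.1
    conv_lhs => arg 1; rw [← g.2]
    exact (part_spec (p := p) g.1).1
  · exact Subtype.ext (Subtype.ext (part_unique rfl
      (Subgroup.mem_centralizer_singleton_iff.1 y.1.2).symm hz (by rw [Subgroup.orderOf_coe]; exact y.2)).2)
  · show F g.1 = F (z * prest p g.1)
    conv_lhs => rw [← (part_spec (p := p) g.1).1, g.2]

/-- Outside the principal block the values over the elements with a given `p`-part sum to zero. -/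
theorem sum_ppart_fiber_eq_zero {M : Ideal AlgInt} (hM : IsPModular p M) {χ : IrrCharacter G}
    (hχ : χ ∉ principalBlock M G) {z : G} (hz : ∃ k : ℕ, orderOf z = p ^ k) :
    ∑ g : {g : G // ppart p g = z}, (χ : G → ℂ) g.1 = 0 := by
  rw [sum_fiber_eq hz (χ : G → ℂ), ← sum_regular_section_eq_zero hM hχ hz, Finset.sum_ite, Finset.sum_const_zero,
    zero_add]
  exact (Finset.sum_subtype _ (fun y => by simp)
    (fun y : Subgroup.centralizer ({z} : Set G) => (χ : G → ℂ) (z * y))).symm

/-- A function carried by the `p`-parts is orthogonal to the characters outside the principal block. -/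
theorem classInner_ppart_eq_zero {M : Ideal AlgInt} (hM : IsPModular p M) {χ : IrrCharacter G}
    (hχ : χ ∉ principalBlock M G) {Φ : G → ℂ} (hΦ : ∀ g, Φ g = Φ (ppart p g)) :
    classInner Φ (χ : G → ℂ) = 0 := by
  rw [classInner_eq, ← Finset.sum_fiberwise Finset.univ (fun g => ppart p g), Finset.sum_eq_zero, mul_zero]
  intro z _
  by_cases hz : ∃ g : G, ppart p g = z
  · obtain ⟨g₀, hg₀⟩ := hz
    have hzp : ∃ k : ℕ, orderOf z = p ^ k := hg₀ ▸ (part_spec (p := p) g₀).2.2.1
    rw [Finset.sum_congr rfl (g := fun g : G => Φ z * conj ((χ : G → ℂ) g))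
      (fun g hg => by rw [hΦ g, (Finset.mem_filter.1 hg).2]), ← Finset.mul_sum, ← map_sum,
      Finset.sum_subtype (p := fun g => ppart p g = z) _ (fun g => by simp), sum_ppart_fiber_eq_zero hM hχ hzp,
      map_zero, mul_zero]
  · rw [Finset.sum_eq_zero]
    intro g hg
    exact absurd ⟨g, (Finset.mem_filter.1 hg).2⟩ hz

/-- A member of the principal block does not vanish at an element whose class has order prime to `p`. -/
theorem apply_ne_zero_of_principal {M : Ideal AlgInt} (hM : IsPModular p M) {χ : IrrCharacter G}
    (hχ : χ ∈ principalBlock M G) {x : G} (hx : ¬ p ∣ (Subgroup.centralizer ({x} : Set G)).index) :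
    (χ : G → ℂ) x ≠ 0 := by
  intro h
  have h1 : MemLocalIdeal M (centralChar (fun _ : G => (1 : ℂ)) x - centralChar (χ : G → ℂ) x) := hχ _
  simp only [centralChar, h, mul_zero, zero_div, sub_zero, mul_one, div_one] at h1
  exact hx ((memLocalIdeal_natCast_iff hM _).1 h1)

end CfsgLib.Blocks
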