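import Cfsg.Agent.CoprimeAction.Invariant
import Cfsg.Agent.Clifford.BrauerPerm
import Cfsg.Agent.Clifford.Basic
import Cfsg.Agent.Clifford.RepBasic
import Cfsg.Agent.PCore.PSolvable
import Cfsg.Agent.PCore.Basic
import Cfsg.Agent.CharBasics.Extra

/-!
# Defect zero characters when no element has order divisible by both `p` and `q`

If moreover `G` is `p`-solvable then `G` has a character of `p`-defect zero or of `q`-defect zero.
-/

set_option autoImplicit false
set_option linter.style.haveILetI false

namespace CfsgLib.SeparatedPQ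

open Cfsg CfsgLib.CharBasics

variable {G : Type*} [Group G] [Finite G] {p q : ℕ} [hp : Fact p.Prime] [hq : Fact q.Prime]

/-- No element of order divisible by both primes. -/
def Separated (G : Type*) [Group G] (p q : ℕ) : Prop := ∀ x : G, p ∣ orderOf x → ¬ q ∣ orderOf x

omit [Finite G] in
theorem separated_map {H : Type*} [Group H] (h : Separated G p q) (f : G →* H) (hf : Function.Surjective f) :
    Separated H p q := fun x hx hx' => by
  obtain ⟨g, rfl⟩ := hf x
  exact h g (hx.trans (orderOf_map_dvd f g)) (hx'.trans (orderOf_map_dvd f g))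

omit [Finite G] in
/-- A nontrivial `p`-element commutes with no element of order `q`. -/
theorem not_commute (hpq : p ≠ q) (h : Separated G p q) {x y : G} (hx : ∃ k, orderOf x = p ^ k) (hx1 : x ≠ 1)
    (hy : orderOf y = q) : ¬ Commute x y := fun hc => by
  obtain ⟨k, hk⟩ := hx
  have hk0 : k ≠ 0 := fun h0 => hx1 (orderOf_eq_one_iff.1 (by rw [hk, h0, pow_zero]))
  have ho : orderOf (x * y) = p ^ k * q := by
    rw [hc.orderOf_mul_eq_mul_orderOf_of_coprime (by
      rw [hk, hy]; exact ((Nat.coprime_primes hp.out hq.out).2 hpq).pow_left k), hk, hy]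
  exact h (x * y) (ho ▸ (dvd_pow_self p hk0).mul_right q) (ho ▸ Dvd.intro_left _ rfl)

/-- A character whose inertia group has order prime to `r` yields a character of `r`-defect zero. -/
theorem exists_full (r : ℕ) [hr : Fact r.Prime] (L : Subgroup G) [L.Normal] (θ : IrrCharacter L)
    (hT : ∀ x ∈ Clifford.inertia (N := L) (θ : L → ℂ), orderOf x ≠ r) :
    ∃ χ : IrrCharacter G, (charDegree (χ : G → ℂ)).factorization r = (Nat.card G).factorization r := by
  classical
  haveI := Fintype.ofFinite G
  haveI := Fintype.ofFinite L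
  set T := Clifford.inertia (N := L) (θ : L → ℂ) with hTdef
  haveI := Fintype.ofFinite T
  have hθc := isCharacter_of_irr θ.2
  have hI1 : indFun L (θ : L → ℂ) 1 ≠ 0 := by
    rw [indFun_apply_one]
    exact mul_ne_zero (Nat.cast_ne_zero.mpr Subgroup.index_ne_zero_of_finite) (apply_one_ne_zero θ.2)
  obtain ⟨χ, m, hm, hme⟩ := exists_constituent (isCharacter_indFun L hθc) hI1
  have hne : classInner (fun n : L => (χ : G → ℂ) n) (θ : L → ℂ) ≠ 0 := by
    rw [classInner_indFun L (θ : L → ℂ) (isClassFunction (isCharacter_of_irr χ.2)), classInner_comm] at hme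
    intro h0
    rw [h0, map_zero] at hme
    exact hm.ne' (by exact_mod_cast hme.symm)
  obtain ⟨ψ, hψ, hind, -, -⟩ := Clifford.exists_inertia_correspondent χ.2 θ.2 hne T hTdef
    (Clifford.le_inertia (isClassFunction hθc))
  refine ⟨χ, le_antisymm ((Nat.factorization_le_iff_dvd (charDegree_pos χ.2).ne' Nat.card_pos.ne').2
    (degree_dvd χ) r) ?_⟩
  have hdeg : charDegree (χ : G → ℂ) = T.index * charDegree ψ := by
    rw [← charDegree_indFun T (isCharacter_of_irr hψ), hind]
  have hTr : (Nat.card T).factorization r = 0 := Nat.factorization_eq_zero_of_not_dvd fun hd => by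
    obtain ⟨x, hx⟩ := exists_prime_orderOf_dvd_card' r hd
    exact hT (x : G) x.2 (by rw [Subgroup.orderOf_coe, hx])
  rw [hdeg, ← T.card_mul_index, Nat.factorization_mul Nat.card_pos.ne' Subgroup.index_ne_zero_of_finite,
    Nat.factorization_mul Subgroup.index_ne_zero_of_finite (charDegree_pos hψ).ne', Finsupp.add_apply,
    Finsupp.add_apply, hTr, zero_add]
  exact Nat.le_add_right _ _

/-- The case `q ∤ |O_{p'}(G)|`. -/
theorem exists_q_full (hpq : p ≠ q) (hsep : Separated G p q) (hsolv : IsPSolvable p G) (hpG : p ∣ Nat.card G)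
    (hqN : ¬ q ∣ Nat.card (pPrimeCore p G)) :
    ∃ χ : IrrCharacter G, (charDegree (χ : G → ℂ)).factorization q = (Nat.card G).factorization q := by
  classical
  set N := pPrimeCore p G with hN
  haveI : N.Normal := (PCore.pPrimeCore_mem p G).1
  haveI : Nontrivial (G ⧸ N) := by
    rw [← Finite.one_lt_card_iff_nontrivial]
    refine Nat.one_lt_iff_ne_zero_and_ne_one.2 ⟨Nat.card_pos.ne', fun h => PCore.not_dvd_card_pPrimeCore p G ?_⟩
    rw [Subgroup.card_eq_card_quotient_mul_card_subgroup N, h, one_mul] at hpG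
    exact hpG
  set W := pCore p (G ⧸ N) with hW
  have hWne : W ≠ ⊥ := (PCore.cores_ne_bot (PCore.isPSolvable_quotient hsolv N)).resolve_right
    (not_not_intro PCore.pPrimeCore_quotient)
  haveI : W.Normal := haveI := PCore.pCore_characteristic p (G ⧸ N); inferInstance
  have hWp : IsPGroup p W := PCore.isPGroup_pCore p (G ⧸ N)
  haveI : Nontrivial W := (Subgroup.nontrivial_iff_ne_bot W).2 hWne
  haveI := hWp.isNilpotent
  obtain ⟨a, ha⟩ : ∃ a : Abelianization W, a ≠ 1 := by
    by_contra h
    push Not at h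
    refine (Group.IsSolvable.commutator_lt_top_of_nontrivial (G := W)).ne (eq_top_iff.2 fun x _ => ?_)
    exact (QuotientGroup.eq_one_iff x).1 (h (Abelianization.of x))
  obtain ⟨μ, hμ⟩ := CommGroup.exists_apply_ne_one_of_hasEnoughRootsOfUnity (Abelianization W) ℂ ha
  let μW : W →* ℂˣ := μ.comp Abelianization.of
  let L : Subgroup G := W.comap (QuotientGroup.mk' N)
  let μL : L →* ℂ := (Units.coeHom ℂ).comp (μW.comp ((QuotientGroup.mk' N).subgroupComap W))
  have hθ : IsIrrCharacter L (fun l => μL l) := by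
    have := Clifford.isIrrCharacter_linear_mul (isIrrCharacter_one (G := L)) μL
    simpa using this
  refine exists_full q L ⟨fun l => μL l, hθ⟩ fun w hw hwq => ?_
  have hwN : w ∉ N := fun h => hqN (hwq ▸ Subgroup.orderOf_dvd_natCard N h)
  set w' : G ⧸ N := QuotientGroup.mk' N w with hw'
  have hw'q : orderOf w' = q := by
    refine ((Nat.dvd_prime hq.out).1 (hwq ▸ orderOf_map_dvd (QuotientGroup.mk' N) w)).resolve_left fun h => ?_
    exact hwN ((QuotientGroup.eq_one_iff w).1 (orderOf_eq_one_iff.1 h))
  have hsep' : Separated (G ⧸ N) p q := separated_map hsep _ (QuotientGroup.mk'_surjective N)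
  let f : W →* W :=
    { toFun := fun y => ⟨w' * y * w'⁻¹, Subgroup.Normal.conj_mem inferInstance (y : G ⧸ N) y.2 w'⟩
      map_one' := Subtype.ext (by simp)
      map_mul' := fun u v => Subtype.ext (by simp [mul_assoc]) }
  have hfpf : MonoidHom.FixedPointFree f := fun y hy => by
    by_contra hy1
    obtain ⟨k, hk⟩ := IsPGroup.iff_orderOf.1 hWp y
    refine not_commute hpq hsep' (x := (y : G ⧸ N)) ⟨k, by rw [Subgroup.orderOf_coe, hk]⟩
      (fun h => hy1 (Subtype.ext h)) hw'q ?_
    have h : w' * (y : G ⧸ N) * w'⁻¹ = y := congrArg Subtype.val hy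
    exact (show w' * (y : G ⧸ N) = y * w' by rw [← mul_inv_eq_iff_eq_mul]; exact h).symm
  have hinv : ∀ y : W, μW (f y) = μW y := by
    rintro ⟨y, hy⟩
    obtain ⟨g, rfl⟩ := QuotientGroup.mk'_surjective N y
    have h := congrFun (Clifford.mem_inertia.1 hw) ⟨g, hy⟩
    rw [Clifford.conjFun_apply] at h
    refine Units.ext ?_
    refine Eq.trans ?_ h
    show (μW _ : ℂ) = (μW _ : ℂ)
    refine congrArg (fun y => (μW y : ℂ)) (Subtype.ext ?_)
    show w' * QuotientGroup.mk' N g * w'⁻¹ = QuotientGroup.mk' N (w * g * w⁻¹)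
    rw [map_mul, map_mul, map_inv]
  obtain ⟨x, rfl⟩ := QuotientGroup.mk_surjective a
  obtain ⟨y, hy⟩ := hfpf.commutatorMap_surjective x
  apply hμ
  show μW x = 1
  rw [← hy, MonoidHom.commutatorMap_apply, map_div, hinv, div_self']

/-- If `q` divides the order of a normal `p'`-subgroup, abelian `p`-subgroups are cyclic. -/
theorem isCyclic_of_comm (hpq : p ≠ q) (hsep : Separated G p q) (N : Subgroup G) [N.Normal]
    (hN : ¬ p ∣ Nat.card N) (hqN : q ∣ Nat.card N) (A : Subgroup G) [IsMulCommutative A] (hA : IsPGroup p A) :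
    IsCyclic A := by
  classical
  by_contra hnc
  obtain ⟨k, hk⟩ := IsPGroup.iff_card.1 hA
  have hcop : ∀ {K : Subgroup G}, K ≤ N → (Nat.card A).Coprime (Nat.card K) := fun {K} hK => by
    rw [hk]
    exact Nat.Coprime.pow_left k ((hp.out.coprime_iff_not_dvd).2 fun h => hN (h.trans (Subgroup.card_dvd_of_le hK)))
  obtain ⟨R, hR⟩ := CoprimeAction.exists_invariant_sylow (K := N) (fun a _ => by
    rw [Subgroup.normalizer_eq_top N]; trivial) (hcop le_rfl)
    (Or.inl (haveI := hA.isNilpotent; inferInstance)) q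
  have hle : (R : Subgroup N).map N.subtype ≤ ⊥ := by
    refine CoprimeAction.le_of_centralizers_le hnc hR (hcop (Subgroup.map_subtype_le _)) fun a ha ha1 => ?_
    intro r hr
    rw [Subgroup.mem_bot]
    by_contra hr1
    obtain ⟨hrR, hra⟩ := Subgroup.mem_inf.1 hr
    obtain ⟨j, hj⟩ := IsPGroup.iff_orderOf.1 (R.2.map N.subtype) ⟨r, hrR⟩
    rw [Subgroup.orderOf_mk] at hj
    have hj0 : j ≠ 0 := fun h0 => hr1 (orderOf_eq_one_iff.1 (by rw [hj, h0, pow_zero]))
    obtain ⟨i, hi⟩ := IsPGroup.iff_orderOf.1 hA ⟨a, ha⟩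
    rw [Subgroup.orderOf_mk] at hi
    refine not_commute hpq hsep (y := r ^ (q ^ (j - 1))) ⟨i, hi⟩ ha1 ?_
      ((show Commute r a from Subgroup.mem_centralizer_singleton_iff.1 hra).symm.pow_right _)
    rw [orderOf_pow_of_dvd (pow_ne_zero _ hq.out.ne_zero) (hj ▸ pow_dvd_pow q (Nat.sub_le j 1)), hj,
      Nat.pow_div (Nat.sub_le j 1) hq.out.pos, show j - (j - 1) = 1 by omega, pow_one]
  refine R.ne_bot_of_dvd_card hqN ((Subgroup.map_eq_bot_iff_of_injective _ N.subtype_injective).1 (le_bot_iff.1 hle))

/-- The case `q ∣ |O_{p'}(G)|`. -/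
theorem exists_p_full (hpq : p ≠ q) (hsep : Separated G p q) (hsolv : IsPSolvable p G) (hpG : p ∣ Nat.card G)
    (hqN : q ∣ Nat.card (pPrimeCore p G)) :
    ∃ χ : IrrCharacter G, (charDegree (χ : G → ℂ)).factorization p = (Nat.card G).factorization p := by
  classical
  set N := pPrimeCore p G with hN
  haveI : N.Normal := (PCore.pPrimeCore_mem p G).1
  have hpN : ¬ p ∣ Nat.card N := PCore.not_dvd_card_pPrimeCore p G
  haveI : Nontrivial (G ⧸ N) := by
    rw [← Finite.one_lt_card_iff_nontrivial]
    refine Nat.one_lt_iff_ne_zero_and_ne_one.2 ⟨Nat.card_pos.ne', fun h => hpN ?_⟩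
    rw [Subgroup.card_eq_card_quotient_mul_card_subgroup N, h, one_mul] at hpG
    exact hpG
  set W := pCore p (G ⧸ N) with hW
  have hWne : W ≠ ⊥ := (PCore.cores_ne_bot (PCore.isPSolvable_quotient hsolv N)).resolve_right
    (not_not_intro PCore.pPrimeCore_quotient)
  haveI : W.Normal := haveI := PCore.pCore_characteristic p (G ⧸ N); inferInstance
  have hWp : IsPGroup p W := PCore.isPGroup_pCore p (G ⧸ N)
  -- abelian `p`-subgroups of the quotient are cyclic
  have hquot : ∀ A : Subgroup (G ⧸ N), IsMulCommutative A → IsPGroup p A → IsCyclic A := by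
    intro A hAc hAp
    obtain ⟨S⟩ : Nonempty (Sylow p (A.comap (QuotientGroup.mk' N))) := inferInstance
    set S' := (S : Subgroup (A.comap (QuotientGroup.mk' N))).map (A.comap (QuotientGroup.mk' N)).subtype with hS'
    have hS'p : IsPGroup p S' := S.2.map _
    let g : S' →* A :=
      { toFun := fun s => ⟨QuotientGroup.mk' N s, (Subgroup.map_subtype_le _ s.2 : (s : G) ∈ A.comap _)⟩
        map_one' := Subtype.ext (map_one _)
        map_mul' := fun u v => Subtype.ext (map_mul _ _ _) }
    have hginj : Function.Injective g := by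
      rw [injective_iff_map_eq_one]
      intro s hs
      obtain ⟨i, hi⟩ := IsPGroup.iff_orderOf.1 hS'p s
      have hsN : (s : G) ∈ N := (QuotientGroup.eq_one_iff (s : G)).1 (congrArg Subtype.val hs)
      have hd := Subgroup.orderOf_dvd_natCard N hsN
      rw [Subgroup.orderOf_coe, hi] at hd
      rcases Nat.eq_zero_or_pos i with rfl | hi0
      · exact orderOf_eq_one_iff.1 (by rw [hi, pow_zero])
      · exact absurd ((dvd_pow_self p hi0.ne').trans hd) hpN
    haveI : IsMulCommutative S' := ⟨⟨fun u v => hginj (by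
      rw [map_mul, map_mul]; exact Std.Commutative.comm (g u) (g v))⟩⟩
    haveI := isCyclic_of_comm hpq hsep N hpN hqN S' hS'p
    refine isCyclic_of_surjective g ?_
    rw [← MonoidHom.range_eq_top]
    refine Subgroup.eq_top_of_card_eq _ ?_
    rw [Nat.card_congr (MonoidHom.ofInjective hginj).toEquiv.symm]
    obtain ⟨k, hk⟩ := IsPGroup.iff_card.1 hAp
    rw [hk, hS', Subgroup.card_map_of_injective (Subgroup.subtype_injective _), S.card_eq_multiplicity,
      PCore.card_comap_mk' N A, hk, Nat.factorization_mul Nat.card_pos.ne' (pow_ne_zero _ hp.out.ne_zero) |>.trans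
        (by rfl), Finsupp.add_apply, Nat.factorization_eq_zero_of_not_dvd hpN, zero_add,
      hp.out.factorization_pow, Finsupp.single_eq_same]
  have hsame : ∀ a b : G ⧸ N, orderOf a = p → orderOf b = p → Commute a b → a ∈ Subgroup.zpowers b := by
    intro a b ha hb hab
    haveI := Fintype.ofFinite (G ⧸ N)
    let A := Subgroup.zpowers a ⊔ Subgroup.zpowers b
    have hnorm : Subgroup.zpowers b ≤ Subgroup.normalizer ((Subgroup.zpowers a : Subgroup (G ⧸ N)) : Set (G ⧸ N)) :=
      (Subgroup.zpowers_le.2 (Subgroup.mem_centralizer_iff.2 fun x hx => by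
        obtain ⟨i, rfl⟩ := hx
        exact (hab.zpow_left i).eq) : Subgroup.zpowers b ≤ Subgroup.centralizer _).trans
        (Subgroup.centralizer_le_normalizer _)
    have hAp : IsPGroup p A := IsPGroup.to_sup_of_normal_left'
      (IsPGroup.of_card (n := 1) (by rw [Nat.card_zpowers, ha, pow_one]))
      (IsPGroup.of_card (n := 1) (by rw [Nat.card_zpowers, hb, pow_one])) hnorm
    have hAc : IsMulCommutative A := by
      have h1 : A = Subgroup.closure {a, b} := by
        rw [Set.insert_eq, Subgroup.closure_union, ← Subgroup.zpowers_eq_closure, ← Subgroup.zpowers_eq_closure]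
      rw [h1]
      refine Subgroup.isMulCommutative_closure (fun x hx y hy => ?_)
      rcases hx with rfl | rfl <;> rcases hy with rfl | rfl
      · rfl
      · exact hab.eq
      · exact hab.eq.symm
      · rfl
    haveI := hquot A hAc hAp
    have haA : a ∈ A := Subgroup.mem_sup_left (Subgroup.mem_zpowers a)
    have hbA : b ∈ A := Subgroup.mem_sup_right (Subgroup.mem_zpowers b)
    haveI := Fintype.ofFinite A
    have key : ∀ c : A, orderOf c = p →
        (Finset.univ.filter fun x : A => x ∈ Subgroup.zpowers c) = Finset.univ.filter fun x : A => x ^ p = 1 := by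
      intro c hc
      refine Finset.eq_of_subset_of_card_le (fun x hx => ?_) ?_
      · obtain ⟨i, rfl⟩ := (Finset.mem_filter.1 hx).2
        refine Finset.mem_filter.2 ⟨Finset.mem_univ _, ?_⟩
        show (c ^ i) ^ p = 1
        rw [← zpow_natCast, zpow_comm, zpow_natCast, ← hc, pow_orderOf_eq_one, one_zpow]
      · refine (IsCyclic.card_pow_eq_one_le hp.out.pos).trans (le_of_eq ?_)
        rw [← Fintype.card_subtype, ← Nat.card_eq_fintype_card]
        exact hc.symm.trans (Nat.card_zpowers c).symm
    have hmem := (Finset.ext_iff.1 ((key ⟨a, haA⟩ (by rw [Subgroup.orderOf_mk, ha])).trans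
      (key ⟨b, hbA⟩ (by rw [Subgroup.orderOf_mk, hb])).symm) ⟨a, haA⟩).1
      (Finset.mem_filter.2 ⟨Finset.mem_univ _, Subgroup.mem_zpowers _⟩)
    obtain ⟨i, hi⟩ := (Finset.mem_filter.1 hmem).2
    exact ⟨i, congrArg Subtype.val hi⟩
  -- all elements of order `p` have the same image, up to powers
  obtain ⟨w, hwW, hwp⟩ : ∃ w ∈ W, orderOf w = p := by
    obtain ⟨k, hk⟩ := IsPGroup.iff_card.1 hWp
    have hk0 : k ≠ 0 := fun h0 => hWne (Subgroup.card_eq_one.1 (by rw [hk, h0, pow_zero]))
    obtain ⟨w, hw⟩ := exists_prime_orderOf_dvd_card' p (G := W) (hk ▸ dvd_pow_self p hk0)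
    exact ⟨w, w.2, by rw [Subgroup.orderOf_coe, hw]⟩
  have hall : ∀ a : G ⧸ N, orderOf a = p → w ∈ Subgroup.zpowers a := by
    intro a ha
    let H := W ⊔ Subgroup.zpowers a
    have hHp : IsPGroup p H := IsPGroup.to_sup_of_normal_left hWp
      (IsPGroup.of_card (n := 1) (by rw [Nat.card_zpowers, ha, pow_one]))
    have haH : a ∈ H := Subgroup.mem_sup_right (Subgroup.mem_zpowers a)
    haveI : Nontrivial H := (Subgroup.nontrivial_iff_ne_bot H).2 fun h => hWne (le_bot_iff.1 (h ▸ le_sup_left))
    haveI := hHp.center_nontrivial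
    obtain ⟨k, hk⟩ := IsPGroup.iff_card.1 (hHp.to_subgroup (Subgroup.center H))
    have hk0 : k ≠ 0 := fun h0 => (Finite.one_lt_card (α := Subgroup.center H)).ne' (by rw [hk, h0, pow_zero])
    obtain ⟨c, hc⟩ := exists_prime_orderOf_dvd_card' p (G := Subgroup.center H) (hk ▸ dvd_pow_self p hk0)
    have hcp : orderOf ((c : H) : G ⧸ N) = p := by rw [Subgroup.orderOf_coe, Subgroup.orderOf_coe, hc]
    have hcc : ∀ x ∈ H, Commute x ((c : H) : G ⧸ N) := fun x hx =>
      congrArg Subtype.val (Subgroup.mem_center_iff.1 c.2 ⟨x, hx⟩)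
    have h1 := hsame w _ hwp hcp (hcc w (Subgroup.mem_sup_left hwW))
    have h2 := hsame _ a hcp ha (hcc a haH).symm
    exact Subgroup.zpowers_le.2 h2 h1
  -- a character moved by one element of order `p`
  obtain ⟨z, hz⟩ := exists_prime_orderOf_dvd_card' p hpG
  have hmove : ∃ θ : IrrCharacter N, z ∉ Clifford.inertia (N := N) (θ : N → ℂ) := by
    by_contra hfix
    push Not at hfix
    let e : MulAut N := MulAut.conjNormal z
    let τ : ConjClasses N ≃ ConjClasses N :=
      { toFun := ConjClasses.map e.toMonoidHom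
        invFun := ConjClasses.map e.symm.toMonoidHom
        left_inv := fun C => by
          obtain ⟨n, rfl⟩ := ConjClasses.exists_rep C
          show ConjClasses.mk (e.symm (e n)) = _
          rw [MulEquiv.symm_apply_apply]
        right_inv := fun C => by
          obtain ⟨n, rfl⟩ := ConjClasses.exists_rep C
          show ConjClasses.mk (e (e.symm n)) = _
          rw [MulEquiv.apply_symm_apply] }
    have hperm := Clifford.brauer_perm (Equiv.refl (IrrCharacter N)) τ fun χ g g' hg => by
      have hg' : ConjClasses.mk g' = ConjClasses.mk (e g) := hg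
      obtain ⟨c, hc⟩ := isConj_iff.1 (ConjClasses.mk_eq_mk_iff_isConj.1 hg')
      have h := congrFun (Clifford.mem_inertia.1 (hfix χ)) g
      rw [Clifford.conjFun_apply] at h
      show (χ : N → ℂ) g' = _
      rw [← h, ← isClassFunction (isCharacter_of_irr χ.2) g' c, hc]
      exact congrArg _ (Subtype.ext (MulAut.conjNormal_apply z g))
    haveI := Fintype.ofFinite N
    haveI : Fintype (IrrCharacter N) := @Fintype.ofFinite _ finite_irrCharacter
    have hall' : ∀ C : ConjClasses N, τ C = C := by
      intro C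
      by_contra hC
      have h1 : Nat.card {C : ConjClasses N // τ C = C} < Nat.card (ConjClasses N) :=
        Finite.card_subtype_lt hC
      rw [← hperm, Nat.card_congr (Equiv.subtypeUnivEquiv (p := fun χ => (Equiv.refl (IrrCharacter N)) χ = χ) fun χ => rfl), card_irr] at h1
      exact lt_irrefl _ h1
    obtain ⟨r, hr⟩ := exists_prime_orderOf_dvd_card' q hqN
    let S := {n : N // IsConj r n}
    have hstable : ∀ n : N, IsConj r n → IsConj r (e n) := fun n hn =>
      hn.trans (ConjClasses.mk_eq_mk_iff_isConj.1 (hall' (ConjClasses.mk n)).symm)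
    let act : Subgroup.zpowers z →* MulAut N := MulAut.conjNormal.comp (Subgroup.zpowers z).subtype
    have hstable' : ∀ (i : ℕ) (n : N), IsConj r n → IsConj r ((e ^ i) n) := by
      intro i
      induction i with
      | zero => intro n hn; simpa using hn
      | succ i ih => intro n hn; rw [pow_succ]; exact ih _ (hstable n hn)
    letI : MulAction (Subgroup.zpowers z) S :=
      { smul := fun s n => ⟨act s n.1, by
          obtain ⟨i, hi⟩ := (isOfFinOrder_of_finite z).mem_powers_iff_mem_zpowers.2 s.2
          have : act s = e ^ i := by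
            show MulAut.conjNormal (s : G) = (MulAut.conjNormal z) ^ i
            rw [← map_pow]; exact congrArg _ hi.symm
          rw [this]
          exact hstable' i _ n.2⟩
        one_smul := fun n => Subtype.ext (by show act 1 n.1 = n.1; rw [map_one]; rfl)
        mul_smul := fun s t n => Subtype.ext (by show act (s * t) n.1 = act s (act t n.1); rw [map_mul]; rfl) }
    have hzp : IsPGroup p (Subgroup.zpowers z) := IsPGroup.of_card (n := 1) (by rw [Nat.card_zpowers, hz, pow_one])
    have hScard : ¬ p ∣ Nat.card S := fun h => hpN (h.trans (by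
      rw [card_conjClass]; exact Subgroup.index_dvd_card _))
    obtain ⟨⟨c, hc⟩, hcfix⟩ := hzp.nonempty_fixed_point_of_prime_not_dvd_card S hScard
    have h := congrArg (fun n : S => ((n.1 : N) : G)) (hcfix ⟨z, Subgroup.mem_zpowers z⟩)
    have h' : z * (c : G) * z⁻¹ = c := by
      refine Eq.trans ?_ h
      exact (MulAut.conjNormal_apply z c).symm
    refine not_commute hpq hsep (x := z) (y := (c : G)) ⟨1, by rw [hz, pow_one]⟩
      (fun h0 => hp.out.ne_one (by rw [← hz, h0, orderOf_one])) ?_ ?_
    · obtain ⟨d, hd⟩ := isConj_iff.1 hc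
      rw [Subgroup.orderOf_coe, ← hd, show d * r * d⁻¹ = MulAut.conj d r from rfl,
        MulEquiv.orderOf_eq (MulAut.conj d) r, hr]
    · exact (show z * (c : G) = c * z by rw [← mul_inv_eq_iff_eq_mul]; exact h')
  obtain ⟨θ, hθ⟩ := hmove
  refine exists_full p N θ fun y hy hyp => hθ ?_
  have hne : ∀ u : G, orderOf u = p → orderOf (QuotientGroup.mk' N u) = p := fun u hu =>
    ((Nat.dvd_prime hp.out).1 (hu ▸ orderOf_map_dvd (QuotientGroup.mk' N) u)).resolve_left fun h =>
      hpN (hu ▸ Subgroup.orderOf_dvd_natCard N ((QuotientGroup.eq_one_iff u).1 (orderOf_eq_one_iff.1 h)))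
  have h1 := hall _ (hne y hyp)
  have h2 := hall _ (hne z hz)
  have hzy : QuotientGroup.mk' N z ∈ Subgroup.zpowers (QuotientGroup.mk' N y) := by
    have heq : Subgroup.zpowers (QuotientGroup.mk' N z) = Subgroup.zpowers w :=
      (Subgroup.eq_of_le_of_card_ge (Subgroup.zpowers_le.2 h2) (le_of_eq (by
        rw [Nat.card_zpowers, Nat.card_zpowers, hwp, hne z hz]))).symm
    exact Subgroup.zpowers_le.2 h1 (heq ▸ Subgroup.mem_zpowers _)
  obtain ⟨i, hi⟩ := hzy
  have hn : (y ^ i)⁻¹ * z ∈ N := QuotientGroup.eq.1 (by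
    rw [QuotientGroup.mk_zpow]; exact hi)
  have := mul_mem (zpow_mem hy i) (Clifford.le_inertia (isClassFunction (isCharacter_of_irr θ.2)) hn)
  rwa [mul_inv_cancel_left] at this

/-- Either a character of `p`-defect zero or one of `q`-defect zero. -/
theorem exists_full_either (hpq : p ≠ q) (hsep : Separated G p q) (hsolv : IsPSolvable p G)
    (hpG : p ∣ Nat.card G) :
    (∃ χ : IrrCharacter G, (charDegree (χ : G → ℂ)).factorization p = (Nat.card G).factorization p) ∨
      ∃ χ : IrrCharacter G, (charDegree (χ : G → ℂ)).factorization q = (Nat.card G).factorization q := by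
  by_cases hqN : q ∣ Nat.card (pPrimeCore p G)
  · exact Or.inl (exists_p_full hpq hsep hsolv hpG hqN)
  · exact Or.inr (exists_q_full hpq hsep hsolv hpG hqN)

end CfsgLib.SeparatedPQ
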