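import Cfsg.Agent.Blocks.MaxCovering
import Cfsg.Agent.Blocks.Glauberman

/-!
# Blocks over a stable character of a normal subgroup of order prime to `p`
-/

set_option linter.unusedSectionVars false
set_option linter.style.haveILetI false

namespace CfsgLib.Blocks

open Cfsg CfsgLib.CharBasics CfsgLib.Clifford CfsgLib.ZStar

universe u

variable {A : Type u} [Group A] [Fintype A] {p : ℕ} {M : Ideal AlgInt}
variable {N : Subgroup A} [hN : N.Normal] [Fintype N] {b : Set (IrrCharacter N)}

/-- The part of a class element supported on a normal subgroup. -/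
theorem isClassElt_extElt_res {z : MonoidAlgebra ℂ A} (hz : IsClassElt z) : IsClassElt (extElt N (res N z)) := by
  intro g x
  show (extElt N (res N z)).coeff (x * g * x⁻¹) = (extElt N (res N z)).coeff g
  by_cases hg : g ∈ N
  · rw [coeff_extElt_mem N _ hg, coeff_extElt_mem N _ (hN.conj_mem _ hg x), coeff_res, coeff_res]
    exact hz g x
  · rw [coeff_extElt_of_notMem N _ hg, coeff_extElt_of_notMem N _ fun h => hg ?_]
    have := hN.conj_mem _ h x⁻¹
    simpa [mul_assoc] using this

section Unique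

variable (hM : IsPModular p M) (hb : IsPBlock M b) (hst : ∀ x : A, StabilizesBlock N b x)
  {L : Subgroup A} [hL : L.Normal] (hNL : N ≤ L) (hidx : ∃ k : ℕ, (N.subgroupOf L).index = p ^ k)
  (hC : ∀ x : A, ¬ p ∣ orderOf x → (∀ s ∈ L, x * s * x⁻¹ * s⁻¹ ∈ N) → x ∈ N)
include hM hb hst hL hNL hidx hC

theorem regular_centralizing_mem {B : Set (IrrCharacter A)} (hB : IsPBlock M B)
    (hcov : ∃ χ ∈ B, ∃ θ ∈ b, classInner (fun n : N => (χ : A → ℂ) n) (θ : N → ℂ) ≠ 0)
    {D : Subgroup A} (hD : IsDefectGroup p M B D) {x : A} (hx : ¬ p ∣ orderOf x)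
    (hxD : ∀ d ∈ D, d * x = x * d) : x ∈ N := by
  classical
  haveI := Fact.mk hM.1
  haveI : Fintype L := Fintype.ofFinite _
  obtain ⟨χ, hχ, θ, hθ, hne⟩ := id hcov
  obtain ⟨η, hη⟩ := exists_constituent_restrict L χ
  set N' : Subgroup L := N.subgroupOf L with hN'
  haveI : N'.Normal := hN.subgroupOf L
  haveI : Fintype N' := Fintype.ofFinite _
  set e : N' ≃* N := Subgroup.subgroupOfEquivOfLe hNL with hedef
  set c := pushBlock e.symm b with hcdef
  have hc : IsPBlock M c := isPBlock_pushBlock _ hb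
  have hst' : ∀ l : L, StabilizesBlock N' c l := by
    intro l
    obtain ⟨hl, hfix⟩ := stabilizesBlock_iff.1 (hst (l : A))
    refine stabilizesBlock_iff.2 ⟨mem_normalizer_of_normal l, ?_⟩
    have hcomp : e.symm.trans (conjK (mem_normalizer_of_normal (N := N') l)) = (conjK hl).trans e.symm :=
      MulEquiv.ext fun k => Subtype.ext (Subtype.ext rfl)
    rw [hcdef, ← pushBlock_trans, hcomp, pushBlock_trans, hfix]
  obtain ⟨Bc, hBc, hcoef⟩ := exists_block_above hM hidx hc hst'
  have hηBc : η ∈ Bc := by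
    obtain ⟨φ, hφ⟩ := exists_constituent_restrict N' η
    have hφc : φ ∈ c := by
      refine (mem_pushBlock e.symm).2 ?_
      rw [MulEquiv.symm_symm]
      refine constituent_mem_stable hM hb hst hB hcov hχ ?_
      rw [← classInner_comp_equiv e]
      have h1 : (fun k : N' => (χ : A → ℂ) (e k)) = fun k : N' => (fun l : L => (χ : A → ℂ) l) k := rfl
      have h2 : (fun k : N' => (pushChar e φ : N → ℂ) (e k)) = (φ : N' → ℂ) := funext fun k => by simp
      rw [h1, h2]
      obtain ⟨R, hR, hsplit⟩ := exists_eq_add_of_constituent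
        (CharBasics.isCharacter_restrict (isCharacter_of_irr χ.2) L) η.2 hη
      rw [hsplit]
      exact classInner_add_ne_zero_left (CharBasics.isCharacter_restrict (isCharacter_of_irr η.2) N')
        (CharBasics.isCharacter_restrict hR N') (isCharacter_of_irr φ.2) hφ
    have h := omega_extElt_stable hst' η hφ
    rw [if_pos hφc, show extElt N' (blockElt c) = blockElt Bc from by
      ext x
      rw [coeff_blockElt, hcoef, subgroupBlockCoeff]
      by_cases hx : x ∈ N'
      · rw [coeff_extElt_mem N' _ hx, coeff_blockElt, dif_pos hx]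
      · rw [coeff_extElt_of_notMem N' _ hx, dif_neg hx], omega_blockElt] at h
    by_contra hn
    rw [if_neg hn] at h
    exact zero_ne_one h
  obtain ⟨P₀, hP₀, hPL, -⟩ := exists_defectGroup_inf hM hBc hB ⟨χ, hχ, η, hηBc, hη⟩
  obtain ⟨g, hg⟩ := exists_conj_eq_defectGroup hM hB hP₀ hD
  have htop := (defectGroup_above hM hidx hc hst' hBc hcoef hPL).1
  set y := g⁻¹ * x * g with hy
  suffices hyN : y ∈ N by
    have := hN.conj_mem y hyN g
    rw [hy] at this
    simpa [mul_assoc] using this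
  refine hC y ?_ fun s hs => ?_
  · have e1 : y = MulAut.conj g⁻¹ x := by rw [hy, MulAut.conj_apply, inv_inv]
    rwa [e1, MulEquiv.orderOf_eq]
  · have hmem : (⟨s, hs⟩ : L) ∈ N' ⊔ (P₀ ⊓ L).subgroupOf L := htop ▸ Subgroup.mem_top _
    obtain ⟨n, hn, d, hd, hnd⟩ := Subgroup.mem_sup_of_normal_left.1 hmem
    have hs' : s = (n : A) * d := (congrArg Subtype.val hnd).symm
    have hdy : y * (d : A) = (d : A) * y := by
      have h1 := hxD (g * d * g⁻¹) (hg ▸ ⟨d, hd.1, rfl⟩)
      rw [hy]
      calc g⁻¹ * x * g * d = g⁻¹ * (x * (g * d * g⁻¹)) * g := by group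
        _ = g⁻¹ * (g * d * g⁻¹ * x) * g := by rw [h1]
        _ = _ := by group
    have e1 : y * s * y⁻¹ * s⁻¹ = y * n * y⁻¹ * (n : A)⁻¹ := by
      have hdy' : (d : A) * y⁻¹ = y⁻¹ * d := by
        calc (d : A) * y⁻¹ = y⁻¹ * (y * d) * y⁻¹ := by group
          _ = y⁻¹ * (d * y) * y⁻¹ := by rw [hdy]
          _ = _ := by group
      rw [hs']
      calc y * (n * d) * y⁻¹ * ((n : A) * d)⁻¹ = y * n * ((d : A) * y⁻¹) * ((d : A)⁻¹ * (n : A)⁻¹) := by group
        _ = y * n * (y⁻¹ * d) * ((d : A)⁻¹ * (n : A)⁻¹) := by rw [hdy']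
        _ = _ := by group
    rw [e1]
    exact N.mul_mem (hN.conj_mem _ hn y) (N.inv_mem hn)

/-- There is only one covering block. -/
theorem covering_block_unique {B₁ B₂ : Set (IrrCharacter A)} (hB₁ : IsPBlock M B₁) (hB₂ : IsPBlock M B₂)
    (hcov₁ : ∃ χ ∈ B₁, ∃ θ ∈ b, classInner (fun n : N => (χ : A → ℂ) n) (θ : N → ℂ) ≠ 0)
    (hcov₂ : ∃ χ ∈ B₂, ∃ θ ∈ b, classInner (fun n : N => (χ : A → ℂ) n) (θ : N → ℂ) ≠ 0) : B₁ = B₂ := by
  classical
  haveI := Fact.mk hM.1
  wlog hle : blockDefect p B₁ ≤ blockDefect p B₂ with H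
  · exact (H hM hb hst hNL hidx hC hB₂ hB₁ hcov₂ hcov₁ inferInstance (le_of_not_ge hle)).symm
  by_contra hne
  haveI : Fintype (ConjClasses A) := Fintype.ofFinite _
  obtain ⟨χ, hχ⟩ := IsPBlock.nonempty hM hB₁
  obtain ⟨η, hη⟩ := IsPBlock.nonempty hM hB₂
  obtain ⟨θ₁, hθ₁⟩ := exists_constituent_restrict N χ
  obtain ⟨θ₂, hθ₂⟩ := exists_constituent_restrict N η
  set z := extElt N (res N (blockElt B₁)) with hz
  have hzc : IsClassElt z := isClassElt_extElt_res (isClassElt_blockElt B₁)
  have hsupp : ∀ g, g ∉ N → z.coeff g = 0 := fun g hg => coeff_extElt_of_notMem N _ hg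
  have hsame : MemLocalIdeal M (omega (χ : A → ℂ) z - omega (η : A → ℂ) z) := by
    rw [omega_eq_res_constituent hzc hsupp χ θ₁ hθ₁, omega_eq_res_constituent hzc hsupp η θ₂ hθ₂, hz,
      res_extElt]
    exact omega_sub_mem_of_sameBlock hM ((IsPBlock.mem_iff hM hb (constituent_mem_stable hM hb hst hB₁ hcov₁ hχ hθ₁)).1
        (constituent_mem_stable hM hb hst hB₂ hcov₂ hη hθ₂))
      (ZStar.isClassElt_res (isClassElt_blockElt B₁) N) (ZStar.isIntegralElt_res (isIntegralElt_blockElt hM hB₁) N)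
  have hout : ∀ (B : Set (IrrCharacter A)) (ψ : IrrCharacter A), IsPBlock M B → ψ ∈ B → blockDefect p B₁ ≤ blockDefect p B →
      MemLocalIdeal M (omega (ψ : A → ℂ) (blockElt B₁) - omega (ψ : A → ℂ) z) := by
    intro B ψ hB hψ hd
    rw [← omega_sub, omega_eq_sum_classes ψ ((isClassElt_blockElt B₁).sub hzc)]
    refine memLocalIdeal_sum hM _ fun C _ => ?_
    set x := C.out
    rw [MonoidAlgebra.coeff_sub, Finsupp.sub_apply]
    by_cases hxN : x ∈ N
    · rw [hz, coeff_extElt_mem N _ hxN, coeff_res, sub_self, zero_mul]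
      exact memLocalIdeal_zero hM
    rw [hsupp x hxN, sub_zero, coeff_blockElt]
    by_cases hreg : p ∣ orderOf x
    · rw [blockCoeff_eq_zero hM hB₁ hreg, zero_mul]; exact memLocalIdeal_zero hM
    by_cases hco : MemLocalIdeal M (blockCoeff B₁ x)
    · exact memLocalIdeal_mul_right hM hco (memLocalRing_centralChar hM ψ x)
    refine memLocalIdeal_mul_left hM (memLocalRing_blockCoeff hM hB₁ x) ?_
    by_contra hcc
    refine hxN ?_
    obtain ⟨S⟩ : Nonempty (Sylow p (Subgroup.centralizer ({x} : Set A))) := inferInstance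
    set Q := (S : Subgroup _).map (Subgroup.centralizer ({x} : Set A)).subtype with hQ
    have hQx : ∀ q ∈ Q, q * x = x * q := fun q hq =>
      Subgroup.mem_centralizer_singleton_iff.1 (Subgroup.map_subtype_le _ hq)
    obtain ⟨D, hD, hQD⟩ := exists_defectGroup_ge hM hB₁ hco (S.isPGroup'.map _) hQx
    have hQD' : Q = D := by
      refine Subgroup.eq_of_le_of_card_ge hQD ?_
      rw [card_defectGroup hM hB₁ hD, hQ,
        Subgroup.card_map_of_injective (Subgroup.centralizer ({x} : Set A)).subtype_injective, S.card_eq_multiplicity]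
      refine Nat.pow_le_pow_right hM.1.pos (hd.trans ?_)
      obtain ⟨w, hw, hwmin, hws⟩ := exists_min_degExp hM hB
      have hccw : ¬ MemLocalIdeal M (centralChar (w : A → ℂ) x) := fun h => hcc (by
        simpa using memLocalIdeal_add hM ((IsPBlock.mem_iff hM hB hw).1 hψ x |> memLocalIdeal_neg) h)
      rw [blockDefect_eq hws]
      exact le_centExp hM w hccw
    exact regular_centralizing_mem hM hb hst hNL hidx hC hB₁ hcov₁ hD hreg (hQD' ▸ hQx)
  have h1 := hout B₁ χ hB₁ hχ le_rfl
  have h2 := hout B₂ η hB₂ hη hle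
  rw [omega_blockElt, if_pos hχ] at h1
  rw [omega_blockElt, if_neg fun h => hne (IsPBlock.eq_of_mem hM hB₁ hB₂ h hη)] at h2
  refine not_memLocalIdeal_one hM ?_
  have := memLocalIdeal_add hM (memLocalIdeal_sub hM h1 h2) hsame
  simpa using this

end Unique

/-- In a group of order prime to `p` every block is a singleton. -/
theorem eq_of_sameBlock_primeTo (hM : IsPModular p M) (hp : ¬ p ∣ Nat.card A) {χ ψ : IrrCharacter A}
    (h : SameBlock M (χ : A → ℂ) (ψ : A → ℂ)) : ψ = χ := by
  classical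
  by_contra hne
  have := omega_sub_mem_of_sameBlock hM h (isClassElt_blockElt ({χ} : Set (IrrCharacter A)))
    (isIntegralElt_singleton hM hp χ)
  rw [omega_blockElt, omega_blockElt, if_pos (Set.mem_singleton χ), if_neg (fun hc : ψ ∈ ({χ} : Set _) => hne hc),
    sub_zero] at this
  exact not_memLocalIdeal_one hM this

/-- Over a stable block of a normal subgroup of order prime to `p` some covering block has full defect. -/
theorem exists_covering_full_defect (hM : IsPModular p M) (hp : ¬ p ∣ Nat.card N) (hb : IsPBlock M b)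
    (hst : ∀ x : A, StabilizesBlock N b x) :
    ∃ B : Set (IrrCharacter A), IsPBlock M B ∧
      (∃ χ ∈ B, ∃ θ ∈ b, classInner (fun n : N => (χ : A → ℂ) n) (θ : N → ℂ) ≠ 0) ∧
      blockDefect p B = (Nat.card A).factorization p := by
  obtain ⟨B, hB, hcov, hge⟩ := exists_covering_defect_ge hM hb hst
  refine ⟨B, hB, hcov, le_antisymm ?_ (le_trans ?_ ((Nat.le_add_left _ _).trans hge))⟩
  · obtain ⟨w, -, -, hws⟩ := exists_min_degExp hM hB
    rw [blockDefect_eq hws]
    exact Nat.sub_le _ _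
  · rw [← Subgroup.card_mul_index N, Nat.factorization_mul Nat.card_pos.ne' Subgroup.index_ne_zero_of_finite,
      Finsupp.add_apply, Nat.factorization_eq_zero_of_not_dvd hp, zero_add]

end CfsgLib.Blocks
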