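import Cfsg.Agent.Blocks.Major
import Cfsg.Agent.S4541

/-!
# Major subsections of `2`-blocks with small rank or small corank
-/

set_option linter.unusedSectionVars false
set_option linter.style.haveILetI false

namespace CfsgLib.Blocks

open Cfsg CfsgLib.CharBasics Polynomial
open scoped ComplexConjugate

/-- A relation `Q = p ^ h R` at one primitive root bounds the square sum over all of them. -/
theorem pow_le_sum_conjugates {N : ℕ} (hN : N ≠ 0) {p h : ℕ} (Q R : ℤ[X])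
    (hR : aeval (zetaRoot N) Q = (p : ℂ) ^ h * aeval (zetaRoot N) R) (h0 : aeval (zetaRoot N) Q ≠ 0) :
    ((p : ℝ) ^ h) ^ 2 * (coprimeResidues N).card ≤ ∑ j ∈ coprimeResidues N, ‖aeval (zetaRoot N ^ j) Q‖ ^ 2 := by
  have hj' : ∀ j ∈ coprimeResidues N, aeval (zetaRoot N ^ j) Q = (p : ℂ) ^ h * aeval (zetaRoot N ^ j) R := by
    intro j hj
    have h1 := aeval_conjugate_eq_zero hN (Q := Q - C ((p : ℤ) ^ h) * R) (by simp [hR]) (Finset.mem_filter.1 hj).2
    simpa [sub_eq_zero] using h1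
  have h1 := card_le_sum_conjugates hN R fun j hj => by
    refine aeval_conjugate_ne_zero hN R (Finset.mem_filter.1 hj).2 fun h2 => h0 ?_
    rw [hR, h2, mul_zero]
  calc ((p : ℝ) ^ h) ^ 2 * (coprimeResidues N).card
      ≤ ((p : ℝ) ^ h) ^ 2 * ∑ j ∈ coprimeResidues N, ‖aeval (zetaRoot N ^ j) R‖ ^ 2 :=
        mul_le_mul_of_nonneg_left h1 (by positivity)
    _ = _ := by
      rw [Finset.mul_sum]
      refine Finset.sum_congr rfl fun j hj => ?_
      rw [hj' j hj, norm_mul, norm_pow, Complex.norm_natCast, mul_pow]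

theorem card_coprimeResidues_two_pow (k : ℕ) : (coprimeResidues (2 ^ (k + 1))).card = 2 ^ k := by
  have : coprimeResidues (2 ^ (k + 1)) = (Finset.range (2 ^ (k + 1))).filter (2 ^ (k + 1)).Coprime :=
    Finset.filter_congr fun j _ => Nat.coprime_comm
  rw [this, ← Nat.totient_eq_card_coprime, Nat.totient_prime_pow Nat.prime_two (Nat.succ_pos k)]
  simp

variable {G : Type*} [Group G] [Fintype G] {M : Ideal AlgInt} {x : G}
  [Fintype (Subgroup.centralizer ({x} : Set G))] {B : Set (IrrCharacter G)}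
  {b : Set (IrrCharacter (Subgroup.centralizer ({x} : Set G)))}

theorem secVal_eq_zero_of_notMem {p : ℕ} (hM : IsPModular p M) (hx : ∃ k : ℕ, orderOf x = p ^ k)
    (hind : IsInducedBlock M (Subgroup.centralizer ({x} : Set G)) b B) {χ : IrrCharacter G} (hχ : χ ∉ B)
    (y : Subgroup.centralizer ({x} : Set G)) : secVal p x b (χ : G → ℂ) y = 0 := by
  refine secVal_eq_zero hM hx hind.1 (isPBlock_blockOf M χ) (mem_blockOf_self hM χ) (fun h => hχ ?_) y
  obtain ⟨ξ, hξ⟩ := IsPBlock.nonempty hM hind.1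
  obtain ⟨χ₀, hχ₀⟩ := IsPBlock.nonempty hM hind.2.1
  rw [IsPBlock.eq_blockOf hM hind.2.1 hχ₀]
  intro g
  simpa using memLocalIdeal_sub hM (h.2.2 ξ hξ χ (mem_blockOf_self hM χ) g) (hind.2.2 ξ hξ χ₀ hχ₀ g)

/-- The weight of a member: `3` at height zero and twice the `2`-part of the height otherwise. -/
noncomputable def twoWeight (B : Set (IrrCharacter G)) (χ : IrrCharacter G) : ℕ :=
  if blockHeight 2 B (χ : G → ℂ) = 0 then 3 else 2 * 2 ^ blockHeight 2 B (χ : G → ℂ)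

theorem two_major_bound (hM : IsPModular 2 M) (hx : ∃ k : ℕ, orderOf x = 2 ^ k)
    (hind : IsInducedBlock M (Subgroup.centralizer ({x} : Set G)) b B) (hdef : blockDefect 2 b = blockDefect 2 B)
    [Fintype (IrrCharacter G)] [DecidablePred (· ∈ B)]
    (hl : blockRank 2 b ≤ 3 ∨ Nat.card B ≤ blockRank 2 b + 3) :
    ∑ χ ∈ Finset.univ.filter (· ∈ B), twoWeight B χ ≤ 3 * 2 ^ blockDefect 2 B := by
  classical
  obtain ⟨ξ₀, h₀, hmin₀, he₀⟩ := exists_min_degExp hM hind.1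
  obtain ⟨χ₁, hχ₁, hmin₁, he₁⟩ := exists_min_degExp hM hind.2.1
  have hh1 : blockHeight 2 B (χ₁ : G → ℂ) = 0 := by rw [blockHeight_eq he₁, Nat.sub_self]
  have hdef' : blockDefect 2 B =
      (Nat.card (Subgroup.centralizer ({x} : Set G))).factorization 2 - degExp 2 ξ₀ := by
    rw [← hdef, blockDefect_eq he₀]
  obtain ⟨k, hk⟩ := hx
  have hx : ∃ k : ℕ, orderOf x = 2 ^ k := ⟨k, hk⟩
  have hN : 2 ^ (k + 1) ≠ 0 := by positivity
  have hdvd : orderOf x ∣ 2 ^ (k + 1) := hk ▸ pow_dvd_pow _ (Nat.le_succ k)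
  set d := blockDefect 2 B with hd
  set P := fun χ ψ : IrrCharacter G => contribPoly 2 (2 ^ (k + 1)) x b (degExp 2 ξ₀) χ ψ with hP
  set ζ := zetaRoot (2 ^ (k + 1)) with hζ
  have hz : ∀ j : ℕ, (ζ ^ j) ^ 2 ^ (k + 1) = 1 := fun j => by
    rw [← pow_mul, mul_comm, pow_mul, (zetaRoot_prim hN).pow_eq_one, one_pow]
  have hherm : ∀ (j : ℕ) (χ ψ : IrrCharacter G), conj (aeval (ζ ^ j) (P χ ψ)) = aeval (ζ ^ j) (P ψ χ) :=
    fun j χ ψ => conj_contrib hM.1 hN b _ χ ψ (hz j)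
  have hreal : ∀ χ, aeval (ζ ^ (2 ^ (k + 1) - 1)) (P χ χ) = aeval ζ (P χ χ) := by
    intro χ
    rw [← conj_eq_pow hN (zetaRoot_prim hN).pow_eq_one, ← conj_aeval]
    simpa using hherm 1 χ χ
  choose a ha1 ha2 using fun χ => Cfsg.Agent.S4541.sum_conjugates_real k (P χ χ) (hreal χ)
  set m := fun (χ : IrrCharacter G) (j : ℕ) => (aeval (ζ ^ j) (P χ χ)).re with hm
  have hmC : ∀ χ j, aeval (ζ ^ j) (P χ χ) = ((m χ j : ℝ) : ℂ) := fun χ j =>
    ((Complex.conj_eq_iff_re.1 (hherm j χ χ))).symm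
  have hsum : ∀ χ, ∑ j ∈ coprimeResidues (2 ^ (k + 1)), m χ j = (2 : ℝ) ^ k * a χ := fun χ => by
    simp only [hm]
    rw [← Complex.re_sum, ha1, show ((2 : ℂ) ^ k * (a χ : ℂ)) = (((2 : ℝ) ^ k * a χ : ℝ) : ℂ) by push_cast; rfl,
      Complex.ofReal_re]
  -- a whole row
  have hrow : ∀ χ, ∀ j ∈ coprimeResidues (2 ^ (k + 1)),
      ∑ ψ : IrrCharacter G, ‖aeval (ζ ^ j) (P ψ χ)‖ ^ 2 = (2 : ℝ) ^ d * m χ j := by
    intro χ j hj
    have h := sum_normSq_contrib hM hx hind.1 hN hdvd hmin₀ (Finset.mem_filter.1 hj).2 χ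
    rw [← hdef', Nat.cast_ofNat] at h
    rw [← h]
    exact Finset.sum_congr rfl fun ψ _ => by rw [← hherm j χ ψ, Complex.norm_conj]
  have hrowsum : ∀ χ, ∑ ψ : IrrCharacter G, ∑ j ∈ coprimeResidues (2 ^ (k + 1)), ‖aeval (ζ ^ j) (P ψ χ)‖ ^ 2 =
      (2 : ℝ) ^ k * ((2 : ℝ) ^ d * a χ) := fun χ => by
    rw [Finset.sum_comm, Finset.sum_congr rfl (hrow χ), ← Finset.mul_sum, hsum]
    ring
  have hnn : ∀ χ, ∀ j ∈ coprimeResidues (2 ^ (k + 1)), 0 ≤ m χ j := fun χ j hj =>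
    nonneg_of_mul_nonneg_right (hrow χ j hj ▸ Finset.sum_nonneg fun _ _ => by positivity) (by positivity)
  -- entries against a member of height zero
  have hentry : ∀ χ ∈ B, blockHeight 2 B (χ : G → ℂ) = 0 → ∀ ψ ∈ B,
      (((2 : ℝ) ^ blockHeight 2 B (ψ : G → ℂ)) ^ 2) * 2 ^ k ≤
        ∑ j ∈ coprimeResidues (2 ^ (k + 1)), ‖aeval (ζ ^ j) (P ψ χ)‖ ^ 2 := by
    intro χ hχ hχ0 ψ hψ
    have hl := major_local hM hx hind.1 hind.2.1 hN hdvd hmin₀ hdef' χ hψ
    have hu := major_not_mem hM hx hind (K := k + 1) hdvd h₀ hmin₀ hdef' hψ hχ hχ0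
    obtain ⟨R, hR⟩ := exists_eq_pow_mul hM k _ _ hl
    have h := pow_le_sum_conjugates hN (P ψ χ) R hR (fun h0 => hu (by
      rw [show aeval (zetaRoot (2 ^ (k + 1))) (contribPoly 2 (2 ^ (k + 1)) x b (degExp 2 ξ₀) ψ χ) = 0 from h0, zero_div]
      exact memLocalIdeal_zero hM))
    rwa [card_coprimeResidues_two_pow, Nat.cast_pow, Nat.cast_ofNat] at h
  have hne : ∀ χ ∈ B, 0 < ∑ j ∈ coprimeResidues (2 ^ (k + 1)), ‖aeval (ζ ^ j) (P χ₁ χ)‖ ^ 2 := by
    intro χ hχ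
    rw [Finset.sum_congr rfl fun j _ => show ‖aeval (ζ ^ j) (P χ₁ χ)‖ ^ 2 = ‖aeval (ζ ^ j) (P χ χ₁)‖ ^ 2 by
      rw [← hherm j χ χ₁, Complex.norm_conj]]
    exact lt_of_lt_of_le (by positivity) (hentry χ₁ hχ₁ hh1 χ hχ)
  have hpos : ∀ χ ∈ B, 0 < a χ := by
    intro χ hχ
    have h1 := lt_of_lt_of_le (hne χ hχ) (Finset.single_le_sum
      (f := fun ψ => ∑ j ∈ coprimeResidues (2 ^ (k + 1)), ‖aeval (ζ ^ j) (P ψ χ)‖ ^ 2)
      (fun ψ _ => Finset.sum_nonneg fun _ _ => by positivity) (Finset.mem_univ χ₁))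
    rw [hrowsum χ] at h1
    have h2 := pos_of_mul_pos_right (pos_of_mul_pos_right h1 (by positivity)) (by positivity)
    exact_mod_cast h2
  have hodd : ∀ χ ∈ B, blockHeight 2 B (χ : G → ℂ) = 0 → Odd (a χ) := by
    intro χ hχ hχ0
    have hmin : ∀ ρ ∈ B, degExp 2 χ ≤ degExp 2 ρ := fun ρ hρ => by
      have := hmin₁ ρ hρ
      rw [blockHeight_eq he₁] at hχ0
      omega
    have h := contrib_not_mem hM hind hχ hmin hχ hmin h₀ hmin₀ (K := k + 1) (z := 1) (one_pow _)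
    rw [aeval_mem_iff hM (k := k + 1) (one_pow _)] at h
    have h2 := ha2 χ
    simp only [hP, Nat.cast_ofNat] at h h2
    rw [Int.odd_iff]
    omega
  have heven : ∀ χ ∈ B, blockHeight 2 B (χ : G → ℂ) ≠ 0 → (2 : ℤ) * 2 ^ blockHeight 2 B (χ : G → ℂ) ∣ a χ := by
    intro χ hχ hχ0
    have hl := major_local hM hx hind.1 hind.2.1 hN hdvd hmin₀ hdef' χ hχ
    have hu := major_mem hM hx hind hdvd hmin₀ hdef' hχ hχ hχ0
    obtain ⟨R, hR⟩ := exists_eq_pow_mul hM k _ _ hl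
    have h2p : ((2 : ℕ) : ℂ) ^ blockHeight 2 B (χ : G → ℂ) ≠ 0 := by simp
    rw [hR, mul_div_cancel_left₀ _ h2p, aeval_mem_iff hM (k := k + 1) (zetaRoot_prim hN).pow_eq_one] at hu
    have hrealR : aeval (ζ ^ (2 ^ (k + 1) - 1)) R = aeval ζ R := by
      rw [← conj_eq_pow hN (zetaRoot_prim hN).pow_eq_one, ← conj_aeval]
      apply mul_left_cancel₀ h2p
      rw [← hR, show ((2 : ℕ) : ℂ) ^ blockHeight 2 B (χ : G → ℂ) * conj (aeval ζ R) =
        conj (((2 : ℕ) : ℂ) ^ blockHeight 2 B (χ : G → ℂ) * aeval ζ R) by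
          rw [map_mul, map_pow, Complex.conj_natCast], ← hR]
      simpa using hherm 1 χ χ
    obtain ⟨r, hr1, hr2⟩ := Cfsg.Agent.S4541.sum_conjugates_real k R hrealR
    have e : (2 : ℂ) ^ k * (a χ : ℂ) = (2 : ℂ) ^ k * ((2 ^ blockHeight 2 B (χ : G → ℂ) * r : ℤ) : ℂ) := by
      rw [← ha1]
      push_cast
      rw [mul_left_comm, ← hr1, Finset.mul_sum]
      refine Finset.sum_congr rfl fun j hj => ?_
      have h1 := aeval_conjugate_eq_zero hN (Q := P χ χ - C ((2 : ℤ) ^ blockHeight 2 B (χ : G → ℂ)) * R)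
        (by rw [map_sub, map_mul, show P χ χ = contribPoly 2 (2 ^ (k + 1)) x b (degExp 2 ξ₀) χ χ from rfl, hR]
            simp [map_ofNat]) (Finset.mem_filter.1 hj).2
      simpa [sub_eq_zero, map_ofNat] using h1
    have e' : a χ = 2 ^ blockHeight 2 B (χ : G → ℂ) * r := by
      exact_mod_cast mul_left_cancel₀ (pow_ne_zero k (two_ne_zero (α := ℂ))) e
    rw [e', mul_comm (2 : ℤ)]
    refine mul_dvd_mul_left _ ?_
    simp only [Nat.cast_ofNat] at hu
    simpa using dvd_add hr2 hu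
  -- bounds along a row of height zero
  have hbound : ∀ χ ∈ B, blockHeight 2 B (χ : G → ℂ) = 0 →
      ∑ ψ ∈ Finset.univ.filter (· ∈ B), (4 : ℤ) ^ blockHeight 2 B (ψ : G → ℂ) ≤ 2 ^ d * a χ ∧
      (1 ≤ d → ∑ ψ ∈ Finset.univ.filter (· ∈ B), (4 : ℤ) ^ blockHeight 2 B (ψ : G → ℂ) ≤
        2 ^ d * (2 ^ d - a χ)) := by
    intro χ hχ hχ0
    have hconv : ∀ T : ℝ, (∑ ψ ∈ Finset.univ.filter (· ∈ B),
        (((2 : ℝ) ^ blockHeight 2 B (ψ : G → ℂ)) ^ 2) * 2 ^ k ≤ 2 ^ k * T) →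
        ∑ ψ ∈ Finset.univ.filter (· ∈ B), ((4 : ℝ)) ^ blockHeight 2 B (ψ : G → ℂ) ≤ T := by
      intro T h
      rw [← Finset.sum_mul, mul_comm] at h
      have h' := le_of_mul_le_mul_left h (by positivity)
      refine le_trans (le_of_eq (Finset.sum_congr rfl fun ψ _ => ?_)) h'
      rw [← pow_mul, mul_comm, pow_mul]; norm_num
    constructor
    · have h := hconv ((2 : ℝ) ^ d * a χ) (by
        rw [← hrowsum χ]
        exact (Finset.sum_le_sum fun ψ hψ => hentry χ hχ hχ0 ψ (Finset.mem_filter.1 hψ).2).trans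
          (Finset.sum_le_sum_of_subset_of_nonneg (Finset.subset_univ _)
            fun _ _ _ => Finset.sum_nonneg fun _ _ => by positivity))
      exact_mod_cast h
    · intro hd1
      set Q := fun ψ : IrrCharacter G => if ψ = χ then C ((2 : ℤ) ^ d) - P χ χ else P ψ χ with hQ
      have hQrow : ∀ j ∈ coprimeResidues (2 ^ (k + 1)),
          ∑ ψ : IrrCharacter G, ‖aeval (ζ ^ j) (Q ψ)‖ ^ 2 = (2 : ℝ) ^ d * ((2 : ℝ) ^ d - m χ j) := by
        intro j hj
        have h := hrow χ j hj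
        rw [← Finset.sum_erase_add _ _ (Finset.mem_univ χ)] at h ⊢
        rw [Finset.sum_congr rfl (g := fun ψ => ‖aeval (ζ ^ j) (Q ψ)‖ ^ 2) (fun ψ hψ => by
          simp only [hQ, if_neg (Finset.ne_of_mem_erase hψ)])] at h
        have e1 : ‖aeval (ζ ^ j) (Q χ)‖ ^ 2 = ((2 : ℝ) ^ d - m χ j) ^ 2 := by
          simp only [hQ, if_true, map_sub, map_pow, map_ofNat, aeval_C, eq_intCast, Int.cast_pow, Int.cast_ofNat, hmC]
          rw [show ((2 : ℂ) ^ d - (m χ j : ℂ)) = (((2 : ℝ) ^ d - m χ j : ℝ) : ℂ) by push_cast; rfl,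
            Complex.norm_real, Real.norm_eq_abs, sq_abs]
        rw [hmC, Complex.norm_real, Real.norm_eq_abs, sq_abs] at h
        rw [e1]
        linear_combination h
      have hQsum : ∑ ψ : IrrCharacter G, ∑ j ∈ coprimeResidues (2 ^ (k + 1)), ‖aeval (ζ ^ j) (Q ψ)‖ ^ 2 =
          (2 : ℝ) ^ k * ((2 : ℝ) ^ d * ((2 : ℝ) ^ d - a χ)) := by
        rw [Finset.sum_comm, Finset.sum_congr rfl hQrow, ← Finset.mul_sum, Finset.sum_sub_distrib, hsum,
          Finset.sum_const, card_coprimeResidues_two_pow, nsmul_eq_mul]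
        push_cast
        ring
      have h := hconv ((2 : ℝ) ^ d * ((2 : ℝ) ^ d - a χ)) (by
        rw [← hQsum]
        refine (Finset.sum_le_sum fun ψ hψ => ?_).trans
          (Finset.sum_le_sum_of_subset_of_nonneg (Finset.subset_univ _)
            fun _ _ _ => Finset.sum_nonneg fun _ _ => by positivity)
        by_cases hψχ : ψ = χ
        · subst hψχ
          rw [hχ0, pow_zero, one_pow, one_mul]
          have hev : ¬ (2 : ℤ) ∣ (Q ψ).eval 1 := by
            have h2 : (2 : ℤ) ∣ (2 : ℤ) ^ d := dvd_pow_self 2 (by omega)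
            simp only [hQ, if_true, eval_sub, eval_C]
            obtain ⟨r, hr⟩ := hodd ψ hχ hχ0
            have h3 := ha2 ψ
            intro h4
            omega
          have h1 := card_le_sum_conjugates hN (Q ψ) fun j _ h5 => hev (by
            have := (aeval_mem_iff hM (hz j) (Q ψ)).1 (h5 ▸ memLocalIdeal_zero hM)
            simpa using this)
          rwa [card_coprimeResidues_two_pow, Nat.cast_pow, Nat.cast_ofNat] at h1
        · simp only [hQ, if_neg hψχ]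
          exact hentry χ hχ hχ0 ψ (Finset.mem_filter.1 hψ).2)
      exact_mod_cast h
  -- members of positive height stay below the top
  have hlt : ∀ χ ∈ B, blockHeight 2 B (χ : G → ℂ) ≠ 0 → a χ < 2 ^ d := by
    intro χ hχ hχ0
    have hne' : χ₁ ≠ χ := fun h => hχ0 (h ▸ hh1)
    have h1 : ∑ j ∈ coprimeResidues (2 ^ (k + 1)), m χ j ^ 2 < (2 : ℝ) ^ k * ((2 : ℝ) ^ d * a χ) := by
      rw [← hrowsum χ]
      refine lt_of_lt_of_le (lt_add_of_pos_right _ (hne χ hχ)) ?_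
      rw [Finset.sum_congr rfl fun j _ => show m χ j ^ 2 = ‖aeval (ζ ^ j) (P χ χ)‖ ^ 2 by
        rw [hmC, Complex.norm_real, Real.norm_eq_abs, sq_abs]]
      rw [← Finset.sum_pair (f := fun ψ => ∑ j ∈ coprimeResidues (2 ^ (k + 1)), ‖aeval (ζ ^ j) (P ψ χ)‖ ^ 2)
        (Ne.symm hne')]
      exact Finset.sum_le_sum_of_subset_of_nonneg (Finset.subset_univ _)
        fun _ _ _ => Finset.sum_nonneg fun _ _ => by positivity
    have h2 := sq_sum_le_card_mul_sum_sq (s := coprimeResidues (2 ^ (k + 1))) (f := fun j => m χ j)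
    rw [hsum, card_coprimeResidues_two_pow, Nat.cast_pow, Nat.cast_ofNat] at h2
    have hk0 : (0 : ℝ) < 2 ^ k := by positivity
    have ha0 : (0 : ℝ) < a χ := by exact_mod_cast hpos χ hχ
    have h3 : (2 : ℝ) ^ k * (2 : ℝ) ^ k * ((a χ : ℝ) * a χ) < (2 : ℝ) ^ k * (2 : ℝ) ^ k * ((2 : ℝ) ^ d * a χ) := by
      nlinarith
    have h4 := lt_of_mul_lt_mul_left h3 (by positivity)
    have h5 : (a χ : ℝ) < (2 : ℝ) ^ d := lt_of_mul_lt_mul_right h4 ha0.le
    exact_mod_cast h5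
  have htot : ∑ χ ∈ Finset.univ.filter (· ∈ B), a χ = 2 ^ d * (blockRank 2 b : ℤ) := by
    have hout : ∀ χ ∉ B, a χ = 0 := by
      intro χ hχ
      have h0 : aeval ζ (P χ χ) = 0 := by
        rw [hP, hζ, aeval_contribPoly hM hN hdvd hmin₀]
        simp [secVal_eq_zero_of_notMem hM hx hind hχ]
      have h1 := ha1 χ
      rw [Finset.sum_eq_zero (s := coprimeResidues (2 ^ (k + 1))) fun j hj => aeval_conjugate_eq_zero hN h0 (Finset.mem_filter.1 hj).2] at h1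
      exact_mod_cast (mul_eq_zero.1 h1.symm).resolve_left (pow_ne_zero k two_ne_zero)
    rw [Finset.sum_subset (Finset.subset_univ _) fun χ _ h => hout χ (by simpa using h)]
    have h : ∑ χ : IrrCharacter G, ∑ j ∈ coprimeResidues (2 ^ (k + 1)), aeval (ζ ^ j) (P χ χ) =
        (2 : ℂ) ^ k * ((2 : ℂ) ^ d * blockRank 2 b) := by
      rw [Finset.sum_comm, Finset.sum_congr rfl (s₂ := coprimeResidues (2 ^ (k + 1)))
        (g := fun _ => ((2 : ℕ) : ℂ) ^ ((Nat.card (Subgroup.centralizer ({x} : Set G))).factorization 2 - degExp 2 ξ₀) *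
          (blockRank 2 b : ℂ)) fun j hj =>
        sum_contrib_diag hM hx hind.1 hN hdvd hmin₀ (Finset.mem_filter.1 hj).2, Finset.sum_const,
        card_coprimeResidues_two_pow, nsmul_eq_mul, ← hdef']
      push_cast
      rfl
    rw [Finset.sum_congr rfl fun χ _ => ha1 χ, ← Finset.mul_sum] at h
    exact_mod_cast mul_left_cancel₀ (pow_ne_zero k (two_ne_zero (α := ℂ))) h
  -- the count
  set S := Finset.univ.filter (fun χ : IrrCharacter G => χ ∈ B) with hS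
  suffices hgoal : ((∑ χ ∈ S, twoWeight B χ : ℕ) : ℤ) ≤ 3 * 2 ^ d by exact_mod_cast hgoal
  push_cast
  have hw : ∀ χ ∈ S, (twoWeight B χ : ℤ) ≤ 3 * 4 ^ blockHeight 2 B (χ : G → ℂ) := by
    intro χ _
    rw [twoWeight]
    split_ifs with h
    · simp [h]
    · push_cast
      have : (2 : ℤ) ^ blockHeight 2 B (χ : G → ℂ) ≤ 4 ^ blockHeight 2 B (χ : G → ℂ) :=
        pow_le_pow_left₀ (by norm_num) (by norm_num) _
      nlinarith [pow_pos (show (0 : ℤ) < 2 by norm_num) (blockHeight 2 B (χ : G → ℂ))]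
  have hone : ∀ T : ℤ, T = 1 → ∑ ψ ∈ S, (4 : ℤ) ^ blockHeight 2 B (ψ : G → ℂ) ≤ 2 ^ d * T →
      ∑ χ ∈ S, (twoWeight B χ : ℤ) ≤ 3 * 2 ^ d := by
    intro T hT h
    rw [hT, mul_one] at h
    refine (Finset.sum_le_sum hw).trans ?_
    rw [← Finset.mul_sum]
    linarith
  -- the general position
  have hweight : ∀ f : IrrCharacter G → ℤ, (∀ χ ∈ B, blockHeight 2 B (χ : G → ℂ) = 0 → Odd (f χ)) →
      (∀ χ ∈ B, 0 < f χ) →
      (∀ χ ∈ B, blockHeight 2 B (χ : G → ℂ) ≠ 0 → (2 : ℤ) * 2 ^ blockHeight 2 B (χ : G → ℂ) ∣ f χ) →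
      (∀ χ ∈ B, blockHeight 2 B (χ : G → ℂ) = 0 →
        ∑ ψ ∈ S, (4 : ℤ) ^ blockHeight 2 B (ψ : G → ℂ) ≤ 2 ^ d * f χ) →
      ∑ χ ∈ S, f χ ≤ 3 * 2 ^ d → ∑ χ ∈ S, (twoWeight B χ : ℤ) ≤ 3 * 2 ^ d := by
    intro f h1 h2 h3 h4 h5
    by_cases hex : ∃ χ ∈ B, blockHeight 2 B (χ : G → ℂ) = 0 ∧ f χ = 1
    · obtain ⟨χ, hχ, hχ0, he⟩ := hex
      exact hone (f χ) he (h4 χ hχ hχ0)
    · push Not at hex
      refine (Finset.sum_le_sum fun χ hχ => ?_).trans h5
      have hχB : χ ∈ B := (Finset.mem_filter.1 hχ).2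
      rw [twoWeight]
      split_ifs with h
      · obtain ⟨r, hr⟩ := h1 χ hχB h
        have := h2 χ hχB
        have := hex χ hχB h
        push_cast
        omega
      · push_cast
        exact Int.le_of_dvd (h2 χ hχB) (h3 χ hχB h)
  rcases hl with hl | hl
  · refine hweight a hodd hpos heven (fun χ hχ h0 => (hbound χ hχ h0).1) ?_
    rw [htot]
    have : (blockRank 2 b : ℤ) ≤ 3 := by exact_mod_cast hl
    nlinarith [pow_pos (show (0 : ℤ) < 2 by norm_num) d]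
  · rcases Nat.eq_zero_or_pos d with hd0 | hd0
    · -- defect zero
      have hb1 := (hbound χ₁ hχ₁ hh1).1
      refine hone 1 rfl (le_trans hb1 ?_)
      have h2 := sq_sum_le_card_mul_sum_sq (s := coprimeResidues (2 ^ (k + 1))) (f := fun j => m χ₁ j)
      rw [hsum, card_coprimeResidues_two_pow, Nat.cast_pow, Nat.cast_ofNat] at h2
      have h1 : ∑ j ∈ coprimeResidues (2 ^ (k + 1)), m χ₁ j ^ 2 ≤ (2 : ℝ) ^ k * ((2 : ℝ) ^ d * a χ₁) := by
        rw [← hrowsum χ₁, Finset.sum_congr rfl fun j _ => show m χ₁ j ^ 2 = ‖aeval (ζ ^ j) (P χ₁ χ₁)‖ ^ 2 by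
          rw [hmC, Complex.norm_real, Real.norm_eq_abs, sq_abs]]
        exact Finset.single_le_sum (f := fun ψ => ∑ j ∈ coprimeResidues (2 ^ (k + 1)), ‖aeval (ζ ^ j) (P ψ χ₁)‖ ^ 2)
          (fun ψ _ => Finset.sum_nonneg fun _ _ => by positivity) (Finset.mem_univ χ₁)
      rw [hd0, pow_zero, one_mul] at h1 ⊢
      have hk0 : (0 : ℝ) < 2 ^ k := by positivity
      have ha0 : (0 : ℝ) < a χ₁ := by exact_mod_cast hpos χ₁ hχ₁
      have h3 : (2 : ℝ) ^ k * (2 : ℝ) ^ k * ((a χ₁ : ℝ) * a χ₁) ≤ (2 : ℝ) ^ k * (2 : ℝ) ^ k * (1 * a χ₁) := by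
        nlinarith
      have h4 := le_of_mul_le_mul_right (le_of_mul_le_mul_left h3 (by positivity)) ha0
      exact_mod_cast (by simpa using h4 : (a χ₁ : ℝ) ≤ 1)
    · refine hweight (fun χ => 2 ^ d - a χ) (fun χ hχ h0 => ?_) (fun χ hχ => ?_) (fun χ hχ h0 => ?_)
        (fun χ hχ h0 => (hbound χ hχ h0).2 hd0) ?_
      · have h2 : (2 : ℤ) ∣ (2 : ℤ) ^ d := dvd_pow_self 2 (by omega)
        obtain ⟨r, hr⟩ := hodd χ hχ h0
        rw [Int.odd_iff]
        omega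
      · by_cases h0 : blockHeight 2 B (χ : G → ℂ) = 0
        · have h1 := (hbound χ hχ h0).2 hd0
          have h2 : (0 : ℤ) < ∑ ψ ∈ S, (4 : ℤ) ^ blockHeight 2 B (ψ : G → ℂ) :=
            Finset.sum_pos (fun _ _ => by positivity) ⟨χ, Finset.mem_filter.2 ⟨Finset.mem_univ _, hχ⟩⟩
          exact pos_of_mul_pos_right (lt_of_lt_of_le h2 h1) (by positivity)
        · have := hlt χ hχ h0
          omega
      · refine dvd_sub ?_ (heven χ hχ h0)
        have h1 := lt_of_le_of_lt (Int.le_of_dvd (hpos χ hχ) (heven χ hχ h0)) (hlt χ hχ h0)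
        rw [← pow_succ'] at h1 ⊢
        exact pow_dvd_pow _ ((pow_lt_pow_iff_right₀ (by norm_num : (1 : ℤ) < 2)).1 h1).le
      · rw [Finset.sum_sub_distrib, htot, Finset.sum_const, nsmul_eq_mul]
        have hcard : (S.card : ℤ) ≤ (blockRank 2 b : ℤ) + 3 := by
          rw [Nat.card_eq_fintype_card (α := B), ← Set.toFinset_card] at hl
          have : S = B.toFinset := by ext; simp [hS]
          rw [this]
          exact_mod_cast hl
        nlinarith [pow_pos (show (0 : ℤ) < 2 by norm_num) d]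

end CfsgLib.Blocks
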